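import Cfsg.Statements.S2931
import Cfsg.Agent.OD.Pre
import Cfsg.Agent.H2.Orders
import Cfsg.Agent.H3.F4

set_option autoImplicit false
open Cfsg

namespace Cfsg.Agent.S2931

open Subgroup Matrix

theorem sylow_equiv_of_inj {T A : Type*} [Group T] [Group A] [Finite A] (f : T →* A)
    (hf : Function.Injective f) {m : ℕ} (hT : Nat.card T = 2 ^ m) (hA : ¬ 2 ^ (m + 1) ∣ Nat.card A)
    (P : Sylow 2 A) : Nonempty (T ≃* P) := by
  have h1 : Nat.card f.range = 2 ^ m :=
    (Nat.card_congr (MonoidHom.ofInjective hf).toEquiv).symm.trans hT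
  obtain ⟨P₀, hP⟩ := (IsPGroup.of_card h1).exists_le_sylow
  obtain ⟨j, hj⟩ := P₀.isPGroup'.exists_card_eq
  have h2 : j ≤ m := by
    by_contra h
    exact hA ((pow_dvd_pow 2 (by omega)).trans (hj ▸ card_subgroup_dvd_card _))
  have h3 := eq_of_le_of_card_ge hP (by rw [h1, hj]; exact Nat.pow_le_pow_right two_pos h2)
  exact ⟨((MonoidHom.ofInjective hf).trans (MulEquiv.subgroupCongr h3)).trans (P₀.equiv P)⟩

theorem sylow_equiv_of_table {A B ι : Type*} [Group A] [Group B] [Finite A] [Finite B] {n : ℕ}
    [NeZero n] (g : ι → A) (h : ι → B) (R : A → Fin n → Prop) (R' : B → Fin n → Prop)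
    (t : ι → Fin n → Fin n) (a0 : R 1 0) (b0 : R' 1 0)
    (a1 : ∀ i a k, R a k → R (g i * a) (t i k)) (b1 : ∀ i b k, R' b k → R' (h i * b) (t i k))
    (a2 : ∀ a a' k, R a k → R a' k → a = a') (b2 : ∀ b b' k, R' b k → R' b' k → b = b')
    (a3 : ∀ a k k', R a k → R a k' → k = k') (b3 : ∀ k, R' 1 k → k = 0)
    (tree : ∀ k, k ≠ 0 → ∃ i k', k' < k ∧ t i k' = k) {m : ℕ} (hn : n = 2 ^ m)
    (hA : ¬ 2 ^ (m + 1) ∣ Nat.card A) (hB : ¬ 2 ^ (m + 1) ∣ Nat.card B) (P : Sylow 2 A)
    (Q : Sylow 2 B) : Nonempty (P ≃* Q) := by
  let T := closure (Set.range fun i => (g i, h i))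
  have h1 : ∀ x ∈ T, ∃ k, R x.1 k ∧ R' x.2 k := by
    intro x hx
    rw [← mem_toSubmonoid, closure_toSubmonoid_of_finite] at hx
    induction hx using Submonoid.closure_induction_left with
    | one => exact ⟨0, a0, b0⟩
    | mul_left x hx y _ ih =>
      obtain ⟨i, rfl⟩ := hx
      obtain ⟨k, h2, h3⟩ := ih
      exact ⟨t i k, a1 _ _ _ h2, b1 _ _ _ h3⟩
  have h2 : ∀ k, ∃ x ∈ T, R x.1 k ∧ R' x.2 k := by
    intro k
    induction k using WellFoundedLT.induction with
    | ind k ih =>
      by_cases hk : k = 0
      · exact ⟨1, one_mem _, hk ▸ a0, hk ▸ b0⟩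
      obtain ⟨i, k', h3, rfl⟩ := tree k hk
      obtain ⟨x, hx, h4, h5⟩ := ih k' h3
      exact ⟨(g i, h i) * x, mul_mem (subset_closure ⟨i, rfl⟩) hx, a1 _ _ _ h4, b1 _ _ _ h5⟩
  choose u hu using fun x : T => h1 x x.2
  have h3 : Nat.card T = 2 ^ m := by
    rw [← hn, ← Nat.card_fin n]
    refine Nat.card_congr (Equiv.ofBijective u ⟨fun x y e => Subtype.ext (Prod.ext
      (a2 _ _ _ (hu x).1 (e ▸ (hu y).1)) (b2 _ _ _ (hu x).2 (e ▸ (hu y).2))), fun k => ?_⟩)
    obtain ⟨x, hx, h4, -⟩ := h2 k
    exact ⟨⟨x, hx⟩, a3 _ _ _ (hu _).1 h4⟩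
  obtain ⟨e1⟩ := sylow_equiv_of_inj ((MonoidHom.fst A B).comp T.subtype)
    ((injective_iff_map_eq_one _).2 fun x hx => Subtype.ext (Prod.ext hx
      (b2 _ _ _ (hu x).2 (a3 _ _ _ a0 ((show x.1.1 = 1 from hx) ▸ (hu x).1) ▸ b0)))) h3 hA P
  obtain ⟨e2⟩ := sylow_equiv_of_inj ((MonoidHom.snd A B).comp T.subtype)
    ((injective_iff_map_eq_one _).2 fun x hx => Subtype.ext (Prod.ext
      (a2 _ _ _ (hu x).1 ((b3 _ ((show x.1.2 = 1 from hx) ▸ (hu x).2)).symm ▸ a0)) hx)) h3 hB Q
  exact ⟨e1.symm.trans e2⟩

theorem sylow_equiv_of_equiv {A B : Type*} [Group A] [Group B] [Finite B] (e : A ≃* B)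
    (P : Sylow 2 A) (Q : Sylow 2 B) : Nonempty (P ≃* Q) :=
  ⟨((P.comapOfInjective (e.symm : B →* A) e.symm.injective (by
    rw [MonoidHom.range_eq_top.2 e.symm.surjective]; exact le_top)).equiv Q).symm.trans
      (e.symm.subgroupMap _ |>.trans (MulEquiv.subgroupCongr
        (map_comap_eq_self_of_surjective e.symm.surjective _))) |>.symm⟩

/-- elements of a Sylow subgroup of `A₈` -/
def wA (k : Fin 64) (j : Fin 8) : Fin 8 := Fin.ofNat 8 (2093309967892342006736790260773087466455309693546553866770580840728815004141464925194773546983518109926043280450508355715953669670129687595226745594629207224107792534588908630119118667698161951896864804223865389586044779981429230571453663190890916692674753024501746448464382406373500911462504552270759082488557229834694675227088618331071615438324351238975889265977188683718121992027124648802489378312512808612950995708581042742633750272759044137230584696591271560 / 8 ^ (8 * k.1 + j.1))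

/-- matching symplectic matrices -/
def wP (k : Fin 64) : Matrix (Fin 2 ⊕ Fin 2) (Fin 2 ⊕ Fin 2) (ZMod 3) := fun i j =>
  (16166408349192095383365945723620982467605849630304711100139352015115091048951288345633670884730467531125906138916277071962143841565287744907874275625131610801363098244511348157357590055730407988673120116519818201118579277836409181881472785983613251093312926918193908693193748923178814394515523883831430027878142757235957986783395153035026684042287771283720600891282225677697001496089686678277042839904991148686842343972900282659850804410219464841376776353288472504804935066741686609975828843779752250013712063334061993675656487175834703100330908690848559709257626518789590283209694973896276946507616004187337538929665 / 4 ^ (16 * k.1 + 4 * i.elim (·.1) (·.1 + 2) + j.elim (·.1) (·.1 + 2)) % 4 : ℕ)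

/-- multiplication by the generators -/
def tA (i : Fin 3) (k : Fin 64) : Fin 64 := Fin.ofNat 64 (58274771232931486515074843969479458856874048728289800586051929058256748577421064081058200116144988481521234430909336331010040325579481764380244417359033813826927850434974325166476852764881825849670785963037256362766099183819372043601117598607884382980017818561380104461904735711547474647608197658592837714639781560731872166393940772977642294239233 / 64 ^ (64 * i.1 + k.1))

/-- elements of a Sylow subgroup of `S₈` -/
def wS (k : Fin 128) (j : Fin 8) : Fin 8 := Fin.ofNat 8 (5045531226194187939412452181507622622911067433434662355303457151789111363014255535591808640643086552228260074079457178269913520987786706979633274491869574489846496858521898010994269097617607689114656250385010503168911781230545241846695069565544680266325006779790824220263951336508423458340792901370177795120256109718384768492345403686636861773427025897083144835643347243843487162158308661602026551421117236614839611081783037034462506256600143042718571011756117811355988632069944686359141915483853312113279144956070344568036905260945382138836974741803933575704226940807684862864997991717600855864920335103093385965621410272694401166621825605262827583090642119779666235659060720774097876293820656288403390671092859748030305953426933445280317251182522958129436556731355736323761565345685888446525664280882530481590958056712285005213266204083717863423850626146872650779806007211402876014928948464893810679675857626391928112858760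 / 8 ^ (8 * k.1 + j.1))

/-- the index set of the orthogonal space -/
abbrev I6 := (Fin 2 ⊕ Fin 2) ⊕ Fin 2

/-- position of an index -/
def ix (i : I6) : ℕ := i.elim (·.elim (·.1) (·.1 + 2)) (·.1 + 4)

/-- matching orthogonal matrices -/
def wO (k : Fin 128) : Matrix I6 I6 (ZMod 2) := fun i j =>
  (70566126025229081233037774089232389768980682330004472439450672855715584555249749643047993286510955072144605179272034043662470990429410256675242831420018889076821731846624246509086952777606437498007067784147505737936530242234727483857418667453322544953358076955706851158761305397320172467467945825398556119374013974915836112960209532077912060788934291825460412289381988755549435042043120257497981759073824937636212621409349587855409101875713651944128961429431973909377637402792447610475286663740643912330146985718628760141552591191033688548885268290539074334604668428094630662544923633560100181732826179087711187360000273021183893017482031204070297540653547539820114077968579511061753992533472233769663495816562854700572120518298729313874100287148980889798466068743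61258447616353660631781823896954773822265496947180483460781216482113853057076409046883666221259186001081348824711638280147106251233306960462877948975474280108934140715581129304919768848576661517098245099164685469367996154576909484220415312746081272728737869029184493795427137011218153800876203650956016383425148558044924913150808300446204199714438038327168073905452565889407836095307237925641286423775557645591455426914726951247308738122296503934883883482177466556870600570083916049441754504483372476063599322336283766245293872531572270775560965812614653153329344132263989009339278919176213107140315341468920370714160152705 / 2 ^ (36 * k.1 + 6 * ix i + ix j) % 2 : ℕ)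

/-- multiplication by the generators -/
def tS (i : Fin 3) (k : Fin 128) : Fin 128 := Fin.ofNat 128 (141602957496602144512336391314563494877001970465219353589176982052077429199756239592295550611976188695220955906107825138094014690815104849630087811328172303180338062338784141009461123327375997239961597290023371613443384917641596651832409339200898903840483201568297738582276590222236722070576770927510736650481143131858072043508568503064188359520373625355856523353017829775722163590852096199511954441727362687005320023822039499734561888909099053080717657433332577392307074760955531704588898123779077657817876990610510692702422964197457744618266545982499486615320660025818514977034238644586029691677667008258874441491614043999005329224890216299133370805993654077646328271740577258774085804890561148632015681844675938958286820949010505341958477118950944267939496048574934353864763272073633435625539754005081718785 / 128 ^ (128 * i.1 + k.1))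

/-- generators -/
def gA : Fin 3 → Equiv.Perm (Fin 8) := ![Equiv.swap 0 1 * Equiv.swap 4 5,
  Equiv.swap 0 2 * Equiv.swap 1 3, Equiv.swap 0 4 * Equiv.swap 1 5 * Equiv.swap 2 6 * Equiv.swap 3 7]

/-- generators -/
def gS : Fin 3 → Equiv.Perm (Fin 8) := ![Equiv.swap 0 1,
  Equiv.swap 0 2 * Equiv.swap 1 3, Equiv.swap 0 4 * Equiv.swap 1 5 * Equiv.swap 2 6 * Equiv.swap 3 7]

theorem part1 (P : Sylow 2 (alternatingGroup (Fin 8))) (Q : Sylow 2 (Cfsg.PSp 2 (ZMod 3))) :
    Nonempty (P ≃* Q) := by
  have hm : ∀ i, wP (tA i 0) ∈ symplecticGroup (Fin 2) (ZMod 3) := fun i =>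
    SymplecticGroup.mem_iff.2 (by revert i; decide +kernel)
  have hneg : ∀ s s' : symplecticGroup (Fin 2) (ZMod 3), s.1 = -s'.1 →
      (s : Cfsg.PSp 2 (ZMod 3)) = s' := fun s s' h => by
    rw [QuotientGroup.eq, mem_center_iff]
    intro g
    have : (s⁻¹ * s').1 = -1 := by
      rw [Submonoid.coe_mul, ← neg_neg s'.1, ← h, Matrix.mul_neg,
        ← Submonoid.coe_mul, inv_mul_cancel]; rfl
    apply Subtype.ext
    rw [Submonoid.coe_mul, Submonoid.coe_mul _ (s⁻¹ * s'), this]; simp
  let x : symplecticGroup (Fin 2) (ZMod 3) := ⟨fromBlocks 1 !![1, 0; 0, 0] 0 1,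
    SymplecticGroup.mem_iff.2 (by decide +kernel)⟩
  refine sylow_equiv_of_table (fun i => ⟨gA i, Equiv.Perm.mem_alternatingGroup.2
    (by revert i; decide +kernel)⟩) (fun i => ((⟨_, hm i⟩ : symplecticGroup _ _) : Cfsg.PSp 2 (ZMod 3)))
    (fun a k => ∀ j, a.1 j = wA k j)
    (fun b k => ∃ s : symplecticGroup (Fin 2) (ZMod 3), s = b ∧ (s.1 = wP k ∨ s.1 = -wP k)) tA
    (by decide +kernel) ⟨1, rfl, Or.inl (by decide +kernel)⟩ ?_ ?_ ?_ ?_ ?_ ?_ (by decide +kernel)
    (m := 6) rfl ?_ ?_ P Q
  · intro i a k h j
    change gA i (a.1 j) = _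
    rw [h]
    clear h; revert i k j; decide +kernel
  · rintro i _ k ⟨s, rfl, h⟩
    refine ⟨⟨_, hm i⟩ * s, rfl, ?_⟩
    have : ∀ i k, wP (tA i 0) * wP k = wP (tA i k) ∨ wP (tA i 0) * wP k = -wP (tA i k) := by
      decide +kernel
    rw [Submonoid.coe_mul]
    rcases h with h | h <;> rw [h]
    · exact this i k
    · rw [Matrix.mul_neg, neg_inj, neg_eq_iff_eq_neg]; exact (this i k).symm
  · exact fun a a' k h h' => Subtype.ext (Equiv.ext fun j => (h j).trans (h' j).symm)
  · rintro _ _ k ⟨s, rfl, h | h⟩ ⟨s', rfl, h' | h'⟩
    · rw [Subtype.ext (h.trans h'.symm)]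
    · exact hneg _ _ (by rw [h, h', neg_neg])
    · exact hneg _ _ (by rw [h, h'])
    · rw [Subtype.ext (h.trans h'.symm)]
  · intro a k k' h h'
    have : ∀ k k', (∀ j, wA k j = wA k' j) → k = k' := by decide +kernel
    exact this k k' fun j => (h j).symm.trans (h' j)
  · rintro k ⟨s, hs, h⟩
    rw [QuotientGroup.eq_one_iff, mem_center_iff] at hs
    have h1 : ∀ y : symplecticGroup (Fin 2) (ZMod 3), y.1 * wP k = wP k * y.1 := fun y => by
      have := congrArg Subtype.val (hs y)
      rcases h with h | h <;> simpa [h] using this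
    have : ∀ k, x.1 * wP k = wP k * x.1 → (J (Fin 2) (ZMod 3)) * wP k = wP k * J _ _ →
      (∀ i, wP (tA i 0) * wP k = wP k * wP (tA i 0)) → k = 0 := by decide +kernel
    exact this k (h1 x) (h1 ⟨_, SymplecticGroup.J_mem _ _⟩) fun i => h1 ⟨_, hm i⟩
  · have := two_mul_nat_card_alternatingGroup (α := Fin 8)
    rw [Nat.card_perm, Nat.card_fin, show Nat.factorial 8 = 40320 from rfl] at this
    omega
  · have h1 := CfH2.card_Sp (ZMod.card 3) 2
    have h2 := card_eq_card_quotient_mul_card_subgroup (center (symplecticGroup (Fin 2) (ZMod 3)))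
    have h3 : 2 ∣ Nat.card (center (symplecticGroup (Fin 2) (ZMod 3))) := by
      let z : center (symplecticGroup (Fin 2) (ZMod 3)) :=
        ⟨⟨-1, SymplecticGroup.neg_mem (one_mem _)⟩, mem_center_iff.2 fun g => Subtype.ext (by simp)⟩
      exact (orderOf_eq_prime (x := z) (p := 2) (Subtype.ext (Subtype.ext (by simp [z])))
        fun h => absurd (congrArg (fun y => y.1.1) h) (by decide +kernel)).symm.dvd.trans
        (_root_.orderOf_dvd_natCard z)
    intro h
    have h4 := Nat.mul_dvd_mul h h3
    rw [← h2, h1] at h4
    revert h4; decide +kernel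

/-- the form -/
abbrev Q6 : (I6 → ZMod 2) → ZMod 2 := Cfsg.quadFormMinus 2 (ZMod 2) 1 1

/-- the images of a basis vector under the isometries fixing the previous ones -/
def Nx (S : Finset I6) (i : I6) (u : I6 → ZMod 2) : Prop :=
  (¬ ∀ i ∉ S, u i = 0) ∧ Q6 u = Q6 (Pi.single i 1) ∧ ∀ x : I6 → ZMod 2, (∀ i ∉ S, x i = 0) →
    Q6 (x + u) - Q6 x - Q6 u = Q6 (x + Pi.single i 1) - Q6 x - Q6 (Pi.single i 1)

instance (S : Finset I6) (i : I6) : DecidablePred (Nx S i) := fun _ =>
  @instDecidableAnd _ _ inferInstance (@instDecidableAnd _ _ inferInstance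
    Fintype.decidableForallFintype)

theorem card_O : Nat.card (Cfsg.isometryGroup (ZMod 2) Q6) = 51840 := by
  have h := CfH2.qwf_of_nondeg (CfH2.nondeg_qMinus (F := ZMod 2) (a := 1) (b := 1) (by decide) 2)
  let X : Finset I6 → Submodule (ZMod 2) (I6 → ZMod 2) := fun S => .pi {i | i ∉ S} fun _ => ⊥
  have hX : ∀ S x, x ∈ X S ↔ ∀ i ∉ S, x i = 0 := fun S x => Iff.rfl
  have key : ∀ (S : Finset I6) i, i ∉ S → ∀ c, (Finset.univ.filter (Nx S i)).card = c →
      Nat.card (CfH2.Orth (CfH2.qMinus 2 (ZMod 2) 1 1) ⊓ CfH2.fixS (X S) : Subgroup _) =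
      c * Nat.card (CfH2.Orth (CfH2.qMinus 2 (ZMod 2) 1 1) ⊓ CfH2.fixS (X (insert i S)) :
        Subgroup _) := by
    intro S i hi c hc
    rw [h.card_fix_step (X := X S) (u := Pi.single i 1) fun h => by simpa using h i hi]
    congr 1
    · rw [← hc, ← Set.ncard_coe_finset]
      congr 1
      ext u
      simp only [Set.mem_ofPred_eq, Finset.coe_filter, Finset.mem_univ, true_and, hX, Nx,
        QuadraticMap.polarBilin_apply_apply, QuadraticMap.polar, CfH2.qMinus_apply]
    · have : X S ⊔ (ZMod 2 ∙ Pi.single i 1) = X (insert i S) := by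
        refine le_antisymm (sup_le (fun x hx j hj => hx j fun h => hj (Finset.mem_insert_of_mem h))
          ((Submodule.span_singleton_le_iff_mem _ _).2 fun j hj => ?_)) fun x hx => ?_
        · exact Pi.single_eq_of_ne (fun h => hj (by rw [h]; exact Finset.mem_insert_self _ _)) _
        · rw [← sub_add_cancel x (x i • Pi.single i 1)]
          refine Submodule.add_mem_sup ((hX _ _).2 fun j hj => ?_)
            (Submodule.smul_mem _ _ (Submodule.mem_span_singleton_self _))
          by_cases hij : j = i
          · simp [hij]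
          · simp [hij, (hX _ _).1 hx j (by simp [hij, hj])]
      rw [this]
  have h0 : X ∅ = ⊥ := eq_bot_iff.2 fun x hx => funext fun i => hx i (by simp)
  have htop : ∀ S, (∀ i, i ∈ S) → X S = ⊤ := fun S h => eq_top_iff.2 fun x _ i hi => absurd (h i) hi
  have h1 := key ∅ (.inl (.inl 0)) (by decide) 27 (by decide +kernel)
  rw [h0, key _ (.inl (.inr 0)) (by decide) 16 (by decide +kernel),
    key _ (.inl (.inl 1)) (by decide) 5 (by decide +kernel),
    key _ (.inl (.inr 1)) (by decide) 4 (by decide +kernel),
    key _ (.inr 0) (by decide) 3 (by decide +kernel),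
    key _ (.inr 1) (by decide) 2 (by decide +kernel), CfH2.fixS_bot, inf_top_eq,
    htop _ (by decide), CfH2.fixS_top,
    inf_bot_eq, card_bot, ← (CfH2.rep_O _).card_eq, CfH2.coe_qMinus] at h1
  exact h1

theorem h1 : ∀ i k, wO (tS i 0) * wO k = wO (tS i k) := by decide +kernel

theorem h2 : ∀ i, wO (tS i 0) * wO (tS i 0) = 1 := by decide +kernel

theorem h3 : ∀ i u, Q6 (wO (tS i 0) *ᵥ u) = Q6 u := by decide +kernel

theorem h4 : ∀ k k', (∀ j, wS k j = wS k' j) → k = k' := by decide +kernel

theorem h5 : ∀ k, (1 : Matrix I6 I6 (ZMod 2)) = wO k → k = 0 := by decide +kernel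

theorem h6 : ∀ k, k ≠ 0 → ∃ i k', k' < k ∧ tS i k' = k := by decide +kernel

theorem part2 (P : Sylow 2 (Equiv.Perm (Fin 8))) (Q : Sylow 2 (Cfsg.isometryGroup (ZMod 2) Q6)) :
    Nonempty (P ≃* Q) := by
  refine sylow_equiv_of_table gS (fun i => ⟨⟨wO (tS i 0), wO (tS i 0), h2 i, h2 i⟩,
    fun u _ => h3 i u⟩) (fun a k => ∀ j, a j = wS k j) (fun b k => b.1.1 = wO k) tS
    (by decide +kernel) (show (1 : Matrix I6 I6 (ZMod 2)) = _ by decide +kernel) ?_ ?_ ?_ ?_ ?_ h5
    h6 (m := 7) rfl ?_ ?_ P Q
  · intro i a k h j
    change gS i (a j) = _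
    rw [h]
    clear h; revert i k j; decide +kernel
  · intro i b k h
    change wO (tS i 0) * b.1.1 = _
    rw [h, h1]
  · exact fun a a' k h h' => Equiv.ext fun j => (h j).trans (h' j).symm
  · exact fun b b' k h h' => Subtype.ext (Units.ext (h.trans h'.symm))
  · exact fun a k k' h h' => h4 k k' fun j => (h j).symm.trans (h' j)
  · rw [Nat.card_perm, Nat.card_fin]; decide +kernel
  · rw [card_O]; decide +kernel

/-- The Sylow 2-subgroups of the alternating group of degree 8 and of PSp₄(3) are isomorphic, and so are the Sylow 2-subgroups of the symmetric group of degree 8 and of the full isometry group of a non-degenerate quadratic form of minus type in dimension 6 over the field with 2 elements. -/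
theorem result (F : Type) [Field F] [Fintype F] (hF : Fintype.card F = 3) (K : Type) [Field K] [Fintype K] (hK : Fintype.card K = 2) (a b : K) (hab : ∀ z₁ z₂ : K, z₁ ^ 2 + a * z₁ * z₂ + b * z₂ ^ 2 = 0 → z₁ = 0 ∧ z₂ = 0) (P : Sylow 2 ↥(alternatingGroup (Fin 8))) (Q : Sylow 2 (Cfsg.PSp 2 F)) (P' : Sylow 2 (Equiv.Perm (Fin 8))) (Q' : Sylow 2 ↥(Cfsg.isometryGroup K (Cfsg.quadFormMinus 2 K a b))) : Nonempty (↥(P : Subgroup ↥(alternatingGroup (Fin 8))) ≃* ↥(Q : Subgroup (Cfsg.PSp 2 F))) ∧ Nonempty (↥(P' : Subgroup (Equiv.Perm (Fin 8))) ≃* ↥(Q' : Subgroup ↥(Cfsg.isometryGroup K (Cfsg.quadFormMinus 2 K a b)))) := by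
  obtain ⟨e⟩ := CfH3.nonempty_equiv_zmod (p := 3) hF
  obtain ⟨e'⟩ := CfH3.nonempty_equiv_zmod (p := 2) hK
  have h2 : ∀ c : ZMod 2, c ≠ 0 → c = 1 := by decide
  have hb : e' b = 1 := h2 _ fun h => one_ne_zero (hab 0 1 (by simp [e'.map_eq_zero_iff.1 h])).2
  have ha : e' a = 1 := h2 _ fun h => one_ne_zero (hab 1 1 (e'.injective (by
    simp [h, hb]; rfl))).2
  obtain ⟨ψ, -⟩ := CfH3.isometryGroup_equiv e' (Cfsg.quadFormMinus 2 K a b) Q6
    (fun u => by simp [Cfsg.quadFormMinus, ha, hb])
  exact ⟨⟨(part1 P default).some.trans (sylow_equiv_of_equiv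
      (CfH3.centerQuotEquiv (CfH3.spEquiv e 2)) Q default).some.symm⟩,
    ⟨(part2 P' default).some.trans (sylow_equiv_of_equiv ψ Q' default).some.symm⟩⟩

end Cfsg.Agent.S2931
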