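import Cfsg.Statements.S1660
import Cfsg.Agent.OD.Pre
import Cfsg.Agent.H4.Ly9

set_option autoImplicit false
open Cfsg

open CfH4

namespace Cfsg.Agent.S1660

/-- Uniqueness of the Lyons group at the level of isomorphism: a finite simple group having an involution whose centraliser is a non-split double cover of the alternating group of degree 11 is isomorphic to the presented Lyons group. -/
theorem result {G : Type*} [Group G] [Finite G] [IsSimpleGroup G] (t : G) (ht : orderOf t = 2) (hcov : Cfsg.IsNonsplitDoubleCover (Subgroup.centralizer ({t} : Set G)) (alternatingGroup (Fin 11))) : Cfsg.Spor.IsoLy G := by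
  obtain ⟨e⟩ := CfH4.Ly.iso ht hcov
  exact ⟨e.symm⟩

end Cfsg.Agent.S1660
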