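import Cfsg.Statements.S1821
import Cfsg.Agent.OD.Pre
import Cfsg.Agent.H2.Uq1
import Cfsg.Agent.S1820

set_option autoImplicit false
open Cfsg

namespace Cfsg.Agent.S1821

/-- Nonsolvable uniqueness groups in a simple QTKE-group. Let G be a non-abelian finite simple QTKE-group, T a Sylow 2-subgroup of G, and L a maximal member of ℒ(G, T) (so L is a 𝒞-component of ⟨L, T⟩, T is Sylow in ⟨L, T⟩ and O₂(⟨L, T⟩) ≠ 1, and L is maximal among such subgroups). Then (1) L is a 𝒞-component of every subgroup H of G with O₂(H) ≠ 1 containing ⟨L, T⟩; (2) F*(L) = O₂(L); and (3) N_G(⟨L^T⟩) is the unique maximal 2-local subgroup of G containing ⟨L, T⟩, so that ⟨L, T⟩ is a uniqueness subgroup. -/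
theorem result {G : Type*} [Group G] [Finite G] [IsSimpleGroup G]
    (hG : ¬ IsMulCommutative G) (hQ : Cfsg.IsQTKE G) (T : Sylow 2 G) (L : Subgroup G)
    (hL : L ∈ Cfsg.calLMax (T : Subgroup G)) :
    (∀ H ∈ Cfsg.calHOver (L ⊔ (T : Subgroup G)), L.subgroupOf H ∈ Cfsg.calC ↥H) ∧
    Cfsg.generalizedFittingSubgroup ↥L = Cfsg.pCore 2 ↥L ∧
    Cfsg.maxTwoLocalsContaining (L ⊔ (T : Subgroup G)) =
      {Subgroup.normalizer (Cfsg.conjClosure L (T : Subgroup G) : Set G)} := by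
  refine CfH2.Uq.main hQ.2.2 (fun H hH => ?_) (CfH9.sylIn_top T) hL
  obtain ⟨a, b, c⟩ := Cfsg.Agent.S1820.result hG hQ H hH
  exact ⟨a.ge, fun K k K' k' n => (b K k K' k' n).1.trans (b K k K' k' n).2, fun K k => (c K k).imp_right And.left⟩

end Cfsg.Agent.S1821
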