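import Cfsg.Statements.S1832
import Cfsg.Agent.OD.Pre
import Cfsg.Agent.S1821
import Cfsg.Agent.H1.Wg
import Cfsg.Agent.H2.W0p
import Cfsg.Agent.H9.W1
import Cfsg.Agent.H3.W2
import Cfsg.Agent.H8.W3
import Cfsg.Agent.H4.W4
import Cfsg.Agent.H5.W5
import Cfsg.Agent.L.W3

set_option autoImplicit false
open Cfsg

namespace Cfsg.Agent.S1832

/-- Let G be a non-abelian finite simple QTKE-group and T a Sylow 2-subgroup of G, and let Z = Ω₁(Z(T)) be the subgroup generated by the involutions of the centre of T. Suppose ℒ_f(G, T) is empty and C_G(Z) lies in at least two distinct maximal 2-local subgroups of G. Then G is isomorphic to L₃(2) or to A₆. -/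
theorem result {G : Type*} [Group G] [Finite G] [IsSimpleGroup G]
    (hG : ¬ IsMulCommutative G) (hQ : Cfsg.IsQTKE G) (T : Sylow 2 G)
    (hE : Cfsg.calLf (T : Subgroup G) = ∅)
    (hZ : ∃ M₁ M₂ : Subgroup G,
      M₁ ∈ Cfsg.maxTwoLocalsContaining (Subgroup.centralizer ((Cfsg.omegaOne 2 ((T : Subgroup G) ⊓ Subgroup.centralizer ((T : Subgroup G) : Set G))) : Set G)) ∧
      M₂ ∈ Cfsg.maxTwoLocalsContaining (Subgroup.centralizer ((Cfsg.omegaOne 2 ((T : Subgroup G) ⊓ Subgroup.centralizer ((T : Subgroup G) : Set G))) : Set G)) ∧ M₁ ≠ M₂) :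
    (∃ (F : Type) (_ : Field F) (_ : Fintype F), Fintype.card F = 2 ∧
        Nonempty (G ≃* Matrix.ProjectiveSpecialLinearGroup (Fin 3) F)) ∨
      Nonempty (G ≃* ↥(alternatingGroup (Fin 6))) :=
  CfH1.W.glue' CfH2.W.p0 CfH9.W.p1 CfH3.W.p2 CfH8.W.p3 CfH4.W.p4 CfH5.W.p5 CfLq.p6 hG hQ T
    (fun L hL => Cfsg.Agent.S1821.result hG hQ T L hL) hE hZ

end Cfsg.Agent.S1832
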