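import Cfsg.Statements.S2896
import Cfsg.Agent.OD.Pre
import Cfsg.Agent.H7.CharP

set_option autoImplicit false
set_option linter.unusedVariables false
open Cfsg

namespace Cfsg.Agent.S2896

open Subgroup CfH7 CfH9
open scoped commutatorElement


/-- Let p be a prime dividing the order of the finite group G, S a Sylow p-subgroup of G and X a subgroup of S. (i) If some nontrivial element z of the centre of X has F*(C_G(z)) = O_p(C_G(z)), then F*(N_G(X)) = O_p(N_G(X)). (ii) G has parabolic characteristic p if and only if F*(C_G(z)) = O_p(C_G(z)) for every nontrivial z ∈ Ω₁(Z(S)). (iii) If F*(C_G(z)) = O_p(C_G(z)) for every element z of S of order p, then G has local characteristic p. -/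
theorem result {G : Type*} [Group G] [Finite G] {p : ℕ} [Fact p.Prime] (hdiv : p ∣ Nat.card G) (S : Sylow p G) (X : Subgroup G) (hX : X ≤ (S : Subgroup G)) : (∀ z : G, z ≠ 1 → z ∈ X → (∀ x ∈ X, x * z = z * x) → Cfsg.generalizedFittingSubgroup ↥(Subgroup.centralizer ({z} : Set G)) = Cfsg.pCore p ↥(Subgroup.centralizer ({z} : Set G)) → Cfsg.generalizedFittingSubgroup ↥(Subgroup.normalizer (X : Set G)) = Cfsg.pCore p ↥(Subgroup.normalizer (X : Set G))) ∧ (Cfsg.IsOfParabolicCharacteristic p G ↔ ∀ z : G, z ≠ 1 → z ∈ Cfsg.omegaOne p ((S : Subgroup G) ⊓ Subgroup.centralizer ((S : Subgroup G) : Set G)) → Cfsg.generalizedFittingSubgroup ↥(Subgroup.centralizer ({z} : Set G)) = Cfsg.pCore p ↥(Subgroup.centralizer ({z} : Set G))) ∧ ((∀ z : G, z ∈ (S : Subgroup G) → orderOf z = p → Cfsg.generalizedFittingSubgroup ↥(Subgroup.centralizer ({z} : Set G)) = Cfsg.pCore p ↥(Subgroup.centralizer ({z} : Set G))) → Cfsg.IsOfLocalCharacteristic p G) := by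
  refine ⟨fun z hz1 hz _ h => chP_iff_fstar.mp
    (chP_Nm_of_chP_Cx (S.isPGroup'.to_le hX) hz (chP_iff_fstar.mpr h)), ⟨fun h z hz1 hz => ?_,
    fun h => parabolicChar_of_Cx (sylIn_top S) fun z hz1 hz => chP_iff_fstar.mpr (h z hz1 hz)⟩,
    fun h => ⟨hdiv, fun T hT hT1 => ?_⟩⟩
  · exact chP_iff_fstar.mp (parabolicChar_Cx h (sylIn_top S) hz1 (OZ_le _ hz) (OZ_le_Cz _ hz))
  · obtain ⟨g, -, hg⟩ := (sylIn_top S).exists_cj_le hT le_top
    obtain ⟨z, hz, ho⟩ := exists_orderOf_eq_prime (dvd_card_of_ne_bot (isPGroup_cj hT g)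
      (cj_ne_bot hT1))
    have := chP_Nm_of_chP_Cx (isPGroup_cj hT g) hz (chP_iff_fstar.mpr (h z (hg hz) ho))
    rwa [← cj_normalizer, chP_cj_iff] at this

end Cfsg.Agent.S2896
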