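import Cfsg.Statements.S2897
import Cfsg.Agent.OD.Pre
import Cfsg.Agent.H7.PMin

set_option autoImplicit false
set_option linter.unusedVariables false
open Cfsg

namespace Cfsg.Agent.S2897

open Subgroup CfH7 CfH9
open scoped commutatorElement


/-- Let p be a prime dividing the order of the finite group G, suppose G has parabolic characteristic p, let S be a Sylow p-subgroup of G and G₁ a normal subgroup of G. If Ω₁(Z(S ∩ G₁)) is nontrivial and contained in Ω₁(Z(S)), then G₁ has parabolic characteristic p. -/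
theorem result {G : Type*} [Group G] [Finite G] {p : ℕ} [Fact p.Prime] (hdiv : p ∣ Nat.card G) (hG : Cfsg.IsOfParabolicCharacteristic p G) (S : Sylow p G) (G₁ : Subgroup G) [G₁.Normal] (hne : Cfsg.omegaOne p (((S : Subgroup G) ⊓ G₁) ⊓ Subgroup.centralizer (((S : Subgroup G) ⊓ G₁ : Subgroup G) : Set G)) ≠ ⊥) (hle : Cfsg.omegaOne p (((S : Subgroup G) ⊓ G₁) ⊓ Subgroup.centralizer (((S : Subgroup G) ⊓ G₁ : Subgroup G) : Set G)) ≤ Cfsg.omegaOne p ((S : Subgroup G) ⊓ Subgroup.centralizer ((S : Subgroup G) : Set G))) : Cfsg.IsOfParabolicCharacteristic p ↥G₁ := by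
  have hsn : G₁.IsSubnormal := (inferInstance : G₁.Normal).isSubnormal
  have hS := sylIn_inf_of_isSubnormal S hsn
  refine parabolicChar_of_Cx hS.subgroupOf_top fun z hz1 hz => ?_
  have hz' : (z : G) ∈ OZ p ((S : Subgroup G) ⊓ G₁) := by
    have h1 := mem_OZ.mp hz
    refine mem_OZ.mpr ⟨⟨h1.1.1, ?_⟩, congrArg Subtype.val h1.2⟩
    have := h1.1.2
    rwa [← subgroupOf_Cz inf_le_right] at this
  have h4 := (mem_OZ.mp (hle hz')).1
  have h2 := parabolicChar_Cx hG (sylIn_top S) (fun e => hz1 (Subtype.ext e)) h4.1 h4.2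
  rw [← chP_map_subtype_iff, ← Cz_zpowers, map_subtype_Cz, MonoidHom.map_zpowers, Cz_zpowers]
  have h3 := (subnIn_top_iff.mpr hsn).inf_inf Cx((z : G))
  rw [top_inf_eq] at h3
  exact h3.charP h2

end Cfsg.Agent.S2897
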