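import Cfsg.Statements.S2898
import Cfsg.Agent.OD.Pre
import Cfsg.Agent.H7.PMin

set_option autoImplicit false
set_option linter.unusedVariables false
open Cfsg

namespace Cfsg.Agent.S2898

open Subgroup CfH7 CfH9
open scoped commutatorElement


/-- Let G be a finite group of even order with parabolic characteristic 2. If the centre of G ⧸ O(G) is trivial, then O(G) = 1. -/
theorem result {G : Type*} [Group G] [Finite G] (h2 : 2 ∣ Nat.card G) (hG : Cfsg.IsOfParabolicCharacteristic 2 G) [hN : (Cfsg.oddCore G).Normal] (hZ : Subgroup.center (G ⧸ Cfsg.oddCore G) = ⊥) : Cfsg.oddCore G = ⊥ := by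
  by_contra hne
  obtain ⟨S⟩ : Nonempty (Sylow 2 G) := inferInstance
  have hS := sylIn_top S
  have hcop : (Nat.card (oddCore G)).Coprime 2 := coprime_card_pPrimeCore 2 G
  have key : ∀ z, z ≠ 1 → z ∈ OZ 2 (S : Subgroup G) → oddCore G ⊓ Cx(z) = ⊥ := fun z hz1 hz =>
    (parabolicChar_Cx hG hS hz1 (OZ_le _ hz) (OZ_le_Cz _ hz)).eq_bot_of_coprime inf_le_right
      (le_normalizer_inf (le_Nm_normal _ _) le_normalizer) (coprime_card_of_le inf_le_left hcop)
  set O := oddCore G with hO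
  have hC : (S : Subgroup G) ⊓ Cz(O) = ⊥ := by
    by_contra e
    obtain ⟨z, hz, hz1, hz2⟩ := exists_mem_OZ S.isPGroup' inf_le_left
      (le_normalizer_inf le_normalizer (le_Nm_normal _ _)) e
    exact hne (le_bot_iff.mp ((le_inf le_rfl (le_Cx_iff.mpr hz.2)).trans (key z hz1 hz2).le))
  have hCO : Cz(O) ≤ O := le_pPrimeCore inferInstance
    ((Nat.Prime.coprime_iff_not_dvd Nat.prime_two).mpr
      ((sylIn_inf_normal S Cz(O)).eq_bot_iff.mp hC)).symm
  obtain ⟨z, hz, hz1⟩ := exists_ne_one_of_ne_bot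
    (OZ_ne_bot S.isPGroup' ((sylow_ne_bot_iff S).mpr h2))
  have hinv : ∀ g : G, ∀ x ∈ O, (g * z * g⁻¹) * x * (g * z * g⁻¹)⁻¹ = x⁻¹ := by
    have h0 : ∀ x ∈ O, z * x * z⁻¹ = x⁻¹ := by
      let φ : MulAut O := MulAut.conjNormal z
      have h1 : MonoidHom.FixedPointFree φ := fun x hx => by
        have h3 : (x : G) ∈ O ⊓ Cx(z) := mi x.2 (by
          have := congrArg Subtype.val hx
          simp only [φ, MulAut.conjNormal_apply] at this
          rw [mem_Cx, ← mul_inv_eq_iff_eq_mul.mp this])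
        rw [key z hz1 hz] at h3
        exact Subtype.ext h3
      have h2 : (φ : O → O)^[2] = _root_.id := by
        ext x
        have h4 : z * z = 1 := by rw [← pow_two]; exact (mem_OZ.mp hz).2
        simp only [φ, Function.iterate_succ, Function.iterate_zero, Function.comp, _root_.id,
          MulAut.conjNormal_apply]
        calc z * (z * x * z⁻¹) * z⁻¹ = (z * z) * x * (z * z)⁻¹ := by group
          _ = x := by rw [h4]; group
      intro x hx
      have := congrFun (h1.coe_eq_inv_of_sq_eq_one (by ext x; exact congrArg Subtype.val (congrFun h2 x))) ⟨x, hx⟩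
      exact congrArg Subtype.val this
    intro g x hx
    have := h0 _ (conj_mem_of_mem_normalizer' (le_Nm_normal ⊤ O (mem_top g)) hx)
    calc (g * z * g⁻¹) * x * (g * z * g⁻¹)⁻¹ = g * (z * (g⁻¹ * x * g) * z⁻¹) * g⁻¹ := by group
      _ = x⁻¹ := by rw [this]; group
  have h5 : (z : G ⧸ O) ∈ center (G ⧸ O) := by
    rw [mem_center_iff]
    intro g
    obtain ⟨g, rfl⟩ := QuotientGroup.mk_surjective g
    rw [← QuotientGroup.mk_mul, ← QuotientGroup.mk_mul, QuotientGroup.eq]
    refine hCO (mem_centralizer_of_conj_eq fun x hx => ?_)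
    have h6 := hinv g⁻¹ x hx
    have h7 := hinv 1 x hx
    calc (g * z)⁻¹ * (z * g) * x * ((g * z)⁻¹ * (z * g))⁻¹
        = z⁻¹ * ((g⁻¹ * z * g⁻¹⁻¹) * x * (g⁻¹ * z * g⁻¹⁻¹)⁻¹) * z := by group
      _ = z⁻¹ * ((1 * z * 1⁻¹) * x * (1 * z * 1⁻¹)⁻¹) * z := by rw [h6, h7]
      _ = x := by group
  rw [hZ, mem_bot, QuotientGroup.eq_one_iff] at h5
  exact hz1 (eq_one_of_mem_of_coprime S.isPGroup' (OZ_le _ hz) (coprime_orderOf_of_mem hcop h5))

end Cfsg.Agent.S2898
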