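import Cfsg.Statements.S2905
import Cfsg.Agent.OD.Pre
import Cfsg.Agent.H7.PMin

set_option autoImplicit false
set_option linter.unusedVariables false
open Cfsg

namespace Cfsg.Agent.S2905

open Subgroup CfH7 CfH9
open scoped commutatorElement


/-- Let P be a finite p-minimal group (a Sylow p-subgroup S is not normal and lies in a unique maximal subgroup M of P) and let F be the normal core of M. Then: every subnormal subgroup N of P contained in M satisfies N ∩ S ≤ O_p(P); if O^p(P) has a normal Sylow p-subgroup then the order of P has at most two prime divisors; every normal subgroup N of P either contains O^p(P) or is contained in F; and O^p(P)F ⧸ F is a minimal normal subgroup of P ⧸ F. -/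
theorem result {P : Type*} [Group P] [Finite P] {p : ℕ} [Fact p.Prime] (hP : Cfsg.IsPMinimal p P) (S : Sylow p P) (M : Subgroup P) (hM : IsCoatom M) (hSM : (S : Subgroup P) ≤ M) [hF : M.normalCore.Normal] : (∀ N : Subgroup P, N.IsSubnormal → N ≤ M → N ⊓ (S : Subgroup P) ≤ Cfsg.pCore p P) ∧ ((∀ T : Sylow p ↥(Cfsg.pResidual p P), (T : Subgroup ↥(Cfsg.pResidual p P)).Normal) → (Nat.card P).primeFactors.card ≤ 2) ∧ (∀ N : Subgroup P, N.Normal → Cfsg.pResidual p P ≤ N ∨ N ≤ M.normalCore) ∧ (∀ N : Subgroup P, N.Normal → M.normalCore ≤ N → N ≤ Cfsg.pResidual p P ⊔ M.normalCore → N = M.normalCore ∨ N = Cfsg.pResidual p P ⊔ M.normalCore) ∧ M.normalCore < Cfsg.pResidual p P ⊔ M.normalCore := by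
  have hS := sylIn_top S
  obtain ⟨M', h⟩ := (isPMinimal_iff hS).mp hP
  obtain rfl : M = M' := h.eq_of_isCoatom hM hSM
  have h3 : ∀ N : Subgroup P, N.Normal → pResidual p P ≤ N ∨ N ≤ M.normalCore := fun N hN => by
    rw [← pResidualOf_top]
    exact (h.pResidualOf_le_or hS.pgrp le_top (top_le_Nm N)).imp_right normal_le_normalCore.mpr
  refine ⟨fun N hN hNM => ?_, fun hc => ?_, h3, fun N hN h1 h2 => ?_, ?_⟩
  · exact ((h.pCl_of_subnIn hS.pgrp (subnIn_top_iff.mpr hN) hNM) _ inf_le_left
      (hS.pgrp.to_le inf_le_right)).trans (pCoreOf_le_pCore_of_subnormal hN)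
  · have hc' : PCl p (pResidualOf p (⊤ : Subgroup P)) := by
      rw [pResidualOf_top]; exact isPClosed_iff.mp hc
    obtain ⟨q, Q, hq, hQ, -, h1, h2⟩ := h.exists_eq_sup_of_pCl hS hc'
    haveI := Fact.mk hq
    have hd : Nat.card P ∣ Nat.card (S : Subgroup P) * (Nat.card Q * Nat.card (pCoreOf p (⊤ : Subgroup P))) := by
      have := (card_sup_dvd_of_le_normalizer h1).trans
        (Nat.mul_dvd_mul_left _ (card_sup_dvd_of_normal _ _))
      rwa [h2, Subgroup.card_top] at this
    obtain ⟨a, ha⟩ := hS.pgrp.exists_card_eq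
    obtain ⟨b, hb⟩ := hQ.exists_card_eq
    obtain ⟨c, hc⟩ := (isPGroup_pCoreOf (p := p) (⊤ : Subgroup P)).exists_card_eq
    rw [ha, hb, hc] at hd
    refine le_trans (Finset.card_le_card (t := {p, q}) fun r hr => ?_) Finset.card_le_two
    have hr' := Nat.prime_of_mem_primeFactors hr
    have h4 := (Nat.dvd_of_mem_primeFactors hr).trans hd
    simp only [Finset.mem_insert, Finset.mem_singleton]
    rcases (Nat.Prime.dvd_mul hr').mp h4 with h5 | h5
    · exact Or.inl ((Nat.prime_dvd_prime_iff_eq hr' Fact.out).mp (hr'.dvd_of_dvd_pow h5))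
    · rcases (Nat.Prime.dvd_mul hr').mp h5 with h6 | h6
      · exact Or.inr ((Nat.prime_dvd_prime_iff_eq hr' hq).mp (hr'.dvd_of_dvd_pow h6))
      · exact Or.inl ((Nat.prime_dvd_prime_iff_eq hr' Fact.out).mp (hr'.dvd_of_dvd_pow h6))
  · rcases h3 N hN with h4 | h4
    · exact Or.inr (le_antisymm h2 (sup_le h4 h1))
    · exact Or.inl (le_antisymm h4 h1)
  · refine lt_of_le_of_ne le_sup_right fun e => h.not_pResidualOf_le (p := p) ?_
    rw [pResidualOf_top]
    exact (le_sup_left.trans e.ge).trans M.normalCore_le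

end Cfsg.Agent.S2905
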