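import Cfsg.Statements.S2906
import Cfsg.Agent.OD.Pre
import Cfsg.Agent.H7.PMin

set_option autoImplicit false
set_option linter.unusedVariables false
open Cfsg

namespace Cfsg.Agent.S2906

open Subgroup CfH7 CfH9
open scoped commutatorElement


/-- Let P be a finite p-minimal group with O_p(P) = 1, S a Sylow p-subgroup of P and K a component of P. Then O^p(P) = F*(P) = E(P) is generated by the S-conjugates of K, and the subgroup K·N_S(K) is again p-minimal. -/
theorem result {P : Type*} [Group P] [Finite P] {p : ℕ} [Fact p.Prime] (hP : Cfsg.IsPMinimal p P) (hOp : Cfsg.pCore p P = ⊥) (S : Sylow p P) (K : Subgroup P) (hK : Cfsg.IsComponent K) : Cfsg.pResidual p P = Cfsg.generalizedFittingSubgroup P ∧ Cfsg.generalizedFittingSubgroup P = Cfsg.layer P ∧ Cfsg.layer P = ⨆ s : ↥(S : Subgroup P), K.map (MulAut.conj (s : P)).toMonoidHom ∧ Cfsg.IsPMinimal p ↥(K ⊔ ((S : Subgroup P) ⊓ Subgroup.normalizer (K : Set P))) := by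
  have hS := sylIn_top S
  obtain ⟨M, h⟩ := (isPMinimal_iff hS).mp hP
  have hO : pCoreOf p (⊤ : Subgroup P) = ⊥ := by rw [pCoreOf_top, hOp]
  have hRS : pResidual p P ⊔ S = ⊤ := pResidual_sup_sylow S
  -- normal subgroups inside `M` are nilpotent
  have hnil : ∀ N : Subgroup P, N.Normal → N ≤ M → Group.IsNilpotent N := by
    intro N hN hNM
    refine isNilpotent_of_le (K := frattini P) (CfH1.le_frattini_iff.mpr fun X hX => ?_)
      frattini_nilpotent
    by_contra hne
    exact hX.1 (h.le_of_pCoreOf_le hS.pgrp hNM (top_le_Nm N) le_top (hO ▸ bot_le)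
      (by rw [sup_comm]; exact CfH1.sup_eq_top_of_isCoatom hX hne))
  have h3 : ∀ N : Subgroup P, N.Normal → K ≤ N → pResidual p P ≤ N := fun N hN hKN => by
    rw [← pResidualOf_top]
    exact (h.pResidualOf_le_or hS.pgrp le_top (top_le_Nm N)).resolve_right fun e =>
      qs_not_le_of_isNilpotent hK.2 (hnil N hN e) hKN
  have hRE : pResidual p P = layer P :=
    le_antisymm (h3 _ inferInstance (le_layer hK)) layer_le_pResidual
  have hF : generalizedFittingSubgroup P = layer P := by
    refine le_antisymm (sup_le le_rfl ?_) layer_le_fstar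
    rw [← hRE]
    exact le_pResidual_of_coprime (coprime_card_fitting_of_pCore_eq_bot hOp)
  have hW : nclo K (S : Subgroup P) ≤ layer P := nclo_le (le_Nm_normal _ _) (le_layer hK)
  have hEW : ∀ X : Subgroup P, layer P ≤ Nm(X) → (nclo X (S : Subgroup P)).Normal := fun X hX => by
    refine normal_of_top_le_normalizer ?_
    rw [← hRS, hRE]
    refine sup_le (fun e he => ?_) (right_le_Nm_nclo _ _)
    refine mem_normalizer_of_cj_le (cj_le_iff.mpr (nclo_le_iff'.mpr fun s hs => ?_))
    rw [← cj_le_iff, ← cj_mul, show e * s = s * (s⁻¹ * e * s) by group, cj_mul,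
      cj_eq_of_mem_normalizer (hX (conj_mem_of_mem_normalizer' (le_Nm_normal ⊤ _ (mem_top s)) he))]
    exact cj_le_nclo hs
  have hE : layer P = nclo K (S : Subgroup P) :=
    le_antisymm (hRE ▸ h3 _ (hEW K (layer_le_normalizer_component hK)) (le_nclo _ _)) hW
  refine ⟨hRE.trans hF.symm, hF, hE, ?_⟩
  set S₁ := (S : Subgroup P) ⊓ Nm(K) with hS₁
  have hSK : SylIn p ((S : Subgroup P) ⊓ K) K := sylIn_inf_of_isSubnormal S hK.1
  have hSK1 : (S : Subgroup P) ⊓ K ≤ S₁ := inf_le_inf_left _ le_normalizer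
  have hS1 : SylIn p S₁ (K ⊔ S₁) := by
    rw [sup_comm]
    exact SylIn.of_sup (sylIn_self (hS.pgrp.to_le inf_le_left)) inf_le_right hSK hSK1
  have hKM : ¬ K ≤ M := fun e => h.not_pResidualOf_le (p := p) (by
    rw [pResidualOf_top, hRE, hE]
    exact nclo_le (h.le.trans le_normalizer) e)
  have hU : UMax S₁ (K ⊔ S₁) ((K ⊔ S₁) ⊓ M) := by
    refine ⟨le_inf le_sup_right (inf_le_left.trans h.le), lt_of_le_of_ne inf_le_left fun e =>
      hKM (le_sup_left.trans (inf_eq_left.mp e)), fun X hX hlt => le_inf hlt.le ?_⟩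
    have e1 : X = (K ⊓ X) ⊔ S₁ := by
      rw [← CfH1.dedekind_right inf_le_right hX, inf_eq_right.mpr hlt.le]
    set X₀ := K ⊓ X with hX₀
    have hX0 : S₁ ≤ Nm(X₀) := le_normalizer_inf inf_le_right (hX.trans le_normalizer)
    have hW0 : nclo X₀ (S : Subgroup P) ≤ X₀ ⊔ Cz(K) := nclo_le_iff'.mpr fun s hs => by
      rcases component_eq_or_commutator_eq_bot (component_conj hK s) hK with e | e
      · rw [cj_eq_of_mem_normalizer (hX0 (mi hs (mem_normalizer_iff_cj.mpr e)))]
        exact le_sup_left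
      · exact ((cj_mono s inf_le_left).trans (comm_eq_bot_left.mp e)).trans le_sup_right
    have hne : nclo X₀ (S : Subgroup P) ⊔ S ≠ ⊤ := fun e => by
      have h4 : K ≤ X₀ ⊔ Cz(K) := ((le_layer hK).trans (hRE.ge.trans (pResidualOf_top.ge.trans
        (pResidualOf_le_of_le_sup hS.pgrp (right_le_Nm_nclo _ _) e.ge)))).trans hW0
      have h5 : K = X₀ ⊔ (Cz(K) ⊓ K) := by
        rw [← inf_sup_dedekind (Or.inl (le_normalizer_centralizer (inf_le_left.trans le_normalizer)))
          inf_le_left, inf_eq_right.mpr h4]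
      have h6 : K ≤ X₀ := by
        have h7 := commutator_sup_central_le (A := X₀) (Z := Cz(K) ⊓ K) (h5 ▸ inf_le_left)
        rw [← h5, qs_perfect hK.2] at h7
        exact h7.trans (comm_le_left le_normalizer)
      exact hlt.not_ge (sup_le (h6.trans inf_le_right) hX)
    have h8 := h.max _ le_sup_right (lt_top_iff_ne_top.mpr hne)
    rw [e1]
    exact sup_le ((le_nclo _ _).trans (le_sup_left.trans h8)) (inf_le_left.trans h.le)
  rw [isPMinimal_iff hS1.subgroupOf_top, ← isMinimalOver_iff_top,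
    isMinimalOver_subgroupOf_iff hS1.le]
  refine ⟨_, hU, hU.eq_of_not_le (le_nclo _ _) (nclo_le_of_le hS1.le) fun e => hU.lt.not_ge ?_⟩
  refine ((hS1.mono (le_nclo _ _) (nclo_le_of_le hS1.le)).frattini_sup (right_le_Nm_nclo _ _)
    (nclo_le_of_le hS1.le)).ge.trans (sup_le e (hU.max _ (le_inf hS1.le le_normalizer)
      (lt_of_le_of_ne inf_le_left fun e' => ?_)))
  have h9 : K ≤ Nm(S₁) := le_sup_left.trans (inf_eq_left.mp e')
  have h10 : (S : Subgroup P) ⊓ K = ⊥ := by
    rw [← le_bot_iff, ← hOp]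
    refine le_trans ?_ (pCoreOf_le_pCore_of_subnormal hK.1)
    refine le_pCoreOf inf_le_right ?_ hSK.pgrp
    have : (S : Subgroup P) ⊓ K = S₁ ⊓ K :=
      le_antisymm (le_inf hSK1 inf_le_right) (inf_le_inf_right _ inf_le_left)
    rw [this]
    exact le_normalizer_inf h9 le_normalizer
  have h11 : (Nat.card K).Coprime p :=
    ((Nat.Prime.coprime_iff_not_dvd Fact.out).mpr (hSK.eq_bot_iff.mp h10)).symm
  have h12 : pResidual p P ≤ pPrimeCore p P :=
    h3 _ inferInstance (le_pPrimeCore_of_subnormal hK.1 h11)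
  have h13 : (Nat.card (pResidual p P)).Coprime p :=
    coprime_card_of_le h12 (coprime_card_pPrimeCore p P)
  obtain ⟨q, Q, hq, hQ, h14, h15, h16⟩ := h.exists_eq_sup_of_pCl hS
    (by rw [pResidualOf_top]; exact pCl_of_coprime h13)
  haveI := Fact.mk hq
  rw [hO, sup_bot_eq] at h15 h16
  have h17 : pResidual p P ≤ Q := pResidualOf_top.ge.trans
    (pResidualOf_le_of_le_sup hS.pgrp h15 (h16.ge.trans (sup_comm _ _).le))
  exact qs_not_le_of_isPGroup hK.2 hQ ((le_layer hK).trans (hRE.ge.trans h17))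

end Cfsg.Agent.S2906
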