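import Cfsg.Statements.S2907
import Cfsg.Agent.OD.Pre


set_option autoImplicit false
open Cfsg

namespace Cfsg.Agent.S2907


/-- Let X be a finite semi-extraspecial p-group and x an element of X outside the centre. Then the index of C_X(x) in X equals the order of Z(X), and the commutators [x, y], y ∈ X, form exactly the centre Z(X). -/
theorem result {X : Type*} [Group X] [Finite X] {p : ℕ} [Fact p.Prime] (hX : Cfsg.IsSemiExtraspecial p X) (x : X) (hx : x ∉ Subgroup.center X) : (Subgroup.centralizer ({x} : Set X)).index = Nat.card ↥(Subgroup.center X) ∧ {z : X | ∃ y : X, z = x * y * x⁻¹ * y⁻¹} = (Subgroup.center X : Set X) := by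
  obtain ⟨⟨hp, hΦ, hcomm⟩, hY⟩ := hX
  have hc : ∀ a b : X, a * b * a⁻¹ * b⁻¹ ∈ Subgroup.center X := fun a b => by
    rw [← hcomm]
    exact Subgroup.commutator_mem_commutator (Subgroup.mem_top a) (Subgroup.mem_top b)
  let f : X →* X := MonoidHom.mk' (fun y => x * y * x⁻¹ * y⁻¹) (fun a b => by
    have := Subgroup.mem_center_iff.1 (hc x b) a
    calc x * (a * b) * x⁻¹ * (a * b)⁻¹ = x * a * x⁻¹ * a⁻¹ * (a * (x * b * x⁻¹ * b⁻¹)) * a⁻¹ := by group
      _ = _ := by rw [this]; group)
  have hker : f.ker = Subgroup.centralizer ({x} : Set X) := by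
    ext y
    rw [MonoidHom.mem_ker, Subgroup.mem_centralizer_singleton_iff]
    show x * y * x⁻¹ * y⁻¹ = 1 ↔ _
    rw [mul_inv_eq_one, mul_inv_eq_iff_eq_mul, eq_comm]
  have hle : f.range ≤ Subgroup.center X := by
    rintro _ ⟨y, rfl⟩; exact hc x y
  have hr : f.range = Subgroup.center X := by
    by_contra hne
    have h1 : f.range.subgroupOf (Subgroup.center X) ≠ ⊤ := by
      rw [Ne, Subgroup.subgroupOf_eq_top]
      exact fun h => hne (le_antisymm hle h)
    obtain ⟨M, hM, hfM⟩ := (eq_top_or_exists_le_coatom _).resolve_left h1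
    have hM' : (M.map (Subgroup.center X).subtype).subgroupOf (Subgroup.center X) = M :=
      Subgroup.comap_map_eq_self_of_injective (Subgroup.subtype_injective _) M
    obtain ⟨hN, ⟨-, -, h2⟩, -⟩ := hY (M.map (Subgroup.center X).subtype) (Subgroup.map_subtype_le _)
      (by rw [hM']; exact hM)
    set Y := M.map (Subgroup.center X).subtype with hYd
    have hYle : Y ≤ Subgroup.center X := Subgroup.map_subtype_le _
    have h3 : (QuotientGroup.mk' Y x) ∈ Subgroup.center (X ⧸ Y) := by
      rw [Subgroup.mem_center_iff]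
      intro g
      obtain ⟨g, rfl⟩ := QuotientGroup.mk'_surjective Y g
      rw [← map_mul, ← map_mul, eq_comm, ← mul_inv_eq_one, ← map_inv, ← map_mul, QuotientGroup.mk'_apply,
        QuotientGroup.eq_one_iff]
      have : x * g * (g * x)⁻¹ = f g := by show _ = x * g * x⁻¹ * g⁻¹; group
      rw [this]
      exact ⟨⟨f g, hc x g⟩, hfM ⟨g, rfl⟩, rfl⟩
    rw [← h2, commutator_def, ← Subgroup.map_top_of_surjective _ (QuotientGroup.mk'_surjective Y),
      ← Subgroup.map_commutator, ← commutator_def, hcomm] at h3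
    obtain ⟨z, hz, hzx⟩ := h3
    rw [QuotientGroup.mk'_apply, QuotientGroup.mk'_apply, QuotientGroup.eq] at hzx
    have := (Subgroup.center X).mul_mem hz (hYle hzx)
    rw [mul_inv_cancel_left] at this
    exact hx this
  refine ⟨?_, ?_⟩
  · rw [← hker, Subgroup.index_ker, hr]
  · rw [← hr]
    ext z
    exact ⟨fun ⟨y, hy⟩ => ⟨y, hy.symm⟩, fun ⟨y, hy⟩ => ⟨y, hy.symm⟩⟩

end Cfsg.Agent.S2907
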