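import Cfsg.Statements.S2909
import Cfsg.Agent.OD.Pre
import Cfsg.Agent.H8.Misc

set_option autoImplicit false
open Cfsg

namespace Cfsg.Agent.S2909

/-- Let p be a prime, E a normal p-subgroup of the finite group G, and U a non-cyclic elementary abelian p-subgroup of G such that either C_E(U) = C_E(u) for every nontrivial u ∈ U, or [E, U] = [E, ⟨u⟩] for every nontrivial u ∈ U. If R is a subgroup of order prime to p normalized by U, then [R, U] centralizes E. -/
theorem result {G : Type*} [Group G] [Finite G] {p : ℕ} [Fact p.Prime] (E : Subgroup G) [E.Normal] (hE : IsPGroup p ↥E) (U : Subgroup G) (hU : Cfsg.IsElementaryAbelian p U) (hnc : ¬ IsCyclic ↥U) (hcond : (∀ u ∈ U, u ≠ 1 → E ⊓ Subgroup.centralizer (U : Set G) = E ⊓ Subgroup.centralizer ({u} : Set G)) ∨ (∀ u ∈ U, u ≠ 1 → ⁅E, U⁆ = ⁅E, Subgroup.zpowers u⁆)) (R : Subgroup G) (hR : ¬ p ∣ Nat.card ↥R) (hRU : U ≤ Subgroup.normalizer (R : Set G)) : ⁅R, U⁆ ≤ Subgroup.centralizer (E : Set G) := by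
  open Subgroup MulAction CfH9 CfH8 commutatorElement in
  have hRc : (Nat.card R).Coprime p := ((Nat.Prime.coprime_iff_not_dvd Fact.out).2 hR).symm
  have hUp : IsPGroup p U := CfH7.elemAb_isPGroup hU
  have hK : (Cz(E)).Normal := inferInstance
  let f := QuotientGroup.mk' (Cz(E))
  have key : ∀ X : Subgroup G, ⁅X, U⁆ ≤ Cz(E) ↔ X ≤ (Cz(U.map f)).comap f := by
    intro X
    rw [← map_le_iff_le_comap, le_centralizer_iff_commutator_eq_bot (A := U.map f), ← map_commutator,
      Subgroup.map_eq_bot_iff, QuotientGroup.ker_mk']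
  rw [key]
  refine le_of_noncyclic hU.1 hRU (coprime_card_of_isPGroup' hUp hRc).symm hnc ?_
  intro u hu hu1
  rw [← key]
  set X := R ⊓ Cx(u) with hX
  have hUu : U ≤ Cx(u) := le_trans (CfH7.elemAb_le_Cz hU) (Cz_le_Cx hu)
  have hUX : U ≤ Nm(X) := le_normalizer_inf hRU (le_trans hUu le_normalizer)
  have hBX : ⁅X, U⁆ ≤ X := commutator_le_left_of_le_normalizer hUX
  have hBc : (Nat.card (⁅X, U⁆ : Subgroup G)).Coprime p :=
    CfH7.coprime_card_of_le (le_trans hBX inf_le_left) hRc
  have hAp : IsPGroup p (zpowers u) := hUp.to_le (zpowers_le.2 hu)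
  have hnE : ∀ Y : Subgroup G, Y ≤ Nm(E) := fun Y y _ => mem_Nm_of_normal _ _
  have hXu : X ≤ Cz(zpowers u) := by rw [Cz_zpowers]; exact inf_le_right
  have hAB : ⁅zpowers u, ⁅X, U⁆⁆ = ⊥ := by
    rw [commutator_eq_bot_comm, ← le_centralizer_iff_commutator_eq_bot]
    exact le_trans hBX hXu
  rw [le_centralizer_iff_commutator_eq_bot, commutator_eq_bot_comm]
  rcases hcond with h | h
  · refine thompson_AxB hE hAp hBc (hnE _) (hnE _) hAB ?_
    rw [Cz_zpowers, commutator_eq_bot_comm, ← le_centralizer_iff_commutator_eq_bot]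
    have h1 : U ≤ Cz(E ⊓ Cx(u)) := by
      rw [← h u hu hu1, le_centralizer_iff]; exact inf_le_right
    have h2 : X ≤ Nm(Cz(E ⊓ Cx(u))) :=
      le_normalizer_centralizer (le_normalizer_inf (hnE _) (le_trans inf_le_right le_normalizer))
    exact le_trans (Subgroup.commutator_mono le_rfl h1) (commutator_le_right_of_le_normalizer h2)
  · refine dual_AxB hE hAp hBc (hnE _) (hnE _) hAB ?_
    rw [commutator_comm]
    have hXD : X ≤ Nm(⁅E, zpowers u⁆) :=
      le_normalizer_commutator (hnE _) (le_trans hXu (Cz_le_Nm _))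
    have hUD : U ≤ Nm(⁅E, zpowers u⁆) := by
      rw [← h u hu hu1]; exact normalizer_commutator_ge_right _ _
    refine three_subgroups hXD hUD (normalizer_commutator_ge_left _ _) ?_ ?_
    · rw [commutator_comm U E, h u hu hu1]
      exact commutator_le_left_of_le_normalizer hXD
    · rw [← h u hu hu1]
      exact Subgroup.commutator_mono (commutator_le_left_of_le_normalizer (hnE _)) le_rfl

end Cfsg.Agent.S2909
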