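import Cfsg.Statements.S2910
import Cfsg.Agent.OD.Pre
import Cfsg.Agent.H9.RankOne

set_option autoImplicit false
open Cfsg

namespace Cfsg.Agent.S2910
open Subgroup CfH9 CfH7
open scoped commutatorElement


/-- Let p be an odd prime dividing the order of the finite group G and P a Sylow p-subgroup of G. If Ω₁(P) (generated by the elements of order dividing p) is contained in the centre of G, then G has a normal p-complement. In particular, if G is quasisimple then Ω₁(P) is not central in G. -/
theorem result {G : Type*} [Group G] [Finite G] {p : ℕ} [Fact p.Prime] (hp : p ≠ 2) (hdiv : p ∣ Nat.card G) (P : Sylow p G) (hZ : Cfsg.omegaOne p (P : Subgroup G) ≤ Subgroup.center G) : Cfsg.HasNormalPComplement p G ∧ ¬ Cfsg.IsQuasisimple G := by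
  have h1 : PNil p (⊤ : Subgroup G) := by
    refine pNil_of_omega hp (sylIn_top P) fun t ht h g _ _ => ?_
    have := mem_center_iff.1 (hZ (mem_omegaOne ht h)) g
    rw [this, mul_inv_cancel_right]
  refine ⟨hasNPC_iff_pNil_top.2 h1, fun h => ?_⟩
  have := h.1
  refine not_pNil_of_perfect (K := ⊤) ?_ (by rwa [card_top]) h1
  exact Group.IsPerfect.commutator_eq_top

end Cfsg.Agent.S2910
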