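import Cfsg.Statements.S2911
import Cfsg.Agent.OD.Pre
import Cfsg.Agent.H9.Yoshida

set_option autoImplicit false
open Cfsg

namespace Cfsg.Agent.S2911
open Subgroup CfH9 CfH7
open scoped commutatorElement


/-- A finite group whose Sylow 2-subgroups are isomorphic to the direct product of a group of order 2 and a dihedral group of order 8 has a subgroup of index two. -/
theorem result {G : Type*} [Group G] [Finite G] (S : Sylow 2 G) (hS : Nonempty (↥(S : Subgroup G) ≃* Multiplicative (ZMod 2) × DihedralGroup 4)) : ∃ H : Subgroup G, H.index = 2 := by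
  by_contra hn
  push Not at hn
  obtain ⟨e⟩ := hS
  have hS := sylIn_top S
  have key : ∀ q : Multiplicative (ZMod 2) × DihedralGroup 4, q.1.toAdd = 0 →
      (∀ r, r * q = q * r) → ∃ a b : Multiplicative (ZMod 2) × DihedralGroup 4, q = ⁅a, b⁆ := by
    have : ∀ d : DihedralGroup 4, (∀ r, r * d = d * r) → ∃ a b, d = a * b * a⁻¹ * b⁻¹ := by decide
    rintro ⟨q, d⟩ h1 h2
    obtain ⟨a, b, e⟩ := this d fun r => congrArg Prod.snd (h2 (1, r))
    exact ⟨(1, a), (1, b), Prod.ext (by simpa [commutatorElement_def] using h1) e⟩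
  classical
  let ℓ : G → ZMod 2 := fun g => if h : g ∈ (S : Subgroup G) then (e ⟨g, h⟩).1.toAdd else 0
  have e₁ : ∀ g (h : g ∈ (S : Subgroup G)), ℓ g = (e ⟨g, h⟩).1.toAdd := fun g h => dif_pos h
  have hℓ : AddOn S ℓ := fun a ha b hb => by
    rw [e₁ a ha, e₁ b hb, e₁ _ (mul_mem ha hb), ← toAdd_mul, ← Prod.fst_mul, ← map_mul]; rfl
  set c := e.symm (Multiplicative.ofAdd 1, 1) with hc
  have hcZ : (S : Subgroup G) ≤ Cx((c : G)) := fun s hs => mem_Cx.2 (by
    have : (⟨s, hs⟩ : (S : Subgroup G)) * c = c * ⟨s, hs⟩ := e.injective (by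
      rw [map_mul, map_mul, hc, e.apply_symm_apply]
      exact Prod.ext (mul_comm _ _) (by simp))
    exact congrArg Subtype.val this)
  have hc2 : (c : G) ^ 2 = 1 := by
    rw [← Subgroup.coe_pow, hc, ← map_pow, show ((Multiplicative.ofAdd 1, 1) :
      Multiplicative (ZMod 2) × DihedralGroup 4) ^ 2 = 1 by decide, map_one, Subgroup.coe_one]
  obtain ⟨g, h1, h2⟩ := thompson_extremal hS hℓ hS.2 c.2 hcZ hc2
    fun f hf => addOn_eq_zero_of_index hn hf _
  have hg := mem_normalizer_of_cj_le h1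
  have h3 : g * c * g⁻¹ ∈ (S : Subgroup G) := conj_mem_of_mem_normalizer hg c.2
  have h4 : (S : Subgroup G) ≤ Cx(g * c * g⁻¹) := by
    rw [← cj_Cx]; exact (cj_eq_of_mem_normalizer hg).ge.trans (cj_mono g hcZ)
  obtain ⟨a, b, hab⟩ := key (e ⟨_, h3⟩) (by rw [← e₁, h2]) fun r => by
    rw [← e.apply_symm_apply r, ← map_mul, ← map_mul]
    exact congrArg e (Subtype.ext (mem_Cx.1 (h4 (e.symm r).2)))
  have h5 : g * c * g⁻¹ ∈ ⁅(S : Subgroup G), (S : Subgroup G)⁆ := by
    have : (⟨_, h3⟩ : (S : Subgroup G)) = ⁅e.symm a, e.symm b⁆ := by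
      rw [← map_commutatorElement, ← hab, e.symm_apply_apply]
    have h6 := congrArg Subtype.val this
    simp only at h6
    rw [h6]
    exact commutator_mem_commutator (e.symm a).2 (e.symm b).2
  have h6 := (hℓ.commutator_le_ker ((mem_normalizer_iff.1 (mem_Nm_commutator hg hg) c).2 h5)).2
  rw [e₁ _ c.2, Subtype.coe_eta, hc, e.apply_symm_apply] at h6
  exact absurd h6 (by decide)

end Cfsg.Agent.S2911
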