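import Cfsg.Statements.S2924
import Cfsg.Agent.OD.Pre
import Cfsg.Agent.H9.Invert

set_option autoImplicit false
open Cfsg

namespace Cfsg.Agent.S2924
open Subgroup CfH9 CfH7
open scoped commutatorElement

open CfH8

theorem two_cocyclic {G : Type*} [Group G] [Finite G] {Y B B' : Subgroup G}
    (hY : Cfsg.IsElementaryAbelian 2 Y) (h8 : 8 ≤ Nat.card Y) (hB : B ≤ Y) (hB' : B' ≤ Y)
    (h1 : ∃ a ∈ Y, Y ≤ B ⊔ zpowers a) (h2 : ∃ a ∈ Y, Y ≤ B' ⊔ zpowers a) :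
    ∃ w ∈ B ⊓ B', w ≠ 1 := by
  have key : ∀ C : Subgroup G, C ≤ Y → (∃ a ∈ Y, Y ≤ C ⊔ zpowers a) →
      Nat.card Y ≤ 2 * Nat.card C := by
    rintro C hC ⟨a, ha, h⟩
    refine (card_le_of_le h).trans (card_sup_zpowers_le two_pos ?_ ?_)
    · exact Cz_le_Nm _ (Cz_anti hC (le_Cz_of_comm hY.1 ha))
    · rw [hY.2 a ha]; exact C.one_mem
  refine exists_ne_one_of_ne_bot fun h => ?_
  have h3 := card_mul_card_le hB hB'
  rw [h, card_bot, mul_one] at h3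
  have := key B hB h1
  have := key B' hB' h2
  nlinarith

/-- Let X be a finite group and Y an elementary abelian 2-subgroup of X of order at least 8 such that C_X(x) has no components (E(C_X(x)) = 1) for every nontrivial x ∈ Y, and F*(C_X(z)) = O₂(C_X(z)) for some nontrivial z ∈ Y. Then the subgroup generated by the cores O(C_X(y)), y ∈ Y nontrivial, has odd order and is normalized by N_X(Y). -/
theorem result {X : Type*} [Group X] [Finite X] (Y : Subgroup X) (hY : Cfsg.IsElementaryAbelian 2 Y) (h8 : 8 ≤ Nat.card ↥Y) (hE : ∀ x ∈ Y, x ≠ 1 → Cfsg.layer ↥(Subgroup.centralizer ({x} : Set X)) = ⊥) (hz : ∃ z ∈ Y, z ≠ 1 ∧ Cfsg.generalizedFittingSubgroup ↥(Subgroup.centralizer ({z} : Set X)) = Cfsg.pCore 2 ↥(Subgroup.centralizer ({z} : Set X))) : Odd (Nat.card ↥(⨆ y : {y : X // y ∈ Y ∧ y ≠ 1}, (Cfsg.oddCore ↥(Subgroup.centralizer ({(y : X)} : Set X))).map (Subgroup.centralizer ({(y : X)}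 : Set X)).subtype)) ∧ Subgroup.normalizer (Y : Set X) ≤ Subgroup.normalizer ((⨆ y : {y : X // y ∈ Y ∧ y ≠ 1}, (Cfsg.oddCore ↥(Subgroup.centralizer ({(y : X)} : Set X))).map (Subgroup.centralizer ({(y : X)} : Set X)).subtype : Subgroup X) : Set X) := by
  obtain ⟨z, hzY, hz1, hz⟩ := hz
  have hch : ChP 2 Cx(z) := chP_iff_fstar.2 hz
  have hYp : IsPGroup 2 Y := isPGroup_iff_mem.2 fun a ha => ⟨1, by rw [pow_one]; exact hY.2 a ha⟩
  have hyp : ∀ y ∈ Y, IsPGroup 2 (zpowers y) := fun y hy => hYp.to_le ((zpowers_le).2 hy)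
  have hYC : ∀ y ∈ Y, Y ≤ Cx(y) := fun y hy => (le_Cz_of_comm hY.1).trans (Cz_le_Cx hy)
  set θ : X → Subgroup X := fun y => pPrimeCoreOf 2 Cx(y) with hθ
  have hcop : ∀ y, (Nat.card (θ y)).Coprime 2 := fun y => coprime_card_pPrimeCoreOf _
  have hYN : ∀ y ∈ Y, Y ≤ Nm(θ y) := fun y hy => (hYC y hy).trans (le_normalizer_pPrimeCoreOf _)
  have hinv : ∀ y ∈ Y, ∀ n ∈ θ y, z * n * z⁻¹ = n⁻¹ := fun y hy n hn =>
    inverts_of_fpf (by rw [← pow_two]; exact hY.2 z hzY) (hYN y hy hzY)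
      (core_inf_eq_bot_of_chP hch (hyp y hy) (hYC z hzY hy)) hn
  have hbal : ∀ x ∈ Y, x ≠ 1 → ∀ y ∈ Y, θ y ⊓ Cx(x) ≤ θ x := by
    intro x hx hx1 y hy
    refine le_pPrimeCoreOf_of_le_fittingOf
      (Nat.Coprime.coprime_dvd_left (card_dvd_of_le inf_le_left) (hcop y)) ?_
    refine le_trans (le_inf inf_le_right ?_) (inf_Cz_fittingOf_le (hE x hx hx1))
    refine le_trans ?_ (Cz_anti (fittingOf_le_sup (p := 2) _))
    rw [Cz_sup]
    refine le_inf (core_inf_le_Cz_pCoreOf (hyp y hy) (hYC x hx hy)) fun d hd => ?_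
    exact mem_Cz_of_inverts (hinv x hx) (hinv y hy d (mi1 hd))
      (le_normalizer_pPrimeCoreOf _ (mi2 hd)) (odd_orderOf_of_coprime (hcop y) (mi1 hd))
  have hcY : ∀ y, (Nat.card Y).Coprime (Nat.card (θ y)) := fun y =>
    (coprime_card_of_isPGroup' hYp (hcop y)).symm
  have hcomm : ∀ x ∈ Y, ∀ y ∈ Y, θ x ≤ Cz(θ y) := by
    intro x hx y hy
    refine le_of_cocyclic hY.1 (hYN x hx) (hcY x) fun B hB hB1 => ?_
    rw [le_centralizer_iff]
    refine le_of_cocyclic hY.1 (hYN y hy) (hcY y) fun B' hB' hB2 => ?_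
    obtain ⟨w, hw, hw1⟩ := two_cocyclic hY h8 hB hB' hB1 hB2
    have hwY : w ∈ Y := hB (mi1 hw)
    refine le_trans (le_trans (inf_le_inf_left _ (Cz_le_Cx (mi2 hw))) (hbal w hwY hw1 y hy)) ?_
    refine le_trans (le_Cz_of_comm (comm_of_inverts (hinv w hwY))) (Cz_anti ?_)
    exact le_trans (inf_le_inf_left _ (Cz_le_Cx (mi1 hw))) (hbal w hwY hw1 x hx)
  change Odd (Nat.card ↥(⨆ y : {y : X // y ∈ Y ∧ y ≠ 1}, θ y)) ∧
    Nm(Y) ≤ Nm((⨆ y : {y : X // y ∈ Y ∧ y ≠ 1}, θ y))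
  set J := ⨆ y : {y : X // y ∈ Y ∧ y ≠ 1}, θ y with hJ
  refine ⟨?_, fun g hg => mem_normalizer_of_cj_le ?_⟩
  · have h1 : J ≤ pPrimeCoreOf 2 J := by
      refine iSup_le fun y => le_pPrimeCoreOf (le_iSup (fun y : {y : X // y ∈ Y ∧ y ≠ 1} => θ y) y)
        (iSup_le fun x => (hcomm x x.2.1 y y.2.1).trans (Cz_le_Nm _)) (hcop y)
    exact Nat.coprime_two_right.1
      (Nat.Coprime.coprime_dvd_left (card_dvd_of_le h1) (coprime_card_pPrimeCoreOf _))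
  · rw [hJ, cj_iSup]
    refine iSup_le fun y => ?_
    have e : cj g (θ y) = θ (g * y * g⁻¹) := by
      simp only [hθ]; rw [cj_pPrimeCoreOf, cj_Cx]
    rw [e]
    exact le_iSup (fun y : {y : X // y ∈ Y ∧ y ≠ 1} => θ y)
      ⟨g * y * g⁻¹, conj_mem_of_mem_normalizer hg y.2.1, fun h => y.2.2 (by simpa using h)⟩

end Cfsg.Agent.S2924
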