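import Cfsg.Statements.S2925
import Cfsg.Agent.OD.Pre
import Cfsg.Agent.H7.QSMod

set_option autoImplicit false
set_option linter.unusedVariables false
open Cfsg

namespace Cfsg.Agent.S2925

open Subgroup CfH7 CfH9
open scoped commutatorElement


/-- Let K be a component of the finite group X and T a Sylow 2-subgroup of X. If some abelian normal subgroup Y of T does not normalize K, then K ⧸ Z(K) has abelian Sylow 2-subgroups. -/
theorem result {X : Type*} [Group X] [Finite X] (K : Subgroup X) (hK : Cfsg.IsComponent K) (T : Sylow 2 X) (Y : Subgroup X) (hYT : Y ≤ (T : Subgroup X)) (hYn : (Y.subgroupOf (T : Subgroup X)).Normal) (hYab : IsMulCommutative ↥Y) (hnot : ¬ Y ≤ Subgroup.normalizer (K : Set X)) (P : Sylow 2 (↥K ⧸ Subgroup.center ↥K)) : IsMulCommutative ↥(P : Subgroup (↥K ⧸ Subgroup.center ↥K)) := by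
  haveI : Fact (Nat.Prime 2) := ⟨Nat.prime_two⟩
  obtain ⟨y, hyY, hy⟩ := SetLike.not_le_iff_exists.mp hnot
  have hTY : (T : Subgroup X) ≤ Nm(Y) := (normal_subgroupOf_iff_le_normalizer hYT).mp hYn
  have hc : ⁅K, cj y K⁆ = ⊥ := (component_eq_or_commutator_eq_bot hK (component_conj hK y)).resolve_left
    fun e => hy (mem_normalizer_iff_cj.mpr e.symm)
  have hc' : K ≤ Cz(cj y K) := comm_eq_bot_left.mp hc
  have hS : SylIn 2 ((T : Subgroup X) ⊓ K) K := sylIn_inf_of_isSubnormal T hK.1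
  have hS2 := hS.subgroupOf_top.map_surj (QuotientGroup.mk'_surjective (center K))
  obtain ⟨g, -, hg⟩ := hS2.conj (sylIn_top P)
  rw [← hg]
  refine isMulCommutative_cj (comm_iff.mpr ?_) g
  rintro _ ⟨s, hs, rfl⟩ _ ⟨t, ht, rfl⟩
  rw [← map_mul, ← map_mul, QuotientGroup.mk'_apply, QuotientGroup.mk'_apply, QuotientGroup.eq]
  have hs' : (s : X) ∈ (T : Subgroup X) := hs.1
  have ht' : (t : X) ∈ (T : Subgroup X) := ht.1
  have h1 := comm_iff.mp hYab _ (commutator_mem_right hyY (hTY hs')) _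
    (commutator_mem_right hyY (hTY ht'))
  have hs2 : y * (s : X)⁻¹ * y⁻¹ ∈ cj y K := conj_mem_cj y (inv_mem s.2)
  have ht2 : y * (t : X)⁻¹ * y⁻¹ ∈ cj y K := conj_mem_cj y (inv_mem t.2)
  have e1 : ⁅(s : X), y⁆ = s * (y * (s : X)⁻¹ * y⁻¹) := by rw [commutatorElement_def]; group
  have e2 : ⁅(t : X), y⁆ = t * (y * (t : X)⁻¹ * y⁻¹) := by rw [commutatorElement_def]; group
  rw [e1, e2] at h1
  generalize y * (s : X)⁻¹ * y⁻¹ = a at h1 hs2
  generalize y * (t : X)⁻¹ * y⁻¹ = b at h1 ht2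
  have c1 : a * t = t * a := hc' t.2 a hs2
  have c2 : b * s = s * b := hc' s.2 b ht2
  have e3 : ((s : X) * t)⁻¹ * (t * s) = a * b * (b * a)⁻¹ := by
    have : (s : X) * t * (a * b) = t * s * (b * a) := by
      calc (s : X) * t * (a * b) = s * (t * a) * b := by group
        _ = s * a * (t * b) := by rw [← c1]; group
        _ = t * b * (s * a) := h1
        _ = t * (b * s) * a := by group
        _ = t * s * (b * a) := by rw [c2]; group
    calc ((s : X) * t)⁻¹ * (t * s) = ((s : X) * t)⁻¹ * (t * s * (b * a)) * (b * a)⁻¹ := by group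
      _ = a * b * (b * a)⁻¹ := by rw [← this]; group
  have h5 : ((s : X) * t)⁻¹ * (t * s) ∈ cj y K := by
    rw [e3]; exact mul_mem (mul_mem hs2 ht2) (inv_mem (mul_mem ht2 hs2))
  rw [mem_center_iff]
  intro k
  exact Subtype.ext (hc' k.2 _ h5).symm

end Cfsg.Agent.S2925
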