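import Cfsg.Statements.S2928
import Cfsg.Agent.OD.Pre
import Cfsg.Agent.H2.Alt3

set_option autoImplicit false
open Cfsg

namespace Cfsg.Agent.S2928

open Subgroup Equiv Equiv.Perm CfH7 CfH9 CfH2

variable {α : Type*} [Fintype α] [DecidableEq α]

/-- the even permutations moving each point along `τ` -/
def Wt (τ : Perm α) (hτ : ∀ x, τ (τ x) = x) : Subgroup (Perm α) where
  carrier := {σ | sign σ = 1 ∧ ∀ x, σ x = x ∨ σ x = τ x}
  one_mem' := by simp
  mul_mem' := by
    rintro a b ⟨h1, h2⟩ ⟨h3, h4⟩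
    refine ⟨by simp [h1, h3], fun x => ?_⟩
    have := h2 x
    have := h2 (τ x)
    have := h4 x
    rw [mul_apply]
    grind
  inv_mem' := by
    rintro a ⟨h1, h2⟩
    refine ⟨by simp [h1], fun x => ?_⟩
    have := h2 (a⁻¹ x)
    rw [← mul_apply, mul_inv_cancel, one_apply] at this
    grind

variable {τ ρ : Perm α} {H : Subgroup (Perm α)}

theorem Wt_sq {hτ : ∀ x, τ (τ x) = x} {σ : Perm α} (h : σ ∈ Wt τ hτ) : σ * σ = 1 := by
  ext x
  have := h.2 x
  have := h.2 (τ x)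
  have := σ.injective.eq_iff (a := x) (b := τ x)
  rw [mul_apply, one_apply]
  grind

theorem swap_mem_Wt {hτ : ∀ x, τ (τ x) = x} {a e : α} (h1 : τ a ≠ a) (h2 : τ e ≠ e) (h3 : e ≠ a)
    (h4 : e ≠ τ a) : swap a (τ a) * swap e (τ e) ∈ Wt τ hτ :=
  ⟨by simp [h1.symm, h2.symm], fun x => by simp only [mul_apply, swap_apply_def]; grind⟩

theorem cj_Wt (hτ : ∀ x, τ (τ x) = x) (g : Perm α) :
    cj g (Wt τ hτ) = Wt (g * τ * g⁻¹) (fun x => by simp [hτ]) := by
  ext σ
  rw [mem_cj]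
  refine and_congr (by simp [mul_right_comm]) ⟨fun h x => ?_, fun h x => ?_⟩
  · simpa [symm_apply_eq] using h (g⁻¹ x)
  · simpa [symm_apply_eq] using h (g x)

theorem exists_notMem (l : List α) (h : l.length < Fintype.card α) : ∃ x, x ∉ l := by
  obtain ⟨x, -, hx⟩ := Finset.exists_mem_notMem_of_card_lt_card
    (show l.toFinset.card < (Finset.univ : Finset α).card from (List.toFinset_card_le l).trans_lt h)
  exact ⟨x, by simpa using hx⟩

omit [Fintype α] [DecidableEq α] in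
theorem exists_fix (f1 : ∀ x y, τ x = x → τ y = y → x = y) (a : α) : ∃ q, ∀ x, τ x = x → x = q := by
  by_cases h : ∃ q, τ q = q
  · exact h.imp fun q hq x hx => f1 _ _ hx hq
  · exact ⟨a, fun x hx => absurd ⟨x, hx⟩ h⟩

section
variable (hτ : ∀ x, τ (τ x) = x) (hρ : ∀ x, ρ (ρ x) = x) (h1 : Wt τ hτ ≤ H) (h2 : Wt ρ hρ ≤ H)
  (h3 : ∀ c ∈ H, ¬ IsThreeCycle c)
include h1 h2 h3

theorem l1 {a c e : α} (a1 : τ a ≠ a) (a2 : ρ a ≠ a) (a3 : τ a ≠ ρ a) (c1 : ρ c ≠ c)
    (c2 : c ∉ [a, ρ a, τ a, ρ (τ a)]) (e1 : τ e ≠ e)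
    (e2 : e ∉ [a, τ a, ρ a, τ (ρ a), c, τ c, ρ c, τ (ρ c)]) : False := by
  simp only [List.mem_cons, List.not_mem_nil, not_or] at c2 e2
  have h := mul_mem (h1 (swap_mem_Wt a1 e1 (by tauto) (by tauto)))
    (h2 (swap_mem_Wt a2 c1 (by tauto) (by tauto)))
  refine h3 _ (mul_mem h h) ?_
  convert cy_three (a := a) (b := τ a) (c := ρ a) a1.symm a2.symm a3 using 1
  have b1 : τ e ≠ a := by grind
  have b2 : τ e ≠ τ a := by grind
  have b3 : τ e ≠ ρ a := by grind
  have b4 : τ e ≠ c := by grind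
  have b5 : τ e ≠ ρ c := by grind
  have b6 : ρ c ≠ a := by grind
  have b7 : ρ c ≠ ρ a := by grind
  have b8 : ρ c ≠ τ a := by grind
  generalize τ e = e', ρ c = c', τ a = u, ρ a = v at *
  ext y
  simp only [mul_apply, cy_apply, swap_apply_def]
  grind

variable (f1 : ∀ x y, τ x = x → τ y = y → x = y) (f2 : ∀ x y, ρ x = x → ρ y = y → x = y)
include f1 f2

theorem l2 (hn : 8 ≤ Fintype.card α) {p : α} (hp : τ p = p) : ρ p = p := by
  by_contra hp'
  obtain ⟨q, hq⟩ := exists_fix f2 p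
  obtain ⟨c, hc⟩ := exists_notMem [ρ p, p, τ (ρ p), ρ (τ (ρ p)), q] (by simp; omega)
  obtain ⟨e, he⟩ := exists_notMem [ρ p, τ (ρ p), p, c, τ c, ρ c, τ (ρ c)] (by simp; omega)
  refine l1 hτ hρ h1 h2 h3 (a := ρ p) (c := c) (e := e) ?_ ?_ ?_ ?_ ?_ ?_ ?_ <;> grind

theorem l3 (hn : 8 ≤ Fintype.card α) (a : α) : τ (ρ a) = ρ (τ a) := by
  by_contra ha
  have g1 := @l2 _ _ _ _ _ _ hτ hρ h1 h2 h3 f1 f2 hn
  have g2 := @l2 _ _ _ _ _ _ hρ hτ h2 h1 h3 f2 f1 hn
  obtain ⟨q, hq⟩ := exists_fix f1 a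
  obtain ⟨e, he⟩ := exists_notMem [a, τ a, ρ a, τ (ρ a), ρ (τ (ρ a)), τ (ρ (τ (ρ a))), q]
    (by simp; omega)
  simp only [List.mem_cons, List.not_mem_nil, not_or] at he
  refine l1 hτ hρ h1 h2 h3 (a := a) (c := τ (ρ a)) (e := e) ?_ ?_ ?_ ?_ ?_ (fun h => ?_)
    (by simp only [List.mem_cons, List.not_mem_nil, not_or, hτ]; tauto)
  iterate 5 grind
  exact absurd (hq e h) (by tauto)

theorem l4 (hn : 10 ≤ Fintype.card α) (a : α) : τ a = ρ a := by
  by_contra ha
  have g1 := @l2 _ _ _ _ _ _ hτ hρ h1 h2 h3 f1 f2 (by omega)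
  have g2 := @l2 _ _ _ _ _ _ hρ hτ h2 h1 h3 f2 f1 (by omega)
  obtain ⟨q, hq⟩ := exists_fix f1 a
  obtain ⟨c, hc⟩ := exists_notMem [a, ρ a, τ a, ρ (τ a), q] (by simp; omega)
  obtain ⟨e, he⟩ := exists_notMem [a, τ a, ρ a, τ (ρ a), c, τ c, ρ c, τ (ρ c), q] (by simp; omega)
  simp only [List.mem_cons, List.not_mem_nil, not_or] at he hc
  refine l1 hτ hρ h1 h2 h3 (a := a) (c := c) (e := e) ?_ ?_ ?_ ?_ ?_ (fun h => ?_)
    (by simp only [List.mem_cons, List.not_mem_nil, not_or]; tauto)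
  iterate 5 grind
  exact absurd (hq e h) (by tauto)

end

theorem exists_three (hn : 8 ≤ Fintype.card α) (hτ : ∀ x, τ (τ x) = x)
    (f1 : ∀ x y, τ x = x → τ y = y → x = y) (hs : Fintype.card α < 10 → sign τ = 1)
    (h1 : Wt τ hτ ≤ H) (hF : IsQuasisimple (generalizedFittingSubgroup H)) :
    ∃ c ∈ H, IsThreeCycle c := by
  by_contra h3
  push Not at h3
  have hq : IsQuasisimple (fstarOf H) := qs_map_of_injective hF H.subtype_injective
  have hN : H ≤ Nm(fstarOf H) := le_normalizer.trans (normalizer_le_normalizer_fstarOf H)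
  have g1 : ∀ g ∈ H, Wt (g * τ * g⁻¹) (fun x => by simp [hτ]) ≤ H := fun g hg =>
    cj_Wt hτ g ▸ (cj_mono g h1).trans (cj_eq_of_mem hg).le
  have g2 : ∀ g : Perm α, ∀ x y, (g * τ * g⁻¹) x = x → (g * τ * g⁻¹) y = y → x = y := by
    intro g x y hx hy
    refine g⁻¹.injective (f1 _ _ ?_ ?_) <;> rw [eq_inv_iff_eq] <;> assumption
  have key : ∀ A : Subgroup (Perm α), A ≤ H → fstarOf H ≤ Nm(A) → IsMulCommutative A →
      fstarOf H ≤ Cz(A) := by
    intro A hA hA' hc
    rcases qs_normal hq hA' with h | h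
    · rw [← commutator_eq_bot_iff', ← le_bot_iff]
      refine (commutator_eq_bot_of_perfect (qs_perfect hq)
        (commutator_eq_bot_iff_le_centralizer.2 (le_trans (fun x hx => mi ?_ ?_) h))).le
      · exact (commutator_le.2 fun a ha f hf => commutator_mem_right hf (hN (hA ha))) hx
      · exact (commutator_le.2 fun a ha f hf => commutator_mem_left ha (hA' hf)) hx
    · exact h.trans (le_Cz_of_comm hc)
  have h4 : ∀ f ∈ fstarOf H, f * τ * f⁻¹ = τ := by
    by_cases h10 : 10 ≤ Fintype.card α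
    · exact fun f hf => Equiv.ext fun a =>
        (l4 hτ _ h1 (g1 f (fstarOf_le H hf)) h3 f1 (g2 f) h10 a).symm
    · have h5 := key (closure {σ | ∃ g ∈ H, g * τ * g⁻¹ = σ}) ((closure_le _).2 (by
        rintro _ ⟨g, hg, rfl⟩
        exact mul_mem (mul_mem hg (h1 ⟨hs (by omega), fun _ => Or.inr rfl⟩)) (inv_mem hg)))
        (fun f hf => mem_normalizer_of_cj_le (by
          rw [cj_closure]
          refine closure_mono ?_
          rintro _ ⟨_, ⟨g, hg, rfl⟩, rfl⟩
          exact ⟨f * g, mul_mem (fstarOf_le H hf) hg, by group⟩))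
        (isMulCommutative_closure (by
          rintro _ ⟨g, hg, rfl⟩ _ ⟨g', hg', rfl⟩
          exact Equiv.ext fun a => l3 _ _ (g1 g hg) (g1 g' hg') h3 (g2 g) (g2 g') hn a))
      exact fun f hf => conj_eq_of_mem_centralizer (h5 hf) (subset_closure ⟨1, one_mem _, by simp⟩)
  have h5 := key _ h1 (fun f hf => mem_normalizer_iff_cj.2 (by simp only [cj_Wt, h4 f hf]))
    (comm_iff.2 fun a ha b hb => by
      rw [← inv_eq_of_mul_eq_one_right (Wt_sq (mul_mem ha hb)), mul_inv_rev,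
        inv_eq_of_mul_eq_one_right (Wt_sq ha), inv_eq_of_mul_eq_one_right (Wt_sq hb)])
  have h6 : ∀ f ∈ fstarOf H, ∀ x, f x = x ∨ f x = τ x := by
    intro f hf x
    have h7 : f (τ x) = τ (f x) := by
      conv_rhs => rw [← h4 f hf]
      simp
    obtain ⟨q, hq⟩ := exists_fix f1 x
    by_cases hx : τ x = x
    · grind
    obtain ⟨e, he⟩ := exists_notMem [x, τ x, f x, τ (f x), q] (by simp; omega)
    have h8 := DFunLike.congr_fun (h5 hf _ (swap_mem_Wt (a := x) (e := e) hx (by grind) (by grind)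
      (by grind))) x
    simp only [mul_apply, swap_apply_def] at h8
    have := f.injective.eq_iff (a := x) (b := τ x)
    grind
  refine qs_not_le_centralizer hq fun f hf g hg => Equiv.ext fun x => ?_
  have := h6 f hf x
  have := h6 f hf (τ x)
  have := h6 g hg x
  have := h6 g hg (τ x)
  have := f.injective.eq_iff (a := x) (b := τ x)
  have := g.injective.eq_iff (a := x) (b := τ x)
  simp only [mul_apply]
  grind

/-- the standard pairing -/
def pr (n : ℕ) (i : Fin n) : Fin n :=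
  if i.1 % 2 = 1 then ⟨i.1 - 1, by omega⟩ else if h : i.1 + 1 < n then ⟨i.1 + 1, h⟩ else i

theorem pr_invol (n : ℕ) : Function.Involutive (pr n) := fun i => by
  unfold pr; grind

/-- Let n ≥ 8 and let H be a subgroup of the symmetric group of degree n whose generalized Fitting subgroup F*(H) is quasisimple. If H contains a Sylow 2-subgroup of the alternating group of degree n, then F*(H) is isomorphic to an alternating group of degree m for some m ∈ {n − 3, n − 2, n − 1, n}. -/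
theorem result (n : ℕ) (hn : 8 ≤ n) (H : Subgroup (Equiv.Perm (Fin n))) (hF : Cfsg.IsQuasisimple ↥(Cfsg.generalizedFittingSubgroup ↥H)) (hS : ∃ P : Sylow 2 ↥(alternatingGroup (Fin n)), ((P : Subgroup ↥(alternatingGroup (Fin n))).map (alternatingGroup (Fin n)).subtype) ≤ H) : ∃ m : ℕ, (m = n - 3 ∨ m = n - 2 ∨ m = n - 1 ∨ m = n) ∧ Nonempty (↥(Cfsg.generalizedFittingSubgroup ↥H) ≃* ↥(alternatingGroup (Fin m))) := by
  obtain ⟨P, hP⟩ := hS
  have hS := sylIn_of_sylow P
  have hτ : ∀ x, (pr_invol n).toPerm _ ((pr_invol n).toPerm _ x) = x := pr_invol n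
  obtain ⟨g, -, hg⟩ := hS.exists_cj_le (Q := Wt _ hτ)
    (isPGroup_iff_mem.2 fun a ha => ⟨1, by rw [pow_one, sq, Wt_sq ha]⟩) fun a ha => ha.1
  rw [cj_Wt] at hg
  obtain ⟨c, hc, hc'⟩ := exists_three (by simpa using hn) _ (fun x y hx hy => by
    refine g⁻¹.injective ?_
    have h1 : pr n (g⁻¹ x) = g⁻¹ x := eq_inv_iff_eq.2 hx
    have h2 : pr n (g⁻¹ y) = g⁻¹ y := eq_inv_iff_eq.2 hy
    unfold pr at h1 h2
    grind) (fun h => by
      have : sign (pr_invol n).toPerm = 1 := by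
        rw [Fintype.card_fin] at h
        interval_cases n <;> decide +kernel
      simp [this]) (hg.trans hP) hF
  obtain ⟨Y, h5, hY⟩ := fstarOf_eq_altOn hF hc' hc
  refine ⟨Y.card, ?_, fstar_equiv hY⟩
  have h1 : Yᶜ.card < 4 := by
    by_contra hn
    obtain ⟨a, ha, b, hb, c, hc, d, hd, ab, ac, ad, bc, bd, cd⟩ :=
      Finset.three_lt_card.1 (show 3 < Yᶜ.card by omega)
    have := eq_one_of_fstarOf hS hP hY (by omega) (σ := swap a b * swap c d)
      (by simp [ab, cd]) (by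
        ext y; simp only [sq, mul_apply, swap_apply_def, one_apply]; grind)
      fun x hx => by
        rw [Finset.mem_compl] at ha hb hc hd
        simp only [mul_apply, swap_apply_def]; grind
    have := DFunLike.congr_fun this a
    simp only [mul_apply, swap_apply_def, one_apply] at this
    grind
  have h2 := Finset.card_le_univ Y
  rw [Finset.card_compl] at h1
  rw [Fintype.card_fin] at h1 h2
  omega

end Cfsg.Agent.S2928
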