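import Cfsg.Statements.S2929
import Cfsg.Agent.OD.Pre
import Cfsg.Agent.H2.Alt3

set_option autoImplicit false
open Cfsg

namespace Cfsg.Agent.S2929

open Equiv Equiv.Perm CfH9 CfH2

/-- Let n ≥ 5 and let H be a subgroup of the symmetric group of degree n whose generalized Fitting subgroup F*(H) is quasisimple. If H contains a Sylow 3-subgroup of the symmetric group, then F*(H) is isomorphic to an alternating group of degree m for some m ∈ {n − 2, n − 1, n}. -/
theorem result (n : ℕ) (hn : 5 ≤ n) (H : Subgroup (Equiv.Perm (Fin n))) (hF : Cfsg.IsQuasisimple ↥(Cfsg.generalizedFittingSubgroup ↥H)) (hS : ∃ P : Sylow 3 (Equiv.Perm (Fin n)), (P : Subgroup (Equiv.Perm (Fin n))) ≤ H) : ∃ m : ℕ, (m = n - 2 ∨ m = n - 1 ∨ m = n) ∧ Nonempty (↥(Cfsg.generalizedFittingSubgroup ↥H) ≃* ↥(alternatingGroup (Fin m))) := by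
  obtain ⟨P, hP⟩ := hS
  have key : ∀ Z : Finset (Fin n), 3 ≤ Z.card → ∃ c, IsThreeCycle c ∧ c ∈ altOn Z := by
    intro Z hZ
    obtain ⟨a, ha, b, hb, c, hc, ab, ac, bc⟩ := Finset.two_lt_card.1 hZ
    exact ⟨_, cy_three ab ac bc, cy_mem ab bc ha hb hc⟩
  obtain ⟨c, hc, -⟩ := key Finset.univ (by simp; omega)
  obtain ⟨g, -, hg⟩ := (sylIn_top P).exists_conj_mem (x := c) (k := 1) trivial
    (by rw [pow_one, ← hc.orderOf, pow_orderOf_eq_one])
  obtain ⟨Y, h5, hY⟩ := fstarOf_eq_altOn hF (three_conj hc g) (hP hg)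
  refine ⟨Y.card, ?_, fstar_equiv hY⟩
  have h1 : Yᶜ.card < 3 := by
    by_contra hn
    obtain ⟨d, hd, hd'⟩ := key Yᶜ (by omega)
    exact hd.ne_one (eq_one_of_fstarOf (sylIn_top P) hP hY (by omega) trivial
      (by rw [← hd.orderOf, pow_orderOf_eq_one]) fun x hx => hd'.2 x (by simpa using hx))
  have h2 := Finset.card_le_univ Y
  rw [Finset.card_compl] at h1
  rw [Fintype.card_fin] at h1 h2
  omega

end Cfsg.Agent.S2929
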