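import Cfsg.Statements.S2930
import Cfsg.Agent.OD.Pre
import Cfsg.Agent.H2.AltAut
import Cfsg.Agent.H1.PGrp

set_option autoImplicit false
open Cfsg

namespace Cfsg.Agent.S2930

open Subgroup Equiv Equiv.Perm CfH7 CfH9 CfH2

variable {α : Type*}

/-- the permutations preserving a relation -/
def relStab (r : α → α → Prop) : Subgroup (Perm α) where
  carrier := {g | ∀ x y, r (g x) (g y) ↔ r x y}
  one_mem' _ _ := Iff.rfl
  mul_mem' ha hb x y := (ha _ _).trans (hb x y)
  inv_mem' {g} ha x y := (ha _ _).symm.trans (by simp)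

theorem le_relStab {r : α → α → Prop} {S : Subgroup (Perm α)}
    (h : ∀ s ∈ S, ∀ x y, r x y → r (s x) (s y)) : S ≤ relStab r := fun s hs x y =>
  ⟨fun h' => by simpa using h _ (inv_mem hs) _ _ h', h s hs x y⟩

variable [Fintype α] [DecidableEq α]

open Classical in
/-- an orbit -/
noncomputable def orb (T : Subgroup (Perm α)) (x : α) : Finset α :=
  Finset.univ.filter fun y => ∃ t ∈ T, t x = y

theorem mem_orb {T : Subgroup (Perm α)} {x y : α} : y ∈ orb T x ↔ ∃ t ∈ T, t x = y := by
  simp [orb]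

theorem card_orb (T : Subgroup (Perm α)) (x : α) :
    (orb T x).card = (MulAction.stabilizer (Perm α) x).relIndex T := by
  rw [relIndex, show (MulAction.stabilizer (Perm α) x).subgroupOf T = MulAction.stabilizer T x from rfl,
    MulAction.index_stabilizer, ← Set.ncard_coe_finset]
  congr 1
  ext y
  simp [mem_orb, MulAction.mem_orbit_iff, Subgroup.smul_def]

theorem orb_inv {T : Subgroup (Perm α)} {x : α} : ∀ s ∈ T, ∀ y ∈ orb T x, s y ∈ orb T x := by
  simp only [mem_orb]
  rintro s hs _ ⟨t, ht, rfl⟩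
  exact ⟨s * t, mul_mem hs ht, rfl⟩

theorem self_mem_orb (T : Subgroup (Perm α)) (x : α) : x ∈ orb T x := mem_orb.2 ⟨1, one_mem _, rfl⟩

theorem exists_notMem (l : List α) (h : l.length < Fintype.card α) : ∃ x, x ∉ l := by
  obtain ⟨x, -, hx⟩ := Finset.exists_mem_notMem_of_card_lt_card
    (show l.toFinset.card < (Finset.univ : Finset α).card from (List.toFinset_card_le l).trans_lt h)
  exact ⟨x, by simpa using hx⟩

variable {S M : Subgroup (Perm α)} (hn : 5 ≤ Fintype.card α) (hS : SylIn 3 S (alternatingGroup α))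
  (hM : ¬ alternatingGroup α ≤ M) (hSM : S ≤ M)
  (hmax : ∀ H, S ≤ H → ¬ alternatingGroup α ≤ H → alternatingGroup α ⊓ H ≤ M)

include hS in
theorem card_orb_pow (x : α) : ∃ k, (orb S x).card = 3 ^ k := by
  rw [card_orb]; exact hS.pgrp.index _

include hn hmax in
theorem stab_le {Y : Finset α} (hY : ∀ s ∈ S, ∀ y ∈ Y, s y ∈ Y) {a b : α} (ha : a ∈ Y) (hb : b ∉ Y) :
    alternatingGroup α ⊓ relStab (fun x _ => x ∈ Y) ≤ M := by
  refine hmax _ (le_relStab fun s hs x _ => hY s hs x) fun h => hb ?_
  obtain ⟨c, hc⟩ := exists_notMem [a, b] (by simp; omega)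
  have := (h (cy_three (a := a) (b := b) (c := c) (by grind) (by grind)
    (by grind)).mem_alternatingGroup a a).2 ha
  simp only [cy_apply, swap_apply_def] at this
  grind

include hn hmax in
theorem altOn_le {Y : Finset α} (hY : ∀ s ∈ S, ∀ y ∈ Y, s y ∈ Y) {a b : α} (ha : a ∈ Y)
    (hb : b ∉ Y) : altOn Y ≤ M ∧ altOn Yᶜ ≤ M := by
  constructor <;> refine le_trans (fun g hg => mi hg.1 fun x _ => ?_) (stab_le hn hmax hY ha hb)
  · have := hg.2 x
    have := hg.2 (g x)
    have := g.injective.eq_iff (a := g x) (b := x)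
    grind
  · have := hg.2 x
    have := hg.2 (g x)
    have := g.injective.eq_iff (a := g x) (b := x)
    rw [Finset.mem_compl] at *
    grind

include hn hS hM hmax in
theorem fixed {x : α} (hx : ∀ s ∈ S, s x = x) : ∃ a, 2 ≤ a ∧ Fintype.card α = 3 ^ a + 1 := by
  obtain ⟨y, hy⟩ := exists_notMem [x] (by simp; omega)
  obtain ⟨Z, h1, hZ⟩ := exists_maxAlt (altOn_le hn hmax (Y := {x}) (by simpa using hx)
    (Finset.mem_singleton_self x) (b := y) (by simpa using hy)).2
    (by rw [Finset.card_compl, Finset.card_singleton]; omega)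
  have h2 : ∀ z, z ≠ x → z ∈ Z := fun z hz => h1 (by simpa using hz)
  have h3 : x ∉ Z := fun h => hM (altOn_univ.ge.trans ((altOn_mono fun z _ => by grind).trans hZ.le))
  have h4 : ∀ g ∈ M, g x = x := fun g hg => by
    obtain ⟨a, ha⟩ := exists_notMem [x, g⁻¹ x] (by simp; omega)
    by_contra hne
    have := hZ.apply_mem hg (h2 a (by grind)) (h2 _ fun h => ha (by simp [← h]))
      (h2 (g⁻¹ x) fun h => hne (by rw [← h]; simp [h]; exact (inv_eq_iff_eq.1 h).symm))
    exact h3 (by simpa using this)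
  have h5 : x ∉ orb S y := fun h => by
    obtain ⟨s, hs, e⟩ := mem_orb.1 h
    exact hy (by simp [s.injective (e.trans (hx s hs).symm)])
  have h6 : orb S y = {x}ᶜ := by
    refine le_antisymm (fun z hz => by simp; grind) fun z hz => ?_
    by_contra hz'
    have h7 := stab_le hn hmax orb_inv (self_mem_orb S y) h5
    obtain ⟨u, v, huv⟩ : ∃ u v, u ∉ [x, z] ∧ v ∉ [x, z, u] ∧ (u ∈ orb S y ↔ v ∈ orb S y) := by
      obtain ⟨u, hu⟩ := exists_notMem [x, z] (by simp; omega)
      obtain ⟨v, hv⟩ := exists_notMem [x, z, u] (by simp; omega)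
      obtain ⟨w, hw⟩ := exists_notMem [x, z, u, v] (by simp; omega)
      by_cases h1 : u ∈ orb S y ↔ v ∈ orb S y
      · exact ⟨u, v, hu, hv, h1⟩
      by_cases h2 : u ∈ orb S y ↔ w ∈ orb S y
      · exact ⟨u, w, hu, by grind, h2⟩
      exact ⟨v, w, by grind, by grind, by grind⟩
    have hzx : x ≠ z := by simpa [eq_comm] using hz
    have := h4 (swap x z * swap u v) (h7 (mi (by simp [hzx, show u ≠ v by grind]) fun a _ => by
      simp only [mul_apply, swap_apply_def]; grind))
    simp only [mul_apply, swap_apply_def] at this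
    grind
  obtain ⟨k, hk⟩ := card_orb_pow hS y
  rw [h6, Finset.card_compl, Finset.card_singleton] at hk
  refine ⟨k, ?_, by omega⟩
  by_contra h
  interval_cases k <;> omega

variable (hf : ∀ x, ∃ s ∈ S, s x ≠ x)

include hS hf in
theorem exists_three (x : α) : ∃ c ∈ S, IsThreeCycle c ∧ c x ≠ x := by
  obtain ⟨k, hk⟩ := card_orb_pow hS x
  obtain ⟨s, hs, hx⟩ := hf x
  have h1 : 2 < (orb S x).card := by
    have : 1 < (orb S x).card := Finset.one_lt_card.2
      ⟨_, self_mem_orb S x, _, orb_inv s hs _ (self_mem_orb S x), hx.symm⟩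
    rcases k with _ | k
    · omega
    · have := Nat.one_le_pow k 3 (by norm_num)
      omega
  obtain ⟨a, ha, b, hb, c, hc, ab, ac, bc⟩ := Finset.two_lt_card.1 h1
  have h2 : S ≤ Nm(altOn (orb S x)) := fun s hs => mem_Nm_altOn (orb_inv s hs)
  have h3 := cy_mem ab bc ha hb hc
  obtain ⟨g, -, hg⟩ := ((hS.mono (le_inf hS.le h2) inf_le_left).inf_normal inf_le_right).exists_conj_mem
    (mi (mi h3.1 (le_normalizer h3)) h3) (k := 1)
    (by rw [pow_one, ← (cy_three ab ac bc).orderOf, pow_orderOf_eq_one])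
  have h4 := three_conj (cy_three ab ac bc) g
  obtain ⟨y, hy⟩ := three_exists h4
  obtain ⟨t, ht, rfl⟩ := mem_orb.1 (of_not_not fun h => hy ((mi2 hg).2 y h))
  refine ⟨_, mul_mem (mul_mem (inv_mem ht) (mi1 hg)) (inv_mem (inv_mem ht)), three_conj h4 _, ?_⟩
  rwa [inv_inv, mul_apply, mul_apply, Ne, inv_eq_iff_eq]

include hS in
theorem supp_eq {c d : Perm α} (hc : c ∈ S) (hc' : IsThreeCycle c) (hd : d ∈ S)
    (hd' : IsThreeCycle d) {x : α} (h1 : c x ≠ x) (h2 : d x ≠ x) (y : α) : c y ≠ y ↔ d y ≠ y := by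
  obtain ⟨Y, hcY, hY⟩ := exists_maxAlt (altOn_support_le hc' hc) hc'.card_support.ge
  have h3 : Y.card ≤ 3 := by
    by_contra hn
    obtain ⟨a, ha, b, hb, c, hc, d, hd, ab, ac, ad, bc, bd, cd⟩ :=
      Finset.three_lt_card.1 (not_le.1 hn)
    have h4 : swap a b * swap c d ∈ altOn Y := ⟨by simp [ab, cd], fun x hx => by
      simp only [mul_apply, swap_apply_def]; grind⟩
    obtain ⟨k, hk⟩ := isPGroup_iff_mem.1 hS.pgrp _ (hY.le h4)
    have h5 : (swap a b * swap c d) ^ 2 = 1 := by
      ext y; simp only [sq, mul_apply, swap_apply_def, one_apply]; grind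
    have h6 := pow_gcd_eq_one.2 ⟨h5, hk⟩
    rw [Nat.Coprime.pow_right k (by norm_num), pow_one] at h6
    have := DFunLike.congr_fun h6 a
    simp only [mul_apply, swap_apply_def, one_apply] at this
    grind
  rw [← mem_support, ← mem_support, Finset.eq_of_subset_of_card_le hcY (hc'.card_support ▸ h3),
    Finset.eq_of_subset_of_card_le (hY.support_subset hd' hd (hcY (mem_support.2 h1)) h2)
      (hd'.card_support ▸ h3)]

include hn hS hM hSM hmax hf in
theorem card_le_three {Y : Finset α} (hY : altOn Y ≤ M) : Y.card ≤ 3 := by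
  by_contra h4
  let r : α → α → Prop := fun x y => ∃ c ∈ S, IsThreeCycle c ∧ c x ≠ x ∧ c y ≠ y
  have h1 : alternatingGroup α ⊓ relStab r ≤ M := by
    refine hmax _ (le_relStab ?_) fun h => ?_
    · rintro s hs x y ⟨c, hc, hc', hx, hy⟩
      exact ⟨_, mul_mem (mul_mem hs hc) (inv_mem hs), three_conj hc' s, by simpa using hx,
        by simpa using hy⟩
    · obtain ⟨a, -⟩ := exists_notMem ([] : List α) (by simp; omega)
      obtain ⟨c, hc, hc', ha⟩ := exists_three hS hf a
      obtain ⟨-, h3, h4, h5, h6⟩ := three_eq_cy hc' ha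
      obtain ⟨z, hz⟩ := exists_notMem [a, c a, c (c a)] (by simp; omega)
      obtain ⟨d, hd, hd', h7, h8⟩ := (h (cy_three (a := c a) (b := z) (c := c (c a)) (by grind)
        (by grind) (by grind)).mem_alternatingGroup a (c a)).2 ⟨c, hc, hc', ha, h5.symm⟩
      rw [show cy (c a) z (c (c a)) a = a by simp only [cy_apply, swap_apply_def]; grind] at h7
      rw [show cy (c a) z (c (c a)) (c a) = z by simp only [cy_apply, swap_apply_def]; grind,
        supp_eq hS hd hd' hc hc' h7 ha, ← mem_support, h6] at h8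
      grind
  have h2 : ∀ t : Perm α, (∀ x, t (t x) = x) → ∀ c ∈ S, IsThreeCycle c → ∀ d ∈ S, IsThreeCycle d →
      (∀ x, c x ≠ x → d (t x) ≠ t x) → (∀ x, d x ≠ x → c (t x) ≠ t x) →
      (∀ x, c x = x → d x = x → t x = x) → t ∈ relStab r := by
    intro t ht c hc hc' d hd hd' e1 e2 e3
    have : ∀ x y, r x y → r (t x) (t y) := by
      rintro x y ⟨b, hb, hb', hx, hy⟩
      by_cases h5 : c x = x
      · by_cases h6 : d x = x
        · have h7 : c y = y := of_not_not fun h => (supp_eq hS hb hb' hc hc' hy h x).1 hx h5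
          have h8 : d y = y := of_not_not fun h => (supp_eq hS hb hb' hd hd' hy h x).1 hx h6
          exact ⟨b, hb, hb', by rwa [e3 x h5 h6], by rwa [e3 y h7 h8]⟩
        · exact ⟨c, hc, hc', e2 x h6, e2 y ((supp_eq hS hb hb' hd hd' hx h6 y).1 hy)⟩
      · exact ⟨d, hd, hd', e1 x h5, e1 y ((supp_eq hS hb hb' hc hc' hx h5 y).1 hy)⟩
    exact fun x y => ⟨fun h => by simpa [ht] using this _ _ h, this x y⟩
  obtain ⟨Z, h3, hZ⟩ := exists_maxAlt hY (by omega)
  refine hM (altOn_univ.ge.trans ((altOn_mono fun z _ => ?_).trans hZ.le))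
  by_contra hz
  obtain ⟨a, ha⟩ := Finset.card_pos.1 (show 0 < Z.card by have := hZ.three; omega)
  obtain ⟨c, hc, hc', hca⟩ := exists_three hS hf a
  obtain ⟨d, hd, hd', hdz⟩ := exists_three hS hf z
  have h5 := hZ.support_subset hc' (hSM hc) ha hca
  have h6 : ∀ x ∈ Z, x ∉ d.support := fun x hx h =>
    hz (hZ.support_subset hd' (hSM hd) hx (mem_support.1 h) (mem_support.2 hdz))
  obtain ⟨a', ha', ha''⟩ := Finset.exists_mem_notMem_of_card_lt_card
    (show c.support.card < Z.card by
      have := Finset.card_le_card h3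
      rw [hc'.card_support]; omega)
  obtain ⟨-, c1, c2, c3, c4⟩ := three_eq_cy hc' hca
  obtain ⟨-, d1, d2, d3, d4⟩ := three_eq_cy hd' hdz
  have c5 : ∀ x, c x ≠ x ↔ x ∈ ({a, c a, c (c a)} : Finset α) := fun x => by rw [← c4, mem_support]
  have d5 : ∀ x, d x ≠ x ↔ x ∈ ({z, d z, d (d z)} : Finset α) := fun x => by rw [← d4, mem_support]
  have c6 : ∀ x, c x = x ↔ x ∉ ({a, c a, c (c a)} : Finset α) := fun x => by rw [← c5, not_not]
  have d6 : ∀ x, d x = x ↔ x ∉ ({z, d z, d (d z)} : Finset α) := fun x => by rw [← d5, not_not]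
  rw [c4] at h5 ha''
  rw [d4] at h6
  simp only [Finset.insert_subset_iff, Finset.singleton_subset_iff] at h5
  have h7 := h6 _ h5.1
  have h8 := h6 _ h5.2.1
  have h9 := h6 _ h5.2.2
  have h10 := h6 _ ha'
  generalize c (c a) = e at *
  generalize c a = b at *
  generalize d (d z) = v at *
  generalize d z = u at *
  simp only [Finset.mem_insert, Finset.mem_singleton] at *
  have g1 := h2 (swap a z * swap b u * swap e v) (fun x => by
    simp only [mul_apply, swap_apply_def]; grind) c hc hc' d hd hd'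
    (fun x => by simp only [c5, d5, mul_apply, swap_apply_def]; grind)
    (fun x => by simp only [c5, d5, mul_apply, swap_apply_def]; grind)
    (fun x => by simp only [c6, d6, mul_apply, swap_apply_def]; grind)
  have g2 := h2 (swap a b) (swap_apply_self a b) c hc hc' c hc hc'
    (fun x => by simp only [c5, swap_apply_def]; grind)
    (fun x => by simp only [c5, swap_apply_def]; grind)
    (fun x => by simp only [c6, swap_apply_def]; grind)
  have g3 := hZ.apply_mem (h1 (mi (by
    simp [c1, show a ≠ z by grind, show b ≠ u by grind, show e ≠ v by grind]) (mul_mem g1 g2))) ha'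
    (by simp only [mul_apply, swap_apply_def]; grind) h5.2.1
  simp only [mul_apply, swap_apply_def] at g3
  grind

include hn hS hM hSM hmax in
theorem main : Fintype.card α = 6 ∨ Fintype.card α = 9 ∨
    ∃ a, 2 ≤ a ∧ Fintype.card α = 3 ^ a + 1 := by
  by_cases hf : ∀ x, ∃ s ∈ S, s x ≠ x
  swap
  · push Not at hf
    exact Or.inr (Or.inr (fixed hn hS hM hmax hf.choose_spec))
  obtain ⟨x, -⟩ := exists_notMem ([] : List α) (by simp; omega)
  obtain ⟨k, hk⟩ := card_orb_pow hS x
  by_cases ht : ∀ y, y ∈ orb S x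
  · refine Or.inr (Or.inl ?_)
    obtain ⟨s, hs, hx⟩ := hf x
    obtain ⟨T, h1, h2, h3⟩ := CfH1.exists_relIndex_prime_ge hS.pgrp
      (Q := MulAction.stabilizer _ x ⊓ S) (lt_of_le_of_ne inf_le_right fun h => hx (mi1 (h.ge hs)))
    have h4 := CfH1.le_Nm_of_relIndex_prime hS.pgrp h2 h3
    have h5 : (orb T x).card * 3 = (orb S x).card := by
      rw [card_orb, card_orb, ← h3, ← inf_relIndex_right (MulAction.stabilizer _ x) S,
        ← relIndex_mul_relIndex _ _ _ h1 h2, ← inf_relIndex_right (MulAction.stabilizer _ x) T,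
        le_antisymm (inf_le_inf_left _ h2) (le_inf inf_le_left h1)]
    rw [Finset.eq_univ_of_forall ht, Finset.card_univ] at hk h5
    have h6 : (orb T x).card ≤ 3 := by
      refine card_le_three hn hS hM hSM hmax hf (le_trans (fun g hg => mi hg.1 fun y z => ?_)
        (hmax (relStab fun y z => z ∈ orb T y) (le_relStab fun s hs y z h => ?_) fun h => ?_))
      · have key : ∀ y z, z ∈ orb T y → (y ∈ orb T x ↔ z ∈ orb T x) := fun y z h => by
          obtain ⟨t, ht, rfl⟩ := mem_orb.1 h
          exact ⟨orb_inv t ht y, fun h => by simpa using orb_inv _ (inv_mem ht) _ h⟩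
        have key2 : ∀ y z, y ∈ orb T x → z ∈ orb T x → z ∈ orb T y := fun y z h h' => by
          obtain ⟨t, ht, rfl⟩ := mem_orb.1 h
          obtain ⟨t', ht', rfl⟩ := mem_orb.1 h'
          exact mem_orb.2 ⟨t' * t⁻¹, mul_mem ht' (inv_mem ht), by simp⟩
        have := hg.2 y
        have := hg.2 z
        have := hg.2 (g y)
        have := hg.2 (g z)
        have := g.injective.eq_iff (a := g y) (b := y)
        have := g.injective.eq_iff (a := g z) (b := z)
        have := key y z
        have := key (g y) (g z)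
        have := key2 y z
        have := key2 (g y) (g z)
        grind
      · obtain ⟨t, ht, rfl⟩ := mem_orb.1 h
        exact mem_orb.2 ⟨_, conj_mem_of_mem_normalizer (h4 hs) ht, by simp⟩
      · obtain ⟨z, -, hz⟩ := Finset.exists_mem_notMem_of_card_lt_card
          (show (orb T x).card < (Finset.univ : Finset α).card by rw [Finset.card_univ]; omega)
        obtain ⟨y, hy, hy'⟩ := Finset.exists_mem_ne (show 1 < (orb T x).card by omega) x
        obtain ⟨w, hw⟩ := exists_notMem [x, y, z] (by simp; omega)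
        have := self_mem_orb T x
        have := (h (cy_three (a := y) (b := z) (c := w) (by grind) (by grind)
          (by grind)).mem_alternatingGroup x y).2 hy
        simp only [cy_apply, swap_apply_def] at this
        grind
    have : k < 3 := (Nat.pow_lt_pow_iff_right (by norm_num)).1 (show 3 ^ k < 3 ^ 3 by omega)
    interval_cases k <;> omega
  · push Not at ht
    obtain ⟨y, hy⟩ := ht
    obtain ⟨h1, h2⟩ := altOn_le hn hmax orb_inv (self_mem_orb S x) hy
    have h3 := card_le_three hn hS hM hSM hmax hf h1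
    have h4 := card_le_three hn hS hM hSM hmax hf h2
    have h5 : ∀ Y : Finset α, (∀ s ∈ S, ∀ y ∈ Y, s y ∈ Y) → ∀ y ∈ Y, 3 ≤ Y.card := by
      intro Y hY y hy
      obtain ⟨c, hc, hc', h⟩ := exists_three hS hf y
      rw [← hc'.card_support, (three_eq_cy hc' h).2.2.2.2]
      refine Finset.card_le_card ?_
      have := hY c hc y hy
      have := hY c hc _ this
      grind
    have h6 := h5 _ orb_inv x (self_mem_orb S x)
    have h7 := h5 (orb S x)ᶜ (fun s hs z hz => Finset.mem_compl.2 fun h => Finset.mem_compl.1 hz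
      (by simpa using orb_inv _ (inv_mem hs) _ h)) y (Finset.mem_compl.2 hy)
    have := Finset.card_add_card_compl (orb S x)
    omega

/-- Let X be a finite 3-minimal group (a Sylow 3-subgroup is not normal and lies in a unique maximal subgroup) whose generalized Fitting subgroup is isomorphic to an alternating group of degree n ≥ 5. Then X = F*(X), and n = 6, n = 9, or n = 3ᵃ + 1 for some a ≥ 2. -/
theorem result {X : Type*} [Group X] [Finite X] (hX : Cfsg.IsPMinimal 3 X) (n : ℕ) (hn : 5 ≤ n) (hF : Nonempty (↥(Cfsg.generalizedFittingSubgroup X) ≃* ↥(alternatingGroup (Fin n)))) : Cfsg.generalizedFittingSubgroup X = ⊤ ∧ (n = 6 ∨ n = 9 ∨ ∃ a : ℕ, 2 ≤ a ∧ n = 3 ^ a + 1) := by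
  obtain ⟨e⟩ := hF
  obtain ⟨S⟩ : Nonempty (Sylow 3 X) := inferInstance
  obtain ⟨hS, M, ⟨hM, hSM⟩, hu⟩ := hX S
  have hle : ∀ H : Subgroup X, (S : Subgroup X) ≤ H → H ≠ ⊤ → H ≤ M := fun H h1 h2 =>
    ((eq_top_or_exists_le_coatom H).resolve_left h2).elim fun K hK =>
      hu K ⟨hK.1, h1.trans hK.2⟩ ▸ hK.2
  have h1 : ∀ x : X, x ^ 4 ∈ generalizedFittingSubgroup X := fun x => by
    obtain ⟨g, hg⟩ := aut_pow_four (by simpa using hn) (MulAut.congr e (MulAut.conjNormal x))
    have h2 : ((e.symm g : generalizedFittingSubgroup X) : X)⁻¹ * x ^ 4 ∈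
        Cz(generalizedFittingSubgroup X) := mem_centralizer_of_conj_eq fun y hy => by
      rw [← map_pow, ← map_pow] at hg
      have := congrArg (fun z => (e.symm z : X)) (DFunLike.congr_fun hg (e ⟨y, hy⟩))
      simp only [MulAut.congr_apply, MulEquiv.trans_apply, MulEquiv.symm_apply_apply,
        MulAut.conjNormal_apply, MulAut.conj_apply, map_mul, map_inv, Subgroup.coe_mul,
        Subgroup.coe_inv] at this
      rw [mul_inv_rev, inv_inv, mul_assoc, mul_assoc, ← mul_assoc y, ← mul_assoc (x ^ 4),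
        ← mul_assoc (x ^ 4), this]
      group
    exact (mul_mem_cancel_left (inv_mem (e.symm g).2)).1 (centralizer_fstar_le h2)
  have h2 : generalizedFittingSubgroup X = ⊤ := by
    by_contra h
    have h3 : (S : Subgroup X) ≤ generalizedFittingSubgroup X := fun s hs => by
      obtain ⟨k, hk⟩ := isPGroup_iff_mem.1 S.isPGroup' s hs
      have h4 := pow_gcd_eq_one.2 ⟨(QuotientGroup.eq_one_iff _).2 (h1 s),
        show (s : X ⧸ generalizedFittingSubgroup X) ^ 3 ^ k = 1 by
          rw [← QuotientGroup.mk_pow, hk, QuotientGroup.mk_one]⟩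
      rwa [Nat.Coprime.pow_right k (by norm_num), pow_one, QuotientGroup.eq_one_iff] at h4
    refine hM.1 (top_le_iff.1 ?_)
    rw [← ((sylIn_top S).mono h3 le_top).frattini_sup le_normalizer_of_normal le_top]
    exact sup_le (hle _ h3 h) (inf_le_right.trans
      (hle _ le_normalizer fun h => hS (normalizer_eq_top_iff.1 h)))
  refine ⟨h2, ?_⟩
  let e' : X ≃* alternatingGroup (Fin n) := (topEquiv.symm.trans (MulEquiv.subgroupCongr h2.symm)).trans e
  let f := (alternatingGroup (Fin n)).subtype.comp e'.toMonoidHom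
  have hf : Function.Injective f := (subtype_injective _).comp e'.injective
  have hA : (⊤ : Subgroup X).map f = alternatingGroup (Fin n) := by
    rw [← map_map, map_top_of_surjective _ e'.surjective, map_subtype_top]
  have := main (S := (S : Subgroup X).map f) (M := M.map f) (by simpa using hn)
    (hA ▸ (sylIn_top S).map f)
    (fun h => hM.1 (top_le_iff.1 ((map_le_map_iff_of_injective hf).1 (hA.le.trans h))))
    (map_mono hSM) fun H h1 h2 => by
      rw [← hA]
      rintro _ ⟨⟨x, -, rfl⟩, hx⟩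
      refine mem_map_of_mem f (hle (H.comap f) (map_le_iff_le_comap.1 h1) (fun h => h2 ?_) hx)
      rw [← hA, map_le_iff_le_comap, h]
  simpa using this

end Cfsg.Agent.S2930
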