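import Cfsg.Statements.S2932
import Cfsg.Agent.H2.NatSyl
import Cfsg.Agent.H2.GL42
import Cfsg.Agent.H3.SL2Basic
import Cfsg.Agent.OD.Pre

set_option autoImplicit false
open Cfsg

namespace Cfsg.Agent.S2932

open Subgroup CfH9 CfH8 CfH2 Matrix
open scoped MatrixGroups

theorem exists_alt8 {X : Type*} [Group X] {F : Type*} [Field F] [Fintype F] [CharP F 2]
    (hF : Fintype.card F = 4) {V L G S U : Subgroup X} {D : NatD F V L} (c : NCtx 2 D G S U) :
    ∃ f : G →* alternatingGroup (Fin 8), Function.Injective f := by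
  let := ZMod.algebra F 2
  have h1 : Module.finrank (ZMod 2) (Fin 2 → F) = 4 := by
    have := Module.card_eq_pow_finrank (K := ZMod 2) (V := Fin 2 → F)
    rw [Fintype.card_fun, hF, ZMod.card, Fintype.card_fin] at this
    exact (Nat.pow_right_injective le_rfl (this.symm.trans (by norm_num : 4 ^ 2 = 2 ^ 4)))
  let b := Module.finBasisOfFinrankEq (ZMod 2) (Fin 2 → F) h1
  let ψ : G →* Module.End (ZMod 2) (Fin 2 → F) :=
    { toFun := fun g => (AddMonoidHom.mk' (aut D g) (aut_add (c.hGV g.2))).toZModLinearMap 2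
      map_one' := LinearMap.ext fun x => aut_one x
      map_mul' := fun g h => LinearMap.ext fun x => aut_mul (c.hGV g.2) (c.hGV h.2) x }
  refine exists_hom_alt8 ((LinearMap.toMatrixAlgEquiv b).toMonoidHom.comp ψ)
    ((LinearMap.toMatrixAlgEquiv b).injective.comp fun g h e => Subtype.ext ?_)
  exact c.eq_of_aut g.2 h.2 fun x => LinearMap.congr_fun e x

theorem four {X : Type*} [Group X] [Finite X] {F : Type*} [Field F] [Fintype F] [CharP F 2]
    (hF : Fintype.card F = 4) {V L G S U : Subgroup X} {D : NatD F V L} (c : NCtx 2 D G S U)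
    (hS : Nat.card S = 8) : G ≤ Nm(L) ∨ Nonempty (G ≃* alternatingGroup (Fin 7)) := by
  obtain ⟨f, hf⟩ := exists_alt8 hF c
  have eL : L ≃* SL(2, F) := MulEquiv.ofBijective D.ρ ⟨D.ρ_injective c.hLf, D.surj⟩
  have hL : Nat.card L = 60 := by rw [Nat.card_congr eL.toEquiv, CfH3.card_SL2 hF]; rfl
  have hsimp : IsSimpleGroup L := by
    have := Matrix.ProjectiveSpecialLinearGroup.rank_two_simple (F := F) (by simp [hF])
    have e2 : SL(2, F) ≃* PSL(2, F) := MulEquiv.ofBijective (QuotientGroup.mk' _)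
      ⟨(injective_iff_map_eq_one _).2 fun g hg => by
        rcases CfH3.psl2_mk_eq_one_iff.1 hg with h | h
        · exact h
        · rw [h]
          ext i j
          simp [CharTwo.neg_eq], QuotientGroup.mk'_surjective _⟩
    exact (eL.trans e2).isSimpleGroup
  have hsimp' : ∀ A : Subgroup X, A ≤ L → L ≤ Nm(A) → A = ⊥ ∨ A = L := fun A h1 h2 => by
    rcases ((normal_subgroupOf_iff_le_normalizer h1).2 h2).eq_bot_or_eq_top with h | h
    · exact Or.inl ((subgroupOf_eq_bot.1 h).eq_bot_of_le h1)
    · exact Or.inr (le_antisymm h1 (subgroupOf_eq_top.1 h))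
  have hA : Nat.card (alternatingGroup (Fin 8)) = 8 * 2520 := by
    have := two_mul_nat_card_alternatingGroup (α := Fin 8)
    rw [Nat.card_perm, Nat.card_fin, show Nat.factorial 8 = 40320 from rfl] at this
    omega
  have hG : Nat.card G ∣ 2520 := by
    have h1 : Nat.card G ∣ 8 * 2520 := hA ▸ card_dvd_of_injective f hf
    rw [← card_mul_relIndex c.syl.le, hS] at h1 ⊢
    have h2 : Nat.Coprime (S.relIndex G) (2 ^ 3) :=
      ((Nat.Prime.coprime_iff_not_dvd Nat.prime_two).2 c.syl.not_dvd_relIndex).symm.pow_right 3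
    exact Nat.mul_dvd_mul_left 8 (h2.dvd_of_dvd_mul_left
      (Nat.dvd_of_mul_dvd_mul_left (by norm_num) h1 : _ ∣ 2 ^ 3 * 315))
  set N := G ⊓ Nm(L) with hN
  have hN1 : 120 ∣ Nat.card N := by
    have h1 : 60 ∣ Nat.card N := hL ▸ card_dvd_of_le (le_inf c.hLG le_normalizer : L ≤ N)
    have h2 : 8 ∣ Nat.card N := hS ▸ card_dvd_of_le (le_inf c.syl.le c.hSL : S ≤ N)
    exact Nat.lcm_dvd h1 h2
  let K := (N.subgroupOf G).normalCore.map G.subtype
  have hKN : K ≤ N := (map_mono (normalCore_le _)).trans (map_subgroupOf_eq_of_le inf_le_left).le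
  have hGK : G ≤ Nm(K) := (normal_subgroupOf_iff_le_normalizer (map_subtype_le _)).1 (by
    rw [show K.subgroupOf G = _ from comap_map_eq_self_of_injective G.subtype_injective _]
    infer_instance)
  have hGle := Nat.le_of_dvd (by norm_num) hG
  rcases hsimp' (L ⊓ K) inf_le_left fun l hl => mem_Nm_inf (le_normalizer hl) (hGK (c.hLG hl))
    with h | h
  · have h1 := card_mul_card_le (le_inf c.hLG le_normalizer : L ≤ N) hKN
    have h2 : Nat.card N * N.relIndex G = Nat.card G := card_mul_relIndex inf_le_left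
    by_cases hG1 : Nat.card G = 2520
    · exact Or.inr (equiv_alt7_of_inj_alt8 f hf hG1)
    by_cases hN2 : N.relIndex G = 1
    · exact Or.inl ((relIndex_eq_one.1 hN2).trans inf_le_right)
    exfalso
    obtain ⟨a, ha⟩ := hN1
    obtain ⟨b, hb⟩ := hG
    have h3 : a * N.relIndex G * b = 21 := by
      rw [← h2, ha] at hb
      exact Nat.eq_of_mul_eq_mul_left (by norm_num : 0 < 120) (by linarith)
    have hb1 : b ≠ 1 := by rintro rfl; omega
    have h4 : a = 1 ∧ (N.relIndex G = 3 ∨ N.relIndex G = 7) := by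
      have h5 : b ≤ 21 := Nat.le_of_dvd (by norm_num) (Dvd.intro_left _ h3)
      have h6 : N.relIndex G ≤ 21 :=
        Nat.le_of_dvd (by norm_num) ((Dvd.intro_left _ rfl).trans (Dvd.intro _ h3))
      generalize N.relIndex G = m at *
      interval_cases b <;> interval_cases m <;> omega
    rw [h, hL, ha, h4.1, card_bot] at h1
    have hK : K = ⊥ := by
      refine eq_bot_iff.2 (c.hf ▸ le_inf (hKN.trans inf_le_left) (D.le_Cz (p := 2) ?_
        (hKN.trans (inf_le_left.trans c.hGV)) (c.hLG.trans hGK)))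
      have h5 : 0 < Nat.card K := Nat.card_pos
      have h6 : Nat.card K ≤ 2 := by omega
      interval_cases h7 : Nat.card K
      · exact IsPGroup.of_card (n := 0) h7
      · exact IsPGroup.of_card (n := 1) h7
    rw [map_eq_bot_iff_of_injective _ G.subtype_injective] at hK
    rw [ha, h4.1] at h2
    rcases h4.2 with h5 | h5
    · obtain ⟨φ, hφ⟩ := CfH3.exists_inj_perm _ hK h5
      have := Nat.card_le_card_of_injective φ hφ
      rw [Nat.card_perm, Nat.card_fin, show Nat.factorial 3 = 6 from rfl] at this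
      omega
    · obtain ⟨φ, hφ⟩ := CfH3.exists_inj_perm _ hK h5
      exact not_inj_perm7 φ hφ (by omega)
  · refine Or.inl fun g hg => ?_
    have h1 : cj g L ≤ K := (cj_mono g (h.ge.trans inf_le_right)).trans
      (cj_eq_of_mem_normalizer (hGK hg)).le
    have h2 : L ≤ Nm(cj g L) := by
      rw [← cj_normalizer, le_cj_iff]
      exact ((cj_mono _ (h.ge.trans inf_le_right)).trans
        (cj_eq_of_mem_normalizer (hGK (inv_mem hg))).le).trans (hKN.trans inf_le_right)
    rcases hsimp' (L ⊓ cj g L) inf_le_left fun l hl => mem_Nm_inf (le_normalizer hl) (h2 hl)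
      with h3 | h3
    · have h4 := card_mul_card_le c.hLG (h1.trans (hKN.trans inf_le_left))
      rw [h3, card_cj, hL, card_bot] at h4
      omega
    · exact mem_normalizer_iff_cj.2
        (eq_of_le_of_card_ge (h3.ge.trans inf_le_right) (card_cj g L).le).symm

/-- Let p be a prime. Inside a finite ambient group let V be an elementary abelian p-subgroup and G a subgroup normalizing V and acting faithfully on it (G ∩ C(V) = 1), and let L ≤ G act on V as SL₂(F) on its natural module, F a finite field of characteristic p, with L ≅ SL₂(F). If every Sylow p-subgroup of N_G(L) is a Sylow p-subgroup of G, then either L is normal in G, or F has 4 elements and G is isomorphic to the alternating group of degree 7. -/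
theorem result {X : Type*} [Group X] [Finite X] {p : ℕ} [Fact p.Prime] (F : Type) [Field F] [Fintype F] [CharP F p] (V G L : Subgroup X) (hV : Cfsg.IsElementaryAbelian p V) (hGV : G ≤ Subgroup.normalizer (V : Set X)) (hfaith : G ⊓ Subgroup.centralizer (V : Set X) = ⊥) (hLG : L ≤ G) (hnat : Cfsg.IsNaturalSL2Module F V L) (hLiso : Nonempty (↥L ≃* Matrix.SpecialLinearGroup (Fin 2) F)) (hSyl : ∀ S : Sylow p ↥(G ⊓ Subgroup.normalizer (L : Set X)), ∀ P : Sylow p ↥G, Nat.card S = Nat.card P) : (L.subgroupOf G).Normal ∨ (Fintype.card F = 4 ∧ Nonempty (↥G ≃* ↥(alternatingGroup (Fin 7)))) := by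
  obtain ⟨S, hS⟩ := exists_sylIn p (G ⊓ Nm(L))
  obtain ⟨T, hT⟩ := exists_sylIn p G
  have hSG : SylIn p S G := hT.of_card_le hS.pgrp (hS.le.trans inf_le_left) (by
    have := hSyl hS.toSylow hT.toSylow
    rw [hS.coe_toSylow, hT.coe_toSylow, card_subgroupOf hS.le, card_subgroupOf hT.le] at this
    exact this.ge)
  obtain ⟨D, hD⟩ := exists_natD_std hnat
    (hS.inf_normal' inf_le_right (le_inf hLG le_normalizer))
  have c : NCtx p D G S (S ⊓ L) := ⟨hGV, hfaith, hLG, hSG, hS.le.trans inf_le_right, rfl, hD⟩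
  rw [normal_subgroupOf_iff_le_normalizer hLG]
  by_cases h2 : (2 : F) = 0
  · obtain rfl : p = 2 := (Nat.prime_dvd_prime_iff_eq Fact.out Nat.prime_two).1
      ((CharP.cast_eq_zero_iff F p 2).1 h2)
    rcases c.stCl_or with h | ⟨h, h'⟩
    · exact Or.inl (c.le_Nm_of_stCl h)
    · exact (four h c h').imp id fun e => ⟨h, e⟩
  · exact Or.inl (c.le_Nm_of_stCl (c.stCl_of_two_ne h2))

end Cfsg.Agent.S2932
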