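import Cfsg.Statements.S2955
import Cfsg.Agent.OD.Pre
import Cfsg.Agent.H9.SylowControl

set_option autoImplicit false
open Cfsg

namespace Cfsg.Agent.S2955
open Subgroup CfH9 CfH7
open scoped commutatorElement


/-- Let p be a prime dividing the order of the finite group G and 𝓕 a conjugation-closed family of subgroups that controls Sylow p-intersections in G. Suppose the Sylow p-subgroups of G are chain-connected: any two of them are joined by a chain of Sylow p-subgroups, consecutive ones distinct with nontrivial intersection, all containing the intersection of the two ends (equivalently, the graph on the Sylow p-subgroups whose edges are the distinct pairs meeting nontrivially is connected). Then for every Sylow p-subgroup S, G is generated by N_G(S) together with the members of 𝓕 that meet S in a Sylow p-subgroup of themselves. -/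
theorem result {G : Type*} [Group G] [Finite G] (p : ℕ) [Fact p.Prime] (hdiv : p ∣ Nat.card G)
    (𝓕 : Set (Subgroup G)) (h𝓕 : Cfsg.IsNormalSet 𝓕) (hc : Cfsg.ControlsSylowIntersections p 𝓕)
    (hconn : Cfsg.IsSylowChainConnected p G) (S : Sylow p G) :
    (⨆ X ∈ Cfsg.sylowMembers p 𝓕 (S : Subgroup G), X) ⊔ Subgroup.normalizer ((S : Subgroup G) : Set G) = ⊤ := by
  refine eq_top_of_csi h𝓕 (csi_top_iff.1 hc) hconn (sylIn_top S) le_sup_right fun Y hY h => ?_
  exact le_trans (le_biSup (fun X : Subgroup G => X) (mem_sylowMembers.2 ⟨hY, h⟩)) le_sup_left

end Cfsg.Agent.S2955
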