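import Cfsg.Statements.S2958
import Cfsg.Agent.OD.Pre

set_option autoImplicit false
open Cfsg

namespace Cfsg.Agent.S2958

/-- Let X, A, B be subgroups of a group G such that G is generated by the conjugates of X and every conjugate of X is contained in A or in B. Then A = G or B = G. -/
theorem result {G : Type*} [Group G] (X A B : Subgroup G) (hgen : (⨆ g : G, X.map (MulAut.conj g).toMonoidHom) = ⊤) (hcover : ∀ g : G, X.map (MulAut.conj g).toMonoidHom ≤ A ∨ X.map (MulAut.conj g).toMonoidHom ≤ B) : A = ⊤ ∨ B = ⊤ := by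
  by_contra hne
  push Not at hne
  obtain ⟨hA, hB⟩ := hne
  -- some conjugate is not in `A`, some conjugate is not in `B`
  have hmap : ∀ g h : G, (X.map (MulAut.conj g).toMonoidHom).map (MulAut.conj h).toMonoidHom
      = X.map (MulAut.conj (h * g)).toMonoidHom := by
    intro g h
    rw [Subgroup.map_map]
    congr 1
    ext x
    simp [mul_assoc]
  have hconj : ∀ (C : Subgroup G) (h : G), h ∈ C → ∀ g : G,
      X.map (MulAut.conj g).toMonoidHom ≤ C → X.map (MulAut.conj (h * g)).toMonoidHom ≤ C := by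
    intro C h hh g hg
    rw [← hmap]
    rintro _ ⟨y, hy, rfl⟩
    have := hg hy
    simpa using C.mul_mem (C.mul_mem hh this) (C.inv_mem hh)
  -- the join `B'` of the conjugates not in `A` is normalised by `A`, and lies in `B`
  let B' : Subgroup G := ⨆ g : {g : G // ¬ X.map (MulAut.conj g).toMonoidHom ≤ A},
    X.map (MulAut.conj g.1).toMonoidHom
  have hB'B : B' ≤ B := iSup_le fun g => (hcover g.1).resolve_left g.2
  have hnorm : ∀ h : G, h ∈ A → B'.map (MulAut.conj h).toMonoidHom ≤ B' := by
    intro h hh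
    simp only [B', Subgroup.map_iSup]
    refine iSup_le fun g => ?_
    rw [hmap]
    have : ¬ X.map (MulAut.conj (h * g.1)).toMonoidHom ≤ A := by
      intro hle
      apply g.2
      have := hconj A h⁻¹ (A.inv_mem hh) _ hle
      simpa using this
    exact le_iSup (fun g : {g : G // ¬ X.map (MulAut.conj g).toMonoidHom ≤ A} =>
      X.map (MulAut.conj g.1).toMonoidHom) ⟨h * g.1, this⟩
  have hAn : A ≤ Subgroup.normalizer (B' : Set G) := by
    intro h hh
    rw [Subgroup.mem_normalizer_iff]
    intro x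
    constructor
    · intro hx
      exact hnorm h hh ⟨x, hx, by simp⟩
    · intro hx
      have := hnorm h⁻¹ (A.inv_mem hh) ⟨_, hx, rfl⟩
      simpa [mul_assoc] using this
  have htop : Subgroup.normalizer (B' : Set G) = ⊤ := by
    rw [eq_top_iff, ← hgen]
    refine iSup_le fun g => ?_
    by_cases hg : X.map (MulAut.conj g).toMonoidHom ≤ A
    · exact hg.trans hAn
    · exact (le_iSup (fun g : {g : G // ¬ X.map (MulAut.conj g).toMonoidHom ≤ A} =>
        X.map (MulAut.conj g.1).toMonoidHom) ⟨g, hg⟩).trans Subgroup.le_normalizer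
  have hN : B'.Normal := Subgroup.normalizer_eq_top_iff.mp htop
  obtain ⟨g₀, hg₀⟩ : ∃ g : G, ¬ X.map (MulAut.conj g).toMonoidHom ≤ A := by
    by_contra h
    push Not at h
    exact hA (eq_top_iff.mpr (hgen ▸ iSup_le h))
  apply hB
  rw [eq_top_iff, ← hgen]
  refine iSup_le fun g => le_trans ?_ hB'B
  have h0 : X.map (MulAut.conj g₀).toMonoidHom ≤ B' :=
    le_iSup (fun g : {g : G // ¬ X.map (MulAut.conj g).toMonoidHom ≤ A} =>
        X.map (MulAut.conj g.1).toMonoidHom) ⟨g₀, hg₀⟩
  have : g = (g * g₀⁻¹) * g₀ := by simp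
  rw [this, ← hmap]
  rintro _ ⟨y, hy, rfl⟩
  simpa [mul_assoc] using hN.conj_mem y (h0 hy) (g * g₀⁻¹)

end Cfsg.Agent.S2958
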