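import Cfsg.Statements.S2963
import Cfsg.Agent.OD.Pre


set_option autoImplicit false
open Cfsg

namespace Cfsg.Agent.S2963


/-- Let n be odd. If the symmetric group of degree n is a minimal parabolic group for the prime 2, that is, a Sylow 2-subgroup is not normal and lies in exactly one maximal subgroup, then n = 2^m + 1 for some natural number m. -/
theorem result (n : ℕ) (hn : Odd n) (h : Cfsg.IsPMinimal 2 (Equiv.Perm (Fin n))) : ∃ m : ℕ, n = 2 ^ m + 1 := by
  classical
  obtain ⟨S⟩ : Nonempty (Sylow 2 (Equiv.Perm (Fin n))) := inferInstance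
  obtain ⟨hnn, M, -, hM⟩ := h S
  have hS : IsPGroup 2 (S : Subgroup (Equiv.Perm (Fin n))) := S.2
  obtain ⟨pt, hpt⟩ : (MulAction.fixedPoints (S : Subgroup (Equiv.Perm (Fin n))) (Fin n)).Nonempty := by
    apply hS.nonempty_fixed_point_of_prime_not_dvd_card
    rw [Nat.card_eq_fintype_card, Fintype.card_fin]
    exact hn.not_two_dvd_nat
  by_cases h1 : ∀ d : Fin n, d = pt
  · exfalso
    have : Subsingleton (Fin n) := ⟨fun a b => by rw [h1 a, h1 b]⟩
    exact hnn ⟨fun a ha g => by rwa [Subsingleton.elim (g * a * g⁻¹) a]⟩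
  push Not at h1
  obtain ⟨d, hd⟩ := h1
  have : Nontrivial (Fin n) := ⟨⟨d, pt, hd⟩⟩
  have hA : IsCoatom (MulAction.stabilizer (Equiv.Perm (Fin n)) pt) :=
    MulAction.IsPreprimitive.isCoatom_stabilizer_of_isPreprimitive _ pt
  have hSA : (S : Subgroup (Equiv.Perm (Fin n))) ≤ MulAction.stabilizer (Equiv.Perm (Fin n)) pt :=
    fun s hs => hpt ⟨s, hs⟩
  set D := MulAction.orbit (S : Subgroup (Equiv.Perm (Fin n))) d with hD
  have hptD : pt ∉ D := by
    rintro ⟨s, hs⟩
    apply hd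
    have h2 : s⁻¹ • pt = pt := hpt s⁻¹
    rw [← h2, ← hs, inv_smul_smul]
  by_cases h2 : ∀ q, q ≠ pt → q ∈ D
  · obtain ⟨m, hm⟩ := hS.card_orbit d
    refine ⟨m, ?_⟩
    have : D = {pt}ᶜ := by
      ext q
      exact ⟨fun hq hq' => hptD (by rwa [Set.mem_singleton_iff.1 hq'] at hq), fun hq => h2 q hq⟩
    rw [← hD, this, Nat.card_coe_set_eq, Set.ncard_compl, Set.ncard_singleton, Nat.card_eq_fintype_card,
      Fintype.card_fin] at hm
    have := hn.pos
    omega
  push Not at h2
  obtain ⟨q, hq, hqD⟩ := h2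
  exfalso
  have hdD : d ∈ D := MulAction.mem_orbit_self d
  let B : Subgroup (Equiv.Perm (Fin n)) :=
    { carrier := {g | ∀ a, g a ∈ D ↔ a ∈ D}
      one_mem' := fun a => Iff.rfl
      mul_mem' := fun {g g'} hg hg' a => (hg _).trans (hg' a)
      inv_mem' := fun {g} hg a => by rw [← hg]; simp }
  have hSB : (S : Subgroup (Equiv.Perm (Fin n))) ≤ B := by
    intro s hs a
    constructor
    · rintro ⟨t, ht⟩
      refine ⟨(⟨s, hs⟩ : (S : Subgroup (Equiv.Perm (Fin n))))⁻¹ * t, ?_⟩
      have ht' : t • d = (⟨s, hs⟩ : (S : Subgroup (Equiv.Perm (Fin n)))) • a := ht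
      show (_ * t) • d = a
      rw [mul_smul, ht', inv_smul_smul]
    · rintro ⟨t, ht⟩
      refine ⟨(⟨s, hs⟩ : (S : Subgroup (Equiv.Perm (Fin n)))) * t, ?_⟩
      have ht' : t • d = a := ht
      show (_ * t) • d = _
      rw [mul_smul, ht']; rfl
  have hB : B ≠ ⊤ := by
    intro hB
    have : Equiv.swap pt d ∈ B := hB ▸ Subgroup.mem_top _
    have := this pt
    rw [Equiv.swap_apply_left] at this
    exact hptD (this.1 hdD)
  obtain ⟨M', hM', hBM⟩ := (eq_top_or_exists_le_coatom B).resolve_left hB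
  have e1 := hM _ ⟨hM', hSB.trans hBM⟩
  have e2 := hM _ ⟨hA, hSA⟩
  have hsw : Equiv.swap pt q ∈ B := by
    intro a
    by_cases ha : a = pt
    · subst ha; rw [Equiv.swap_apply_left]; exact iff_of_false hqD hptD
    by_cases ha' : a = q
    · subst ha'; rw [Equiv.swap_apply_right]; exact iff_of_false hptD hqD
    rw [Equiv.swap_apply_of_ne_of_ne ha ha']
  have := hBM hsw
  rw [e1, ← e2, MulAction.mem_stabilizer_iff, Equiv.Perm.smul_def, Equiv.swap_apply_left] at this
  exact hq this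

end Cfsg.Agent.S2963
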