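import Cfsg.Statements.S2998
import Cfsg.Agent.OD.Pre
import Cfsg.Agent.H9.Isolated

set_option autoImplicit false
open Cfsg

namespace Cfsg.Agent.S2998
open Subgroup CfH9 CfH7
open scoped commutatorElement


/-- Let G be a finite group, p a prime, P a Sylow p-subgroup of G and x ∈ P an element such that N_G(R) ≤ C_G(x) for every nontrivial subgroup R of P. Then P ≤ C_G(x); every G-conjugate of x lying in P equals x (so g ∈ C_G(x) whenever g x g⁻¹ ∈ P); and for every normal subgroup N of G, the image of x in G ⧸ N has the same property with respect to the image of P: the normalizer of every nontrivial subgroup of the image of P centralizes the image of x. -/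
theorem result {G : Type*} [Group G] [Finite G] {p : ℕ} [Fact p.Prime] (P : Sylow p G) (x : G) (hxP : x ∈ (P : Subgroup G)) (hlc : ∀ R : Subgroup G, R ≤ (P : Subgroup G) → R ≠ ⊥ → Subgroup.normalizer (R : Set G) ≤ Subgroup.centralizer ({x} : Set G)) : (P : Subgroup G) ≤ Subgroup.centralizer ({x} : Set G) ∧ (∀ g : G, g * x * g⁻¹ ∈ (P : Subgroup G) → g * x * g⁻¹ = x) ∧ ∀ (N : Subgroup G) [N.Normal], ∀ R : Subgroup (G ⧸ N), R ≤ (P : Subgroup G).map (QuotientGroup.mk' N) → R ≠ ⊥ → Subgroup.normalizer (R : Set (G ⧸ N)) ≤ Subgroup.centralizer ({(QuotientGroup.mk x : G ⧸ N)} : Set (G ⧸ N)) := by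
  by_cases hx1 : x = 1
  · subst hx1
    refine ⟨fun g _ => mem_Cx.2 (by simp), fun g _ => by simp, fun N _ R _ _ g _ => mem_Cx.2 (by simp)⟩
  have hP1 : (P : Subgroup G) ≠ ⊥ := ne_bot_of_mem hxP hx1
  have h1 : (P : Subgroup G) ≤ Cx(x) := le_normalizer.trans (hlc P le_rfl hP1)
  have h2 : ∀ g : G, g * x * g⁻¹ ∈ (P : Subgroup G) → g * x * g⁻¹ = x := by
    intro g hg
    have hc : CtrlFus ⊤ (P : Subgroup G) Cx(x) ∨ True := Or.inr trivial
    have := alperin_ind (sylIn_top P) (fun Q g => Q ≠ ⊥ → g ∈ Cx(x))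
      (fun Q Q' g h _ _ _ h' hQ' => h' (ne_bot_of_le h hQ'))
      (fun Q g h _ _ _ _ _ h1 h2 hQ => mul_mem (h2 (cj_ne_bot hQ)) (h1 hQ))
      (fun Q hQ _ _ n _ hn hQ1 => hlc Q hQ hQ1 hn)
      (zpowers x) (by simpa using hxP) g (mem_top g) (by rw [cj_zpowers]; simpa using hg)
      (zpowers_ne_bot' hx1)
    exact mem_Cx'.1 this
  refine ⟨h1, h2, fun N _ R hR hR1 g hg => ?_⟩
  obtain ⟨g, rfl⟩ := QuotientGroup.mk'_surjective N g
  have hs := (sylIn_top P).inf_normal (N := ⊤) le_normalizer_of_normal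
  have hmap : ((P : Subgroup G) ⊓ R.comap (QuotientGroup.mk' N)).map (QuotientGroup.mk' N) = R := by
    rw [map_inf_comap']; exact inf_eq_right.2 hR
  have hA : SylIn p ((P : Subgroup G) ⊓ R.comap (QuotientGroup.mk' N))
      (R.comap (QuotientGroup.mk' N)) := by
    have hK : R.comap (QuotientGroup.mk' N) ≤ N ⊔ (P : Subgroup G) := by
      have := comap_mono (f := QuotientGroup.mk' N) hR
      rwa [comap_map_eq, QuotientGroup.ker_mk', sup_comm] at this
    have hNK : N ≤ R.comap (QuotientGroup.mk' N) := fun n hn => by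
      rw [mem_comap, QuotientGroup.mk'_apply, (QuotientGroup.eq_one_iff n).2 hn]; exact one_mem _
    have e : R.comap (QuotientGroup.mk' N) = N ⊔ ((P : Subgroup G) ⊓ R.comap (QuotientGroup.mk' N)) := by
      rw [← inf_sup_dedekind (Or.inr le_normalizer_of_normal) hNK, inf_eq_right.2 hK]
    refine sylIn_of_not_dvd inf_le_right P.2.to_inf_left fun hd => ?_
    have h3 := (sylIn_inf_normal P N).not_dvd_relIndex
    apply h3
    have h4 := card_sup_mul_card_inf (A := (P : Subgroup G) ⊓ R.comap (QuotientGroup.mk' N))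
      (B := N) le_normalizer_of_normal
    rw [sup_comm, ← e, inf_assoc, inf_eq_right.2 hNK,
      ← card_mul_relIndex (inf_le_right : (P : Subgroup G) ⊓ R.comap (QuotientGroup.mk' N) ≤ _),
      ← card_mul_relIndex (inf_le_right : (P : Subgroup G) ⊓ N ≤ N), mul_assoc,
      Nat.mul_right_inj Nat.card_pos.ne', mul_comm, Nat.mul_right_inj Nat.card_pos.ne'] at h4
    rwa [← h4]
  obtain ⟨n, hn, y, hy, rfl⟩ := hA.frattini (g := g) (le_normalizer_comap _ hg)
  have hyx := hlc _ inf_le_left (fun e => hR1 (by rw [← hmap, e, Subgroup.map_bot])) hy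
  rw [map_mul]
  refine mul_mem ?_ (mem_Cx.2 ?_)
  · obtain ⟨s, hs, he⟩ := hR (mem_comap.1 hn)
    rw [← he, mem_Cx]
    exact congrArg (QuotientGroup.mk' N) (mem_Cx.1 (h1 hs))
  · exact congrArg (QuotientGroup.mk' N) (mem_Cx.1 hyx)

end Cfsg.Agent.S2998
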