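import Cfsg.Statements.S2999
import Cfsg.Agent.OD.Pre
import Cfsg.Agent.H7.Bridge

set_option autoImplicit false
set_option linter.unusedVariables false
open Cfsg

namespace Cfsg.Agent.S2999

open Subgroup CfH7 CfH9
open scoped commutatorElement


open scoped MatrixGroups

theorem lin {P : Type*} [Group P] [Finite P] {W : Type*} [AddCommGroup W] [Finite W]
    [DistribMulAction P W] [FaithfulSMul P W] {p : ℕ} [Fact p.Prime] (hp : ∀ w : W, p • w = 0)
    {T M A : Subgroup P} (hT : SylIn p T ⊤) (hM : MinOver T ⊤ M) (hAT : A ≤ T)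
    (hA : IsElementaryAbelian p A) (h0 : Nat.card W ≤ lm W A)
    (hs : ∀ B, B ≤ A → B ≠ ⊥ → B ≠ A → lm W B < lm W A) (hz : ¬ fx W T ≤ fx W (⊤ : Subgroup P))
    (hg : ∀ x, x ∉ M → A ⊔ cj x A = ⊤) :
    ∃ (F : Type) (_ : Field F) (_ : Fintype F), Fintype.card F = Nat.card A ∧
      (∃ ρ ψ, NatD W F (⊤ : Subgroup P) A ρ ψ ∧ Function.Injective ρ) ∧
      fx W A = cm W A ⊔ fx W (⊤ : Subgroup P) := by
  obtain ⟨b1, b2⟩ := BestL.quad hp hA h0 hs
  have h : SLH W p T ⊤ M A :=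
    ⟨hT, hM, hAT, fun x _ hx => by rw [hg x hx, top_sup_eq], b2, b1 _ inf_le_left, hz⟩
  obtain ⟨r1, r2, r3⟩ := h.rt h0 hs
  obtain ⟨x, -, hx⟩ := h.ex
  obtain ⟨F, _, _, hF, -⟩ := exists_field_card (hT.pgrp.to_le hAT) r1.ne
  have := h.nat hp le_rfl r1 r2 r3 (x := x) (by rw [hg x hx]; trivial) hx
    (by rw [hg x hx, top_sup_eq]) F hF
  rw [hg x hx] at this
  refine ⟨F, _, _, hF, this, le_antisymm ?_ (sup_le r1.cm_le (fx_anti le_top))⟩
  have := (h.opp le_rfl r1.ne r2 r3 trivial hx).fx_le_sup r1 (r1.cj x) (card_cj _ _).le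
  rwa [hg x hx] at this

/-- Let p be a prime and let P and V be subgroups of a finite group with V elementary abelian, P normalizing V and acting faithfully on it (P ∩ C(V) = 1). Suppose P is p-minimal (a Sylow p-subgroup T of P is not normal and lies in a unique maximal subgroup M of P) and A ≤ T is an elementary abelian subgroup such that: |V/C_V(A)| ≤ |A| while |A₀|·|C_V(A₀)| < |A|·|C_V(A)| for every nontrivial proper subgroup A₀ of A; [C_V(T), P] ≠ 1; and P = ⟨A, xAx⁻¹⟩ for every x ∈ P outside M. Then, with q = |A|, there is a field F with q elements such that P ≅ SL₂(F), C_V(A) = [V, A]·C_V(P), and P acts on V/C_V(P) as SL₂(F) on its natural two-dimensional module. -/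
theorem result {G : Type*} [Group G] [Finite G] {p : ℕ} [Fact p.Prime] (V P : Subgroup G) (hV : Cfsg.IsElementaryAbelian p V) (hPV : P ≤ Subgroup.normalizer (V : Set G)) (hfaith : P ⊓ Subgroup.centralizer (V : Set G) = ⊥) (hmin : Cfsg.IsPMinimal p ↥P) (T : Sylow p ↥P) (M : Subgroup ↥P) (hM : IsCoatom M) (hTM : (T : Subgroup ↥P) ≤ M) (A : Subgroup G) (hAT : A ≤ ((T : Subgroup ↥P).map P.subtype)) (hAel : Cfsg.IsElementaryAbelian p A) (hi : Nat.card ↥V ≤ Nat.card ↥A * Nat.card ↥(V ⊓ Subgroup.centralizer ((A : Subgroup G) : Set G)) ∧ ∀ A₀ : Subgroup G, A₀ ≤ A → A₀ ≠ ⊥ → A₀ ≠ A → Nat.card ↥A₀ * Nat.card ↥(V ⊓ Subgroup.centralizer ((A₀ : Subgroup G) : Set G)) < Nat.card ↥A * Nat.card ↥(V ⊓ Subgroup.centralizer ((A : Subgroup G) : Set G))) (hii : ⁅(V ⊓ Subgroup.centralizer ((((T : Subgroup ↥P).map P.subtype) : Subgroup G) : Set G)), P⁆ ≠ ⊥) (hiii : ∀ x : ↥P, x ∉ M → A ⊔ A.map (MulAut.conj (x : G)).toMonoidHom = P) : ∃ (F : Type)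 (_ : Field F) (_ : Fintype F), Fintype.card F = Nat.card ↥A ∧ Nonempty (↥P ≃* Matrix.SpecialLinearGroup (Fin 2) F) ∧ (V ⊓ Subgroup.centralizer ((A : Subgroup G) : Set G)) = ⁅V, A⁆ ⊔ (V ⊓ Subgroup.centralizer ((P : Subgroup G) : Set G)) ∧ Cfsg.ActsAsSL2OnSection F ⊤ P V (V ⊓ Subgroup.centralizer ((P : Subgroup G) : Set G)) := by
  obtain ⟨W, _, _, _, _, ι, h, hp⟩ := exists_br_id hV hPV hfaith
  have hAP : A ≤ P := hAT.trans (map_subtype_le _)
  have hlm : ∀ B : Subgroup P, lm W B =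
      Nat.card (B.map P.subtype) * Nat.card (V ⊓ Cz(B.map P.subtype) : Subgroup G) := fun B => by
    rw [lm, h.card_fx (rl_id B), CfH9.card_map_subtype]
  have eA : (A.subgroupOf P).map P.subtype = A := map_subgroupOf_eq_of_le hAP
  obtain ⟨M', hM'⟩ := (isPMinimal_iff (sylIn_top T)).1 hmin
  obtain rfl := hM'.eq_of_isCoatom hM hTM
  obtain ⟨F, _, _, hF, ⟨ρ, ψ, hn, hρ⟩, e⟩ := lin hp (A := A.subgroupOf P) (sylIn_top T) hM'
    (fun a ha => by
      obtain ⟨t, ht, e⟩ := hAT ha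
      obtain rfl : t = a := Subtype.ext e
      exact ht)
    ⟨comm_subgroupOf hAel.1 P, fun a ha => Subtype.ext (hAel.2 a ha)⟩
    (by rw [hlm, eA, ← h.card_eq]; exact hi.1)
    (fun B h1 h2 h3 => by
      rw [hlm, hlm, eA]
      refine hi.2 _ (eA ▸ map_mono h1) (fun e => h2 ?_) fun e => h3 ?_
      · exact (map_eq_bot_iff_of_injective _ P.subtype_injective).1 e
      · exact map_injective P.subtype_injective (e.trans eA.symm))
    (fun e => hii (by rw [← h.am_fx (rl_id _), h.commutator_eq_bot_iff (rl_top P)]; exact e))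
    (fun x hx => map_injective P.subtype_injective (by
      rw [Subgroup.map_sup, map_cj, eA, map_subtype_top]; exact hiii x hx))
  refine ⟨F, _, _, by rw [hF, card_subgroupOf hAP], ⟨topEquiv.symm.trans (hn.equiv hρ).some⟩, ?_, ?_⟩
  · rw [← h.am_fx (rl_id' hAP), ← h.am_cm (rl_id' hAP), ← h.am_fx (rl_top P), ← am_sup, e]
  · have := h.natD (rl_top P) (top_sup_eq _) (le_st.2 fun _ _ _ _ => trivial) hn
    rwa [h.am_top] at this

end Cfsg.Agent.S2999
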