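import Cfsg.Statements.S3000
import Cfsg.Agent.OD.Pre
import Cfsg.Agent.H7.Bridge2

set_option autoImplicit false
set_option linter.unusedVariables false
open Cfsg

namespace Cfsg.Agent.S3000

open Subgroup CfH7 CfH9
open scoped commutatorElement


/-- Let p be a prime and let P and V be subgroups of a finite group with V elementary abelian, P normalizing V and acting faithfully on it (P ∩ C(V) = 1). Suppose P is p-minimal (a Sylow p-subgroup T of P is not normal and lies in a unique maximal subgroup M of P), O_p(P) = 1, C_P(C_V(T)) ≤ M, and P has a best offender on V: a subgroup A not centralizing V, with A/C_A(V) elementary abelian, such that |B|·|C_V(B)| ≤ |A|·|C_V(A)| for every subgroup B of A. Then there are subgroups E₁, …, E_r of P (r ≥ 1), pairwise commuting and forming with T a product P = (E₁ × ⋯ × E_r)T (internal direct product of the E_i), any two of which are conjugate by an element of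 T, such that V = C_V(E₁⋯E_r)·∏[V, E_i] with [V, E_i, E_j] = 1 for i ≠ j, and for each i there is n ≥ 1 with either E_i ≅ SL₂(pⁿ) acting on [V, E_i]/C_{[V,E_i]}(E_i) as on its natural two-dimensional module, or p = 2 and E_i isomorphic to the symmetric group of degree 2ⁿ + 1 acting on [V, E_i]/C_{[V,E_i]}(E_i) as on its even-weight permutation module. -/
theorem result {G : Type*} [Group G] [Finite G] {p : ℕ} [Fact p.Prime] (V P : Subgroup G) (hV : Cfsg.IsElementaryAbelian p V) (hPV : P ≤ Subgroup.normalizer (V : Set G)) (hfaith : P ⊓ Subgroup.centralizer (V : Set G) = ⊥) (hmin : Cfsg.IsPMinimal p ↥P) (T : Sylow p ↥P) (M : Subgroup ↥P) (hM : IsCoatom M) (hTM : (T : Subgroup ↥P) ≤ M) (hOp : Cfsg.pCore p ↥P = ⊥) (hoff : ∃ A : Subgroup G, A ≤ P ∧ ¬ A ≤ Subgroup.centralizer (V : Set G) ∧ Cfsg.IsBestOffenderOn p V A) (hCT : P ⊓ Subgroup.centralizer ((V ⊓ Subgroup.centralizer ((((T : Subgroup ↥P).map P.subtype)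 : Subgroup G) : Set G)) : Set G) ≤ M.map P.subtype) : ∃ (r : ℕ) (E : Fin r → Subgroup G), 1 ≤ r ∧ (∀ i, E i ≤ P) ∧ (∀ i j, i ≠ j → ⁅E i, E j⁆ = ⊥) ∧ (∀ i, E i ⊓ (⨆ j ∈ {j | j ≠ i}, E j) = ⊥) ∧ (⨆ i, E i) ⊔ ((T : Subgroup ↥P).map P.subtype) = P ∧ (∀ i j, ∃ t ∈ ((T : Subgroup ↥P).map P.subtype), (E i).map (MulAut.conj t).toMonoidHom = E j) ∧ (V ⊓ Subgroup.centralizer (((⨆ i, E i) : Subgroup G) : Set G)) ⊔ (⨆ i, ⁅V, E i⁆) = V ∧ (∀ i j, i ≠ j → ⁅⁅V, E i⁆, E j⁆ = ⊥) ∧ ∀ i, ∃ n : ℕ, 1 ≤ n ∧ ((∃ (F : Type) (_ : Field F) (_ : Fintype F), Fintype.card F = p ^ n ∧ Nonempty (↥(E i) ≃* Matrix.SpecialLinearGroup (Fin 2) F) ∧ Cfsg.ActsAsSL2OnSection F ⊤ (E i) ⁅V, E i⁆ (⁅V, E i⁆ ⊓ Subgroup.centralizer ((E i : Subgroup G) : Set G))) ∨ (p = 2 ∧ Nonempty (↥(E i) ≃* Equiv.Perm (Fin (2 ^ n + 1))) ∧ Cfsg.ActsAsOddPermModuleOnSection (2 ^ n + 1) ⊤ (E i) ⁅V, E i⁆ (⁅V, E i⁆ ⊓ Subgroup.centralizer ((E i : Subgroup G) : Set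 G)))) := by
  obtain ⟨W, _, _, _, _, ι, h, hp⟩ := exists_br_id hV hPV hfaith
  obtain ⟨M', hM'⟩ := (isPMinimal_iff (sylIn_top T)).1 hmin
  obtain rfl := hM'.eq_of_isCoatom hM hTM
  have hz : ¬ fx W (T : Subgroup P) ≤ fx W (⊤ : Subgroup P) := fun e => by
    rw [← h.le_Cz_iff (rl_top P), h.am_fx (rl_id _)] at e
    refine hM.1 (top_unique fun x _ => ?_)
    obtain ⟨y, hy, e'⟩ := hCT (mi x.2 (e x.2))
    exact (Subtype.ext e' : y = x) ▸ hy
  obtain ⟨z, z1, z2⟩ := SetLike.not_le_iff_exists.1 hz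
  have pm : PM W p (T : Subgroup P) M z := ⟨hp, sylIn_top T, hM', hOp, z1, z2⟩
  obtain ⟨A, hA, hA', hb⟩ := hoff
  have r := rl_id' hA
  obtain ⟨-, -, E, -, d, -⟩ :=
    pm.exists_dec (h.elemAb r hb.2.1 hb.2.2) (h.ne_bot r hA') (h.le_lm r (best_ineq hb))
  obtain ⟨n, E', a1, a2, a3, a4, a5, a6, a7⟩ := d.family
  refine ⟨n, fun i => (E' i).map P.subtype, a1, fun i => map_subtype_le _, fun i j hne => ?_,
    fun i => ?_, ?_, fun i j => ?_, h.sup_family (fun i => rl_id _) a6,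
    fun i j hne => h.comm_comm (rl_id _) (rl_id _) (a2 i j hne), fun i => ?_⟩
  · rw [← map_commutator, comm_eq_bot_left.2 (le_Cz_of_cm (a2 i j hne) (a2 j i hne.symm)),
      Subgroup.map_bot]
  · have := congrArg (Subgroup.map P.subtype) (a3 i)
    rwa [Subgroup.map_inf _ _ _ P.subtype_injective, Subgroup.map_bot, Subgroup.map_iSup,
      iSup_congr fun j => Subgroup.map_iSup _ _] at this
  · rw [← Subgroup.map_iSup, ← Subgroup.map_sup, a4, top_unique (d.gen.ge.trans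
      (sup_le le_sup_right ((le_nclo _ _).trans le_sup_left))), map_subtype_top]
  · obtain ⟨t, ht, e⟩ := a5 i j
    exact ⟨t, ⟨t, ht, rfl⟩, by beta_reduce; rw [← e, map_cj]; rfl⟩
  · have key : ∀ {H : Type} [Group H] (σ : (E' i).map P.subtype →* H), Function.Surjective σ →
        σ.ker = (Cz(V)).subgroupOf _ → Nonempty ((E' i).map P.subtype ≃* H) := fun σ h1 h2 =>
      ⟨MulEquiv.ofBijective σ ⟨(injective_iff_map_eq_one σ).2 fun e he => Subtype.ext (mem_bot.1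
        (hfaith ▸ mi (map_subtype_le _ e.2) (h2.le he))), h1⟩⟩
    obtain ⟨n, hn, ⟨F, _, _, hF, ⟨σ, b1, b2⟩, b3⟩ | ⟨h0, ⟨σ, b1, b2⟩, b3⟩⟩ :=
      h.ct (rl_id _) (a7 i).1 (a7 i).2
    · exact ⟨n, hn, Or.inl ⟨F, _, _, hF, key σ b1 b2, b3⟩⟩
    · exact ⟨n, hn, Or.inr ⟨h0, key σ b1 b2, b3⟩⟩

end Cfsg.Agent.S3000
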