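import Cfsg.Statements.S3001
import Cfsg.Agent.OD.Pre
import Cfsg.Agent.H7.PMS5

set_option autoImplicit false
set_option linter.unusedVariables false
open Cfsg

namespace Cfsg.Agent.S3001

open Subgroup CfH7 CfH9
open scoped commutatorElement


/-- Let p be a prime and let P and V be subgroups of a finite group with V elementary abelian, P normalizing V and acting faithfully on it (P ∩ C(V) = 1). Suppose P is p-minimal (a Sylow p-subgroup is not normal and lies in a unique maximal subgroup), O_p(P) = 1, and P has a best offender on V (a subgroup A not centralizing V, with A/C_A(V) elementary abelian and |B|·|C_V(B)| ≤ |A|·|C_V(A)| for every B ≤ A). Then [C_V(T), P] ≠ 1 for every Sylow p-subgroup T of P. -/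
theorem result {G : Type*} [Group G] [Finite G] {p : ℕ} [Fact p.Prime] (V P : Subgroup G) (hV : Cfsg.IsElementaryAbelian p V) (hPV : P ≤ Subgroup.normalizer (V : Set G)) (hfaith : P ⊓ Subgroup.centralizer (V : Set G) = ⊥) (hmin : Cfsg.IsPMinimal p ↥P) (hOp : Cfsg.pCore p ↥P = ⊥) (hoff : ∃ A : Subgroup G, A ≤ P ∧ ¬ A ≤ Subgroup.centralizer (V : Set G) ∧ Cfsg.IsBestOffenderOn p V A) (T : Sylow p ↥P) : ⁅(V ⊓ Subgroup.centralizer ((((T : Subgroup ↥P).map P.subtype) : Subgroup G) : Set G)), P⁆ ≠ ⊥ := by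
  obtain ⟨W, _, _, _, _, ι, h, hp⟩ := exists_br_id hV hPV hfaith
  obtain ⟨M, hM⟩ := (isPMinimal_iff (sylIn_top T)).1 hmin
  obtain ⟨A, hA, hA', hb⟩ := hoff
  have r := rl_id' hA
  intro e
  rw [← h.am_fx (rl_id _), h.commutator_eq_bot_iff (rl_top P)] at e
  exact moves_fixed hp (sylIn_top T) hM hOp (h.elemAb r hb.2.1 hb.2.2) (h.ne_bot r hA')
    (h.le_lm r (best_ineq hb)) e

end Cfsg.Agent.S3001
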