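import Cfsg.Statements.S3003
import Cfsg.Agent.OD.Pre
import Cfsg.Agent.H7.PMin

set_option autoImplicit false
set_option linter.unusedVariables false
open Cfsg

namespace Cfsg.Agent.S3003

open Subgroup CfH7 CfH9
open scoped commutatorElement


/-- Let G be a finite group, p a prime and Q a large p-subgroup of G: C_G(Q) ≤ Q and N_G(U) ≤ N_G(Q) for every nontrivial subgroup U of C_G(Q). Let Q ≤ G₁ ≤ G, let R be a subgroup of order prime to p normalized by G₁, and let U ≤ G₁ be a p-subgroup. If U contains a nontrivial element which is G₁-conjugate to an element of Z(Q), then C_R(U) = 1. In particular, if U is elementary abelian of order at least p² and every maximal subgroup of U contains a nontrivial element G₁-conjugate into Z(Q), then R = 1. -/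
theorem result {G : Type*} [Group G] [Finite G] {p : ℕ} [Fact p.Prime] (Q : Subgroup G) (hQp : IsPGroup p ↥Q) (hlarge : Cfsg.IsLarge Q) (G₁ : Subgroup G) (hQG : Q ≤ G₁) (R : Subgroup G) (hR : (Nat.card ↥R).Coprime p) (hGR : G₁ ≤ Subgroup.normalizer (R : Set G)) (U : Subgroup G) (hUG : U ≤ G₁) (hUp : IsPGroup p ↥U) : ((∃ x ∈ U, x ≠ 1 ∧ ∃ g ∈ G₁, g * x * g⁻¹ ∈ Q ⊓ Subgroup.centralizer (Q : Set G)) → R ⊓ Subgroup.centralizer (U : Set G) = ⊥) ∧ (Cfsg.IsElementaryAbelian p U → p ^ 2 ≤ Nat.card ↥U → (∀ U₀ : Subgroup G, U₀ ≤ U → IsCoatom (U₀.subgroupOf U) → ∃ x ∈ U₀, x ≠ 1 ∧ ∃ g ∈ G₁, g * x * g⁻¹ ∈ Q ⊓ Subgroup.centralizer (Q : Set G)) → R = ⊥) := by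
  have key : ∀ U : Subgroup G, (∃ x ∈ U, x ≠ 1 ∧ ∃ g ∈ G₁, g * x * g⁻¹ ∈ Q ⊓ Cz(Q)) →
      R ⊓ Cz(U) = ⊥ := by
    rintro U ⟨x, hx, hx1, g, hg, hgx⟩
    have h1 : g * x * g⁻¹ ≠ 1 := fun e => hx1 (by simpa using e)
    have h2 : R ⊓ Cx(g * x * g⁻¹) ≤ R ⊓ Nm(Q) :=
      inf_le_inf_left _ (large_Cx_le_Nm hlarge hgx.2 h1)
    have h3 : R ⊓ Nm(Q) ≤ Cz(Q) := by
      rw [← comm_eq_bot_left, ← le_bot_iff,
        ← (disjoint_of_isPGroup_of_coprime hQp hR).eq_bot]
      exact le_inf (comm_le_right inf_le_right)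
        ((commutator_mono inf_le_left le_rfl).trans (comm_le_left (hQG.trans hGR)))
    have h4 : R ⊓ Cx(g * x * g⁻¹) = ⊥ := le_bot_iff.mp
      ((le_inf ((h2.trans h3).trans hlarge.1) inf_le_left).trans
        (disjoint_of_isPGroup_of_coprime hQp hR).le_bot)
    rw [← cj_Cx, ← cj_eq_of_mem_normalizer (hGR hg), ← cj_inf, cj_eq_bot_iff] at h4
    exact le_bot_iff.mp ((inf_le_inf_left _ (Cz_le_Cx hx)).trans h4.le)
  refine ⟨key U, fun hel hcard hmax => le_bot_iff.mp (CfH8.le_of_cocyclic hel.1 (hUG.trans hGR)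
    (CfH8.coprime_card_of_isPGroup' hUp hR).symm fun B hB hB' => ?_)⟩
  obtain ⟨a, ha, hBa⟩ := hB'
  have hne : U ≠ ⊥ := by
    rintro rfl
    rw [Subgroup.card_bot] at hcard
    have := (Fact.out : p.Prime).two_le
    nlinarith
  suffices h : ∃ U₀, U₀ ≤ B ∧ IsCoatom (U₀.subgroupOf U) by
    obtain ⟨U₀, h1, h2⟩ := h
    exact (inf_le_inf_left _ (Cz_anti h1)).trans (key U₀ (hmax U₀ (h1.trans hB) h2)).le
  rcases hB.eq_or_lt with e | e
  · obtain ⟨M, hM, -⟩ := CfH1.exists_isCoatom_ge (H := (⊥ : Subgroup U))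
      (fun e => hne (by
        have := congrArg (Subgroup.map U.subtype) e
        rwa [Subgroup.map_bot, map_subtype_top, eq_comm] at this))
    exact ⟨M.map U.subtype, (map_subtype_le _).trans e.ge, by rwa [subgroupOf_map_subtype_self]⟩
  · refine ⟨B, le_rfl, CfH1.isCoatom_of_index_prime ?_⟩
    have h1 : zpowers a ≤ Nm(B) := ((zpowers_le.mpr ha).trans
      ((elemAb_le_Cz hel).trans (Cz_anti hB))).trans (Cz_le_Nm _)
    have h2 : U = B ⊔ zpowers a := le_antisymm hBa (sup_le hB (zpowers_le.mpr ha))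
    have h3 : B.relIndex U ∣ p := by
      have h4 := card_sup_dvd_of_le_normalizer h1
      rw [sup_comm, ← h2, ← relIndex_mul_card hB, Nat.card_zpowers] at h4
      exact (Nat.dvd_of_mul_dvd_mul_right Nat.card_pos h4).trans (orderOf_dvd_of_pow_eq_one (hel.2 a ha))
    rcases (Nat.dvd_prime Fact.out).mp h3 with h5 | h5
    · exact absurd (relIndex_eq_one.mp h5) e.not_ge
    · change (B.relIndex U).Prime
      rw [h5]; exact Fact.out

end Cfsg.Agent.S3003
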