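import Cfsg.Statements.S3008
import Cfsg.Agent.OD.Pre
import Cfsg.Agent.L.CD2
import Cfsg.Agent.OD.Leadx8029d20fe1

set_option autoImplicit false
open Cfsg

namespace Cfsg.Agent.S3008

/-- Let P be a finite p-group, with J(P) generated by its abelian subgroups of largest order and J̃(P) = C_P(Z(J(P))); call R ≤ P centrally large if |R|·|Z(R)| is as large as possible, and let P_MCL be generated by the minimal centrally large subgroups. Then: for every centrally large Q, Q·J(P) ⊇ J̃(P); some minimal centrally large subgroup of P is normalized by both J(P) and P_MCL; if P = J(P) and d(P)² = |P|·|Z(P)|, where d(P) is the largest order of an abelian subgroup, then every minimal centrally large subgroup of P is abelian; and if every minimal centrally large subgroup is abelian then J̃(P) = J(P). -/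
theorem result {p : ℕ} [Fact p.Prime] (P : Type*) [Group P] [Finite P] (hP : IsPGroup p P) : (∀ Q : Subgroup P, Cfsg.IsCentrallyLarge Q → Subgroup.centralizer ((Cfsg.thompsonSubgroupA P ⊓ Subgroup.centralizer (Cfsg.thompsonSubgroupA P : Set P) : Subgroup P) : Set P) ≤ Q ⊔ Cfsg.thompsonSubgroupA P) ∧ (∃ Q : Subgroup P, Cfsg.IsMinimalCentrallyLarge Q ∧ Cfsg.thompsonSubgroupA P ≤ Subgroup.normalizer (Q : Set P) ∧ Cfsg.minimalCentrallyLargeJoin P ≤ Subgroup.normalizer (Q : Set P)) ∧ (Cfsg.thompsonSubgroupA P = ⊤ → (∀ A ∈ Cfsg.maxAbelianSubgroups P, Nat.card ↥A ^ 2 = Nat.card P * Nat.card ↥(Subgroup.center P)) → ∀ Q : Subgroup P, Cfsg.IsMinimalCentrallyLarge Q → IsMulCommutative ↥Q) ∧ ((∀ Q : Subgroup P, Cfsg.IsMinimalCentrallyLarge Q → IsMulCommutative ↥Q) → Subgroup.centralizer ((Cfsg.thompsonSubgroupA P ⊓ Subgroup.centralizer (Cfsg.thompsonSubgroupA P : Set P) : Subgroup P) : Set P) = Cfsg.thompsonSubgroupA P) := by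
  haveI := hP.isNilpotent
  have h1 : ∀ Q : Subgroup P, Cfsg.IsCentrallyLarge Q → _ ≤ Q ⊔ Cfsg.thompsonSubgroupA P := fun Q hQ =>
    CfL.centralizer_center_thompson_le (CfL.cl_sup_thompson hQ) le_sup_right
  refine ⟨h1, CfL.exists_mcl_normalized_by_thompson, fun hJ hA Q hQ => ?_, fun h => ?_⟩
  · have htop : Cfsg.IsCentrallyLarge (⊤ : Subgroup P) := by
      have := CfL.cl_sup_thompson hQ.1
      rwa [hJ, sup_top_eq] at this
    obtain ⟨A, hA1⟩ := CfL.exists_maxAbelian (G := P)
    have hAcl : Cfsg.IsCentrallyLarge A := by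
      rw [CfL.cl_iff, ← CfL.cl_iff.mp htop, CfL.clm_of_comm hA1.1, ← sq, hA A hA1]
      simp [CfL.clm, Subgroup.centralizer_univ]
    obtain ⟨R, hR, hRm⟩ := CfL.exists_mcl_le hAcl
    have := CfL.isMulCommutative_of_le hA1.1 hR
    rw [CfL.isMulCommutative_iff_commutator_eq_bot] at this ⊢
    rw [CfL.mcl_commutator_eq hQ hRm, this]
  · obtain ⟨Q, hQ⟩ := CfL.exists_mcl (G := P)
    have hQJ : Q ≤ Cfsg.thompsonSubgroupA P :=
      le_sSup ((CfL.mcl_iff_maxAbelian hQ (h Q hQ) Q).mp hQ)
    refine le_antisymm ((h1 Q hQ.1).trans (sup_le hQJ le_rfl)) ?_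
    exact Subgroup.le_centralizer_iff.mp inf_le_right

end Cfsg.Agent.S3008
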