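import Cfsg.Statements.S3009
import Cfsg.Agent.OD.Pre
import Cfsg.Agent.H7.SL2Mod

set_option autoImplicit false
set_option linter.unusedVariables false
open Cfsg

namespace Cfsg.Agent.S3009

open Subgroup CfH7 CfH9
open scoped commutatorElement


/-- Let p be a prime and let G and V be subgroups of a finite group with V elementary abelian and normalized by G, and G isomorphic to SL₂(F) for a finite field F with pⁿ elements. Suppose G acts irreducibly and nontrivially on V by conjugation (no G-invariant subgroups of V other than 1 and V, and [V, G] ≠ 1), and let S be a Sylow p-subgroup of G and V₀ = C_V(S). If [V, S, S] = 1 or |V| ≤ |V₀|², then G acts on V as SL₂(F) on its natural two-dimensional module; in particular |V| = |F|². -/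
theorem result {X : Type*} [Group X] [Finite X] {p : ℕ} [Fact p.Prime] (G V : Subgroup X) (hV : Cfsg.IsElementaryAbelian p V) (hGV : G ≤ Subgroup.normalizer (V : Set X)) (F : Type) [Field F] [Fintype F] (n : ℕ) (hF : Fintype.card F = p ^ n) (hG : Nonempty (↥G ≃* Matrix.SpecialLinearGroup (Fin 2) F)) (hirr : ∀ U : Subgroup X, U ≤ V → G ≤ Subgroup.normalizer (U : Set X) → U = ⊥ ∨ U = V) (hnt : ⁅V, G⁆ ≠ ⊥) (S : Sylow p ↥G) (hyp : ⁅⁅V, (S : Subgroup ↥G).map G.subtype⁆, (S : Subgroup ↥G).map G.subtype⁆ = ⊥ ∨ Nat.card ↥V ≤ Nat.card ↥(V ⊓ Subgroup.centralizer (((S : Subgroup ↥G).map G.subtype : Subgroup X) : Set X)) ^ 2) : Cfsg.ActsAsSL2OnSection F ⊤ G V ⊥ := by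
  obtain ⟨e⟩ := hG
  obtain ⟨g, -, hg⟩ := ((sylIn_top S).map_surj (f := e.toMonoidHom) e.surjective).conj (sylIn_uH hF)
  let π : G →* Matrix.SpecialLinearGroup (Fin 2) F := (e.trans (MulAut.conj g)).toMonoidHom
  have hπ : Function.Bijective π := (e.trans (MulAut.conj g)).bijective
  obtain ⟨W, _, _, ι, h⟩ := exists_br hV.1 hGV π hπ.2 fun x hx => by
    rw [(injective_iff_map_eq_one π).1 hπ.1 x hx]; exact one_mem _
  haveI := h.finite
  have r1 : Rl π ((S : Subgroup G).map G.subtype) (uH F).range := by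
    have := rl_map π (map_subtype_le (S : Subgroup G))
    rwa [subgroupOf_map_subtype_self, show (S : Subgroup G).map π = (uH F).range by
      rw [← hg, cj_def, map_map]; rfl] at this
  have r2 : Rl π G ⊤ := ⟨le_rfl, fun _ _ => trivial, fun a _ => (hπ.2 a).imp fun x hx => ⟨x.2, hx⟩⟩
  have irr : ∀ Z : AddSubgroup W, (∀ (h : Matrix.SpecialLinearGroup (Fin 2) F), ∀ w ∈ Z, h • w ∈ Z) →
      Z ≠ ⊥ → Z = ⊤ := fun Z h1 h2 => by
    rw [← h.am_inj, h.am_top]
    refine (hirr _ (h.am_le Z) ((h.le_Nm_iff r2).2 (le_st.2 fun a _ => h1 a))).resolve_left ?_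
    rwa [← am_bot (ι := ι), h.am_inj]
  have hnt' : fx W (⊤ : Subgroup (Matrix.SpecialLinearGroup (Fin 2) F)) ≠ ⊤ := fun e' =>
    hnt (by rw [← h.am_top, h.commutator_eq_bot_iff r2]; exact e'.ge)
  have hb : fx W (⊤ : Subgroup (Matrix.SpecialLinearGroup (Fin 2) F)) = ⊥ := by
    by_contra e
    exact hnt' (irr _ (fun h w hw => by rwa [hw h trivial]) e)
  obtain ⟨ρ, ψ, h1, h2⟩ := sl2_natural hF (h.nsmul hV) irr hnt' (hyp.imp
    (fun e => by rwa [← h.am_cm r1, h.commutator_eq_bot_iff r1, cm_le_iff] at e)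
    fun e => by rwa [h.card_eq, h.card_fx r1] at e)
  have := h.sl2 r2 (top_sup_eq _) (le_st.2 fun _ _ _ _ => trivial) (ρ := ρ.comp (Subgroup.subtype ⊤))
    (ψ := ψ.toAddMonoidHom) (h1.comp fun a => ⟨⟨a, trivial⟩, rfl⟩) ψ.surjective
    (fun w => by rw [hb]; exact ψ.map_eq_zero_iff) fun e w => h2 e w
  rwa [h.am_top, ← h.am_fx r2, hb, am_bot] at this

end Cfsg.Agent.S3009
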