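import Cfsg.Statements.S3011
import Cfsg.Agent.OD.Pre
import Cfsg.Agent.H1.Sidki

set_option autoImplicit false
open Cfsg

namespace Cfsg.Agent.S3011

theorem mem_cases {G : Type*} [Group G] [Finite G] {V : Subgroup G} (h4 : Nat.card V ≤ 4)
    (h2 : ∀ a ∈ V, a ^ 2 = 1) {u t v : G} (hu : u ∈ V) (ht : t ∈ V) (hv : v ∈ V) (h1 : u ≠ 1)
    (h3 : t ≠ 1) (h5 : u ≠ t) : v = 1 ∨ v = u ∨ v = t ∨ v = t * u := by
  classical
  by_contra hc
  push Not at hc
  obtain ⟨c1, c2, c3, c4⟩ := hc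
  have e1 : t * u ≠ 1 := fun e => h5 (by
    have := h2 t ht
    rw [pow_two, ← e] at this
    exact (mul_left_cancel this).symm)
  have e2 : t * u ≠ u := by simpa using h3
  have e3 : t * u ≠ t := by simpa using h1
  have hs : ({v, 1, u, t, t * u} : Finset G).card = 5 := by
    rw [Finset.card_insert_of_notMem (by simp [c1, c2, c3, c4]),
      Finset.card_insert_of_notMem (by simp [h1.symm, h3.symm, e1.symm]),
      Finset.card_insert_of_notMem (by simp [h5, e2.symm]),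
      Finset.card_insert_of_notMem (by simp [e3.symm]), Finset.card_singleton]
  have hsub : (({v, 1, u, t, t * u} : Finset G) : Set G) ⊆ (V : Set G) := by
    intro x hx
    simp only [Finset.coe_insert, Finset.coe_singleton, Set.mem_insert_iff,
      Set.mem_singleton_iff] at hx
    rcases hx with rfl | rfl | rfl | rfl | rfl
    exacts [hv, V.one_mem, hu, ht, V.mul_mem ht hu]
  have := Set.ncard_le_ncard hsub (Set.toFinite _)
  rw [Set.ncard_coe_finset, hs] at this
  have e : (V : Set G).ncard = Nat.card V := rfl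
  omega

/-- Let G be a finite group and V a nontrivial elementary abelian 2-subgroup of G of order at most 4 such that, whenever an element of V inverts an element h of G of odd order, some nontrivial element of V commutes with h. Then V meets O₂(G) nontrivially. (The case of order at most 4 has a short argument from the Baer–Suzuki theorem.) -/
theorem result {G : Type*} [Group G] [Finite G] (V : Subgroup G) (hV : Cfsg.IsElementaryAbelian 2 V) (hV1 : V ≠ ⊥) (hS : Cfsg.IsSidkiPair V) (h4 : Nat.card V ≤ 4) : V ⊓ Cfsg.pCore 2 G ≠ ⊥ := by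
  open Subgroup CfH9 CfH1 in
  intro h0
  have hcomm : ∀ a ∈ V, ∀ b ∈ V, a * b = b * a := comm_iff.1 hV.1
  have key : ∀ t ∈ V, t ≠ 1 → ∃ a : G, a ≠ 1 ∧ Odd (orderOf a) ∧ t * a * t⁻¹ = a⁻¹ ∧
      ∃ u ∈ V, u ≠ 1 ∧ u ≠ t ∧ u * a = a * u := by
    intro t ht h1
    obtain ⟨a, ha, ho, e⟩ := exists_odd_inverted (hV.2 t ht) (fun h => h1 (by
      have : t ∈ V ⊓ pCore 2 G := ⟨ht, h⟩
      rwa [h0, mem_bot] at this))
    obtain ⟨u, hu, hu1, e2⟩ := hS a t ht ho e
    refine ⟨a, ha, ho, e, u, hu, hu1, fun h => ha (eq_one_of_odd_of_eq_inv ho ?_), e2⟩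
    rw [← e, ← h, e2]; group
  have hno : ∀ {w a : G}, a ≠ 1 → Odd (orderOf a) → w * a * w⁻¹ = a⁻¹ → w * a = a * w → False :=
    fun {w a} h1 ho e e2 => h1 (eq_one_of_odd_of_eq_inv ho (by rw [← e, e2]; group))
  obtain ⟨t, ht, ht1⟩ := exists_ne_one_of_ne_bot hV1
  obtain ⟨a, ha1, hao, hta, u, hu, hu1, hut, hua⟩ := key t ht ht1
  obtain ⟨b, hb1, hbo, hub, v, hv, hv1, hvu, hvb⟩ := key u hu hu1
  have hua' : u * a * u⁻¹ = a := by rw [hua]; group
  have hva : v * a * v⁻¹ = a⁻¹ := by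
    rcases mem_cases h4 hV.2 hu ht hv hu1 ht1 hut with h | h | h | h
    · exact absurd h hv1
    · exact absurd h hvu
    · rw [h, hta]
    · rw [h]
      calc t * u * a * (t * u)⁻¹ = t * (u * a * u⁻¹) * t⁻¹ := by group
        _ = a⁻¹ := by rw [hua', hta]
  have hv2 : v * v = 1 := by rw [← pow_two]; exact hV.2 v hv
  have hvi : v⁻¹ = v := inv_eq_of_mul_eq_one_right hv2
  have hvb' : v * b * v⁻¹ = b := by rw [hvb]; group
  -- conjugate `b` by `a`
  have hub2 : u * (a⁻¹ * b * a) * u⁻¹ = (a⁻¹ * b * a)⁻¹ := by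
    calc u * (a⁻¹ * b * a) * u⁻¹ = (u * a * u⁻¹)⁻¹ * (u * b * u⁻¹) * (u * a * u⁻¹) := by group
      _ = _ := by rw [hua', hub]; group
  have hbo2 : Odd (orderOf (a⁻¹ * b * a)) := by rwa [orderOf_conj'']
  have hb2 : a⁻¹ * b * a ≠ 1 := by
    intro h
    exact hb1 (by rw [← orderOf_eq_one_iff, ← orderOf_conj'' a b, h, orderOf_one])
  obtain ⟨w, hw, hw1, hwb⟩ := hS _ u hu hbo2 hub2
  have hCb : v ∈ Cx(b) := mem_Cx.2 hvb
  have hCw : a * w * a⁻¹ ∈ Cx(b) := by
    rw [mem_Cx]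
    calc a * w * a⁻¹ * b = a * (w * (a⁻¹ * b * a)) * a⁻¹ := by group
      _ = _ := by rw [hwb]; group
  rcases mem_cases h4 hV.2 hu hv hw hu1 hv1 hvu.symm with h | h | h | h
  · exact hw1 h
  · rw [h] at hwb
    exact hno hb2 hbo2 hub2 hwb
  · have e1 : a * w * a⁻¹ * v⁻¹ = a ^ 2 := by
      rw [h]
      calc a * v * a⁻¹ * v⁻¹ = a * (v * a * v⁻¹)⁻¹ := by group
        _ = _ := by rw [hva, inv_inv, pow_two]
    have e2 : a ^ 2 ∈ Cx(b) := e1 ▸ mul_mem hCw (inv_mem hCb)
    have e3 : Commute b a := commute_of_commute_sq hao (mem_Cx.1 e2).symm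
    have hodd : Odd (orderOf (b * a)) := (hbo.mul hao).of_dvd_nat e3.orderOf_mul_dvd_mul_orderOf
    have hinv : (v * u) * (b * a) * (v * u)⁻¹ = (b * a)⁻¹ := by
      calc (v * u) * (b * a) * (v * u)⁻¹ = v * ((u * b * u⁻¹) * (u * a * u⁻¹)) * v⁻¹ := by group
        _ = (v * b * v⁻¹)⁻¹ * (v * a * v⁻¹) := by rw [hub, hua']; group
        _ = (a * b)⁻¹ := by rw [hvb', hva]; group
        _ = _ := by rw [e3.eq]
    obtain ⟨s, hs, hs1, hsc⟩ := hS _ _ (mul_mem hv hu) hodd hinv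
    rcases mem_cases h4 hV.2 hu hv hs hu1 hv1 hvu.symm with h | h | h | h
    · exact hs1 h
    · refine hno hb1 hbo hub ?_
      rw [h] at hsc
      calc u * b = u * (b * a) * a⁻¹ := by group
        _ = b * (a * u) * a⁻¹ := by rw [hsc]; group
        _ = b * u := by rw [← hua]; group
    · refine hno ha1 hao hva ?_
      rw [h] at hsc
      calc v * a = b⁻¹ * (b * v) * a := by group
        _ = b⁻¹ * (v * (b * a)) := by rw [← hvb]; group
        _ = a * v := by rw [hsc]; group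
    · rw [h] at hsc
      by_cases hba : b * a = 1
      · refine hno hb1 hbo hub ?_
        rw [eq_inv_of_mul_eq_one_left hba]
        exact (show Commute u a from hua).inv_right.eq
      · exact hno hba hodd hinv hsc
  · have e1 : a * w * a⁻¹ * v⁻¹ = a ^ 2 * u := by
      rw [h, hcomm v hv u hu]
      calc a * (u * v) * a⁻¹ * v⁻¹ = a * u * (v * a * v⁻¹)⁻¹ := by group
        _ = a * (u * a) := by rw [hva, inv_inv]; group
        _ = _ := by rw [hua, pow_two]; group
    have e2 : a ^ 2 * u ∈ Cx(b) := e1 ▸ mul_mem hCw (inv_mem hCb)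
    have e3 : (a ^ 2 * u) ^ 2 = (a ^ 2) ^ 2 := by
      rw [((show Commute u a from hua).symm.pow_left 2).mul_pow, hV.2 u hu, mul_one]
    have e4 : (a ^ 2) ^ 2 ∈ Cx(b) := e3 ▸ pow_mem e2 2
    have e5 : Commute b (a ^ 2) :=
      commute_of_commute_sq (hao.of_dvd_nat (orderOf_pow_dvd 2)) (mem_Cx.1 e4).symm
    have e6 : u ∈ Cx(b) := (mul_mem_cancel_left (mem_Cx.2 e5.symm.eq)).1 e2
    exact hno hb1 hbo hub (mem_Cx.1 e6)

end Cfsg.Agent.S3011
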