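import Cfsg.Statements.S3012
import Cfsg.Agent.OD.Pre


set_option autoImplicit false
open Cfsg

namespace Cfsg.Agent.S3012

theorem comm_of_pow {G : Type*} [Group G] {w y : G} {n : ℕ} (hy : (orderOf y).Coprime n) (h : Commute w (y ^ n)) : Commute w y := by
  obtain ⟨m, hm⟩ := exists_pow_eq_self_of_coprime hy.symm
  rw [← hm]
  exact h.pow_right m

/-- Let G be a finite group, V a nontrivial elementary abelian 2-subgroup of G satisfying the Sidki pair condition (every odd-order element inverted by an element of V commutes with a nontrivial element of V), and K a normal subgroup of G with V ∩ K = 1. Then the image of V in G/K satisfies the Sidki pair condition in G/K. -/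
theorem result {G : Type*} [Group G] [Finite G] (V K : Subgroup G) [K.Normal] (hV : Cfsg.IsElementaryAbelian 2 V) (hV1 : V ≠ ⊥) (hS : Cfsg.IsSidkiPair V) (hVK : V ⊓ K = ⊥) : Cfsg.IsSidkiPair (V.map (QuotientGroup.mk' K)) := by
  rintro h _ ⟨v, hv, rfl⟩ ho hinv
  obtain ⟨h, rfl⟩ := QuotientGroup.mk'_surjective K h
  set π := QuotientGroup.mk' K with hπ
  have hv2 : v * v = 1 := by rw [← pow_two]; exact hV.2 v hv
  have hvi : v⁻¹ = v := inv_eq_of_mul_eq_one_right hv2
  set y := v * h⁻¹ * v⁻¹ * h with hy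
  have hyinv : v * y * v⁻¹ = y⁻¹ := by
    calc v * y * v⁻¹ = (v * v) * h⁻¹ * v⁻¹ * h * v⁻¹ := by rw [hy]; group
      _ = h⁻¹ * v * h * v⁻¹ := by rw [hv2, one_mul]; nth_rewrite 1 [hvi]; rfl
      _ = y⁻¹ := by rw [hy]; group
  have hπy : π y = π h ^ 2 := by
    have : π y = (π v * π h * (π v)⁻¹)⁻¹ * π h := by
      rw [hy]; simp only [map_mul, map_inv]; group
    rw [this, hinv, inv_inv, pow_two]
  have hpos : orderOf y ≠ 0 := (orderOf_pos y).ne'
  obtain ⟨a, m, hm, he⟩ := Nat.exists_eq_two_pow_mul_odd hpos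
  have hodd : Odd (orderOf (y ^ 2 ^ a)) := by
    refine hm.of_dvd_nat (orderOf_dvd_of_pow_eq_one ?_)
    rw [← pow_mul, ← he, pow_orderOf_eq_one]
  have hinv2 : v * y ^ 2 ^ a * v⁻¹ = (y ^ 2 ^ a)⁻¹ := by
    rw [← conj_pow, hyinv, inv_pow]
  obtain ⟨w, hw, hw1, hc⟩ := hS _ v hv hodd hinv2
  refine ⟨π w, ⟨w, hw, rfl⟩, fun h1 => hw1 ?_, ?_⟩
  · have : w ∈ V ⊓ K := ⟨hw, (QuotientGroup.eq_one_iff w).1 h1⟩
    rw [hVK] at this
    exact this
  · have h3 : Commute (π w) (π h ^ (2 ^ (a + 1))) := by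
      have := congrArg π hc
      rw [map_mul, map_mul, map_pow, hπy, ← pow_mul, ← pow_succ'] at this
      exact this
    exact comm_of_pow ((Nat.coprime_two_right.2 ho).pow_right _) h3

end Cfsg.Agent.S3012
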