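import Cfsg.Statements.S3013
import Cfsg.Agent.OD.Pre


set_option autoImplicit false
open Cfsg

namespace Cfsg.Agent.S3013

theorem comm_of_pow {G : Type*} [Group G] {w y : G} {n : ℕ} (hy : (orderOf y).Coprime n) (h : Commute w (y ^ n)) : Commute w y := by
  obtain ⟨m, hm⟩ := exists_pow_eq_self_of_coprime hy.symm
  rw [← hm]
  exact h.pow_right m

/-- Let G be a finite group and V a nontrivial elementary abelian 2-subgroup of G satisfying the Sidki pair condition. Let v ∈ V and let x be an element of odd order inverted by v, and put C = C_G(v) ∩ C_G(x), the centralizer of the dihedral subgroup generated by v and x. Then C ∩ V is nontrivial and satisfies the Sidki pair condition inside C: every odd-order element of C inverted by an element of C ∩ V commutes with a nontrivial element of C ∩ V. -/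
theorem result {G : Type*} [Group G] [Finite G] (V : Subgroup G) (hV : Cfsg.IsElementaryAbelian 2 V) (hV1 : V ≠ ⊥) (hS : Cfsg.IsSidkiPair V) (v x : G) (hv : v ∈ V) (hx : Odd (orderOf x)) (hinv : v * x * v⁻¹ = x⁻¹) (C : Subgroup G) (hC : C = Subgroup.centralizer ({v} : Set G) ⊓ Subgroup.centralizer ({x} : Set G)) : C ⊓ V ≠ ⊥ ∧ Cfsg.IsSidkiPair ((C ⊓ V).subgroupOf C) := by
  have hcomm : ∀ a ∈ V, ∀ b ∈ V, a * b = b * a := fun a ha b hb =>
    congrArg Subtype.val (hV.1.is_comm.comm (⟨a, ha⟩ : V) ⟨b, hb⟩)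
  have hmem : ∀ w, w ∈ C ↔ w * v = v * w ∧ w * x = x * w := by
    intro w
    rw [hC, Subgroup.mem_inf, Subgroup.mem_centralizer_singleton_iff, Subgroup.mem_centralizer_singleton_iff]
  constructor
  · obtain ⟨w, hw, hw1, hwx⟩ := hS x v hv hx hinv
    intro h
    have : w ∈ C ⊓ V := ⟨(hmem w).2 ⟨hcomm w hw v hv, hwx⟩, hw⟩
    rw [h] at this
    exact hw1 this
  · rintro ⟨y, hy⟩ ⟨u, hu⟩ huV hyo huy
    have huV' : u ∈ V := huV.2
    have hyo' : Odd (orderOf y) := by rwa [← Subgroup.orderOf_coe] at hyo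
    have huy' : u * y * u⁻¹ = y⁻¹ := congrArg Subtype.val huy
    obtain ⟨hyv, hyx⟩ := (hmem y).1 hy
    obtain ⟨huv, hux⟩ := (hmem u).1 hu
    have hxy : Commute x y := hyx.symm
    have hodd : Odd (orderOf (x * y)) := by
      have h1 := hxy.orderOf_mul_dvd_mul_orderOf
      exact (hx.mul hyo').of_dvd_nat h1
    have hvy : v * y * v⁻¹ = y := by rw [← hyv]; group
    have hux' : u * x⁻¹ * u⁻¹ = x⁻¹ := by
      have : u * x * u⁻¹ = x := by rw [hux]; group
      calc u * x⁻¹ * u⁻¹ = (u * x * u⁻¹)⁻¹ := by group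
        _ = x⁻¹ := by rw [this]
    have hinv2 : (u * v) * (x * y) * (u * v)⁻¹ = (x * y)⁻¹ := by
      calc (u * v) * (x * y) * (u * v)⁻¹ = u * ((v * x * v⁻¹) * (v * y * v⁻¹)) * u⁻¹ := by group
        _ = (u * x⁻¹ * u⁻¹) * (u * y * u⁻¹) := by rw [hinv, hvy]; group
        _ = x⁻¹ * y⁻¹ := by rw [hux', huy']
        _ = (x * y)⁻¹ := by rw [hxy.eq]; group
    obtain ⟨w, hw, hw1, hwc⟩ := hS (x * y) (u * v) (V.mul_mem huV' hv) hodd hinv2
    have hwv : Commute w v := hcomm w hw v hv
    have hwxy : Commute w (x * y) := hwc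
    have hw2 : Commute w (x⁻¹ * y) := by
      have : x⁻¹ * y = v * (x * y) * v⁻¹ := by
        calc x⁻¹ * y = (v * x * v⁻¹) * (v * y * v⁻¹) := by rw [hinv, hvy]
          _ = _ := by group
      rw [this]
      exact (hwv.mul_right hwxy).mul_right hwv.inv_right
    have hw3 : Commute w (y ^ 2) := by
      have : y ^ 2 = (x * y) * (x⁻¹ * y) := by
        rw [hxy.eq, pow_two]; group
      rw [this]
      exact hwxy.mul_right hw2
    have hwy : Commute w y := comm_of_pow (Nat.coprime_two_right.2 hyo') hw3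
    have hwx : Commute w x := by
      have : x = (x * y) * y⁻¹ := by group
      rw [this]
      exact hwxy.mul_right hwy.inv_right
    have hwC : w ∈ C := (hmem w).2 ⟨hwv, hwx⟩
    refine ⟨⟨w, hwC⟩, ⟨hwC, hw⟩, fun h => hw1 (congrArg Subtype.val h), Subtype.ext hwy⟩

end Cfsg.Agent.S3013
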