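import Cfsg.Statements.S3014
import Cfsg.Agent.OD.Pre
import Cfsg.Agent.H9.Basic2
import Cfsg.Agent.H5.Frobenius

set_option autoImplicit false
open Cfsg

namespace Cfsg.Agent.S3014

open Subgroup CfH9 in
theorem le_Nm_of_mem {G : Type*} [Group G] [Finite G] {H M T : Subgroup G} (hHM : H ≤ M)
    (hmaxH : IsCoatom (H.subgroupOf M)) {y : G} (hy : y ∈ M) (hyH : y ∉ H) (h1 : H ≤ T)
    (h2 : y ∈ T) : M ≤ T := by
  have : (H.subgroupOf M) < T.subgroupOf M := by
    refine lt_of_le_of_ne (fun x hx => h1 hx) (fun e => hyH ?_)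
    have : (⟨y, hy⟩ : M) ∈ T.subgroupOf M := h2
    rw [← e] at this
    exact this
  have h3 := hmaxH.2 _ this
  intro x hx
  have : (⟨x, hx⟩ : M) ∈ T.subgroupOf M := h3 ▸ mem_top _
  exact this

/-- Let G be a finite group and H ≤ M ≤ G subgroups such that for every g ∈ G the subgroup generated by H and g H g⁻¹ meets M exactly in H. If H is a maximal subgroup of M and M is a maximal subgroup of G, then the normal closure of H in G meets M exactly in H. -/
theorem result {G : Type*} [Group G] [Finite G] (H M : Subgroup G) (hHM : H ≤ M) (hcl : ∀ g : G, (H ⊔ H.map (MulAut.conj g).toMonoidHom) ⊓ M = H) (hmaxH : IsCoatom (H.subgroupOf M)) (hmaxM : IsCoatom M) : Subgroup.normalClosure (H : Set G) ⊓ M = H := by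
  open Subgroup CfH9 in
  change ∀ g : G, (H ⊔ cj g H) ⊓ M = H at hcl
  have hMN : M ≤ Nm(H) := by
    intro g hg
    refine mem_normalizer_of_cj_le ?_
    have h1 : cj g H ≤ M := by
      rw [cj_le_iff_forall]
      exact fun x hx => mul_mem (mul_mem hg (hHM hx)) (inv_mem hg)
    rw [← hcl g]
    conv_lhs => rw [hcl g]
    exact le_inf le_sup_right h1
  have key : ∀ K : Subgroup G, K.Normal → K ⊓ M = H → normalClosure (H : Set G) ⊓ M = H := by
    intro K hK hKM
    refine le_antisymm ?_ (le_inf le_normalClosure hHM)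
    rw [← hKM]
    refine inf_le_inf_right _ (normalClosure_le_normal ?_)
    rw [hKM]
    exact fun x hx => (hKM ▸ hx : x ∈ K ⊓ M).1
  by_cases hn : Nm(H) = ⊤
  · haveI : H.Normal := normalizer_eq_top_iff.1 hn
    exact key H this (inf_eq_left.2 hHM)
  have hNM : Nm(H) = M := by
    rcases hMN.eq_or_lt with h | h
    · exact h.symm
    · exact absurd (hmaxM.2 _ h) hn
  by_cases hTI : ∀ g, g ∉ M → ∀ x ∈ M, g * x * g⁻¹ ∈ M → x ∈ H
  · obtain ⟨N, hN, -, h1, -⟩ := CfH5.wielandt_kernel M H hHM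
      (fun h hh m hm => conj_mem_of_mem_normalizer (hMN hh) hm) hTI
    exact key N hN h1
  push Not at hTI
  obtain ⟨g, hg, y, hy, hy2, hyH⟩ := hTI
  have hyT : y ∈ Nm((H ⊔ cj g⁻¹ H : Subgroup G)) := by
    refine mem_Nm_sup (hMN hy) ?_
    rw [← cj_normalizer, mem_cj_inv]
    exact hMN hy2
  have hMT : M ≤ Nm((H ⊔ cj g⁻¹ H : Subgroup G)) :=
    le_Nm_of_mem hHM hmaxH hy hyH (le_sup_left.trans le_normalizer) hyT
  have hT : Nm((H ⊔ cj g⁻¹ H : Subgroup G)) = ⊤ := by
    rcases hMT.eq_or_lt with h | h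
    · exfalso
      have h1 : H ⊔ cj g⁻¹ H ≤ M := h ▸ le_normalizer
      have h2 : cj g⁻¹ H ≤ H := by
        have := hcl g⁻¹
        rw [inf_eq_left.2 h1] at this
        exact le_sup_right.trans this.le
      exact hg (by simpa using inv_mem (hNM ▸ mem_normalizer_of_cj_le h2 : g⁻¹ ∈ M))
    · exact hmaxM.2 _ h
  exact key _ (normalizer_eq_top_iff.1 hT) (hcl g⁻¹)

end Cfsg.Agent.S3014
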