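import Cfsg.Statements.S3015
import Cfsg.Agent.OD.Pre
import Cfsg.Agent.H9.Frobenius
import Cfsg.Agent.H9.Basic2
import Cfsg.Agent.H5.Frobenius
import Cfsg.Agent.H1.Frattini

set_option autoImplicit false
open Cfsg

namespace Cfsg.Agent.S3015

open Subgroup CfH9 in
theorem le_Nm_of_mem {G : Type*} [Group G] [Finite G] {H M T : Subgroup G} (hHM : H ≤ M)
    (hmaxH : IsCoatom (H.subgroupOf M)) {y : G} (hy : y ∈ M) (hyH : y ∉ H) (h1 : H ≤ T)
    (h2 : y ∈ T) : M ≤ T := by
  have : (H.subgroupOf M) < T.subgroupOf M := by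
    refine lt_of_le_of_ne (fun x hx => h1 hx) (fun e => hyH ?_)
    have : (⟨y, hy⟩ : M) ∈ T.subgroupOf M := h2
    rw [← e] at this
    exact this
  have h3 := hmaxH.2 _ this
  intro x hx
  have : (⟨x, hx⟩ : M) ∈ T.subgroupOf M := h3 ▸ mem_top _
  exact this

/-- Let G be a finite non-abelian simple group, M a maximal subgroup of G and H a normal subgroup of M of prime index in M. Then G is generated by H together with one of its conjugates. -/
theorem result {G : Type*} [Group G] [Finite G] [IsSimpleGroup G] (hG : ¬ IsMulCommutative G) (M H : Subgroup G) (hmaxM : IsCoatom M) (hHM : H ≤ M) (hHn : (H.subgroupOf M).Normal) (hidx : (H.relIndex M).Prime) : ∃ g : G, H ⊔ H.map (MulAut.conj g).toMonoidHom = ⊤ := by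
  open Subgroup CfH9 CfH7 in
  change ∃ g : G, H ⊔ cj g H = ⊤
  by_contra hc
  push Not at hc
  haveI : Fact (H.relIndex M).Prime := ⟨hidx⟩
  have hmaxH : IsCoatom (H.subgroupOf M) := CfH1.isCoatom_of_index_prime hidx
  have hMN : M ≤ Nm(H) := (normal_subgroupOf_iff_le_normalizer hHM).1 hHn
  have hHM' : ¬ M ≤ H := fun h => hidx.ne_one (relIndex_eq_one.2 h)
  have hNm : ∀ T : Subgroup G, T ≠ ⊥ → T ≠ ⊤ → M ≤ Nm(T) → Nm(T) = M := by
    intro T h1 h2 h
    rcases h.eq_or_lt with h | h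
    · exact h.symm
    · rcases (normalizer_eq_top_iff.1 (hmaxM.2 _ h)).eq_bot_or_eq_top with h | h
      · exact absurd h h1
      · exact absurd h h2
  have hM1 : M ≠ ⊥ := fun h => hHM' (h ▸ bot_le)
  have hNM : Nm(M) = M := hNm M hM1 hmaxM.1 le_normalizer
  have hTI : ∀ g, g ∉ M → ∀ x ∈ M, g * x * g⁻¹ ∈ M → x ∈ H := by
    intro g hg y hy hy2
    by_contra hyH
    by_cases hH : H = ⊥
    · have h1 : M ≤ cj g⁻¹ M :=
        le_Nm_of_mem hHM hmaxH hy hyH (hH ▸ bot_le) (mem_cj_inv.2 hy2)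
      rw [le_cj_iff, inv_inv] at h1
      exact hg (hNM ▸ mem_normalizer_of_cj_le h1)
    have hHt : H ≠ ⊤ := fun h => hmaxM.1 (eq_top_iff.2 (h ▸ hHM))
    have hNH : Nm(H) = M := hNm H hH hHt hMN
    have hyT : y ∈ Nm((H ⊔ cj g⁻¹ H : Subgroup G)) := by
      refine mem_Nm_sup (hMN hy) ?_
      rw [← cj_normalizer, mem_cj_inv]
      exact hMN hy2
    have hMT : M ≤ Nm((H ⊔ cj g⁻¹ H : Subgroup G)) :=
      le_Nm_of_mem hHM hmaxH hy hyH (le_sup_left.trans le_normalizer) hyT
    have hT := hNm _ (ne_bot_of_le le_sup_left hH) (hc g⁻¹) hMT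
    have h1 : cj g⁻¹ H ≤ M := hT ▸ le_sup_right.trans le_normalizer
    set p := H.relIndex M with hp
    have hres : pResidualOf p M ≤ H := by
      rw [pResidualOf_le_iff]
      intro x hx ho
      have : (⟨x, hx⟩ : M) ∈ H.subgroupOf M :=
        CfH1.mem_of_coprime_index (by rw [← orderOf_mk] at ho; exact ho)
      exact this
    have e1 : pResidualOf p H = pResidualOf p M := pResidualOf_eq_of_le hHM hres
    have e2 : cj g⁻¹ (pResidualOf p H) ≤ pResidualOf p H := by
      rw [cj_pResidualOf, e1]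
      exact pResidualOf_mono h1
    have e3 : g⁻¹ ∈ Nm(pResidualOf p H) := mem_normalizer_of_cj_le e2
    have e4 : M ≤ Nm(pResidualOf p H) := e1 ▸ le_normalizer_pResidualOf M
    have e5 : pResidualOf p H = ⊥ := by
      by_contra h0
      have := hNm _ h0 (fun h => hHt (eq_top_iff.2 (h ▸ pResidualOf_le H))) e4
      exact hg (by simpa using inv_mem (this ▸ e3 : g⁻¹ ∈ M))
    have hMp : IsPGroup p M := pResidualOf_eq_bot_iff.1 (e1 ▸ e5)
    have h2 : cj g⁻¹ H < M := by
      refine lt_of_le_of_ne h1 (fun e => hHM' ?_)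
      exact (eq_of_le_of_card_ge hHM (by rw [← e, card_cj])).ge
    have h3 := lt_inf_Nm hMp h2
    rw [← cj_normalizer, hNH] at h3
    obtain ⟨z, hz, hzH⟩ := SetLike.exists_of_lt h3
    have h4 : M ≤ cj g M := by
      refine le_Nm_of_mem hHM hmaxH (mem_cj_inv.1 hz.2) (fun h => hzH (mem_cj_inv.2 h)) ?_
        (conj_mem_cj g hz.1)
      rw [le_cj_iff]
      exact h1
    rw [le_cj_iff] at h4
    exact hg (by simpa using inv_mem (hNM ▸ mem_normalizer_of_cj_le h4 : g⁻¹ ∈ M))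
  obtain ⟨N, hN, -, h1, h2⟩ := CfH5.wielandt_kernel M H hHM
    (fun h hh m hm => conj_mem_of_mem_normalizer (hMN hh) hm) hTI
  rcases hN.eq_bot_or_eq_top with h | h
  · rw [h, bot_sup_eq] at h2
    exact hmaxM.1 h2
  · rw [h, top_inf_eq] at h1
    exact hHM' h1.le

end Cfsg.Agent.S3015
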