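import Cfsg.Statements.S3017
import Cfsg.Agent.OD.Pre
import Cfsg.Agent.H4.ExtClosed

set_option autoImplicit false
open Cfsg

open CfH4

namespace Cfsg.Agent.S3017

/-- Let G be a finite group and H an abelian 2-subgroup of G that is extremely closed (for every g, the subgroup generated by H and g H g⁻¹ meets N_G(H) exactly in H). Then G = N_G(H) O(G), where O(G) is the largest normal subgroup of odd order. For H of order 2 this is Glauberman's Z*-statement. -/
theorem result {G : Type*} [Group G] [Finite G] (H : Subgroup G) (hH2 : IsPGroup 2 H) (hHab : IsMulCommutative H) (hcl : Cfsg.IsExtremelyClosed H) : Subgroup.normalizer (H : Set G) ⊔ Cfsg.oddCore G = ⊤ := by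
  exact ec_main G H ⟨hH2, hHab, fun g => (hcl g).le⟩

end Cfsg.Agent.S3017
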