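import Cfsg.Statements.S3020
import Cfsg.Agent.OD.Pre
import Cfsg.Agent.H9.Frobenius


set_option autoImplicit false
open Cfsg

namespace Cfsg.Agent.S3020


/-- Let G be a finite group, p a prime and H an abelian p-subgroup of G that is extremely closed (for every g, the subgroup generated by H and g H g⁻¹ meets N_G(H) exactly in H). Then for every g ∈ G, the subgroup T generated by H and g H g⁻¹ is the product of H with O_{p'}(T), and H meets O_{p'}(T) trivially; that is, O_{p'}(T) is a normal p-complement of H in T. -/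
theorem result {G : Type*} [Group G] [Finite G] {p : ℕ} [Fact p.Prime] (H : Subgroup G) (hHp : IsPGroup p H) (hHab : IsMulCommutative H) (hcl : Cfsg.IsExtremelyClosed H) (g : G) (T : Subgroup G) (hT : T = H ⊔ H.map (MulAut.conj g).toMonoidHom) : H ⊔ (Cfsg.pPrimeCore p ↥T).map T.subtype = T ∧ H ⊓ (Cfsg.pPrimeCore p ↥T).map T.subtype = ⊥ := by
  have hs : CfH9.SylIn p H T := by
    refine CfH9.sylIn_of_sylIn_Nm (hT ▸ le_sup_left) ?_
    rw [hT, hcl g]
    exact CfH9.sylIn_self hHp
  have hn : CfH9.PNil p T := by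
    refine CfH9.burnside_pNil hs ?_
    rw [hT, hcl g]
    exact Subgroup.le_centralizer H
  refine ⟨?_, ?_⟩
  · rw [sup_comm]; exact hn.sup_eq hs
  · exact (CfH7.disjoint_of_isPGroup_of_coprime hHp (CfH7.coprime_card_pPrimeCoreOf T)).eq_bot

end Cfsg.Agent.S3020
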