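import Cfsg.Statements.S3021
import Cfsg.Agent.OD.Pre
import Cfsg.Agent.H9.SylIn


set_option autoImplicit false
open Cfsg

namespace Cfsg.Agent.S3021

open CfH9 in
theorem aux {G : Type*} [Group G] [Finite G] {p : ℕ} [Fact p.Prime] (H : Subgroup G) (hcl : Cfsg.IsExtremelyClosed H) (Q : Subgroup G) (hQ : IsPGroup p Q) (hHQ : H ≤ Q) : Subgroup.normalizer (Q : Set G) ≤ Subgroup.normalizer (H : Set G) := by
  intro g hg
  have hT : H ⊔ cj g H ≤ Q := sup_le hHQ ((cj_mono g hHQ).trans (cj_eq_of_mem_normalizer hg).le)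
  have hs : SylIn p H (H ⊔ cj g H) := by
    refine sylIn_of_sylIn_Nm le_sup_left ?_
    have := hcl g
    rw [← cj_def] at this
    rw [this]
    exact sylIn_self (hQ.to_le hHQ)
  have h2 := hs.eq_of_le (hQ.to_le hT) le_rfl le_sup_left
  rw [mem_normalizer_iff_cj]
  refine Subgroup.eq_of_le_of_card_ge ?_ (card_cj g H).ge
  exact le_sup_right.trans h2.le

/-- Let G be a finite group, p a prime and H a p-subgroup of G that is extremely closed (for every g, the subgroup generated by H and g H g⁻¹ meets N_G(H) exactly in H). Then every p-subgroup Q of G containing H has N_G(Q) ≤ N_G(H); in particular every Sylow p-subgroup P of G containing H normalizes H, and H is strongly closed in P with respect to G. -/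
theorem result {G : Type*} [Group G] [Finite G] {p : ℕ} [Fact p.Prime] (H : Subgroup G) (hHp : IsPGroup p H) (hcl : Cfsg.IsExtremelyClosed H) : (∀ Q : Subgroup G, IsPGroup p Q → H ≤ Q → Subgroup.normalizer (Q : Set G) ≤ Subgroup.normalizer (H : Set G)) ∧ ∀ P : Sylow p G, H ≤ (P : Subgroup G) → (P : Subgroup G) ≤ Subgroup.normalizer (H : Set G) ∧ Cfsg.IsStronglyClosed H (P : Subgroup G) := by
  refine ⟨aux H hcl, fun P hP => ?_⟩
  have h1 : (P : Subgroup G) ≤ Subgroup.normalizer (H : Set G) :=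
    Subgroup.le_normalizer.trans (aux H hcl P P.2 hP)
  refine ⟨h1, hP, fun x hx g hg => ?_⟩
  rw [← hcl g]
  exact ⟨(le_sup_right : _ ≤ H ⊔ H.map (MulAut.conj g).toMonoidHom) ⟨x, hx, rfl⟩, h1 hg⟩

end Cfsg.Agent.S3021
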