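import Cfsg.Statements.S3022
import Cfsg.Agent.OD.Pre
import Cfsg.Agent.H7.Bau4
import Cfsg.Agent.H9.WeakCl

set_option autoImplicit false
set_option linter.unusedVariables false
open Cfsg

namespace Cfsg.Agent.S3022

open Subgroup CfH7 CfH9
open scoped commutatorElement

open CfH8 (BB JJ)
open CfLp

/-- Let G be a finite group all of whose non-abelian simple sections are known simple groups, such that a Sylow 2-subgroup of G lies in exactly one maximal subgroup of G and C_G(O₂(G)) ≤ O₂(G). Let S be a Sylow 2-subgroup of G and A a group of automorphisms of S of odd order. Then some nontrivial A-invariant subgroup of S is normal in G. -/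
theorem result {G : Type*} [Group G] [Finite G] (hK : Cfsg.IsKGroup G) (hirr : ∀ S : Sylow 2 G, ∃! M : Subgroup G, IsCoatom M ∧ (S : Subgroup G) ≤ M) (hchar : Subgroup.centralizer (Cfsg.pCore 2 G : Set G) ≤ Cfsg.pCore 2 G) (S : Sylow 2 G) (A : Subgroup (MulAut ↥(S : Subgroup G))) (hA : Odd (Nat.card A)) : ∃ U : Subgroup G, U ≠ ⊥ ∧ U.Normal ∧ U ≤ (S : Subgroup G) ∧ ∀ a ∈ A, ∀ x : ↥(S : Subgroup G), (x : G) ∈ U → ((a x : ↥(S : Subgroup G)) : G) ∈ U := by
  by_contra hcon
  haveI : Fact (Nat.Prime 2) := ⟨Nat.prime_two⟩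
  have inj := (S : Subgroup G).subtype_injective
  have hno : ∀ Y : Subgroup (S : Subgroup G), Y ≠ ⊥ → (∀ a ∈ A, Y.map a.toMonoidHom ≤ Y) →
      ¬ (Y.map (S : Subgroup G).subtype).Normal := fun Y h1 h2 h3 =>
    hcon ⟨_, fun e => h1 ((map_eq_bot_iff_of_injective _ inj).1 e), h3, map_subtype_le _,
      fun a ha x hx => by
        obtain ⟨y, hy, e⟩ := hx
        rw [← Subtype.ext e]
        exact mem_map_of_mem _ (h2 a ha ⟨y, hy, rfl⟩)⟩
  have hno' : ∀ Y : Subgroup (S : Subgroup G), ∀ U, Y.map (S : Subgroup G).subtype = U → U ≠ ⊥ →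
      (∀ a ∈ A, Y.map a.toMonoidHom ≤ Y) → ¬ U.Normal := fun Y U e h1 h2 =>
    e ▸ hno Y (fun e' => h1 (by rw [← e, e', Subgroup.map_bot])) h2
  obtain ⟨M, hM⟩ := existsUnique_coatom_iff.1 (hirr S)
  have hS := sylIn_top S
  have hS0 : (S : Subgroup G) ≠ ⊥ := fun e => by
    have k := (R_le_syl hS).trans e.le
    exact not_lt_bot (hM.lt.trans_le ((le_Cz_comm (k.trans bot_le)).trans (hchar.trans k)))
  have hb : BS 2 (S : Subgroup G) M := ⟨hS, minOver_of_max hS hM.lt.ne
    ((hM.eq_or_le le_normalizer le_top).resolve_left fun e => hno' ⊤ _ (map_subtype_top _) hS0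
      (fun _ _ => le_top) (normal_of_top_le_normalizer e.ge))
    fun H h1 h2 => (hM.eq_or_le h1 le_top).resolve_left h2, hchar,
    hno' (CfH7.OZ 2 ⊤) _ (by rw [map_OZ_inj inj, map_subtype_top]) (OZ_ne_bot hS.pgrp hS0)
      fun a _ => by rw [map_OZ_inj a.injective, map_top_equiv],
    hno' (JJ 2 ⊤) _ (by rw [CfH8.map_J_of_injective _ inj, map_subtype_top])
      (CfH8.J_ne_bot hS.pgrp hS0)
      fun a _ => by rw [CfH8.map_J_of_injective _ a.injective, map_top_equiv]⟩
  have eB : (BB 2 ⊤).map (S : Subgroup G).subtype = BB 2 (S : Subgroup G) := by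
    rw [map_B_inj inj, map_subtype_top]
  have eB' : ∀ a : MulAut (S : Subgroup G), (BB 2 ⊤).map a.toMonoidHom = BB 2 ⊤ := fun a => by
    rw [map_B_inj a.injective, map_top_equiv]
  obtain ⟨q, L, pu, n1, c1⟩ := hb.exists_pu
  have hL : ¬ L ≤ M := fun e => by
    obtain ⟨g, h1, h2⟩ := pu.ex
    exact h2 (mi h1 (e h1))
  have BS' := CfH8.B_le (p := 2) (S : Subgroup G)
  have nc : NoChar L (BB 2 (S : Subgroup G)) := hb.noChar hL fun X h1 _ =>
    hno' ((X.map (Subgroup.subtype _)).subgroupOf S) _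
      (map_subgroupOf_eq_of_le ((map_subtype_le _).trans BS'))
      (fun e => h1 ((map_eq_bot_iff_of_injective _ (Subgroup.subtype_injective _)).1 e))
      fun a _ => by
        rintro _ ⟨y, ⟨x, hx, e⟩, rfl⟩
        rw [show y = inclusion BS' x from Subtype.ext e.symm]
        refine char_inv (((S : Subgroup G).subtype.comp a.toMonoidHom).comp (inclusion BS'))
          ((inj.comp a.injective).comp (inclusion_injective _)) (fun x => ?_) X hx
        refine eB.le (mem_map_of_mem _ ((eB' a).le (mem_map_of_mem _ ?_)))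
        obtain ⟨y, hy, e⟩ := eB.ge x.2
        rwa [← show y = inclusion BS' x from Subtype.ext e]
  obtain ⟨cs, hg⟩ := pu.good nc
  have hI := CS.typeI cs hg
  have h2 : ⁅BB 2 (S : Subgroup G), BB 2 (S : Subgroup G)⁆ ≤ Zc(BB 2 (S : Subgroup G)) :=
    le_inf (comm_le_left le_normalizer) (comm_eq_bot_left.1 (cs.I_class nc hI))
  set T := pCoreOf 2 L
  have k1 : BB 2 (S : Subgroup G) ⊓ pCore 2 G ≤ T := le_pCoreOf (inf_le_left.trans pu.SG)
    (le_Nm_normal _ _) (isPGroup_pCore 2 G).to_inf_right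
  have ZS : Zc(T) ≤ (S : Subgroup G) := pu.Z_le_S.trans BS'
  set Z := (Zc(T)).subgroupOf S with hZ
  have eZ : Z.map (S : Subgroup G).subtype = Zc(T) := map_subgroupOf_eq_of_le ZS
  have tZ : ∀ a : MulAut (S : Subgroup G), Tw q (BB 2 (S : Subgroup G))
      ((Z.map a.toMonoidHom).map (S : Subgroup G).subtype) := fun a => by
    rw [← eB, tw_map_iff inj, ← eB' a, tw_map_iff a.injective, ← tw_map_iff inj, eB, eZ]
    exact CS.tw cs
  have uq : ∀ a b : MulAut (S : Subgroup G), ¬ Z.map a.toMonoidHom ≤ Cz(Z) →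
      ¬ Z.map b.toMonoidHom ≤ Cz(Z) → Z.map b.toMonoidHom ≤ Z.map a.toMonoidHom := fun a b ha hb =>
    (map_le_map_iff_of_injective inj).1 (CS.twin_le cs hI h2 (tZ a) (tZ b)
      (by rwa [← eZ, le_Cz_map_iff inj]) (by rwa [← eZ, le_Cz_map_iff inj]))
  set N := nclo Z ⊤
  have NT : N.map (S : Subgroup G).subtype ≤ T := by
    rw [map_nclo, eZ]
    exact (nclo_le (le_Nm_normal _ _) (inf_le_right.trans ((Cz_anti k1).trans c1))).trans k1
  have NC : N ≤ Cz(Z) := by
    rw [← le_Cz_map_iff inj, eZ]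
    exact NT.trans (le_Cz_comm inf_le_right)
  have nN : ∀ a : MulAut (S : Subgroup G), (N.map a.toMonoidHom).Normal := fun a =>
    Subgroup.Normal.map inferInstance _ a.surjective
  have mm : ∀ (a b : MulAut (S : Subgroup G)) (X : Subgroup (S : Subgroup G)),
      X.map (a * b).toMonoidHom = (X.map b.toMonoidHom).map a.toMonoidHom := fun a b X => by
    rw [Subgroup.map_map]; rfl
  have m1 : ∀ X : Subgroup (S : Subgroup G), X.map (1 : MulAut (S : Subgroup G)).toMonoidHom = X :=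
    fun X => Subgroup.map_id X
  obtain ⟨a, ha, hn⟩ : ∃ a ∈ A, ¬ N.map a.toMonoidHom ≤ Cz(Z) := by
    by_contra! hh
    have ZU : Z ≤ ⨆ a : A, N.map (a : MulAut (S : Subgroup G)).toMonoidHom :=
      (le_nclo Z ⊤).trans (le_iSup_of_le 1 (m1 N).ge)
    have UT : (⨆ a : A, N.map (a : MulAut (S : Subgroup G)).toMonoidHom).map
        (S : Subgroup G).subtype ≤ T := by
      rw [← cs.S_inf_CzZ cs.nc, ← eZ, ← eB, ← map_inf_Cz inj]
      refine map_mono (iSup_le fun a => le_inf ?_ (hh a a.2))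
      rw [← eB' a]
      exact map_mono ((map_le_map_iff_of_injective inj).1 (NT.trans (pu.TS.trans eB.ge)))
    haveI : (⨆ a : A, N.map (a : MulAut (S : Subgroup G)).toMonoidHom).Normal :=
      @iSup_normal _ _ _ _ fun a => nN a
    refine hno (⨆ a : A, N.map (a : MulAut (S : Subgroup G)).toMonoidHom) (fun e => cs.Zg_ne ?_)
      (fun b hb => ?_) (hb.normal ?_ fun e => hL ?_)
    · rw [← eZ, eq_bot_iff.2 (ZU.trans e.le), Subgroup.map_bot]
      exact bot_le
    · rw [Subgroup.map_iSup]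
      exact iSup_le fun a => le_iSup_of_le (⟨b, hb⟩ * a) (mm b a N).ge
    · conv_lhs => rw [← map_subtype_top (S : Subgroup G)]
      exact map_le_Nm (le_Nm_normal _ _)
    · refine pu.le_of_O_S (le_trans ?_ e) (BS'.trans hM.le)
      exact le_Nm_of_comm_le_left ((commutator_mono UT le_rfl).trans
        (hI.trans (eZ.ge.trans (map_mono ZU))))
  obtain ⟨s, hs⟩ : ∃ s, ¬ Z.map (a * MulAut.conj s).toMonoidHom ≤ Cz(Z) := by
    by_contra! hh
    refine hn (map_le_iff_le_comap.2 (nclo_le_iff'.2 fun s _ => map_le_iff_le_comap.1 ?_))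
    exact (mm a _ Z).ge.trans (hh s)
  set γ := a * MulAut.conj s
  have hs' : ¬ Z.map γ⁻¹.toMonoidHom ≤ Cz(Z) := fun e => hs (le_Cz_comm (by
    rwa [← le_Cz_map_iff (f := γ.toMonoidHom) γ.injective, ← mm, mul_inv_cancel, m1] at e))
  have e2 : Z ≤ Z.map (γ * γ).toMonoidHom := by
    have := map_mono (f := γ.toMonoidHom) (uq γ γ⁻¹ hs hs')
    rwa [← mm, ← mm, mul_inv_cancel, m1] at this
  have e3 : ∀ k : ℕ, Z.map γ.toMonoidHom ≤ Z.map (γ ^ (2 * k + 1)).toMonoidHom := fun k => by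
    induction k with
    | zero => rw [mul_zero, zero_add, pow_one]
    | succ k ih =>
      rw [show 2 * (k + 1) + 1 = 2 * k + 1 + 2 by ring, pow_add, sq, mm (γ ^ _)]
      exact ih.trans (map_mono e2)
  have e4 : ∀ k : ℕ, Z.map (γ ^ k).toMonoidHom ≤ N.map (a ^ k).toMonoidHom := fun k => by
    induction k with
    | zero => rw [pow_zero, pow_zero, m1, m1]; exact le_nclo _ _
    | succ k ih =>
      rw [pow_succ', pow_succ', mm, mm, mm]
      refine map_mono ((map_mono ih).trans ?_)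
      exact (cj_eq_of_mem_normalizer (@le_Nm_normal _ _ ⊤ _ (nN _) s trivial)).le
  obtain ⟨k, hk⟩ := hA
  have e5 : a ^ (2 * k + 1) = 1 := by
    rw [← hk]
    exact congrArg Subtype.val (pow_card_eq_one' (x := (⟨a, ha⟩ : A)))
  exact hs ((e3 k).trans ((e4 _).trans (by rw [e5, m1]; exact NC)))

end Cfsg.Agent.S3022
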