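import Cfsg.Statements.S3023
import Cfsg.Agent.OD.Pre
import Cfsg.Agent.H7.PMin

set_option autoImplicit false
set_option linter.unusedVariables false
open Cfsg

namespace Cfsg.Agent.S3023

open Subgroup CfH7 CfH9
open scoped commutatorElement


/-- Let p be a prime, G a finite group of parabolic characteristic p (every p-local subgroup containing a Sylow p-subgroup of G has characteristic p), S a Sylow p-subgroup of G and G₁ a subnormal subgroup of G. If the centre of S ∩ G₁ is nontrivial and contained in the centre of S, then G₁ has parabolic characteristic p. -/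
theorem result {G : Type*} [Group G] [Finite G] {p : ℕ} [Fact p.Prime] (hG : Cfsg.IsOfParabolicCharacteristic p G) (S : Sylow p G) (G₁ : Subgroup G) (hsn : G₁.IsSubnormal) (hne : ((S : Subgroup G) ⊓ G₁) ⊓ Subgroup.centralizer (((S : Subgroup G) ⊓ G₁ : Subgroup G) : Set G) ≠ ⊥) (hle : ((S : Subgroup G) ⊓ G₁) ⊓ Subgroup.centralizer (((S : Subgroup G) ⊓ G₁ : Subgroup G) : Set G) ≤ (S : Subgroup G) ⊓ Subgroup.centralizer ((S : Subgroup G) : Set G)) : Cfsg.IsOfParabolicCharacteristic p ↥G₁ := by
  have hS := sylIn_inf_of_isSubnormal S hsn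
  refine parabolicChar_of_Cx hS.subgroupOf_top fun z hz1 hz => ?_
  have hz' : (z : G) ∈ ((S : Subgroup G) ⊓ G₁) ⊓ Cz((S : Subgroup G) ⊓ G₁) := by
    have h1 := (mem_OZ.mp hz).1
    refine mi h1.1 ?_
    have := h1.2
    rwa [← subgroupOf_Cz inf_le_right] at this
  have h2 := parabolicChar_Cx hG (sylIn_top S) (fun e => hz1 (Subtype.ext e)) (hle hz').1 (hle hz').2
  rw [← chP_map_subtype_iff, ← Cz_zpowers, map_subtype_Cz, MonoidHom.map_zpowers, Cz_zpowers]
  have h3 := (subnIn_top_iff.mpr hsn).inf_inf Cx((z : G))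
  rw [top_inf_eq] at h3
  exact h3.charP h2

end Cfsg.Agent.S3023
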