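import Cfsg.Statements.S3025
import Cfsg.Agent.OD.Pre
import Cfsg.Agent.H9.RankOne

set_option autoImplicit false
open Cfsg Subgroup CfH9

namespace Cfsg.Agent.S3025

/-- Let F be a finite group and H a nontrivial subgroup of F that is contained in every nontrivial subgroup of F which H normalizes. Then F has a nontrivial normal subgroup N contained in every nontrivial normal subgroup of F (a unique minimal normal subgroup), N is simple, and one of the following holds: C_F(N) = 1; or H = N has prime order p, C_F(N) is cyclic of order a power of p, and F/C_F(N) is cyclic of order dividing p − 1; or H = N has order 2, N is central in F, and F is a generalized quaternion group. -/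
theorem result {F : Type*} [Group F] [Finite F] (H : Subgroup F) (hH : H ≠ ⊥)
    (hmin : ∀ R : Subgroup F, R ≠ ⊥ → H ≤ Subgroup.normalizer (R : Set F) → H ≤ R) :
    ∃ N : Subgroup F, N.Normal ∧ N ≠ ⊥ ∧ (∀ M : Subgroup F, M.Normal → M ≠ ⊥ → N ≤ M) ∧ IsSimpleGroup ↥N ∧
      (Subgroup.centralizer (N : Set F) = ⊥ ∨
       (H = N ∧ (Nat.card N).Prime ∧ IsCyclic ↥(Subgroup.centralizer (N : Set F)) ∧
          (∃ k : ℕ, 1 ≤ k ∧ Nat.card ↥(Subgroup.centralizer (N : Set F)) = Nat.card N ^ k) ∧
          (∃ g : F, Subgroup.centralizer (N : Set F) ⊔ Subgroup.zpowers g = ⊤) ∧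
          (Subgroup.centralizer (N : Set F)).index ∣ Nat.card N - 1) ∨
       (H = N ∧ Nat.card N = 2 ∧ Subgroup.centralizer (N : Set F) = ⊤ ∧
          ∃ k : ℕ, 1 ≤ k ∧ Nonempty (F ≃* QuaternionGroup (2 ^ k)))) := by
  have hHN : H ≤ normalClosure (H : Set F) := le_normalClosure
  generalize hNd : normalClosure (H : Set F) = N at hHN
  haveI hN : N.Normal := hNd ▸ normalClosure_normal
  have hN0 : N ≠ ⊥ := fun h => hH (le_bot_iff.1 (h ▸ hHN))
  have hle : ∀ M : Subgroup F, M.Normal → M ≠ ⊥ → N ≤ M := fun M hM h0 => by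
    rw [← hNd]
    exact normalClosure_le_normal (hmin M h0 (by rw [normalizer_eq_top]; exact le_top))
  have hsimple : IsSimpleGroup N := by
    haveI : Nontrivial N := (nontrivial_iff_ne_bot N).2 hN0
    refine ⟨fun K hK => ?_⟩
    by_cases h0 : K = ⊥
    · exact Or.inl h0
    right
    have key : ∀ g : F, ∀ h ∈ H, g * h * g⁻¹ ∈ K.map N.subtype := by
      intro g h hh
      have h1 : H ≤ cj g⁻¹ (K.map N.subtype) := by
        refine hmin _ (fun hb => h0 ?_) (hHN.trans fun n hn => ?_)
        · rw [cj_eq_bot_iff] at hb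
          exact (map_eq_bot_iff_of_injective _ N.subtype_injective).1 hb
        · rw [mem_normalizer_iff]
          have aux : ∀ n ∈ N, ∀ x ∈ cj g⁻¹ (K.map N.subtype), n * x * n⁻¹ ∈ cj g⁻¹ (K.map N.subtype) := by
            intro n hn x hx
            rw [mem_cj] at hx ⊢
            obtain ⟨k, hk, hk'⟩ := hx
            refine ⟨⟨g * n * g⁻¹, hN.conj_mem n hn g⟩ * k * ⟨g * n * g⁻¹, hN.conj_mem n hn g⟩⁻¹,
              hK.conj_mem k hk _, ?_⟩
            simp only [coe_subtype, map_mul, map_inv] at hk' ⊢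
            rw [hk']; group
          intro x
          refine ⟨aux n hn x, fun hx => ?_⟩
          have := aux n⁻¹ (inv_mem hn) _ hx
          simpa [mul_assoc] using this
      have := h1 hh
      rw [mem_cj] at this
      simpa using this
    have : N ≤ K.map N.subtype := by
      refine hNd.ge.trans ((closure_le _).2 fun x hx => ?_)
      obtain ⟨a, ha, hc⟩ := Group.mem_conjugatesOfSet_iff.1 hx
      obtain ⟨g, rfl⟩ := isConj_iff.1 hc
      exact key g a ha
    rw [eq_top_iff]
    intro x _
    obtain ⟨k, hk, hk'⟩ := this x.2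
    have : k = x := Subtype.ext hk'
    exact this ▸ hk
  refine ⟨N, hN, hN0, hle, hsimple, ?_⟩
  by_cases hC : centralizer (N : Set F) = ⊥
  · exact Or.inl hC
  right
  have hNC : N ≤ centralizer (N : Set F) := hle _ inferInstance hC
  haveI hab : IsMulCommutative N := ⟨⟨fun a b => Subtype.ext (hNC b.2 a a.2)⟩⟩
  have hp : (Nat.card N).Prime := by
    letI : CommGroup N := { (inferInstance : Group N) with mul_comm := fun a b => Subtype.ext (hNC b.2 a a.2) }
    exact IsSimpleGroup.prime_card
  haveI : Fact (Nat.card N).Prime := ⟨hp⟩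
  have eqN : ∀ R : Subgroup F, R ≠ ⊥ → R ≤ N → R = N := fun R h0 hR => by
    refine eq_of_le_of_card_ge hR ?_
    rcases (Nat.dvd_prime hp).1 (card_dvd_of_le hR) with h | h
    · exact absurd (card_eq_one.1 h) h0
    · exact h.ge
  have hHe : H = N := eqN H hH hHN
  have hin : ∀ R : Subgroup F, R ≠ ⊥ → R ≤ centralizer (N : Set F) → N ≤ R := fun R h0 hR => by
    rw [← hHe]; refine hmin R h0 ?_
    rw [hHe]
    exact (le_centralizer_iff.1 hR).trans (Cz_le_Nm R)
  have hpr : ∀ x ∈ centralizer (N : Set F), (orderOf x).Prime → zpowers x = N := fun x hx hq => by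
    have h1 := hin (zpowers x) (fun h => hq.one_lt.ne' (by
      rw [zpowers_eq_bot] at h; rw [h, orderOf_one])) (zpowers_le.2 hx)
    have h2 := card_dvd_of_le h1
    rw [Nat.card_zpowers] at h2
    refine (eq_of_le_of_card_ge h1 ?_).symm
    rw [Nat.card_zpowers, (Nat.prime_dvd_prime_iff_eq hp hq).1 h2]
  have hP : IsPGroup (Nat.card N) (centralizer (N : Set F)) := by
    rw [IsPGroup.iff_card]
    refine ⟨_, Nat.eq_prime_pow_of_unique_prime_dvd Nat.card_pos.ne' fun {q} hq hd => ?_⟩
    haveI : Fact q.Prime := ⟨hq⟩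
    obtain ⟨x, hx⟩ := exists_prime_orderOf_dvd_card' q hd
    have hx' : orderOf (x : F) = q := by rw [orderOf_coe, hx]
    rw [← hpr x x.2 (hx' ▸ hq), Nat.card_zpowers, hx']
  have hker : (MulAut.conjNormal : F →* MulAut N).ker = centralizer (N : Set F) := by
    ext g
    rw [MonoidHom.mem_ker, mem_centralizer_iff]
    constructor
    · intro h n hn
      have := congrArg (fun φ : MulAut N => (φ ⟨n, hn⟩ : F)) h
      simp only [MulAut.conjNormal_apply, MulAut.one_apply] at this
      calc n * g = (g * n * g⁻¹) * g := by rw [this]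
        _ = _ := by group
    · intro h
      ext n
      simp only [MulAut.conjNormal_apply, MulAut.one_apply]
      rw [← h n n.2]; group
  haveI : IsCyclic N := isCyclic_of_prime_card rfl
  have hidx : (centralizer (N : Set F)).index ∣ Nat.card N - 1 := by
    rw [← hker, index_ker, ← Nat.totient_prime hp, ← IsCyclic.card_mulAut]
    exact card_subgroup_dvd_card _
  rcases cyclic_or_quaternion hP (fun A hA hc => by
    by_contra hn
    obtain ⟨x, hx, y, hy, hxp, hyp, hxy⟩ := exists_pair_of_not_isCyclic (hP.to_le hA) hc hn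
    have hx1 : x ≠ 1 := fun h => hxy (h ▸ one_mem _)
    rw [hpr y (hA hy) (hyp ▸ hp), ← hpr x (hA hx) (orderOf_eq_prime hxp hx1 ▸ hp)] at hxy
    exact hxy (mem_zpowers x)) with hc | ⟨h2, n, x, y, hq⟩
  · left
    refine ⟨hHe, hp, hc, ?_, ?_, hidx⟩
    · obtain ⟨k, hk⟩ := IsPGroup.iff_card.1 hP
      refine ⟨k, Nat.pos_of_ne_zero fun h => hC ?_, hk⟩
      rw [h, pow_zero] at hk; exact card_eq_one.1 hk
    · haveI : IsCyclic (MulAut N) :=
        isCyclic_of_injective (IsCyclic.mulAutMulEquiv N).toMonoidHom (IsCyclic.mulAutMulEquiv N).injective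
      obtain ⟨⟨φ, g, rfl⟩, hg⟩ := IsCyclic.exists_generator (α := (MulAut.conjNormal : F →* MulAut N).range)
      refine ⟨g, eq_top_iff.2 fun z _ => ?_⟩
      obtain ⟨k, hk⟩ := hg ⟨_, z, rfl⟩
      have hk' : (MulAut.conjNormal : F →* MulAut N) (g ^ k) = MulAut.conjNormal z := by
        rw [map_zpow]; exact congrArg Subtype.val hk
      have : z * (g ^ k)⁻¹ ∈ centralizer (N : Set F) := by
        rw [← hker, MonoidHom.mem_ker, map_mul, map_inv, hk', mul_inv_cancel]
      have h3 := mul_mem (mem_sup_left (T := zpowers g) this) (mem_sup_right (zpow_mem (mem_zpowers g) k))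
      simpa using h3
  · right
    have htop : centralizer (N : Set F) = ⊤ := by
      rw [h2] at hidx; exact index_eq_one.1 (Nat.dvd_one.1 hidx)
    obtain ⟨e⟩ := qData_equiv hq
    refine ⟨hHe, h2, htop, n + 1, by omega, ⟨(topEquiv.symm.trans (MulEquiv.subgroupCongr htop.symm)).trans e⟩⟩

end Cfsg.Agent.S3025
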