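import Cfsg.Statements.S3027
import Cfsg.Agent.OD.Pre
import Cfsg.Agent.H7.QSMod
import Cfsg.Agent.H1.Basic

set_option autoImplicit false
set_option linter.unusedVariables false
open Cfsg

namespace Cfsg.Agent.S3027

open Subgroup CfH7 CfH9
open scoped commutatorElement

theorem comm_sup {G : Type*} [Group G] {D X Y : Subgroup G} [D.Normal]
    (hperf : ⁅(⊤ : Subgroup G), (⊤ : Subgroup G)⁆ ⊔ D = ⊤) (hX : X ⊔ D = ⊤) (hY : Y ⊔ D = ⊤) :
    ⁅X, Y⁆ ⊔ D = ⊤ := by
  rw [← CfH1.map_mk'_eq_top_iff] at *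
  rw [map_commutator, hX, hY]
  rwa [map_commutator, map_top_of_surjective _ (QuotientGroup.mk'_surjective D)] at hperf

/-- Let G be a finite group and D a normal subgroup of G such that G/D is perfect (that is, G = G′D). Then among the subnormal subgroups B of G with BD = G there is a least one, and it is normal in G. -/
theorem result {G : Type*} [Group G] [Finite G] (D : Subgroup G) [D.Normal] (hperf : ⁅(⊤ : Subgroup G), (⊤ : Subgroup G)⁆ ⊔ D = ⊤) :
    ∃ B : Subgroup G, B.Normal ∧ B ⊔ D = ⊤ ∧ ∀ B' : Subgroup G, B'.IsSubnormal → B' ⊔ D = ⊤ → B ≤ B' := by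
  obtain ⟨B, ⟨hB, hBD⟩, hmin⟩ := wellFounded_lt.has_min {B : Subgroup G | B.Normal ∧ B ⊔ D = ⊤}
    ⟨⊤, inferInstance, top_sup_eq _⟩
  have key : ∀ X : Subgroup G, X ≤ B → B ≤ Nm(X) → X ⊔ D = ⊤ → B ≤ X := by
    intro X
    induction X using subgroup_induction with
    | h X ih =>
      intro h1 h2 h3
      by_cases hn : ∀ g, X ≤ cj g X
      · have : X.Normal := normal_of_cj fun g => cj_le_iff.mpr (hn _)
        exact (h1.eq_or_lt.resolve_right (hmin X ⟨this, h3⟩)).ge
      · push Not at hn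
        obtain ⟨g, hg⟩ := hn
        have h4 : B ≤ Nm(cj g X) := by
          rw [← cj_normalizer, ← cj_normal g B]; exact cj_mono g h2
        have h5 : cj g X ≤ B := cj_le_of_mem_Nm h1 (mem_Nm_of_normal g B)
        have h6 : cj g X ⊔ D = ⊤ := by rw [← cj_normal g D, ← cj_sup, h3, cj_top]
        refine (ih (X ⊓ cj g X) (card_lt_of_lt (lt_of_le_of_ne inf_le_left fun e => hg
          (e.ge.trans inf_le_right))) (inf_le_left.trans h1) (le_normalizer_inf h2 h4) ?_).trans
          inf_le_left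
        exact top_le_iff.mp ((comm_sup hperf h3 h6).ge.trans (sup_le_sup_right
          (le_inf (comm_le_left (h5.trans h2)) (comm_le_right (h1.trans h4))) _))
  refine ⟨B, hB, hBD, fun B' hB' => ?_⟩
  refine (subnIn_top_iff.mpr hB').induction (P := fun A => A ⊔ D = ⊤ → B ≤ A) (fun _ => le_top)
    fun A C hAC hn _ ih hA => ?_
  have h1 := ih (top_le_iff.mp (hA.ge.trans (sup_le_sup_right hAC _)))
  exact (key ⁅B, A⁆ (comm_le_left (le_Nm_normal _ _)) (left_le_Nm_comm _ _)
    (comm_sup hperf hBD hA)).trans (comm_le_right (h1.trans hn))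

end Cfsg.Agent.S3027
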