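import Cfsg.Statements.S3032
import Cfsg.Agent.OD.Pre
import Cfsg.Agent.H1.HSub

set_option autoImplicit false
open Cfsg

namespace Cfsg.Agent.S3032

open Subgroup CfH9 CfH7 CfH1

universe u

theorem aux (n : ℕ) : ∀ {G : Type u} [Group G] [Finite G] (E : Subgroup G) [E.Normal],
    Nat.card E = n → IsSupersolvable (G ⧸ E) →
    (∀ (p : ℕ) [Fact p.Prime], ∀ P : Subgroup G, SylIn p P E → ¬ IsCyclic P →
      ∃ k : ℕ, 1 < p ^ k ∧ p ^ k < Nat.card P ∧
        ∀ F : Subgroup G, F ≤ P → (Nat.card F = p ^ k ∨ (p ^ k = 2 ∧ Nat.card F = 4)) →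
          ∀ g : G, ∀ x ∈ F, g * x * g⁻¹ ∈ P → g * x * g⁻¹ ∈ F) → IsSupersolvable G := by
  induction n using Nat.strong_induction_on with
  | _ n ih =>
  intro G _ _ E _ hn hGE h
  by_cases h0 : E = ⊥
  · subst h0
    exact isSupersolvable_of_mulEquiv QuotientGroup.quotientBot hGE
  have h1 : Nat.card E ≠ 1 := fun e => h0 (card_eq_one.1 e)
  set p := (Nat.card E).minFac with hp
  haveI : Fact p.Prime := ⟨Nat.minFac_prime h1⟩
  have hc : (Nat.card E).Coprime (p - 1) :=
    coprime_sub_one_of_min Fact.out fun q hq hd => Nat.minFac_le_of_dvd hq.two_le hd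
  obtain ⟨P, hP⟩ := exists_sylIn p E
  have hN : PNil p E := by
    by_cases hcyc : IsCyclic P
    · exact pNil_of_isCyclic_of_coprime hP hcyc hc
    obtain ⟨k, k1, k2, k3⟩ := h p P hP hcyc
    exact pNil_of_sc hP hc k1 k2 fun F f1 f2 g _ => k3 F f1 f2 g
  set K := pPrimeCoreOf p E with hK
  have hKE : K ≤ E := pPrimeCoreOf_le E
  have hKP : K ⊔ P = E := hN.sup_eq hP
  have hKc : (Nat.card K).Coprime p := coprime_card_pPrimeCoreOf E
  have hlt : K < E := lt_of_le_of_ne hKE fun e =>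
    (coprime_iff_not_dvd.1 hKc) (e ▸ Nat.minFac_dvd _)
  have hmap : E.map (QuotientGroup.mk' K) = P.map (QuotientGroup.mk' K) := by
    rw [map_mk'_eq_map_mk'_iff, sup_eq_left.2 hKE, sup_comm, hKP]
  have hcard : ∀ F, F ≤ P → Nat.card (F.map (QuotientGroup.mk' K)) = Nat.card F := by
    intro F hF
    rw [← card_map_mk'_mul K F, (disjoint_of_isPGroup_of_coprime (hP.pgrp.to_le hF) hKc).symm.eq_bot,
      card_bot, mul_one]
  have hq : IsSupersolvable ((G ⧸ K) ⧸ E.map (QuotientGroup.mk' K)) :=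
    isSupersolvable_of_mulEquiv (QuotientGroup.quotientQuotientEquivQuotient K E hKE).symm hGE
  refine ih _ (hn ▸ CfH1.card_lt_of_lt hlt) K rfl ?_ ?_
  · by_cases hcyc : IsCyclic P
    · refine isSupersolvable_of_quotient _ ?_ hq
      rw [hmap]
      exact isCyclic_of_surjective _ ((QuotientGroup.mk' K).subgroupMap_surjective P)
    obtain ⟨k, k1, k2, k3⟩ := h p P hP hcyc
    refine isSupersolvable_of_normal_subgroups (E.map (QuotientGroup.mk' K))
      (hmap ▸ hP.pgrp.map _) hq k1 (by rwa [hmap, hcard P le_rfl]) fun F f1 f2 => ?_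
    rw [hmap] at f1
    have e : F = (P ⊓ F.comap (QuotientGroup.mk' K)).map (QuotientGroup.mk' K) := by
      rw [map_inf_comap', inf_eq_right.2 f1]
    set F₀ := P ⊓ F.comap (QuotientGroup.mk' K) with hF₀
    rw [e, hcard F₀ inf_le_left] at f2
    have hsc := k3 F₀ inf_le_left f2
    have hPF : P ≤ Nm(F₀) := fun g hg => mem_normalizer_of_conj_mem fun x hx =>
      hsc g x hx (mul_mem (mul_mem hg hx.1) (inv_mem hg))
    have hEF : E ≤ Nm((F₀ ⊔ K : Subgroup G)) := by
      rw [← hKP]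
      exact sup_le (le_sup_right.trans le_normalizer)
        (CfH7.le_normalizer_sup hPF le_normalizer_of_normal)
    have hn : (F₀ ⊔ K).Normal := by
      refine normal_of_cj fun g => ?_
      rw [cj_sup, cj_normal g K]
      refine sup_le ?_ le_sup_right
      obtain ⟨e, he, h2⟩ := hP.exists_cj_le (isPGroup_cj (hP.pgrp.to_le inf_le_left) g)
        (Q := cj g F₀) (by rw [← cj_normal g E]; exact cj_mono g (inf_le_left.trans hP.le))
      rw [← cj_mul] at h2
      have h3 : cj (e * g) F₀ ≤ F₀ :=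
        cj_le_iff_forall.2 fun x hx => hsc _ x hx (cj_le_iff_forall.1 h2 x hx)
      rw [cj_mul, cj_le_iff] at h3
      rw [← cj_eq_of_mem_normalizer (inv_mem (hEF he))]
      exact h3.trans (cj_mono _ le_sup_left)
    have e2 : F = (F₀ ⊔ K).map (QuotientGroup.mk' K) := by
      rw [e, map_mk'_eq_map_mk'_iff, sup_assoc, sup_idem]
    rw [e2]
    exact hn.map _ (QuotientGroup.mk'_surjective K)
  · intro q _ Q hQ hcyc
    have hqp : q ≠ p := by
      rintro rfl
      refine hcyc ?_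
      rw [eq_bot_of_isPGroup_of_coprime hQ.pgrp (coprime_card_of_le hQ.le hKc)]
      infer_instance
    refine h q Q (hQ.trans hKE fun hd => ?_) hcyc
    have h2 : K.relIndex E ∣ Nat.card P := by
      rw [← hKP, relIndex_sup_left]
      exact relIndex_dvd_card K P
    obtain ⟨m, hm⟩ := hP.pgrp.exists_card_eq
    rw [hm] at h2
    exact hqp ((Nat.prime_dvd_prime_iff_eq Fact.out Fact.out).1
      ((Fact.out : q.Prime).dvd_of_dvd_pow (hd.trans h2)))

/-- Let G be a finite group and E a normal subgroup with G/E supersolvable. Suppose that for every prime p and every non-cyclic Sylow p-subgroup P of E there is a subgroup D of P with 1 < |D| < |P| such that every subgroup F of P of order |D|, and also every subgroup F of P of order 4 when |D| = 2, satisfies g F g⁻¹ ∩ N_G(F) ≤ F for all g ∈ G. Then G is supersolvable. -/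
theorem result {G : Type*} [Group G] [Finite G] (E : Subgroup G) [E.Normal] (hGE : Cfsg.IsSupersolvable (G ⧸ E))
    (h : ∀ (p : ℕ), p.Prime → ∀ P : Subgroup G, P ≤ E → IsPGroup p P → ¬ p ∣ P.relIndex E → ¬ IsCyclic ↥P →
      ∃ D : Subgroup G, D ≤ P ∧ 1 < Nat.card D ∧ Nat.card D < Nat.card P ∧
        ∀ F : Subgroup G, F ≤ P → (Nat.card F = Nat.card D ∨ (Nat.card D = 2 ∧ Nat.card F = 4)) →
          ∀ g : G, F.map (MulAut.conj g).toMonoidHom ⊓ Subgroup.normalizer (F : Set G) ≤ F) :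
    Cfsg.IsSupersolvable G := by
  refine aux _ E rfl hGE fun p _ P hP hcyc => ?_
  obtain ⟨D, hD, h1, h2, h3⟩ := h p Fact.out P hP.le hP.pgrp hP.not_dvd_relIndex hcyc
  obtain ⟨k, hk⟩ := (hP.pgrp.to_le hD).exists_card_eq
  rw [hk] at h1 h2 h3
  exact ⟨k, h1, h2, fun F f1 f2 g x hx hg => sc_of_hsub hP.pgrp f1 (h3 F f1 f2) hx hg⟩

end Cfsg.Agent.S3032
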