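import Cfsg.Statements.S3038
import Cfsg.Agent.R2.C
import Cfsg.Agent.H9.Iso2
import Cfsg.Agent.H9.QdFacts
import Cfsg.Agent.OD.Helper5x18f96d0f3c

set_option autoImplicit false
open Cfsg

namespace Cfsg.Agent.S3038

open CfH9 CfH7 CfH8 CfH1 CfFT Subgroup CfH5.R2
open scoped commutatorElement IsMulCommutative

section
variable {G : Type*} [Group G] [Finite G] {p : ℕ} [hp : Fact p.Prime]

theorem concl_map {G' : Type*} [Group G'] [Finite G'] {f : G →* G'} (hf : Function.Injective f)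
    {P : Subgroup G} : Concl p (P.map f) ↔ Concl p P := by
  have h1 : Ab (P.map f) ↔ Ab P := by
    refine ⟨fun h => comm_iff.2 fun a ha b hb => hf ?_, fun h => comm_map h f⟩
    rw [map_mul, map_mul]
    exact comm_iff.1 h _ (mem_map_of_mem f ha) _ (mem_map_of_mem f hb)
  have h2 : (∀ y ∈ P.map f, y ^ p = 1) ↔ ∀ y ∈ P, y ^ p = 1 := by
    refine ⟨fun h y hy => hf ?_, ?_⟩
    · rw [map_pow, map_one]; exact h _ (mem_map_of_mem f hy)
    · rintro h _ ⟨y, hy, rfl⟩
      rw [← map_pow, h y hy, map_one]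
  simp only [Concl, card_map_of_injective hf, h1, h2, ← map_lowerCentralSeries, Ne,
    map_eq_bot_iff_of_injective _ hf]

theorem rank_sub (h : PRankLE p 2 G) (H : Subgroup G) : PRankLE p 2 H := fun A h1 h2 => by
  rw [← CfH9.card_map_subtype]
  refine h _ (comm_map h1 _) ?_
  rintro _ ⟨a, ha, rfl⟩
  rw [← map_pow, h2 a ha, map_one]

theorem concl_of (h2 : p ≠ 2) (hr : PRankLE p 2 G) {x : G} (hx : orderOf x = p)
    (hiso : IsIsolated x) {K P : Subgroup G} (hK : ⁅K, K⁆ = K) (hP : SylIn p P K) (hxP : x ∈ P) :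
    Concl p P := by
  have hPH : P ≤ K ⊓ Cx(x) := le_inf hP.le (iso_le_Cx hiso hP.pgrp hxP)
  set H := K ⊓ Cx(x)
  have hS : SylIn p P H := hP.mono hPH inf_le_left
  have hd : P ≤ ⁅H, H⁆ := by
    have e1 := focal hP
    rw [hK, inf_eq_left.2 hP.le] at e1
    refine le_trans ?_ ((focal hS).ge.trans inf_le_right)
    conv_lhs => rw [e1]
    rw [foc_le_iff]
    intro a ha u hu hua
    have hxa : a * x = x * a := mem_Cx.1 (hPH ha).2
    obtain ⟨c, hc, e⟩ := iso_conj hiso (pow_pow_one_of_orderOf hx) (K := K ⊓ Cx(u * a * u⁻¹))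
      ⟨hP.le hxP, mem_Cx.2 (mem_Cx.1 (hPH hua).2).symm⟩ (g := u)
      (mi (mul_mem (mul_mem hu (hP.le hxP)) (inv_mem hu)) (mem_Cx.2 (by
        calc _ = u * (x * a) * u⁻¹ := by group
          _ = _ := by rw [← hxa]; group)))
    have e2 : c * u * a * (c * u)⁻¹ = u * a * u⁻¹ := by
      rw [← mem_Cx'.1 hc.2]; group
    have := mem_foc (H := H) ha (u := c * u) ⟨mul_mem hc.1 hu, e⟩ (by rwa [e2])
    rwa [e2] at this
  have := core (G := H) (p := p) (x := ⟨x, hPH hxP⟩) (P := P.subgroupOf H)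
    ⟨h2, rank_sub hr H, by rw [← orderOf_coe]; exact hx, fun g => Subtype.ext (mem_Cx.1 g.2.2)⟩
    hS.subgroupOf_top hxP (by
      rw [← map_le_map_iff_of_injective H.subtype_injective, map_commutator, map_subtype_top,
        map_subgroupOf_eq_of_le hPH]
      exact hd)
  rwa [← concl_map H.subtype_injective, map_subgroupOf_eq_of_le hPH] at this

theorem not_dvd_Cz (h2 : p ≠ 2) (hr : PRankLE p 2 G) {x : G} (hx : orderOf x = p)
    (hiso : IsIsolated x) {L : Subgroup G} (hL : ⁅L, L⁆ = L) (hd : p ∣ Nat.card L)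
    (hn : x ∈ Nm(L)) (hc : x ∉ Cz(L)) : ¬ p ∣ Nat.card Cz(L) := by
  intro hdC
  obtain ⟨T, hT, hxT⟩ := exists_sylIn_ge (isPGroup_zpowers_of_orderOf_prime hx)
    (zpowers_le_of_mem hn)
  have hxT' : x ∈ T := hxT (mem_zpowers x)
  have hC := hT.inf_normal' (Nm_le_Nm_Cz L) (Cz_le_Nm L)
  obtain ⟨z, hz, hzo⟩ := exists_orderOf_eq_prime (dvd_card_of_ne_bot hC.pgrp (hC.ne_bot_iff.2 hdC))
  have hTx := iso_le_Cx hiso hT.pgrp hxT'
  have hxz : x ∈ Cx(z) := mem_Cx.2 (mem_Cx.1 (hTx hz.1)).symm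
  have hE : EAb p (zpowers z ⊔ zpowers x : Subgroup G) :=
    eab_sup_zpowers (CfH9.elemAb_zpowers (pow_eq_one_of_orderOf hzo)) (pow_eq_one_of_orderOf hx)
      (by rwa [Cz_zpowers])
  have hcard := sq_le_card_sup_zpowers (pow_eq_one_of_orderOf hx) hzo
    (fun hh => hc (zpowers_le_of_mem hz.2 hh)) hxz
  have hET : zpowers z ⊔ zpowers x ≤ T := sup_le (zpowers_le_of_mem hz.1) hxT
  have hm : ∀ t ∈ T ⊓ L, t ^ p = 1 → t ∈ zpowers z ⊔ zpowers x := fun t ht e =>
    mem_of_pRankLE hr hE hcard e (by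
      rw [Cz_sup, Cz_zpowers, Cz_zpowers]
      exact ⟨mem_Cx.2 (mem_centralizer_iff.1 hz.2 t ht.2), hTx ht.1⟩)
  refine not_pNil_of_perfect hL hd (pNil_of_omega h2 (hT.inf_normal' le_rfl le_normalizer)
    fun t ht e g hg hgt => ?_)
  have h1 := hm t ht e
  rw [mem_sup_of_le_Nm' (zpowers_le_of_mem (Cz_le_Nm _ (by rwa [Cz_zpowers])))] at h1
  obtain ⟨_, ⟨j, rfl⟩, _, ⟨i, rfl⟩, rfl⟩ := h1
  simp only at ht e hgt ⊢
  have e1 : g * (z ^ j * x ^ i) * g⁻¹ = z ^ j * (g * x * g⁻¹) ^ i := by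
    rw [conj_zpow, ← mul_assoc g, mem_centralizer_iff.1 (zpow_mem (mi2 hz) j) g hg]; group
  by_cases h0 : (g * x * g⁻¹) ^ i = 1
  · have : x ^ i = 1 := by
      rw [conj_zpow] at h0
      calc _ = g⁻¹ * (g * x ^ i * g⁻¹) * g := by group
        _ = _ := by rw [h0]; group
    rw [e1, h0, this]
  · have h3 : (g * x * g⁻¹) ^ i ∈ T := by
      have := mi1 hgt
      rw [e1] at this
      exact (mul_mem_cancel_left (zpow_mem (mi1 hz) j)).1 this
    have h4 := zpowers_le_of_mem h3 (mem_zpowers_of_mem (p := p) (a := g * x * g⁻¹)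
      (by rw [CfH9.orderOf_conj', hx]) (zpow_mem_zpowers _ i) h0)
    rw [e1, iso_eq_of_mem hiso hT.pgrp hxT' h4]

end

/-- Let G be a finite group and p an odd prime with O_{p'}(G) = 1. Suppose that G has p-rank at most 2 and that some element x of order p is isolated in G and not central. Then F*(G) is a non-abelian simple group, and for every Sylow p-subgroup P of F*(G), either no conjugate of x lies in P and P is cyclic, or some conjugate of x lies in P and either P is extraspecial of order p³ and exponent p, or p = 3 and P has order 3^{2k+1} for some k ≥ 2 and is of maximal class (nilpotency class 2k). Since O_{p'}(G) = 1, such an x is not central modulo O_{p'}(G): the hypotheses describe a counterexample to the Z*_p statement in p-rank at most 2, and the conclusion records the structure it would have. -/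
theorem result {G : Type*} [Group G] [Finite G] {p : ℕ} [Fact p.Prime] (hp : p ≠ 2) (hcore : Cfsg.pPrimeCore p G = ⊥)
    (hrank : Cfsg.PRankLE p 2 G) (x : G) (hx : orderOf x = p) (hiso : Cfsg.IsIsolated x) (hnc : x ∉ Subgroup.center G) :
    IsSimpleGroup ↥(Cfsg.generalizedFittingSubgroup G) ∧ ¬ IsMulCommutative ↥(Cfsg.generalizedFittingSubgroup G) ∧
    ∀ P : Sylow p ↥(Cfsg.generalizedFittingSubgroup G),
      ((∀ g : G, g * x * g⁻¹ ∉ ((P : Subgroup ↥(Cfsg.generalizedFittingSubgroup G)).map (Cfsg.generalizedFittingSubgroup G).subtype)) ∧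
          IsCyclic ↥(P : Subgroup ↥(Cfsg.generalizedFittingSubgroup G))) ∨
      ((∃ g : G, g * x * g⁻¹ ∈ ((P : Subgroup ↥(Cfsg.generalizedFittingSubgroup G)).map (Cfsg.generalizedFittingSubgroup G).subtype)) ∧
        ((Cfsg.IsExtraspecial p ↥(P : Subgroup ↥(Cfsg.generalizedFittingSubgroup G)) ∧
            Nat.card (P : Subgroup ↥(Cfsg.generalizedFittingSubgroup G)) = p ^ 3 ∧
            ∀ y ∈ (P : Subgroup ↥(Cfsg.generalizedFittingSubgroup G)), y ^ p = 1) ∨
         (p = 3 ∧ ∃ k : ℕ, 2 ≤ k ∧ Nat.card (P : Subgroup ↥(Cfsg.generalizedFittingSubgroup G)) = 3 ^ (2 * k + 1) ∧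
            ∃ _ : Group.IsNilpotent ↥(P : Subgroup ↥(Cfsg.generalizedFittingSubgroup G)),
              Group.nilpotencyClass ↥(P : Subgroup ↥(Cfsg.generalizedFittingSubgroup G)) = 2 * k))) := by
  have hp' : p.Prime := Fact.out
  have hk := pow_pow_one_of_orderOf hx
  obtain ⟨L, hL, hxL⟩ := iso_exists_component hcore hiso hk hnc
  have hdL := component_dvd_card hcore hL
  have hnd := not_dvd_Cz hp hrank hx hiso (qs_perfect hL.2) hdL
    (iso_mem_Nm_component hiso hk hL hdL) hxL
  have hO : pCore p G = ⊥ := eq_bot_of_not_dvd (isPGroup_pCore p G)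
    (le_centralizer_iff.1 (component_le_centralizer_pCore hL)) hnd
  have hu : ∀ K : Subgroup G, IsComponent K → K = L := fun K hK => by
    rcases component_eq_or_commutator_eq_bot hK hL with e | e
    · exact e
    · exact absurd ((component_dvd_card hcore hK).trans
        (card_dvd_of_le (le_centralizer_iff_commutator_eq_bot.2 e))) hnd
  have hF := fitting_eq_bot hO hcore
  haveI : Nontrivial G := ⟨⟨x, 1, ne_one_of_orderOf_eq_prime hx⟩⟩
  obtain ⟨s1, s2⟩ := fstar_simple hF fun K K' h1 h2 => (hu K' h2).trans (hu K h1).symm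
  refine ⟨s1, s2, ?_⟩
  have hperf : ⁅generalizedFittingSubgroup G, generalizedFittingSubgroup G⁆ =
      generalizedFittingSubgroup G := by
    rw [fstar_eq_of_unique hF hL hu]; exact qs_perfect hL.2
  have hKn := fstar_normal G
  generalize generalizedFittingSubgroup G = K at hperf hKn ⊢
  intro P
  set P' := (P : Subgroup K).map K.subtype with hP'
  have hS : SylIn p P' K := by
    have := (sylIn_top P).map K.subtype
    rwa [map_subtype_top] at this
  obtain ⟨T, hT, hPT⟩ := exists_sylIn_ge hS.pgrp (le_top (a := P'))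
  have hTK : T ⊓ K = P' := hS.eq_of_le (hT.pgrp.to_le inf_le_left) inf_le_right (le_inf hPT hS.le)
  obtain ⟨g, -, hg⟩ := hT.exists_conj_mem (x := x) trivial hk
  have hiso' := iso_cj hiso g
  have hx' : orderOf (g * x * g⁻¹) = p := by rw [CfH9.orderOf_conj', hx]
  by_cases hxK : g * x * g⁻¹ ∈ K
  · have hxP : g * x * g⁻¹ ∈ P' := hTK ▸ mi hg hxK
    refine Or.inr ⟨⟨g, hxP⟩, ?_⟩
    have hc := concl_of hp hrank hx' hiso' hperf hS hxP
    rw [hP', concl_map K.subtype_injective] at hc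
    rcases hc with ⟨h1, h2, h3⟩ | ⟨h1, k, h2, h3, h4, h5⟩
    · exact Or.inl ⟨isExtraspecial_of_card h1 h2, h1, h3⟩
    · haveI : Group.IsNilpotent (P : Subgroup K) := P.isPGroup'.isNilpotent
      refine Or.inr ⟨h1, k, h2, h3, inferInstance, ?_⟩
      rw [← top_subtype_lowerCentralSeries, map_eq_bot_iff_of_injective _ (subtype_injective _),
        Subgroup.lowerCentralSeries_eq_bot_iff_nilpotencyClass_le] at h4
      rw [← top_subtype_lowerCentralSeries, Ne, map_eq_bot_iff_of_injective _ (subtype_injective _),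
        Subgroup.lowerCentralSeries_eq_bot_iff_nilpotencyClass_le] at h5
      omega
  · refine Or.inl ⟨fun u hu => hxK ?_, ?_⟩
    · have := hKn.conj_mem _ (hS.le hu) (g * u⁻¹)
      rwa [show g * u⁻¹ * (u * x * u⁻¹) * (g * u⁻¹)⁻¹ = g * x * g⁻¹ by group] at this
    · have : Cyc P' := by
        by_contra hc
        obtain ⟨E, hE⟩ := exists_el_two_of_not_cyc hp hS.pgrp hc
        refine hxK (hS.le (hE.le (mem_of_pRankLE hrank hE.eab hE.card.ge
          (pow_eq_one_of_orderOf hx') ?_)))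
        exact le_Cx_iff.1 ((hE.le.trans hPT).trans (iso_le_Cx hiso' hT.pgrp hg))
      exact ((P : Subgroup K).equivMapOfInjective _ K.subtype_injective).isCyclic.2 this

end Cfsg.Agent.S3038
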