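import Cfsg.Statements.S3040
import Cfsg.Agent.T3.B
import Cfsg.Agent.H9.Invert

set_option autoImplicit false
open Cfsg

namespace Cfsg.Agent.S3040

open CfH9 CfH7 CfH8 CfH1 CfFT CfH5.T3 Subgroup SemidirectProduct in
theorem key {G : Type*} [Group G] [Finite G] (h3 : ¬ 3 ∣ Nat.card G) {σ τ : MulAut G}
    (o3 : orderOf σ = 3) (t2 : τ * τ = 1) (ts : τ * σ = σ * σ * τ)
    (hf : ∀ g, σ g = g → τ g = g → g = 1) :
    Group.IsSolvable G ∧ ¬ 2 ∣ (Cfsg.pPrimePCore 2 G).index ∧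
      Cfsg.pPrimePCore 2 G ⊔ Subgroup.closure {g : G | σ g = g} = ⊤ := by
  let Γ := G ⋊[MonoidHom.id (MulAut G)] MulAut G
  haveI : Finite Γ := Finite.of_equiv _ equivProd.symm
  let f : G →* Γ := inl
  have hi : Function.Injective f := inl_injective
  have ac : ∀ (α : MulAut G) (g : G), (inr α : Γ) * f g * (inr α)⁻¹ = f (α g) := fun α g => by
    rw [← map_inv]; exact (inl_aut (φ := MonoidHom.id (MulAut G)) α g).symm
  set H : Subgroup Γ := (⊤ : Subgroup G).map f with hH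
  set R : Subgroup Γ := zpowers (inr σ) with hR
  have nH : ∀ α : MulAut G, (inr α : Γ) ∈ Nm(H) := fun α =>
    mem_normalizer_of_conj_mem (by rintro _ ⟨g, -, rfl⟩; exact ⟨α g, trivial, (ac α g).symm⟩)
  have mC : ∀ x, x ∈ H ⊓ Cz(R) ↔ ∃ g, σ g = g ∧ f g = x := fun x => by
    rw [hR, Cz_zpowers]
    constructor
    · rintro ⟨⟨g, -, rfl⟩, h⟩
      exact ⟨g, hi ((ac σ g).symm.trans (mem_Cx'.1 (mem_Cx_comm h))), rfl⟩
    · rintro ⟨g, e, rfl⟩
      exact ⟨⟨g, trivial, rfl⟩, mem_Cx_comm (mem_Cx'.2 (by rw [ac, e]))⟩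
  have z2 : (inr τ : Γ) * inr τ = 1 := by rw [← map_mul, t2, map_one]
  have nC : (inr τ : Γ) ∈ Nm(H ⊓ Cz(R)) := mem_normalizer_of_conj_mem fun x hx => by
    obtain ⟨g, e, rfl⟩ := (mC x).1 hx
    refine (mC _).2 ⟨τ g, ?_, (ac τ g).symm⟩
    have s3 : σ * (σ * σ * τ) = τ := by
      rw [← mul_assoc, ← mul_assoc, show σ * σ * σ = σ ^ 3 by simp [pow_succ], ← o3,
        pow_orderOf_eq_one, one_mul]
    calc σ (τ g) = σ (τ (σ g)) := by rw [e]
    _ = (σ * (τ * σ)) g := rfl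
    _ = τ g := by rw [ts, s3]
  have c0 : H ⊓ Cz(R) ⊓ Cx((inr τ : Γ)) = ⊥ := eq_bot_iff.2 fun x hx => by
    obtain ⟨g, e, rfl⟩ := (mC x).1 hx.1
    rw [hf g e (hi ((ac τ g).symm.trans (mem_Cx'.1 (mem_Cx_comm hx.2)))), map_one]
    exact one_mem _
  have iv := fun {n} (hn : n ∈ H ⊓ Cz(R)) => inverts_of_fpf z2 nC c0 hn
  have ab : Ab (H ⊓ Cz(R)) := comm_iff.2 fun a ha b hb => inv_injective (by
    rw [← iv (mul_mem ha hb), ← conj_mul, iv ha, iv hb, mul_inv_rev])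
  have od : OddS (H ⊓ Cz(R)) := odd2 (pp_of_not_dvd fun h => by
    obtain ⟨x, hx, o⟩ := exists_orderOf_eq_prime h
    have : x ∈ H ⊓ Cz(R) ⊓ Cx((inr τ : Γ)) := mi hx (mem_Cx_comm (mem_Cx'.2 (by
      rw [iv hx, inv_eq_of_mul_eq_one_right]; rw [← pow_two, ← o, pow_orderOf_eq_one])))
    rw [c0, mem_bot] at this
    simp [this] at o)
  have hy : Hy H R := ⟨zpowers_le.2 (nH σ),
    by rw [hR, Nat.card_zpowers, orderOf_injective inr inr_injective, o3],
    pp_of_not_dvd (by rwa [hH, card_map_of_injective hi, card_top]), od⟩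
  have hs := hy.sol ab
  have e : Cfsg.pPrimePCore 2 G = Opp 2 ⊤ := by rw [pPrimePCore_eq, ← pPrimeCoreOf_top]; rfl
  have e' : (Opp 2 ⊤).map f = Opp 2 H := map_Opp_of_injective hi ⊤
  refine ⟨?_, ?_, map_injective hi ?_⟩
  · exact Group.isSolvable_of_isSolvable_injective (f := (f.codRestrict H fun g => ⟨g, trivial, rfl⟩))
      fun a b h => hi (congrArg Subtype.val h)
  · have := hy.not_dvd hs
    rwa [← e', hH, relIndex_map_map_of_injective _ _ hi, relIndex_top_right, ← e] at this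
  · rw [Subgroup.map_sup, e, e']
    refine le_antisymm (sup_le (Opp_le H) (map_mono le_top)) ((hy.sup_eq hs).ge.trans
      (sup_le_sup_left (fun x hx => ?_) _))
    obtain ⟨g, e, rfl⟩ := (mC x).1 hx
    exact ⟨g, subset_closure e, rfl⟩

set_option synthInstance.maxSize 1000 in
set_option synthInstance.maxHeartbeats 200000 in
theorem s3 : ∀ s : Equiv.Perm (Fin 3), s * s * s = 1 → s ≠ 1 → ∃ t, t * t = 1 ∧ t * s = s * s * t ∧
    ∀ x, x = 1 ∨ x = s ∨ x = s * s ∨ x = t ∨ x = t * s ∨ x = t * (s * s) := by decide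


/-- Let G be a finite group of even order coprime to 3, and let Σ be a group of automorphisms of G isomorphic to the symmetric group of degree 3 that is fixed-point-free (only the identity of G is fixed by every element of Σ). Then G is solvable, O_{2′,2}(G) (the preimage in G of O₂(G/O(G))) has odd index in G, and G = O_{2′,2}(G) C_G(σ) for every element σ of Σ of order 3; that is, O₂(G/O(G)) is a Sylow 2-subgroup of G/O(G) and G/O(G) = O₂(G/O(G)) C_{G/O(G)}(σ). -/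
theorem result {G : Type*} [Group G] [Finite G] (heven : 2 ∣ Nat.card G) (h3 : ¬ 3 ∣ Nat.card G)
    (Sig : Subgroup (MulAut G)) (hS3 : Nonempty (↥Sig ≃* Equiv.Perm (Fin 3))) (hfpf : ∀ g : G, (∀ σ ∈ Sig, σ g = g) → g = 1) :
    Group.IsSolvable G ∧ ¬ 2 ∣ (Cfsg.pPrimePCore 2 G).index ∧ ∀ σ ∈ Sig, orderOf σ = 3 →
      Cfsg.pPrimePCore 2 G ⊔ Subgroup.closure {g : G | σ g = g} = ⊤ := by
  obtain ⟨e⟩ := hS3
  have k : ∀ σ ∈ Sig, orderOf σ = 3 → Group.IsSolvable G ∧ ¬ 2 ∣ (Cfsg.pPrimePCore 2 G).index ∧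
      Cfsg.pPrimePCore 2 G ⊔ Subgroup.closure {g : G | σ g = g} = ⊤ := fun σ hσ o3 => by
    have o : orderOf (e ⟨σ, hσ⟩) = 3 := by rw [MulEquiv.orderOf_eq, ← o3, ← Subgroup.orderOf_coe]
    obtain ⟨t, t2, ts, hx⟩ := s3 (e ⟨σ, hσ⟩)
      (by rw [← pow_three']; exact CfH9.pow_eq_one_of_orderOf o) (fun h => by simp [h] at o)
    obtain ⟨τ, rfl⟩ := e.surjective t
    simp only [← map_mul, ← map_one e, e.apply_eq_iff_eq] at t2 ts
    refine key h3 o3 (congrArg Subtype.val t2) (congrArg Subtype.val ts) fun g h1 h2 =>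
      hfpf g fun α hα => ?_
    have := hx (e ⟨α, hα⟩)
    simp only [← map_mul, ← map_one e, e.apply_eq_iff_eq, Subtype.ext_iff] at this
    rcases this with h | h | h | h | h | h <;> simp [show α = _ from h, h1, h2]
  have o : orderOf ((e.symm (finRotate 3) : Sig) : MulAut G) = 3 := by
    rw [Subgroup.orderOf_coe, MulEquiv.orderOf_eq]
    exact orderOf_eq_prime (by decide) (by decide)
  have k0 := k _ (e.symm (finRotate 3)).2 o
  exact ⟨k0.1, k0.2.1, fun σ h1 h2 => (k σ h1 h2).2.2⟩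

end Cfsg.Agent.S3040
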