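import Cfsg.Statements.S3043
import Cfsg.Agent.H1.TI3
import Cfsg.Agent.OD.Pre

set_option autoImplicit false
open Cfsg

namespace Cfsg.Agent.S3043

/-- Let M be a nontrivial subgroup of a finite group G meeting each of its other conjugates trivially, with N_G(M) = M · C_{N_G(M)}(z) for some involution z ∈ N_G(M), and with C_G(x) of odd order for every nontrivial x ∈ M. Then one of the following holds: M is normal in G; the number of involutions of G is at most |G : M|; G is isomorphic to PGL₂(F) or to PSL₂(F) for a finite field F with |F| = |M|, M is an elementary abelian p-group for the characteristic p of F, and |F| ≡ 1 (mod 4) in the PSL₂ case; G is isomorphic to PSL₂(F) with |F| = 2^e, e > 1, and M is cyclic of order 2^e + 1; or for some d ≥ 1, G has an elementary abelian normal subgroup of order 2^{2d} complemented by N_G(M), and N_G(M) is dihedral of order 2(2^d + 1). -/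
theorem result {G : Type*} [Group G] [Finite G] (M : Subgroup G) (hM1 : M ≠ ⊥)
    (hTI : ∀ g : G, M ⊓ M.map (MulAut.conj g).toMonoidHom ≠ ⊥ → M.map (MulAut.conj g).toMonoidHom = M)
    (z : G) (hz : orderOf z = 2) (hzN : z ∈ Subgroup.normalizer (M : Set G))
    (hfac : M ⊔ (Subgroup.normalizer (M : Set G) ⊓ Subgroup.centralizer ({z} : Set G)) = Subgroup.normalizer (M : Set G))
    (hodd : ∀ x ∈ M, x ≠ 1 → Odd (Nat.card ↥(Subgroup.centralizer ({x} : Set G)))) :
    M.Normal ∨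
    Nat.card {g : G // orderOf g = 2} ≤ M.index ∨
    (∃ (F : Type) (_ : Field F) (_ : Fintype F) (p : ℕ) (_ : Fact p.Prime) (_ : CharP F p), Fintype.card F = Nat.card M ∧ Cfsg.IsElementaryAbelian p M ∧
        (Nonempty (G ≃* (GL (Fin 2) F ⧸ Subgroup.center (GL (Fin 2) F))) ∨
         (Fintype.card F % 4 = 1 ∧ Nonempty (G ≃* Matrix.ProjectiveSpecialLinearGroup (Fin 2) F)))) ∨
    (∃ (F : Type) (_ : Field F) (_ : Fintype F) (e : ℕ), 1 < e ∧ Fintype.card F = 2 ^ e ∧ IsCyclic ↥M ∧ Nat.card M = 2 ^ e + 1 ∧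
        Nonempty (G ≃* Matrix.ProjectiveSpecialLinearGroup (Fin 2) F)) ∨
    (∃ (d : ℕ) (E : Subgroup G), 1 ≤ d ∧ E.Normal ∧ Cfsg.IsElementaryAbelian 2 E ∧ Nat.card E = 2 ^ (2 * d) ∧
        E ⊓ Subgroup.normalizer (M : Set G) = ⊥ ∧ E ⊔ Subgroup.normalizer (M : Set G) = ⊤ ∧
        Nonempty (↥(Subgroup.normalizer (M : Set G)) ≃* DihedralGroup (2 ^ d + 1))) := by
  refine or_iff_not_imp_left.2 fun h1 => or_iff_not_imp_left.2 fun h2 => ?_
  have d : CfH1.TD M z := ⟨hM1, fun x hx x1 g h => CfH9.mem_normalizer_iff_cj.2 (hTI g fun e => x1 (conj_eq_one_iff.1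
      (e.le (x := g * x * g⁻¹) ⟨h, CfH9.conj_mem_cj g hx⟩))), (CfH5.BS.inv_of_orderOf hz).sq,
    (CfH5.BS.inv_of_orderOf hz).ne, hzN, fun h hh => by
      obtain ⟨x, hx, e, he, f⟩ := (CfH9.mem_sup_of_le_Nm' inf_le_left).1 (hfac.ge hh)
      exact ⟨x, hx, e, he, f.symm⟩,
    fun x hx x1 c hc => (hodd x hx x1).of_dvd_nat (Subgroup.orderOf_dvd_natCard _ (CfH9.mem_Cx.2 hc)), by
      by_contra! h
      exact h1 (Subgroup.normalizer_eq_top_iff.1 ((Subgroup.eq_top_iff' _).2 h)), by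
      rw [← Nat.card_coe_set_eq, ← Nat.card_congr (Equiv.subtypeEquivRight (p := fun g : G => orderOf g = 2) fun g =>
        ⟨fun h => ⟨(CfH5.BS.inv_of_orderOf h).sq, (CfH5.BS.inv_of_orderOf h).ne⟩,
          fun h => (CfH5.BS.Inv.mk h.1 h.2).orderOf_eq⟩)]
      exact not_le.1 h2⟩
  obtain ⟨t, ht, tn⟩ := d.exists_c
  by_cases h3 : ∀ c ∈ Subgroup.centralizer ({z} : Set G), c ∉ Subgroup.normalizer (M : Set G) →
      t * c ∈ Subgroup.normalizer (M : Set G)
  · rcases d.two_cases ht tn h3 with h | ⟨h, hz⟩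
    · obtain ⟨F, _, _, p, _, _, a, b, c⟩ := d.case_pgl ht tn h3 h
      exact .inl ⟨F, _, _, p, inferInstance, inferInstance, a, b, .inl c⟩
    · obtain ⟨F, _, _, p, _, _, a, b, c⟩ := d.case_psl ht tn h3 h hz
      exact .inl ⟨F, _, _, p, inferInstance, inferInstance, a, b, .inr c⟩
  · push Not at h3
    obtain ⟨c, hc, cn, h⟩ := h3
    have ea := d.ea_of ht tn hc cn h
    obtain ⟨e, e1, e2, e3, ⟨e4, e5⟩ | ⟨e4, e5⟩⟩ := d.nums ea
    · exact .inr (.inl (d.case_sl ea e1 e2 e3 e4 e5))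
    · exact .inr (.inr (d.case_aff ea e1 e2 e3 e4 e5))

end Cfsg.Agent.S3043
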