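import Cfsg.Statements.S3047
import Cfsg.Agent.H5.R1b

set_option autoImplicit false
open Cfsg Subgroup CfH9 CfH7 CfH8 CfH5

namespace Cfsg.Agent.S3047

/-- Let p ≥ 5 be a prime, G a finite group all of whose composition factors are known simple groups, S a Sylow p-subgroup and P a p-minimal subgroup of G containing S such that O^p(P/O_p(P)) is isomorphic to SL₂(pᵃ), PSL₂(pᵃ), SU₃(pᵃ) or PSU₃(pᵃ) for some a ≥ 1. Let L be the subgroup generated by N_G(S) and the p-minimal subgroups of G containing S other than P. Then either O^p(P) is normal in G, or every p-element of the centre of L lies in O_p(P). -/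
theorem result {G : Type*} [Group G] [Finite G] {p : ℕ} [Fact p.Prime] (hp : 5 ≤ p) (hK : Cfsg.IsCompositionKGroup G)
    (S : Sylow p G) (P : Subgroup G) (hSP : (S : Subgroup G) ≤ P) (hPmin : Cfsg.IsPMinimal p ↥P) [hn : (Cfsg.pCore p ↥P).Normal]
    (hrk1 : ∃ (F : Type) (_ : Field F) (_ : Fintype F) (a : ℕ), 1 ≤ a ∧
      ((Fintype.card F = p ^ a ∧ (Nonempty (↥(Cfsg.pResidual p (↥P ⧸ Cfsg.pCore p ↥P)) ≃* Matrix.SpecialLinearGroup (Fin 2) F) ∨
                                  Nonempty (↥(Cfsg.pResidual p (↥P ⧸ Cfsg.pCore p ↥P)) ≃* Matrix.ProjectiveSpecialLinearGroup (Fin 2) F))) ∨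
       (Fintype.card F = p ^ (2 * a) ∧ (Nonempty (↥(Cfsg.pResidual p (↥P ⧸ Cfsg.pCore p ↥P)) ≃* ↥(Cfsg.SU 3 F (p ^ a))) ∨
                                        Nonempty (↥(Cfsg.pResidual p (↥P ⧸ Cfsg.pCore p ↥P)) ≃* Cfsg.PSU 3 F (p ^ a))))))
    (L : Subgroup G)
    (hL : L = Subgroup.normalizer ((S : Subgroup G) : Set G) ⊔ ⨆ P' : {P' : Subgroup G // (S : Subgroup G) ≤ P' ∧ Cfsg.IsPMinimal p ↥P' ∧ P' ≠ P}, (P' : Subgroup G)) :
    ((Cfsg.pResidual p ↥P).map P.subtype).Normal ∨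
    ∀ z ∈ L ⊓ Subgroup.centralizer (L : Set G), (∃ k : ℕ, orderOf z = p ^ k) → z ∈ (Cfsg.pCore p ↥P).map P.subtype := by
  refine Or.inr fun z hz ⟨k, hk⟩ => ?_
  have : (pResidual p (P ⧸ pCore p P)).Normal := inferInstance
  obtain ⟨U, B, w, h, R⟩ : ∃ U B w h, R1 p (pResidual p (P ⧸ pCore p P)) U B w h := by
    have k : ∀ {Y : Type} [Group Y], (∃ U B w h, R1 p (⊤ : Subgroup Y) U B w h) →
        (Nonempty (pResidual p (P ⧸ pCore p P) ≃* Y) ∨ Nonempty (pResidual p (P ⧸ pCore p P) ≃* Y ⧸ center Y)) →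
        ∃ U B w h, R1 p (pResidual p (P ⧸ pCore p P)) U B w h := fun {Y} _ ⟨U, B, w, h, R⟩ c => by
      obtain ⟨f, h1, h2⟩ : ∃ f : Y →* pResidual p (P ⧸ pCore p P), Function.Surjective f ∧ ∀ x, f x = 1 → x ∈ center Y := by
        rcases c with ⟨⟨e⟩⟩ | ⟨⟨e⟩⟩
        · exact ⟨e.symm.toMonoidHom, e.symm.surjective, fun x c => (map_eq_one_iff _ e.symm.injective).1 c ▸ one_mem _⟩
        · exact ⟨e.symm.toMonoidHom.comp (QuotientGroup.mk' _), e.symm.surjective.comp QuotientGroup.mk_surjective,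
            fun x c => (QuotientGroup.eq_one_iff _).1 ((map_eq_one_iff _ e.symm.injective).1 c)⟩
      have := R.map ((pResidual p (P ⧸ pCore p P)).subtype.comp f) fun x c y => (mem_center_iff.1 (h2 x (Subtype.ext c)) y).symm
      rw [← map_map, map_top_of_surjective f h1, ← MonoidHom.range_eq_map, range_subtype] at this
      exact ⟨_, _, _, _, this⟩
    obtain ⟨F, _, _, a, -, ⟨hF, c⟩ | ⟨hF, c⟩⟩ := hrk1
    · have := charP_of_card hF
      exact k (r1_sl hp) c
    · have := charP_of_card hF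
      obtain ⟨ψ, h1, h2⟩ := su_rep (q := p ^ a) (hF.trans (pow_mul' p 2 a))
      exact k (r1_su hp h1 h2) c
  have hS := (sylIn_sylow_of_le S hSP).subgroupOf_top
  have hs : Function.Surjective (QuotientGroup.mk' (pCore p P)) := QuotientGroup.mk_surjective
  have c1 : ∀ g ∈ Nm((S : Subgroup G)), g * z = z * g := fun g hg => hz.2 g (hL ▸ mem_sup_left hg)
  have zS : z ∈ (S : Subgroup G) := (sylIn_top S).le_of_le_Nm' (isPGroup_zpowers_of_orderOf hk) le_top
    (zpowers_le.2 (Cz_le_Nm _ fun g hg => c1 g (le_normalizer hg))) (mem_zpowers z)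
  have oS : pCore p P ≤ (S : Subgroup G).subgroupOf P := pCore_le_sylow hS.toSylowTop
  have := R.main (z := QuotientGroup.mk' _ (⟨z, hSP zS⟩ : P)) (hS.map_surj hs) (fun A A' h1 h2 e => by
    by_contra! c
    obtain ⟨M, -, hM⟩ := (hPmin hS.toSylowTop).2
    have f : ∀ A : Subgroup (P ⧸ pCore p P), _ ≤ A → A ≠ ⊤ → A.comap (QuotientGroup.mk' _) ≤ M ∧ M ≠ ⊤ := fun A h1 h2 => by
      obtain ⟨N, n1, n2⟩ := (eq_top_or_exists_le_coatom (A.comap (QuotientGroup.mk' (pCore p P)))).resolve_left fun c =>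
        h2 (comap_injective hs (c.trans (comap_top _).symm))
      exact hM N ⟨n1, (map_le_iff_le_comap.1 h1).trans n2⟩ ▸ ⟨n2, n1.1⟩
    exact (f A h1 c.1).2 (top_le_iff.1 (by
      rw [← comap_top (QuotientGroup.mk' (pCore p P)), ← e, ← comap_sup_eq _ _ _ hs]; exact sup_le (f A h1 c.1).1 (f A' h2 c.2).1)))
    (fun g hg => by
      obtain ⟨g, rfl⟩ := hs g
      have : g ∈ Nm((S : Subgroup G).subgroupOf P) := mem_normalizer_of_conj_mem fun x hx => by
        have := conj_mem_of_mem_normalizer hg (mem_map_of_mem _ hx)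
        rw [← map_inv, ← map_mul, ← map_mul, ← mem_comap, comap_map_eq_self (by rwa [QuotientGroup.ker_mk'])] at this
        exact this
      rw [← map_mul, ← map_mul, show g * ⟨z, hSP zS⟩ = ⟨z, hSP zS⟩ * g from Subtype.ext (c1 g (mem_normalizer_of_conj_mem fun x hx =>
        conj_mem_of_mem_normalizer this (x := ⟨x, hSP hx⟩) hx))])
  refine ⟨⟨z, hSP zS⟩, (QuotientGroup.eq_one_iff _).1 (mem_bot.1 (pCore_quotient_pCore p P ▸ le_pCore ⟨fun n hn g => ?_⟩
    (isPGroup_zpowers (k := k) ?_) (mem_zpowers _))), rfl⟩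
  · obtain ⟨j, rfl⟩ := hn
    exact (mul_inv_eq_iff_eq_mul.2 (Commute.zpow_right (this g) j).eq).symm ▸ zpow_mem (mem_zpowers _) j
  · rw [← QuotientGroup.mk_pow, show (⟨z, hSP zS⟩ : P) ^ p ^ k = 1 from Subtype.ext (hk ▸ pow_orderOf_eq_one z)]
    rfl

end Cfsg.Agent.S3047
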