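import Cfsg.Statements.S3048
import Cfsg.Agent.OD.Pre
import Cfsg.Agent.H1.Sidki
import Cfsg.Agent.S3012
import Cfsg.Agent.S3013
import Cfsg.Agent.H1.Super

set_option autoImplicit false
universe u
open Cfsg

namespace Cfsg.Agent.S3048

open Subgroup CfH9 CfH7 CfH1
open scoped commutatorElement

theorem pCore_quot_eq_bot {G : Type*} [Group G] [Finite G] (h2 : pCore 2 G = ⊥) :
    pCore 2 (G ⧸ center G) = ⊥ := by
  have h1 : Group.IsNilpotent ((pCore 2 (G ⧸ center G)).comap (QuotientGroup.mk' (center G))) := by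
    haveI := (isPGroup_pCore 2 (G ⧸ center G)).isNilpotent
    refine Subgroup.isNilpotent_of_ker_le_center
      ((QuotientGroup.mk' (center G)).subgroupComap (pCore 2 (G ⧸ center G))) ?_
    intro x hx
    have : (x : G) ∈ center G := (QuotientGroup.eq_one_iff _).1 (congrArg Subtype.val hx)
    rw [mem_center_iff] at this ⊢
    exact fun g => Subtype.ext (this g)
  have h3 := coprime_card_of_le (le_fitting inferInstance h1)
    (coprime_card_fitting_of_pCore_eq_bot h2)
  have h4 := coprime_card_map (QuotientGroup.mk' (center G)) h3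
  rw [map_comap_eq_self_of_surjective (QuotientGroup.mk'_surjective _)] at h4
  exact eq_bot_of_isPGroup_of_coprime (isPGroup_pCore 2 _) h4

/-- Minimal counterexample reduction for the Sidki pair problem. Let G be a finite group and V a nontrivial elementary abelian 2-subgroup satisfying the Sidki pair condition with V ∩ O₂(G) = 1. Suppose that for every finite group H of smaller order, every nontrivial elementary abelian 2-subgroup W of H satisfying the Sidki pair condition meets O₂(H) nontrivially, and that the same holds in G for every such subgroup W of order smaller than that of V. Then the generalized Fitting subgroup F*(G) is a non-abelian simple group and G = V F*(G). -/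
theorem result {G : Type u} [Group G] [Finite G] (V : Subgroup G) (hV : Cfsg.IsElementaryAbelian 2 V) (hV1 : V ≠ ⊥) (hS : Cfsg.IsSidkiPair V) (hVO : V ⊓ Cfsg.pCore 2 G = ⊥) (hminG : ∀ (H : Type u) [Group H] [Finite H] (W : Subgroup H), Nat.card H < Nat.card G → Cfsg.IsElementaryAbelian 2 W → W ≠ ⊥ → Cfsg.IsSidkiPair W → W ⊓ Cfsg.pCore 2 H ≠ ⊥) (hminV : ∀ W : Subgroup G, Nat.card W < Nat.card V → Cfsg.IsElementaryAbelian 2 W → W ≠ ⊥ → Cfsg.IsSidkiPair W → W ⊓ Cfsg.pCore 2 G ≠ ⊥) : IsSimpleGroup ↥(Cfsg.generalizedFittingSubgroup G) ∧ ¬ IsMulCommutative ↥(Cfsg.generalizedFittingSubgroup G) ∧ V ⊔ Cfsg.generalizedFittingSubgroup G = ⊤ := by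
  have hcomm : ∀ a ∈ V, ∀ b ∈ V, a * b = b * a := comm_iff.1 hV.1
  have hVp : IsPGroup 2 V := isPGroup_of_isElementaryAbelian hV
  have hno : ∀ {w a : G}, a ≠ 1 → Odd (orderOf a) → w * a * w⁻¹ = a⁻¹ → w * a = a * w → False :=
    fun {w a} h1 ho e e2 => h1 (eq_one_of_odd_of_eq_inv ho (by rw [← e, e2]; group))
  have hquot : ∀ (K : Subgroup G) [K.Normal], K ≠ ⊥ → V ⊓ K = ⊥ → pCore 2 (G ⧸ K) ≠ ⊥ := by
    intro K _ hK hVK h
    refine hminG (G ⧸ K) (V.map (QuotientGroup.mk' K)) (card_quot_lt hK)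
      (isElementaryAbelian_map hV _) ?_ (S3012.result V K hV hV1 hS hVK) (by rw [h, inf_bot_eq])
    rw [Ne, map_mk'_eq_bot_iff]
    exact fun h => hV1 (by rw [← hVK, inf_eq_left.2 h])
  have h2 : pCore 2 G = ⊥ := by
    by_contra h
    exact hquot _ h hVO (pCore_quotient_pCore 2 G)
  have hsub : ∀ H W : Subgroup G, H ≠ ⊤ → W ≤ H → W ≤ V → W ≠ ⊥ → SP W H →
      ∃ w ∈ W, w ≠ 1 ∧ w ∈ pCoreOf 2 H := by
    intro H W hH hWH hWV hW hsp
    have := hminG H (W.subgroupOf H) (CfH9.card_lt_of_ne_top hH)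
      (isElementaryAbelian_subgroupOf (isElementaryAbelian_of_le hV hWV) H)
      (by rwa [Ne, subgroupOf_eq_bot, disjoint_iff, inf_eq_left.2 hWH])
      ((isSidkiPair_subgroupOf_iff hWH).2 hsp)
    obtain ⟨w, hw, hw1⟩ := exists_ne_one_of_ne_bot this
    exact ⟨w, hw.1, fun e => hw1 (Subtype.ext e), ⟨w, hw.2, rfl⟩⟩
  have hcent : ∀ {L H : Subgroup G} {w : G}, L.IsSubnormal → L ≤ H → H ≤ Nm(L) →
      w ∈ pCoreOf 2 H → w ∈ Cz(L) := by
    intro L H w hL hLH hn hw
    have h1 : L ⊓ pCoreOf 2 H = ⊥ := by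
      rw [← pCoreOf_eq_inf_of_normal hLH hn, eq_bot_iff, ← h2]
      exact pCoreOf_le_pCore_of_subnormal hL
    intro x hx
    exact commute_of_disjoint hx hw (le_normalizer_pCoreOf H (hLH hx)) (hn (pCoreOf_le H hw)) h1
  have hZ : center G = ⊥ := by
    by_contra h
    refine hquot _ h ?_ (pCore_quot_eq_bot h2)
    rw [eq_bot_iff, ← h2]
    exact le_pCore (normal_of_le_center inf_le_right) (hVp.to_le inf_le_left)
  have hA : ∀ N : Subgroup G, N.Normal → N ≠ ⊥ → V ⊓ Cz(N) = ⊥ := by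
    intro N hN hN1
    by_contra hW
    have hM : Cz(N) ≠ ⊤ := fun h => hN1 (by
      rw [eq_bot_iff, ← hZ, ← Cz_top]
      exact le_Cz_comm h.ge)
    obtain ⟨w, -, hw1, hw⟩ := hsub Cz(N) _ hM inf_le_right inf_le_left hW (by
      intro h hh t ht ho e
      by_cases h1 : h = 1
      · obtain ⟨w, hw, hw1⟩ := exists_ne_one_of_ne_bot hW
        exact ⟨w, hw, hw1, by simp [h1]⟩
      obtain ⟨c1, c2⟩ := S3013.result V hV hV1 hS t h ht.1 ho e _ rfl
      obtain ⟨w, hw, hw1, hw2⟩ := hsub (Cx(t) ⊓ Cx(h)) _ (fun e2 => hno h1 ho e (by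
        have : t ∈ Cx(t) ⊓ Cx(h) := e2 ▸ mem_top _
        exact mem_Cx.1 this.2)) inf_le_left inf_le_right c1
        ((isSidkiPair_subgroupOf_iff inf_le_left).1 c2)
      refine ⟨w, ⟨hw.2, hcent hN.isSubnormal ?_ le_normalizer_of_normal hw2⟩, hw1,
        mem_Cx.1 hw.1.2⟩
      exact le_inf (le_Cx_iff.2 ht.2) (le_Cx_iff.2 hh))
    have : w ∈ pCore 2 G := pCoreOf_le_pCore_of_subnormal (Normal.isSubnormal inferInstance) hw
    rw [h2] at this
    exact hw1 this
  have hB : ∀ N : Subgroup G, N.Normal → N ≠ ⊥ → V ⊔ N = ⊤ := by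
    intro N hN hN1
    by_contra h
    obtain ⟨w, hw, hw1, hw2⟩ := hsub _ V h le_sup_left le_rfl hV1 (fun x _ v hv => hS x v hv)
    have : w ∈ V ⊓ Cz(N) := ⟨hw, hcent hN.isSubnormal le_sup_right le_normalizer_of_normal hw2⟩
    rw [hA N hN hN1] at this
    exact hw1 this
  obtain ⟨v₀, hv₀, hv₀1⟩ := exists_ne_one_of_ne_bot hV1
  have hF : fittingSubgroup G = ⊥ := by
    by_contra hF
    set N := fittingSubgroup G ⊓ Cz(fittingSubgroup G) with hNdef
    have hN1 : N ≠ ⊥ := by
      obtain ⟨x, hx, hx1, hx2⟩ := exists_mem_centralizer_of_isNilpotent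
        (isNilpotent_fitting G) le_rfl le_normalizer hF
      exact ne_bot_of_mem (mi hx hx2) hx1
    have hNc : IsMulCommutative N := comm_inf_Cz _
    have hNn : N.Normal := inferInstance
    have hfix : ∀ v ∈ V, v ≠ 1 → N ⊓ Cx(v) = ⊥ := by
      intro v hv hv1
      by_contra h
      have hn : (N ⊓ Cx(v)).Normal := by
        refine normal_of_sup_le_normalizer (hB N hNn hN1) ?_ ?_
        · refine CfH7.le_normalizer_inf le_normalizer_of_normal ?_
          exact (le_Cx_iff.2 (le_Cz_of_comm hV.1 hv)).trans le_normalizer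
        · exact ((le_Cz_of_comm hNc).trans (Cz_anti inf_le_left)).trans (Cz_le_Nm _)
      have : v ∈ V ⊓ Cz((N ⊓ Cx(v) : Subgroup G)) := ⟨hv, le_Cx_iff.1 inf_le_right⟩
      rw [hA _ hn h] at this
      exact hv1 this
    obtain ⟨n, hn, hn1⟩ := exists_ne_one_of_ne_bot hN1
    have hv2 : v₀ * v₀ = 1 := by rw [← pow_two]; exact hV.2 _ hv₀
    have hn' : v₀ * n * v₀⁻¹ ∈ N := hNn.conj_mem n hn v₀
    have e1 : n * (v₀ * n * v₀⁻¹) ∈ N ⊓ Cx(v₀) := by
      refine ⟨mul_mem hn hn', mem_Cx.2 ?_⟩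
      have e := comm_iff.1 hNc n hn _ hn'
      calc n * (v₀ * n * v₀⁻¹) * v₀ = v₀ * n * v₀⁻¹ * n * v₀ := by rw [e]
        _ = v₀ * n * v₀⁻¹ * (v₀ * v₀) * n * (v₀ * v₀)⁻¹ * v₀ := by rw [hv2]; group
        _ = _ := by group
    rw [hfix v₀ hv₀ hv₀1, mem_bot] at e1
    obtain ⟨w, hw, hw1, hwn⟩ := hS n v₀ hv₀ (Nat.coprime_two_right.1 (coprime_orderOf_of_mem
      (coprime_card_fitting_of_pCore_eq_bot h2) hn.1)) (eq_inv_of_mul_eq_one_right e1)
    have : n ∈ N ⊓ Cx(w) := ⟨hn, mem_Cx.2 hwn.symm⟩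
    rw [hfix w hw hw1] at this
    exact hn1 this
  have hFs : generalizedFittingSubgroup G = layer G := by
    rw [generalizedFittingSubgroup, hF, sup_bot_eq]
  have hE : layer G ≠ ⊥ := by
    rw [← hFs, Ne, fstar_eq_bot_iff]
    exact fun h => hv₀1 (Subsingleton.elim _ _)
  obtain ⟨L, hL⟩ : ∃ L : Subgroup G, IsComponent L := by
    by_contra h
    exact hE (layer_eq_bot_iff.2 (not_exists.1 h))
  have hVE := hB _ inferInstance hE
  have hZL : ∀ x ∈ L, x ∈ Cz(L) → x = 1 := by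
    intro x hx hx2
    have : L ⊓ Cz(L) ≤ fittingSubgroup G := by
      refine le_fitting_of_subnormal ((subnIn_of_normal inf_le_left
        (CfH7.le_normalizer_inf le_normalizer (Nm_le_Nm_Cz L |>.trans' le_normalizer))).isSubnormal hL.1) ?_
      exact isNilpotent_of_isMulCommutative (comm_inf_Cz L)
    have := this (mi hx hx2)
    rwa [hF] at this
  have hcj : ∀ g, g ∉ Nm(L) → ∀ x ∈ L, g * x * g⁻¹ ∈ Cz(L) := by
    intro g hg x hx
    rcases component_eq_or_commutator_eq_bot (component_conj hL g) hL with h | h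
    · exact absurd (mem_normalizer_iff_cj.2 h) hg
    · exact comm_eq_bot_left.1 h (conj_mem_cj g hx)
  have hVL : V ≤ Nm(L) := by
    intro v hv
    by_contra hvL
    have hCL : ∀ w ∈ V, w ∈ Cz(L) → w = 1 := by
      intro w hw hwL
      have h1 : nclo L ⊤ ≤ Cx(w) := by
        rw [nclo_le_iff']
        intro g hg
        rw [← hVE] at hg
        obtain ⟨a, ha, e, he, rfl⟩ := (mem_sup_of_le_Nm le_normalizer_of_normal).1 hg
        rw [cj_mul, cj_eq_of_mem_normalizer (layer_le_normalizer_component hL he), cj_le_iff,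
          cj_eq_of_mem (inv_mem (mem_Cx.2 (hcomm a ha w hw)))]
        exact le_Cx_iff.2 hwL
      have : w ∈ V ⊓ Cz(nclo L ⊤) := ⟨hw, le_Cx_iff.1 h1⟩
      rwa [hA _ inferInstance (ne_bot_of_le (le_nclo L ⊤) (qs_ne_bot hL.2))] at this
    by_cases hU : V ⊓ Nm(L) = ⊥
    · obtain ⟨x, hx, hxo, hx1⟩ : ∃ x ∈ L, (orderOf x).Coprime 2 ∧ x ≠ 1 := by
        by_contra h
        push Not at h
        have : pResidualOf 2 L ≤ ⊥ := pResidualOf_le_iff.2 h
        rw [pResidualOf_eq_of_perfect (qs_perfect hL.2), le_bot_iff] at this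
        exact qs_ne_bot hL.2 this
      have hv2 : v * v = 1 := by rw [← pow_two]; exact hV.2 _ hv
      have hxo' := Nat.coprime_two_right.1 hxo
      have hc : v * x⁻¹ * v⁻¹ ∈ Cz(L) := hcj v hvL _ (inv_mem hx)
      have hc' : Commute x (v * x⁻¹ * v⁻¹) := hc x hx
      have hodd : Odd (orderOf (x * (v * x⁻¹ * v⁻¹))) :=
        (hxo'.mul (by rwa [orderOf_conj', orderOf_inv])).of_dvd_nat hc'.orderOf_mul_dvd_mul_orderOf
      have hinv : v * (x * (v * x⁻¹ * v⁻¹)) * v⁻¹ = (x * (v * x⁻¹ * v⁻¹))⁻¹ := by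
        calc v * (x * (v * x⁻¹ * v⁻¹)) * v⁻¹
            = v * x * v⁻¹ * (v * v) * x⁻¹ * (v * v)⁻¹ := by group
          _ = _ := by rw [hv2]; group
      obtain ⟨w, hw, hw1, hwy⟩ := hS _ v hv hodd hinv
      have hout : ∀ u ∈ V, u ≠ 1 → u ∉ Nm(L) := fun u hu hu1 h => hu1 (by
        have : u ∈ V ⊓ Nm(L) := ⟨hu, h⟩
        rwa [hU] at this)
      have hy : x * (v * x⁻¹ * v⁻¹) ∈ Cz(L) := by
        by_cases hwv : w * v = 1
        · have : w = v := by rw [← hv2] at hwv; exact mul_right_cancel hwv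
          rw [this] at hwy
          by_contra h
          exact hno (fun e => h (by rw [e]; exact one_mem _)) hodd hinv hwy
        · have e : x * (v * x⁻¹ * v⁻¹) = (w * x * w⁻¹) * ((w * v) * x⁻¹ * (w * v)⁻¹) := by
            calc x * (v * x⁻¹ * v⁻¹) = w * (x * (v * x⁻¹ * v⁻¹)) * w⁻¹ := by rw [hwy]; group
              _ = _ := by group
          rw [e]
          exact mul_mem (hcj w (hout w hw hw1) x hx)
            (hcj _ (hout _ (mul_mem hw hv) hwv) _ (inv_mem hx))
      exact hx1 (hZL x hx ((mul_mem_cancel_right hc).1 hy))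
    · have hHN : (V ⊓ Nm(L)) ⊔ L ≤ Nm(L) := sup_le inf_le_right le_normalizer
      obtain ⟨w, hw, hw1, hw2⟩ := hsub ((V ⊓ Nm(L)) ⊔ L) _
        (fun e => hvL (hHN (e ▸ mem_top v))) le_sup_left inf_le_left hU (by
        intro h hh u hu ho e
        by_cases h1 : h = 1
        · obtain ⟨w, hw, hw1⟩ := exists_ne_one_of_ne_bot hU
          exact ⟨w, hw, hw1, by simp [h1]⟩
        have hhL : h ∈ L := pResidualOf_le_of_le_sup (hVp.to_le inf_le_left) inf_le_right
          (sup_comm _ _).le (mem_pResidualOf hh (Nat.coprime_two_right.2 ho))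
        obtain ⟨w, hw, hw1, hwh⟩ := hS h u hu.1 ho e
        refine ⟨w, ⟨hw, ?_⟩, hw1, hwh⟩
        by_contra hwL
        have := hcj w hwL h hhL
        rw [hwh, mul_inv_cancel_right] at this
        exact h1 (hZL h hhL this))
      exact hw1 (hCL w hw.1 (hcent hL.1 le_sup_right hHN hw2))
  have hLn : L.Normal :=
    normal_of_sup_le_normalizer hVE hVL (layer_le_normalizer_component hL)
  have hCzL : Cz(L) = ⊥ := by
    by_contra h
    have h1 := hB _ inferInstance h
    have h3 : pResidual 2 G ≤ Cz(L) := pResidual_le_of_sup_eq_top hVp (by rw [sup_comm, h1])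
    refine qs_not_le_centralizer hL.2 ?_
    rw [← pResidualOf_eq_of_perfect (p := 2) (qs_perfect hL.2)]
    conv_rhs => rw [pResidualOf_eq_of_perfect (p := 2) (qs_perfect hL.2)]
    exact (pResidualOf_le_pResidual L).trans h3
  have hEL : layer G = L := by
    refine le_antisymm (layer_le_iff.2 fun K hK => ?_) (le_layer hL)
    rcases component_eq_or_commutator_eq_bot hK hL with h | h
    · exact h.le
    · rw [comm_eq_bot_left, hCzL, le_bot_iff] at h
      exact absurd h (qs_ne_bot hK.2)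
  rw [hFs, hVE, hEL]
  refine ⟨?_, fun h => qs_not_le_centralizer hL.2 (le_Cz_of_comm h), rfl⟩
  haveI := quasisimple_nontrivial hL.2
  refine ⟨fun N hN => ?_⟩
  rcases quasisimple_subnormal hL.2 hN.isSubnormal with h | h
  · left
    rw [eq_bot_iff]
    intro x hx
    have := h hx
    rw [mem_center_iff] at this
    exact Subtype.ext (hZL x x.2 (fun y hy => congrArg Subtype.val (this ⟨y, hy⟩)))
  · exact Or.inr h

end Cfsg.Agent.S3048
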