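import Cfsg.Statements.S3049
import Cfsg.Agent.OD.Pre
import Cfsg.Agent.H9.Iso2

set_option autoImplicit false
open Cfsg

namespace Cfsg.Agent.S3049
open Subgroup CfH9 CfH7
open scoped commutatorElement


/-- Let G be a finite group and p an odd prime with O_{p'}(G) = 1. Suppose that G has p-rank at most 2 (no elementary abelian subgroup of order p³) and that some element x of order p is isolated in G (no G-conjugate of x other than x commutes with x) and not central. Then the generalized Fitting subgroup F*(G) is a non-abelian simple group. Since O_{p'}(G) = 1, such an x is not central modulo O_{p'}(G): the hypotheses describe a counterexample to the Z*_p statement in p-rank at most 2. -/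
theorem result {G : Type*} [Group G] [Finite G] {p : ℕ} [Fact p.Prime] (hp : p ≠ 2) (hcore : Cfsg.pPrimeCore p G = ⊥)
    (hrank : Cfsg.PRankLE p 2 G) (x : G) (hx : orderOf x = p) (hiso : Cfsg.IsIsolated x) (hnc : x ∉ Subgroup.center G) :
    IsSimpleGroup ↥(Cfsg.generalizedFittingSubgroup G) ∧ ¬ IsMulCommutative ↥(Cfsg.generalizedFittingSubgroup G) := by
  have hk := pow_pow_one_of_orderOf hx
  obtain ⟨K, hK, hxK⟩ := iso_exists_component hcore hiso hk hnc
  obtain ⟨S, hS, hxS⟩ := exists_sylIn_ge (isPGroup_zpowers hk) (le_top (a := zpowers x))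
  have hxS' : x ∈ S := hxS (mem_zpowers x)
  have hSx := iso_le_Cx hiso hS.2 hxS'
  have key : ∀ z ∈ S, z ∈ Cz(K) → z ^ p = 1 → z = 1 := by
    intro z hz hzK hzp
    by_contra hz1
    have hzo : orderOf z = p := orderOf_eq_prime hzp hz1
    have hxz : x ∉ zpowers z := fun e => hxK ((zpowers_le).2 hzK e)
    have hc : x ∈ Cz(zpowers z) := by rw [Cz_zpowers]; exact mem_Cx.2 (mem_Cx.1 (hSx hz)).symm
    have hA := elemAb_sup_zpowers (elemAb_zpowers hzp) (pow_eq_one_of_orderOf hx) hc
    have hc2 := sq_le_card_sup_zpowers (pow_eq_one_of_orderOf hx) hzo hxz (by rwa [← Cz_zpowers])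
    refine not_pNil_of_perfect (qs_perfect hK.2) (component_dvd_card hcore hK)
      (pNil_of_omega hp (component_sylIn hK hS) fun t ht htp g hg hgt => ?_)
    have h1 : t ∈ zpowers z ⊔ zpowers x := by
      refine mem_of_pRankLE hrank hA hc2 htp ?_
      rw [Cz_sup, Cz_zpowers, Cz_zpowers]
      exact mi (le_Cx_iff.2 hzK (mi2 ht)) (hSx (mi1 ht))
    obtain ⟨a, ha, b, hb, rfl⟩ := (mem_sup_of_le_Nm' ((zpowers_le).2 (Cz_le_Nm _ hc))).1 h1
    have h2 : g * a * g⁻¹ = a := mem_Cx'.1 (le_Cx_iff.2 ((zpowers_le).2 hzK ha) hg)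
    have h3 : g * (a * b) * g⁻¹ = a * (g * b * g⁻¹) := by
      conv_rhs => rw [← h2]
      group
    by_cases hb1 : b = 1
    · rw [h3, hb1]; group
    have h4 : g * b * g⁻¹ ∈ S := by
      have := mi1 hgt
      rw [h3] at this
      exact (S.mul_mem_cancel_left ((zpowers_le).2 hz ha)).1 this
    have h5 : zpowers b = zpowers x := zpowers_eq_of_card_prime (by rw [Nat.card_zpowers, hx]) hb hb1
    have h6 : g * x * g⁻¹ ∈ S := by
      refine (zpowers_le).1 ?_
      rw [← cj_zpowers, ← h5, cj_zpowers]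
      exact (zpowers_le).2 h4
    have h7 : g ∈ Cz(zpowers x) := by
      rw [Cz_zpowers]; exact mem_Cx'.2 (iso_eq_of_mem hiso hS.2 hxS' h6)
    rw [h3, conj_eq_of_mem_centralizer h7 hb]
  have key' : ∀ Q : Subgroup G, Q ≤ S → Q ≤ Cz(K) → Q = ⊥ := by
    intro Q h1 h2
    by_contra hn
    obtain ⟨z, hz, ho⟩ := exists_orderOf_prime_of_ne_bot (hS.2.to_le h1) hn
    exact ne_one_of_orderOf_eq_prime ho (key z (h1 hz) (h2 hz) (pow_eq_one_of_orderOf ho))
  have hF := fitting_eq_bot (key' _ (hS.le_of_le_Nm (isPGroup_pCore p G) le_top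
    le_normalizer_of_normal) (le_centralizer_iff.1 (component_le_centralizer_pCore hK))) hcore
  refine simple_of_qs_normal hF ?_
  rw [fstar_eq_of_unique hF hK fun L hL => ?_]
  · exact hK.2
  rcases component_eq_or_commutator_eq_bot hK hL with e | e
  · exact e.symm
  · exact absurd (key' _ inf_le_left (inf_le_right.trans (commutator_eq_bot_iff'.1 e)))
      ((component_sylIn hL hS).ne_bot_iff.2 (component_dvd_card hcore hL))

end Cfsg.Agent.S3049
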