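import Cfsg.Statements.S3050
import Cfsg.Agent.OD.Pre
import Cfsg.Agent.H2.Fpf3
import Cfsg.Agent.H2.Higman

set_option autoImplicit false
open Cfsg

namespace Cfsg.Agent.S3050

open Subgroup CfH2.Fpf3 CfH2.Hig
open scoped commutatorElement MatrixGroups

/-- Let G be a finite group with a normal 2-subgroup Q such that G/Q is isomorphic to SL(2, 2ⁿ) with n ≥ 2, and suppose some element of G of order 3 fixes no nonidentity element of Q under conjugation. Then Q is elementary abelian and is the direct product of normal subgroups of G on each of which G acts as SL(2, 2ⁿ) acts on its natural two-dimensional module (a Galois twist of the natural action allowed). -/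
theorem result {G : Type*} [Group G] [Finite G]
    (Q : Subgroup G) [Q.Normal] (hQ : IsPGroup 2 ↥Q) (n : ℕ) (hn : 2 ≤ n)
    (K : Type*) [Field K] [Fintype K] (hK : Fintype.card K = 2 ^ n)
    (e : G ⧸ Q ≃* Matrix.SpecialLinearGroup (Fin 2) K)
    (x : G) (hx : orderOf x = 3) (hfpf : ∀ q ∈ Q, x * q * x⁻¹ = q → q = 1) :
    Cfsg.IsElementaryAbelian 2 Q ∧
      ∃ (k : ℕ) (V : Fin k → Subgroup G), (∀ i, V i ≤ Q ∧ (V i).Normal ∧
        Cfsg.ActsAsSL2OnSection K ⊤ ⊤ (V i) ⊥) ∧ iSupIndep V ∧ ⨆ i, V i = Q := by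
  have hch : CharP K 2 := by
    obtain ⟨p, hp⟩ := CharP.exists K
    obtain ⟨m, hp', hm⟩ := FiniteField.card K p
    have : p = 2 := (Nat.prime_dvd_prime_iff_eq hp' Nat.prime_two).1
      (hp'.dvd_of_dvd_pow (n := n) (by rw [← hK, hm]; exact dvd_pow_self _ m.ne_zero))
    exact this ▸ hp
  have hK4 : 4 ≤ Nat.card K := by
    rw [Nat.card_eq_fintype_card, hK]; exact Nat.pow_le_pow_right two_pos hn
  obtain ⟨c, c0, c1⟩ : ∃ c : K, c ≠ 0 ∧ c ≠ 1 := by
    classical
    by_contra h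
    have h1 : (Finset.univ : Finset K) ⊆ {0, 1} := fun a _ => by
      by_contra ha
      exact h ⟨a, by simpa using ha⟩
    have h2 := (Finset.card_le_card h1).trans Finset.card_le_two
    rw [Finset.card_univ, ← Nat.card_eq_fintype_card] at h2
    omega
  let π₀ : G →* SL(2, K) := e.toMonoidHom.comp (QuotientGroup.mk' Q)
  have hs : Function.Surjective π₀ := e.surjective.comp (QuotientGroup.mk'_surjective Q)
  have hker : ∀ g, π₀ g = 1 ↔ g ∈ Q := fun g =>
    (map_eq_one_iff e e.injective).trans (QuotientGroup.eq_one_iff g)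
  have x3 : x ^ 3 = 1 := hx ▸ pow_orderOf_eq_one x
  have hx' : orderOf (π₀ x) = 3 := orderOf_eq_prime (by rw [← map_pow, x3, map_one]) fun h => by
    rw [hfpf x ((hker x).1 h) (by group), orderOf_one] at hx
    exact absurd hx (by decide)
  let cj : G → Q →* Q := fun g => (MulAut.conjNormal g).toMonoidHom
  have cjv : ∀ g (q : Q), (cj g q : G) = g * q * g⁻¹ := fun _ _ => rfl
  have hF : ∀ g, IsF (cj (g * x * g⁻¹)) := fun g => ⟨fun q => Subtype.ext (by
      simp only [cjv]
      calc _ = g * x ^ 3 * g⁻¹ * q * g * (x ^ 3)⁻¹ * g⁻¹ := by simp only [pow_succ, pow_zero]; group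
        _ = q := by rw [x3]; group), fun q hq => by
    have h1 := congrArg Subtype.val hq
    rw [cjv] at h1
    have h2 := hfpf (g⁻¹ * q * g) (by simpa using ‹Q.Normal›.conj_mem _ q.2 g⁻¹)
      (by conv_rhs => rw [← h1]
          group)
    exact Subtype.ext (by simpa [mul_assoc, inv_mul_eq_one] using h2)⟩
  have hL : ∀ t : K, t ≠ 0 → ∃ y : G, π₀ y = u t * v t⁻¹ ∧ IsF (cj y) := fun t ht => by
    obtain ⟨g, hg⟩ := isConj_iff.1 ((isConj_of_trace _ (trace_of_order _ hx')).symm.trans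
      (isConj_of_trace _ (trace_uv ht)))
    obtain ⟨g, rfl⟩ := hs g
    exact ⟨g * x * g⁻¹, by simpa using hg, hF g⟩
  have hcomm : ∀ a b : Q, a * b = b * a := by
    obtain ⟨y1, e1, f1⟩ := hL 1 one_ne_zero
    obtain ⟨y2, e2, f2⟩ := hL c c0
    let C := centralizer ((⁅Q, Q⁆ : Subgroup G) : Set G)
    have mC : ∀ g : G, (∀ a b : Q, cj g ⁅a, b⁆ = ⁅a, b⁆) → g ∈ C := fun g hg => by
      have : ⁅Q, Q⁆ ≤ centralizer {g} := commutator_le.2 fun a ha b hb =>
        mem_centralizer_singleton_iff.2 (mul_inv_eq_iff_eq_mul.1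
          (congrArg Subtype.val (hg ⟨a, ha⟩ ⟨b, hb⟩))).symm
      exact fun h hh => mem_centralizer_singleton_iff.1 (this hh)
    have QC : Q ≤ C := fun q hq => mC q fun a b => Subtype.ext (mul_inv_eq_iff_eq_mul.2
      (congrArg Subtype.val (f1.comm_central ⟨q, hq⟩ a b).eq))
    have zC : (y2 * y2 * (y1 * y1))⁻¹ * (y1 * y1 * (y2 * y2)) ∈ C := mC _ fun a b => by
      have k2 := f1.comm_sigma_right (cj y2 a) b
      rw [f2.comm_sigma_left, f1.comm_sigma_right, f2.comm_sigma_left] at k2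
      have k3 := congrArg Subtype.val k2
      generalize ⁅a, b⁆ = w at k3 ⊢
      refine Subtype.ext ?_
      simp only [cjv] at k3 ⊢
      calc _ = (y2 * y2 * (y1 * y1))⁻¹ * (y1 * (y1 * (y2 * (y2 * w * y2⁻¹) * y2⁻¹) * y1⁻¹) * y1⁻¹) *
            (y2 * y2 * (y1 * y1)) := by simp only [mul_inv_rev, inv_inv, mul_assoc]
        _ = _ := by rw [← k3]; group
    have : (C.map π₀).Normal := Normal.map inferInstance π₀ hs
    have h1 := normal_eq_top hK4 (C.map π₀) fun h => by
      have h2 := mem_map_of_mem π₀ zC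
      rw [h, mem_bot, map_mul, map_inv, inv_mul_eq_one] at h2
      simp only [map_mul, e1, e2, uv_sq c0, uv_sq (one_ne_zero (α := K))] at h2
      exact uv_ne c0 c1 h2.symm
    have h2 : x ∈ C := by
      obtain ⟨z, hz, hzx⟩ : π₀ x ∈ C.map π₀ := h1 ▸ mem_top _
      have : z⁻¹ * x ∈ Q := (hker _).1 (by rw [map_mul, map_inv, hzx, inv_mul_cancel])
      simpa using mul_mem hz (QC this)
    intro a b
    have h3 := commutator_mem_commutator a.2 b.2
    refine Subtype.ext (commutatorElement_eq_one_iff_mul_comm.1 (hfpf _ (commutator_le_left Q Q h3) ?_))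
    rw [← h2 _ h3]; group
  let _ : CommGroup Q := { (inferInstance : Group Q) with mul_comm := hcomm }
  let d₁ : SL(2, K) →* MulAut Q := π₀.liftOfSurjective hs ⟨MulAut.conjNormal, fun g hg => by
    ext w
    exact mul_inv_eq_iff_eq_mul.2 (congrArg Subtype.val (hcomm ⟨g, (hker g).1 hg⟩ w))⟩
  have hd₁ : ∀ g, d₁ (π₀ g) = MulAut.conjNormal g := fun g =>
    π₀.liftOfRightInverse_comp_apply _ _ _ g
  let φ : SL(2, K) →* AddMonoid.End (Additive Q) :=
    { toFun := fun g => MonoidHom.toAdditive (d₁ g).toMonoidHom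
      map_one' := by rw [map_one]; rfl
      map_mul' := fun a b => by rw [map_mul]; rfl }
  have hφ : ∀ g, φ (π₀ g) = MonoidHom.toAdditive (cj g) := fun g =>
    congrArg (fun z : MulAut Q => MonoidHom.toAdditive z.toMonoidHom) (hd₁ g)
  have hy : Hy φ := fun t ht => by
    obtain ⟨y, e1, f1⟩ := hL t ht
    rw [← map_mul, ← map_mul, ← uv_sq ht, ← e1, map_mul, hφ]
    ext w
    have := f1.norm w.toMul
    rw [mul_assoc, hcomm] at this
    exact congrArg Subtype.val this
  obtain ⟨m, hm⟩ := hQ.exists_card_eq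
  have h2 : (2 : AddMonoid.End (Additive Q)) = 0 := partB (k := m) (by
    ext w
    have : ((2 : AddMonoid.End (Additive Q)) ^ m) = ((2 ^ m : ℕ) : AddMonoid.End (Additive Q)) := by
      simp
    rw [this, AddMonoid.End.natCast_apply, ← hm]
    exact congrArg Subtype.val (pow_card_eq_one' (x := w.toMul))) c0 c1 hy
  have h2' : ∀ w : Additive Q, w + w = 0 := fun w => by
    rw [← one_add_one_eq_two] at h2
    exact DFunLike.congr_fun h2 w
  refine ⟨⟨⟨⟨hcomm⟩⟩, fun a ha => by
    rw [sq]; exact congrArg (fun z : Additive Q => (z.toMul : G)) (h2' (.ofMul ⟨a, ha⟩))⟩, ?_⟩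
  obtain ⟨k, π, θ, p1, p2, p3, p4⟩ := decomp h2' hy
  let ψ : Fin k → Q →* Multiplicative (Fin 2 → K) := fun i => AddMonoidHom.toMultiplicativeRight (π i)
  let χ : Fin k → Multiplicative (Fin 2 → K) →* G := fun i =>
    Q.subtype.comp (AddMonoidHom.toMultiplicativeLeft (θ i))
  have hle : ∀ i, (χ i).range ≤ Q := by
    rintro i _ ⟨z, rfl⟩; exact ((θ i z.toAdd).toMul).2
  have mem : ∀ i (q : Q), (q : G) ∈ (χ i).range ↔ ∀ j, j ≠ i → π j (.ofMul q) = 0 := fun i q => by
    constructor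
    · rintro ⟨z, hz⟩ j hj
      have : q = (θ i z.toAdd).toMul := Subtype.ext hz.symm
      rw [this]; exact p2 _ _ _ hj
    · intro h
      refine ⟨.ofAdd (π i (.ofMul q)), ?_⟩
      have := p3 (.ofMul q)
      rw [Finset.sum_eq_single i (fun j _ hj => by rw [h j hj, map_zero]) (by simp)] at this
      exact congrArg (fun z : Additive Q => (z.toMul : G)) this
  have eqv : ∀ i g (q : Q), π i (.ofMul (cj g q)) = (π₀ g).1.mulVec (π i (.ofMul q)) :=
    fun i g q => by rw [← p4, hφ]; rfl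
  have hN : ∀ i, (χ i).range.Normal := fun i => ⟨fun q hq g =>
    (mem i (cj g ⟨q, hle i hq⟩)).2 fun j hj => by
      rw [eqv, (mem i ⟨q, hle i hq⟩).1 hq j hj, Matrix.mulVec_zero]⟩
  have inj : ∀ i (q : Q), (q : G) ∈ (χ i).range → π i (.ofMul q) = 0 → q = 1 := by
    rintro i q ⟨z, hz⟩ h
    have : q = (θ i z.toAdd).toMul := Subtype.ext hz.symm
    rw [this] at h ⊢
    rw [show z.toAdd = 0 from (p1 i _).symm.trans h, map_zero]; rfl
  refine ⟨k, fun i => (χ i).range, fun i => ⟨hle i, hN i, ?_, bot_le, π₀.comp (Subgroup.subtype _),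
    (ψ i).comp (inclusion (hle i)), ?_, fun z => ?_, fun w => ?_, fun g w => ?_⟩, ?_, ?_⟩
  · have := hN i
    rw [normalizer_eq_top]
  · rw [MonoidHom.range_comp, range_subtype, map_top_of_surjective _ hs]
  · exact ⟨⟨χ i z, z, rfl⟩, p1 i _⟩
  · constructor
    · intro h
      exact congrArg Subtype.val (inj i (inclusion (hle i) w) w.2 h)
    · intro h
      rw [show w = 1 from Subtype.ext h, map_one]
  · exact ⟨⟨_, (hN i).conj_mem _ w.2 g⟩, rfl, eqv i g (inclusion (hle i) w)⟩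
  · intro i
    have : ⨆ j, ⨆ (_ : j ≠ i), (χ j).range ≤ ((ψ i).ker).map Q.subtype :=
      iSup₂_le fun j hj q hq => ⟨⟨q, hle j hq⟩, (mem j ⟨q, hle j hq⟩).1 hq i hj.symm, rfl⟩
    refine Disjoint.mono_right this (disjoint_def.2 ?_)
    rintro _ hq ⟨q, hq', rfl⟩
    exact congrArg Subtype.val (inj i q hq hq')
  · refine le_antisymm (iSup_le hle) fun q hq => ?_
    have h1 : (⟨q, hq⟩ : Q) ∈ (⨆ i, (χ i).range).comap Q.subtype := by
      have := congrArg Additive.toMul (p3 (.ofMul ⟨q, hq⟩))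
      rw [toMul_sum, toMul_ofMul] at this
      rw [← this]
      exact Subgroup.prod_mem _ fun i _ => mem_iSup_of_mem i ⟨.ofAdd (π i (.ofMul ⟨q, hq⟩)), rfl⟩
    exact h1

end Cfsg.Agent.S3050
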