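import Cfsg.Statements.S3052
import Cfsg.Agent.OD.Pre
import Cfsg.Agent.H7.GC15

set_option autoImplicit false
set_option linter.unusedVariables false
open Cfsg

namespace Cfsg.Agent.S3052

open Subgroup CfH7 CfH9
open scoped commutatorElement


/-- Let G be a finite group of local characteristic 2 (every 2-local subgroup N has C_N(O₂(N)) ≤ O₂(N)) with T a Sylow 2-subgroup, O₂(G) = 1, O²(G) = G, and G ≠ C*(G,T), the subgroup generated by the centralizer of Ω₁(Z(T)) and the normalizers of the nontrivial characteristic subgroups of the Baumann subgroup B(T). Then one of the following holds: G has a strongly embedded subgroup; T is dihedral or quasi-dihedral; T has order at most 2¹⁰; or T equals its Baumann subgroup, T has nilpotency class 2, and G has a B(T)-block E not contained in C*(G,T) with E/O₂(E) isomorphic to SL(2,2ⁿ) for some n ≥ 3. -/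
theorem result {G : Type*} [Group G] [Finite G] (hloc : Cfsg.IsOfLocalCharacteristic 2 G) (T : Sylow 2 G)
    (hO : Cfsg.pCore 2 G = ⊥) (hO2 : Cfsg.pResidual 2 G = ⊤) (hC : Cfsg.cStarOf 2 (T : Subgroup G) ≠ ⊤)
    [Group.IsNilpotent ↥(T : Subgroup G)] :
    (∃ H : Subgroup G, Cfsg.IsStronglyEmbedded H) ∨
      ((∃ m : ℕ, Nonempty (↥(T : Subgroup G) ≃* DihedralGroup m)) ∨ Cfsg.IsQuasiDihedral ↥(T : Subgroup G)) ∨
      Nat.card (T : Subgroup G) ≤ 2 ^ 10 ∨
      (Cfsg.baumannSubgroupOf 2 (T : Subgroup G) = T ∧ Group.nilpotencyClass ↥(T : Subgroup G) = 2 ∧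
        ∃ (E : Subgroup G) (hE : ((Cfsg.pCoreOf 2 E).subgroupOf E).Normal) (F : Type) (_ : Field F) (_ : Fintype F) (n : ℕ),
          3 ≤ n ∧ Fintype.card F = 2 ^ n ∧ Cfsg.IsBaumannBlock 2 (T : Subgroup G) E ∧ ¬ E ≤ Cfsg.cStarOf 2 (T : Subgroup G) ∧
          Nonempty (↥E ⧸ (Cfsg.pCoreOf 2 E).subgroupOf E ≃* Matrix.SpecialLinearGroup (Fin 2) F)) := by
  have hT := sylIn_top T
  refine (global_cs hloc.2 hT ((sylow_ne_bot_iff T).2 hloc.1) hO hO2 hC).imp_right fun r =>
    r.imp_right (Or.imp_right ?_)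
  rintro ⟨q, F, R, q8, w, n⟩
  obtain ⟨K, _, _, c, ⟨φ⟩⟩ := w.sl (by omega)
  obtain ⟨m, -, rfl⟩ := w.pw
  haveI : ((pCoreOf 2 F).subgroupOf F).Normal := subgroupOf_pCoreOf F ▸ inferInstance
  exact ⟨w.eB, w.cls, F, this, K, inferInstance, inferInstance, m,
    (Nat.pow_le_pow_iff_right one_lt_two).1 q8, c, w.blk, n,
    ⟨(QuotientGroup.quotientMulEquivOfEq (subgroupOf_pCoreOf F)).trans φ⟩⟩

end Cfsg.Agent.S3052
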