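import Cfsg.Statements.S3053
import Cfsg.Agent.OD.Pre
import Cfsg.Agent.H9.ES3

set_option autoImplicit false
open Cfsg

namespace Cfsg.Agent.S3053
open Subgroup CfH9 CfH7
open scoped commutatorElement


/-- Let p be an odd prime and G a finite group with a Sylow p-subgroup P that is extraspecial of order p³ and exponent p². Then the centre of P is strongly closed in P with respect to G: a G-conjugate of an element of Z(P) that lies in P already lies in Z(P). In particular a nontrivial central element of P is conjugate in G to no noncentral element of P. -/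
theorem result {G : Type*} [Group G] [Finite G]
    {p : ℕ} [Fact p.Prime] (hp : p ≠ 2) (P : Sylow p G) (hE : Cfsg.IsExtraspecial p ↥P)
    (hcard : Nat.card P = p ^ 3) (hexp : Monoid.exponent ↥P = p ^ 2) :
    Cfsg.IsStronglyClosed ((Subgroup.center ↥P).map (P : Subgroup G).subtype) (P : Subgroup G) := by
  refine ⟨map_subtype_le _, fun x hx g hg => ?_⟩
  replace hx := mem_map_center.1 hx
  refine mem_map_center.2 ?_
  by_cases h1 : x = 1
  · subst h1; simp
  have h := es3_of hE hcard hx h1
  rw [h.cen]
  by_contra hn
  have : Monoid.exponent ↥P ∣ p :=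
    Monoid.exponent_dvd_of_forall_pow_eq_one fun y =>
      Subtype.ext (h.pow_eq_one_of_conj hp (sylIn_top P) hg hn y.2)
  have hp1 := (Fact.out : p.Prime).one_lt
  have h2 : p ^ 2 ∣ p := hexp ▸ this
  have := Nat.le_of_dvd (by omega) h2
  nlinarith

end Cfsg.Agent.S3053
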