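import Cfsg.Statements.S3054
import Cfsg.Agent.OD.Pre
import Cfsg.Agent.H9.ES3b

set_option autoImplicit false
open Cfsg

namespace Cfsg.Agent.S3054
open Subgroup CfH9 CfH7
open scoped commutatorElement

theorem exists_aut {A : Type*} [Group A] [Finite A] {p : ℕ} [hp : Fact p.Prime]
    (hA : Nat.card A = p ^ 2) {w z : A} (hw : orderOf w = p) (hz : z ∉ zpowers w) :
    ∃ φ : MulAut A, orderOf φ = p ∧ φ w = w ∧ ∀ i : ℤ, ∃ n : ℕ, (φ ^ n) z = z * w ^ i := by
  have : IsMulCommutative A := IsPGroup.isMulCommutative_of_card_eq_prime_sq hA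
  have hc : ∀ x y : A, x * y = y * x := this.is_comm.comm
  have : (zpowers w).Normal := ⟨fun x hx g => by rwa [hc g, mul_inv_cancel_right]⟩
  have h1 : Nat.card (zpowers w) = p := by rw [Nat.card_zpowers, hw]
  have h2 : Nat.card (A ⧸ zpowers w) = p := by
    have := card_eq_card_quotient_mul_card_subgroup (zpowers w)
    rw [hA, h1, pow_two] at this
    exact (Nat.eq_of_mul_eq_mul_right hp.out.pos this).symm
  let e := mulEquivOfPrimeCardEq h2 h1
  let θ : A →* A := (zpowers w).subtype.comp (e.toMonoidHom.comp (QuotientGroup.mk' (zpowers w)))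
  have t1 : ∀ x, θ x ∈ zpowers w := fun x => (e _).2
  have t2 : ∀ x, θ x = 1 ↔ x ∈ zpowers w := fun x => by
    simp [θ, QuotientGroup.eq_one_iff]
  have t3 : ∀ x, θ (θ x) = 1 := fun x => (t2 _).2 (t1 x)
  have t4 : ∀ x, θ x ^ p = 1 := fun x => by
    have := pow_card_eq_one' (x := (⟨_, t1 x⟩ : zpowers w))
    rw [h1] at this
    exact congrArg Subtype.val this
  let φ : MulAut A :=
    { toFun := fun x => x * θ x
      invFun := fun x => x * (θ x)⁻¹
      left_inv := fun x => by simp [t3]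
      right_inv := fun x => by simp [t3]
      map_mul' := fun x y => by
        rw [map_mul, mul_assoc, mul_assoc, ← mul_assoc y, hc y, mul_assoc] }
  have f1 : ∀ (n : ℕ) x, (φ ^ n) x = x * θ x ^ n := fun n x => by
    induction n with
    | zero => simp
    | succ n ih =>
      rw [pow_succ', MulAut.mul_apply, ih]
      show _ * θ _ = _
      rw [map_mul, map_pow, t3, one_pow, mul_one, pow_succ, mul_assoc]
  have hz1 : θ z ≠ 1 := fun e => hz ((t2 z).1 e)
  refine ⟨φ, orderOf_eq_prime (MulEquiv.ext fun x => by rw [f1, t4, mul_one]; rfl) fun e => hz1 ?_,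
    by show w * θ w = w; rw [(t2 w).2 (mem_zpowers w), mul_one], fun i => ?_⟩
  · have : z * θ z = z := congrArg (fun f : MulAut A => f z) e
    simpa using this
  · have : zpowers (θ z) = zpowers w := Subgroup.eq_of_le_of_card_ge (zpowers_le.2 (t1 z)) (by
      rw [h1, Nat.card_zpowers, orderOf_eq_prime (t4 z) hz1])
    obtain ⟨n, hn⟩ := mem_powers_iff_mem_zpowers.2 (this.ge (zpow_mem_zpowers w i))
    exact ⟨n, by rw [f1]; exact congrArg _ hn⟩

/-- Let p be an odd prime and G a finite group with a Sylow p-subgroup P that is extraspecial of order p³ and exponent p. Suppose P contains three distinct subgroups A of order p² (each is elementary abelian of rank 2) such that every automorphism of A of order p is induced by conjugation by an element of G; equivalently the automorphism group induced on A by its normalizer contains the special linear group of A. Then p ≤ 13. -/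
theorem result {G : Type*} [Group G] [Finite G]
    {p : ℕ} [Fact p.Prime] (hp : p ≠ 2) (P : Sylow p G) (hE : Cfsg.IsExtraspecial p ↥P)
    (hcard : Nat.card P = p ^ 3) (hexp : Monoid.exponent ↥P = p)
    (A : Fin 3 → Subgroup G) (hA : Function.Injective A) (hAP : ∀ i, A i ≤ (P : Subgroup G))
    (hAcard : ∀ i, Nat.card ↥(A i) = p ^ 2)
    (hSL : ∀ i, ∀ φ : MulAut ↥(A i), orderOf φ = p → ∃ g : G, ∀ a : ↥(A i), (φ a : G) = g * (a : G) * g⁻¹) :
    p ≤ 13 := by
  obtain ⟨z, h⟩ := exists_es3 hE hcard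
  obtain ⟨a, ha, b, hb, rfl⟩ := h.exists_gens
  have hp1 := (Fact.out : p.Prime).one_lt
  have hnz : ∀ i, ¬ A i ≤ zpowers ⁅a, b⁆ := fun i e => by
    have := card_le_of_le e
    rw [hAcard, Nat.card_zpowers, h.ord] at this
    nlinarith
  choose w hwA hwz using fun i => SetLike.not_le_iff_exists.1 (hnz i)
  have hw : ∀ i, w i ∈ (P : Subgroup G) := fun i => hAP i (hwA i)
  have hwp : ∀ i, w i ^ p = 1 := fun i => by
    have := Monoid.pow_exponent_eq_one (⟨w i, hw i⟩ : P)
    rw [hexp] at this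
    exact congrArg Subtype.val this
  have hAe : ∀ i, A i = (P : Subgroup G) ⊓ Cx(w i) := fun i =>
    Subgroup.eq_of_le_of_card_ge (fun x hx => ⟨hAP i hx, mem_Cx.2
      (comm_iff.1 (IsPGroup.isMulCommutative_of_card_eq_prime_sq (hAcard i)) _ hx _ (hwA i))⟩)
      (by rw [h.card_Cx (hw i) (hwz i), hAcard])
  have hzA : ∀ i, ⁅a, b⁆ ∈ A i := fun i => by
    rw [hAe]; exact ⟨h.mem, mem_Cx.2 (h.cz (mem_zpowers _) (hw i)).symm⟩
  refine (h.le_of_planes ha hb (sylIn_top P) w hw hwp (fun i j hij e => hij (hA ?_)) (fun k i => ?_)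
    (by simp)).elim (by omega) (by omega)
  · refine Subgroup.eq_of_le_of_card_ge ?_ (by rw [hAcard, hAcard])
    rw [hAe i, h.Cx_eq (hw i) (hwz i)]
    refine sup_le (zpowers_le.2 ?_) (zpowers_le.2 (hzA j))
    rw [hAe]
    exact ⟨hw i, mem_Cx.2 (commutatorElement_eq_one_iff_mul_comm.1 e)⟩
  · have hw1 : w k ≠ 1 := fun e => hwz k (e ▸ one_mem _)
    obtain ⟨φ, h1, h2, h3⟩ := exists_aut (hAcard k) (w := ⟨w k, hwA k⟩) (z := ⟨_, hzA k⟩)
      (by rw [← orderOf_coe]; exact orderOf_eq_prime (hwp k) hw1) (by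
        rintro ⟨j, hj⟩
        replace hj : w k ^ j = ⁅a, b⁆ := congrArg Subtype.val hj
        refine hwz k ?_
        have : zpowers ⁅a, b⁆ = zpowers (w k) :=
          Subgroup.eq_of_le_of_card_ge (zpowers_le.2 ⟨j, hj⟩) (by
            rw [Nat.card_zpowers, Nat.card_zpowers, h.ord, orderOf_eq_prime (hwp k) hw1])
        rw [this]
        exact mem_zpowers _)
    obtain ⟨g, hg⟩ := hSL k φ h1
    have key : ∀ (n : ℕ) x, ((φ ^ n) x : G) = g ^ n * x * (g ^ n)⁻¹ := fun n x => by
      induction n with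
      | zero => simp
      | succ n ih => rw [pow_succ', MulAut.mul_apply, hg, ih, pow_succ']; group
    obtain ⟨n, hn⟩ := h3 i
    refine ⟨g ^ n, ?_, ?_⟩
    · have : φ ^ n ∈ MulAction.stabilizer (MulAut (A k)) (⟨w k, hwA k⟩ : A k) := pow_mem h2 n
      exact (key n ⟨w k, hwA k⟩).symm.trans (congrArg Subtype.val this)
    · exact (key n ⟨_, hzA k⟩).symm.trans (congrArg Subtype.val hn)

end Cfsg.Agent.S3054
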