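import Cfsg.Statements.S3055
import Cfsg.Agent.OD.Pre
import Cfsg.Agent.H9.ES3b

set_option autoImplicit false
open Cfsg

namespace Cfsg.Agent.S3055
open Subgroup CfH9 CfH7
open scoped commutatorElement


/-- Let p be an odd prime and G a finite group with a Sylow p-subgroup P that is extraspecial of order p³ and exponent p. If all nonidentity elements of P are conjugate in G, then p ≤ 7. -/
theorem result {G : Type*} [Group G] [Finite G]
    {p : ℕ} [Fact p.Prime] (hp : p ≠ 2) (P : Sylow p G) (hE : Cfsg.IsExtraspecial p ↥P)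
    (hcard : Nat.card P = p ^ 3) (hexp : Monoid.exponent ↥P = p)
    (hconj : ∀ x y : ↥P, x ≠ 1 → y ≠ 1 → ∃ g : G, g * (x : G) * g⁻¹ = (y : G)) :
    p ≤ 7 := by
  obtain ⟨z, h⟩ := exists_es3 hE hcard
  obtain ⟨a, ha, b, hb, rfl⟩ := h.exists_gens
  have hp1 := (Fact.out : p.Prime).one_lt
  choose w hw e using fun i : Option (ZMod p) =>
    h.exists_co ha hb (i.elim ![0, 1] fun t => ![1, t])
  have hne : ∀ i j, i ≠ j → ⁅w i, w j⁆ ≠ 1 := fun i j hij h1 => by
    have := h.lg_comm ha hb (hw i) (hw j)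
    rw [h1, ← zpow_zero ⁅a, b⁆, lg_zpow h.ord, e, e] at this
    rcases i with _ | i <;> rcases j with _ | j <;> simp [det2] at this hij
    exact hij (sub_eq_zero.1 this.symm).symm
  have hwz : ∀ i, w i ∉ zpowers ⁅a, b⁆ := fun i e => by
    obtain ⟨j, hj⟩ := exists_ne i
    exact hne j i hj (h.comm_z_right e (hw j))
  have hc : Fintype.card (Option (ZMod p)) = p + 1 := by simp
  refine (h.le_of_planes ha hb (sylIn_top P) w hw (fun i => ?_) hne (fun k i => ?_)
    (by omega)).resolve_right (by omega)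
  · have := Monoid.pow_exponent_eq_one (⟨w i, hw i⟩ : P)
    rw [hexp] at this
    exact congrArg Subtype.val this
  · obtain ⟨g, hg⟩ := hconj ⟨_, h.mem⟩ ⟨w k, hw k⟩
      (fun e => hp1.ne' (by rw [← h.ord, show ⁅a, b⁆ = 1 from congrArg Subtype.val e, orderOf_one]))
      (fun e => hwz k (by rw [show w k = 1 from congrArg Subtype.val e]; exact one_mem _))
    replace hg : g * ⁅a, b⁆ * g⁻¹ = w k := hg
    have := h.exists_transv (sylIn_top P) (g := g) (hg ▸ hw k) (hg ▸ hwz k) i
    rwa [hg] at this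

end Cfsg.Agent.S3055
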