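import Cfsg.Statements.S3062
import Cfsg.Agent.OD.Pre
import Cfsg.Agent.H9.DStar

set_option autoImplicit false
open Cfsg

namespace Cfsg.Agent.S3062
open Subgroup CfH9 CfH7
open scoped commutatorElement


/-- Let S be a finite p-group, J(S) the subgroup generated by the abelian subgroups of S of largest order and Z(J(S)) its centre. Then Z(S) ≤ D*(S) ≤ Z(J(S)), and every maximal normal abelian subgroup of S contains D*(S). -/
theorem result {S : Type*} [Group S] [Finite S] {p : ℕ} [Fact p.Prime]
    (hS : IsPGroup p S) :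
    Subgroup.center S ≤ Cfsg.dStar S ∧
    Cfsg.dStar S ≤ Cfsg.thompsonSubgroupA S ⊓ Subgroup.centralizer (Cfsg.thompsonSubgroupA S : Set S) ∧
    ∀ A : Subgroup S, A.Normal → IsMulCommutative A →
      (∀ B : Subgroup S, B.Normal → IsMulCommutative B → A ≤ B → B = A) → Cfsg.dStar S ≤ A := by
  have hP := hS.to_subgroup ⊤
  rw [← dStarOf_top]
  refine ⟨DS.le_dStarOf ⟨le_top, inferInstance, fun x _ _ a ha => (mem_center_iff.1 ha x).symm⟩, ?_,
    fun A hn hc hm => ?_⟩
  · have := dStarOf_le_ZJ hP
    rw [ZJ, OZ_zero, TJ_top] at this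
    rwa [thompsonSubgroupA_eq]
  · have hD := ds_dStarOf hP
    have : (dStarOf (⊤ : Subgroup S)).Normal :=
      normal_iff_top_le_Nm.2 (le_normalizer.trans (Nm_le_Nm_dStarOf _))
    exact le_sup_right.trans (hm (A ⊔ dStarOf ⊤) inferInstance (comm_sup hc hD.comm
      (hD.le_Cz hP le_top hc le_normalizer_of_normal)) le_sup_left).le

end Cfsg.Agent.S3062
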