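import Cfsg.Statements.S3063
import Cfsg.Agent.OD.Pre
import Cfsg.Agent.H9.Replacement

set_option autoImplicit false
open Cfsg

namespace Cfsg.Agent.S3063
open Subgroup CfH9 CfH7
open scoped commutatorElement


/-- A weak replacement Theorem for metabelian p-groups: let S be a finite p-group whose derived subgroup is abelian and A an abelian subgroup of S of largest possible order. Then the normal closure of A in S contains an abelian subgroup B of the same order as A that is normal in S. -/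
theorem result {S : Type*} [Group S] [Finite S] {p : ℕ} [Fact p.Prime]
    (hS : IsPGroup p S) (hmeta : IsMulCommutative ↥(commutator S))
    (A : Subgroup S) (hA : A ∈ Cfsg.maxAbelianSubgroups S) :
    ∃ B ∈ Cfsg.maxAbelianSubgroups S, B.Normal ∧ B ≤ Subgroup.normalClosure (A : Set S) := by
  have hP := hS.to_subgroup ⊤
  have hBC := le_Cz_of_comm hmeta
  obtain ⟨X, ⟨hX, hXA⟩, hmax⟩ := exists_max_card (fun Y : Subgroup S => ∃ X, Y = X ⊓ _root_.commutator S ∧
    MaxEA 0 ⊤ X ∧ X ≤ normalClosure (A : Set S)) ⟨_, A, rfl, maxEA_zero_top_iff.2 hA, le_normalClosure⟩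
    |>.elim fun _ ⟨⟨X, h1, h2⟩, h3⟩ => (⟨X, h2, fun Z h4 h5 => h1 ▸ h3 _ ⟨Z, rfl, h4, h5⟩⟩ :
      ∃ X : Subgroup S, (MaxEA 0 ⊤ X ∧ X ≤ normalClosure (A : Set S)) ∧ ∀ Z : Subgroup S, MaxEA 0 ⊤ Z →
        Z ≤ normalClosure (A : Set S) → Nat.card (Z ⊓ _root_.commutator S : Subgroup S) ≤
          Nat.card (X ⊓ _root_.commutator S : Subgroup S))
  have h1 : _root_.commutator S ≤ Nm(X) := by
    by_contra h
    obtain ⟨Z, hZ, h2, -, h3⟩ := thompson_replacement hP hX le_top le_normalizer_of_normal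
      (elemAb_zero_iff.2 hmeta) h
    exact (card_lt_of_lt h2).not_ge (hmax Z hZ (h3.trans (nclo_le le_normalizer_of_normal hXA)))
  refine ⟨X, maxEA_zero_top_iff.1 hX, normal_of_forall_mem_Nm fun b => ?_, hXA⟩
  by_contra hb
  have hu : ∀ b, ∀ a : S, a⁻¹ * (b * a * b⁻¹) ∈ _root_.commutator S := fun b a => by
    have := commutator_mem_commutator (mem_top a⁻¹) (mem_top b)
    rwa [commutatorElement_def, inv_inv, mul_assoc, mul_assoc, ← mul_assoc b] at this
  have h2 : ∀ b, cj b X ≤ X ⊔ _root_.commutator S := fun b => cj_le_iff_forall.2 fun a ha => by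
    simpa using mul_mem (mem_sup_left ha) (mem_sup_right (hu b a))
  have h3 : ∀ b, cj b X ≤ Nm(X) := fun b => (h2 b).trans (sup_le le_normalizer h1)
  have h6 : ∀ b, X ⊓ _root_.commutator S ≤ cj b X := fun b => by
    have := (hX.conj b).inf_Cz_zero
    rw [cj_top, top_inf_eq] at this
    rw [← this]
    exact le_Cz_comm ((h2 b).trans (sup_le ((le_Cz_of_comm hX.comm).trans (Cz_anti inf_le_left))
      (hBC.trans (Cz_anti inf_le_right))))
  have hr : RplHyp X b := ⟨hX.comm, h3 b, by rw [← cj_normalizer, le_cj_iff]; exact h3 _,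
    fun a ha ha' => by
      have := mul_mem ha (inv_mem (mem_cj.1 (h6 b (mi (mul_mem (inv_mem ha) ha') (hu b a)))))
      convert this using 1; group⟩
  have h4 : MaxEA 0 ⊤ hr.rpl := hX.of_card_le le_top (elemAb_zero_iff.2 (hr.comm_rpl fun a _ c _ =>
    comm_iff.1 hmeta _ (hu b a) _ (hu b c))) hr.card_rpl.ge
  obtain ⟨a, ha, h5⟩ := hr.not_rpl_le hb
  refine (card_lt_of_lt (lt_of_le_not_ge (le_inf ((le_inf inf_le_left (h6 b)).trans hr.inf_le_rpl)
    inf_le_right) fun h => h5 (mi1 (h (mi (hr.u_mem ha) (hu b a)))))).not_ge (hmax _ h4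
      (hr.rpl_le_sup.trans (sup_le hXA ((cj_mono b hXA).trans (cj_normal _ _).le))))

end Cfsg.Agent.S3063
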