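import Cfsg.Statements.S3064
import Cfsg.Agent.OD.Pre
import Cfsg.Agent.H9.Iso2
import Cfsg.Agent.H5.Frobenius

set_option autoImplicit false
open Cfsg

namespace Cfsg.Agent.S3064
open Subgroup CfH9 CfH7
open scoped commutatorElement

universe u in
theorem aux {p : ℕ} [Fact p.Prime] (G : Type u) [Group G] [Finite G] : ∀ (x : G) (k : ℕ),
    x ^ p ^ k = 1 → IsIsolated x →
    (∀ H : Subgroup G, (Nat.card H).Coprime p → x ∈ Nm(H) → H ≤ Cx(x)) → x ∈ center G := by
  refine group_induction (P := fun G _ _ => ∀ (x : G) (k : ℕ), x ^ p ^ k = 1 → IsIsolated x →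
    (∀ H : Subgroup G, (Nat.card H).Coprime p → x ∈ Nm(H) → H ≤ Cx(x)) → x ∈ center G)
    (fun G _ _ ih => ?_) G
  intro x k hk hiso hb
  have h1 : ∀ H : Subgroup G, H ≠ ⊤ → x ∈ H → H ≤ Cx(x) := by
    intro H hH hx
    have := ih H (card_lt_of_ne_top hH) ⟨x, hx⟩ k (Subtype.ext (by simpa using hk))
      (iso_subtype hiso hx) fun K hK hN g hg => by
        have h2 := hb (K.map H.subtype) (by rwa [CfH9.card_map_subtype])
          (mi2 (map_subtype_Nm K ▸ mem_map_of_mem H.subtype hN)) (mem_map_of_mem H.subtype hg)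
        exact mem_Cx.2 (Subtype.ext (mem_Cx.1 h2))
    intro g hg
    exact mem_Cx.2 (congrArg Subtype.val (mem_center_iff.1 this ⟨g, hg⟩))
  obtain ⟨N, hN, -, h2, h3⟩ := CfH5.wielandt_kernel Cx(x) (center G) (center_le_centralizer _)
    (fun h _ m hm => by rwa [mem_center_iff.1 hm h, mul_inv_cancel_right]) (by
      intro g hg d hd hgd
      by_contra hdZ
      have h4 : Cx(d) ≠ ⊤ := fun e =>
        hdZ (mem_center_iff.2 fun y => mem_Cx.1 (e ▸ mem_top y))
      have h5 : g⁻¹ * x * g⁻¹⁻¹ ∈ Cx(d) := by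
        rw [inv_inv, ← mem_cj, cj_Cx]; exact mem_Cx.2 (mem_Cx.1 hgd).symm
      have h6 := h1 _ h4 (mem_Cx.2 (mem_Cx.1 hd).symm) h5
      exact hg ((inv_mem_iff).1 (mem_Cx'.2 (hiso g⁻¹ (mem_Cx.1 h6).symm))))
  obtain ⟨S, hS, hx⟩ := exists_sylIn_ge (isPGroup_zpowers hk) (le_top (a := zpowers x))
  have h4 := iso_le_Cx hiso hS.2 (hx (mem_zpowers x))
  have h5 : SylIn p (S ⊓ N) N := hS.inf_normal' le_normalizer_of_normal le_top
  have h6 : S ⊓ N ≤ center G := h2 ▸ le_inf inf_le_right (inf_le_left.trans h4)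
  have h7 := (burnside_pNil h5 (le_centralizer_iff.1
    (h6.trans (center_le_centralizer _)))).sup_eq h5
  have h8 : N ≤ Cx(x) := by
    rw [← h7]
    exact sup_le (hb _ (coprime_card_pPrimeCoreOf _) (mem_Nm_of_normal _ _))
      (inf_le_left.trans h4)
  rw [sup_eq_right.2 h8] at h3
  exact mem_center_iff.2 fun g => mem_Cx.1 (h3 ▸ mem_top g)

/-- Let S be a Sylow p-subgroup of the finite group G and x an element of S such that (i) x is the only G-conjugate of x lying in S, and (ii) x centralizes every subgroup of order prime to p that it normalizes. Then x lies in the centre of G. -/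
theorem result {G : Type*} [Group G] [Finite G] {p : ℕ} [Fact p.Prime]
    (S : Sylow p G) (x : G) (hx : x ∈ S)
    (hU : ∀ g : G, g⁻¹ * x * g ∈ S → g⁻¹ * x * g = x)
    (hb : ∀ H : Subgroup G, (Nat.card H).Coprime p → (∀ h ∈ H, x * h * x⁻¹ ∈ H) → ∀ h ∈ H, x * h = h * x) :
    x ∈ Subgroup.center G := by
  obtain ⟨k, hk⟩ := isPGroup_iff_mem.1 S.isPGroup' x hx
  refine aux G x k hk (iso_of_weakly_closed (sylIn_top S) hx fun g hg => ?_) fun H hH hN h hh => ?_
  · simpa using hU g⁻¹ (by rw [inv_inv]; exact hg)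
  · exact mem_Cx.2 (hb H hH (fun h hh => conj_mem_of_mem_normalizer hN hh) h hh).symm

end Cfsg.Agent.S3064
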