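import Cfsg.Statements.S3070
import Cfsg.Agent.OD.Pre
import Cfsg.Agent.H9.NpcF

set_option autoImplicit false
open Cfsg

namespace Cfsg.Agent.S3070
open Subgroup CfH9 CfH7
open scoped commutatorElement


/-- Let p ≥ 5 be a prime, S a Sylow p-subgroup of the finite group G and J(S) the subgroup generated by the abelian subgroups of S of largest order. Then G has a normal p-complement if and only if N_G(J(S))/C_G(J(S)) is a p-group (every element of N_G(J(S)) of order prime to p centralizes J(S)). -/
theorem result {G : Type*} [Group G] [Finite G] {p : ℕ} [Fact p.Prime]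
    (hp : 5 ≤ p) (S : Sylow p G) :
    Cfsg.HasNormalPComplement p G ↔
      ∀ g ∈ Subgroup.normalizer (Cfsg.thompsonSubgroupAOf (S : Subgroup G) : Set G), (orderOf g).Coprime p →
        g ∈ Subgroup.centralizer (Cfsg.thompsonSubgroupAOf (S : Subgroup G) : Set G) := by
  rw [thompsonSubgroupAOf_eq]
  exact fnc_TJ.npc_iff (fun G _ _ S h => h.TJ_normal hp) (sylIn_top S)
    ((inf_Cz_TJ_zero _).le.trans (ZJ_le_TJ _))

end Cfsg.Agent.S3070
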