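import Cfsg.Statements.S3071
import Cfsg.Agent.OD.Pre
import Cfsg.Agent.H9.ZJFree

set_option autoImplicit false
open Cfsg

namespace Cfsg.Agent.S3071
open Subgroup CfH9 CfH7
open scoped commutatorElement


/-- Let p be an odd prime and S a Sylow p-subgroup of the finite group G such that, for every subgroup P with Z(S) ≤ P ≤ S, the normalizer N_G(P) has no section isomorphic to SL₂(p). Let J(S) be the subgroup generated by the abelian subgroups of S of largest order. Then two elements of S are conjugate in G if and only if they are conjugate in N_G(Z(J(S))). -/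
theorem result {G : Type*} [Group G] [Finite G] {p : ℕ} [Fact p.Prime]
    (hp : p ≠ 2) (S : Sylow p G)
    (hfree : ∀ P : Subgroup G, (S : Subgroup G) ⊓ Subgroup.centralizer ((S : Subgroup G) : Set G) ≤ P → P ≤ S →
      ¬ ∃ (H K : Subgroup G) (hK : (K.subgroupOf H).Normal), H ≤ Subgroup.normalizer (P : Set G) ∧
        Nonempty ((H ⧸ K.subgroupOf H) ≃* Matrix.SpecialLinearGroup (Fin 2) (ZMod p))) :
    ∀ x ∈ S, ∀ y ∈ S, (∃ g : G, g * x * g⁻¹ = y) ↔
      ∃ n ∈ Subgroup.normalizer (Cfsg.centerThompsonAOf (S : Subgroup G) : Set G), n * x * n⁻¹ = y := by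
  have hS := sylIn_top S
  have h : CtrlFus ⊤ S (⊤ ⊓ Nm(ZJ 0 (S : Subgroup G))) := by
    refine ctrlFus_of_functor (ZJ 0) ZJ_le Nm_le_Nm_ZJ hS (sc_self _ _)
      (fun U => (S : Subgroup G) ⊓ Cz((S : Subgroup G)) ≤ U)
      (fun Q hQ h _ => (inf_le_inf_left _ (Cz_anti hQ)).trans h)
      (fun U hU hΦ hfn _ h _ hh => ?_) fun U hU hΦ hfn => ?_
    · rw [cj_ZJ]
      refine le_trans ?_ (OZ_le_ZJ _)
      rw [OZ_zero]
      have h1 : (S : Subgroup G) ⊓ Cz((S : Subgroup G)) ≤ Cz(cj h ((S : Subgroup G) ⊓ Nm(U))) :=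
        inf_le_right.trans (Cz_anti hh)
      refine le_inf ((hfn.cj h).le_of_le_Nm' S.isPGroup'.to_inf_left ?_ (h1.trans (Cz_le_Nm _))) h1
      rw [top_inf_eq, cj_normalizer]
      exact (h1.trans (Cz_anti (cj_mono h (le_inf hU le_normalizer)))).trans (Cz_le_Nm _)
    · refine (zj_ctrlFus_of_not_involves hp (dvd_zero p) hfn (sc_self _ _) fun h => ?_).mono
        (inf_le_inf_right _ le_top)
      rw [top_inf_eq] at h
      exact hfree U hΦ hU (Involves.exists_le (Involves.sl_of_qd h))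
  rw [centerThompsonAOf_eq]
  refine fun x hx y hy => ⟨?_, fun ⟨n, _, h⟩ => ⟨n, h⟩⟩
  rintro ⟨g, rfl⟩
  obtain ⟨k, hk, e⟩ := h.elem hx (mem_top g) hy
  exact ⟨k, mi2 hk, e.symm⟩

end Cfsg.Agent.S3071
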