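import Cfsg.Statements.S3072
import Cfsg.Agent.OD.Pre
import Cfsg.Agent.H9.AlpGold

set_option autoImplicit false
open Cfsg

namespace Cfsg.Agent.S3072
open Subgroup CfH9 CfH7
open scoped commutatorElement


/-- A strong form of the Alperin–Goldschmidt fusion Theorem. Let P be a Sylow p-subgroup of the finite group G, A a subset of P containing a nonidentity element, and g an element with g⁻¹Ag ⊆ P. Then g = c·x₁⋯xₙ·y with c ∈ C_G(A), y ∈ N_G(P) and, for each i, an element xᵢ and a subgroup Hᵢ ≤ P such that: N_P(Hᵢ) is a Sylow p-subgroup of N_G(Hᵢ); C_P(Hᵢ) ≤ Hᵢ; O_{p',p}(N_G(Hᵢ)) = Hᵢ·C_G(Hᵢ); the Sylow p-subgroups of N_G(Hᵢ)/Hᵢ are not chain-connected through nontrivial intersections (the quotient has a strongly p-embedded subgroup); xᵢ lies in O^p(Xᵢ), where Xᵢ/Hᵢ is the smallest normal subgroup of N_G(Hᵢ)/Hᵢ of order divisible by p; and (x₁⋯xᵢ₋₁)⁻¹A(x₁⋯xᵢ₋₁) ⊆ Hᵢ. -/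
theorem result {G : Type*} [Group G] [Finite G] {p : ℕ} [Fact p.Prime]
    (P : Sylow p G) (A : Set G) (hA : A ⊆ (P : Set G)) (hA1 : ∃ a ∈ A, a ≠ 1)
    (g : G) (hAg : (fun a => g⁻¹ * a * g) '' A ⊆ (P : Set G)) :
    ∃ (n : ℕ) (H X : Fin n → Subgroup G) (x : Fin n → G) (c y : G),
      c ∈ Subgroup.centralizer A ∧ y ∈ Subgroup.normalizer ((P : Subgroup G) : Set G) ∧
      g = c * (List.ofFn x).prod * y ∧
      ∀ i : Fin n,
        H i ≤ (P : Subgroup G) ∧
        ¬ p ∣ ((P : Subgroup G) ⊓ Subgroup.normalizer (H i : Set G)).relIndex (Subgroup.normalizer (H i : Set G)) ∧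
        (P : Subgroup G) ⊓ Subgroup.centralizer (H i : Set G) ≤ H i ∧
        (Cfsg.pPrimePCore p ↥(Subgroup.normalizer (H i : Set G))).map (Subgroup.normalizer (H i : Set G)).subtype =
          H i ⊔ Subgroup.centralizer (H i : Set G) ∧
        ¬ Cfsg.IsSylowChainConnected p
            (↥(Subgroup.normalizer (H i : Set G)) ⧸ (H i).subgroupOf (Subgroup.normalizer (H i : Set G))) ∧
        (H i ≤ X i ∧ X i ≤ Subgroup.normalizer (H i : Set G) ∧
          ((X i).subgroupOf (Subgroup.normalizer (H i : Set G))).Normal ∧ p ∣ (H i).relIndex (X i) ∧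
          ∀ Y : Subgroup G, H i ≤ Y → Y ≤ Subgroup.normalizer (H i : Set G) →
            (Y.subgroupOf (Subgroup.normalizer (H i : Set G))).Normal → p ∣ (H i).relIndex Y → X i ≤ Y) ∧
        x i ∈ (Cfsg.pResidual p ↥(X i)).map (X i).subtype ∧
        (fun a => (((List.ofFn x).take i.val).prod)⁻¹ * a * ((List.ofFn x).take i.val).prod) '' A ⊆ (H i : Set G) := by
  obtain ⟨c, hc, w, hw, y, hy, e⟩ := alperin_goldschmidt (sylIn_top P) (closure A)
    ((closure_le _).2 hA) g⁻¹ (mem_top _) (by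
      rw [cj_closure, inv_inv]; exact (closure_le _).2 hAg)
  rw [inv_inv] at e
  obtain ⟨n, u, h0, hn, hu⟩ := (reflTransGen_iff_chain _ _ _).1 hw
  choose H X h1 h2 h3 using hu
  have key := Fin.partialProd_left_inv u
  rw [h0, one_smul] at key
  refine ⟨n, H, X, fun i => (u i.castSucc)⁻¹ * u i.succ, c, y,
    centralizer_le Subgroup.subset_closure hc, hy, ?_, fun i => ?_⟩
  · have := congrFun key (Fin.last n)
    simp only [Fin.partialProd, Fin.val_last] at this
    rw [List.take_of_length_le (by simp)] at this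
    rw [this, hn, e]
  · have hfn := (h1 i).fn
    have hX := (h1 i).minX
    obtain ⟨M, hM⟩ := (h1 i).spe
    have : ((H i).subgroupOf (⊤ ⊓ Nm(H i))).Normal := normal_subgroupOf_of_le_normalizer inf_le_right
    have hspe := (hM.spe le_top hfn).not_chainConnected
    revert this
    rw [top_inf_eq] at hfn hX ⊢
    intro _ hspe
    have hr := (rad_top_iff (h1 i).le hfn).1 (h1 i).rad
    refine ⟨(h1 i).le, hfn.not_dvd_relIndex, hr.1, hr.2, hspe, ⟨hX.1, hX.2.1,
      normal_subgroupOf_of_le_normalizer hX.2.2.1, hX.2.2.2.1, fun Y a1 a2 a3 a4 =>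
        hX.2.2.2.2 Y a1 a2 (le_normalizer_of_normal_subgroupOf a2) a4⟩, h2 i, ?_⟩
    have := congrFun key i.castSucc
    simp only [Fin.partialProd, Fin.val_castSucc] at this
    rw [this]
    rintro _ ⟨a, ha, rfl⟩
    exact h3 i (mem_cj_inv.2 (by simpa [mul_assoc] using Subgroup.subset_closure ha))

end Cfsg.Agent.S3072
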