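import Cfsg.Statements.S3074
import Cfsg.Agent.OD.Pre
import Cfsg.Agent.H9.QdFacts

set_option autoImplicit false
open Cfsg

namespace Cfsg.Agent.S3074
open Subgroup CfH9 CfH7
open scoped commutatorElement


/-- Let p be an odd prime. A Sylow p-subgroup of Qd(p), the split extension of an elementary abelian group of order p² by SL₂(p) acting naturally, is extraspecial of order p³ and exponent p. -/
theorem result (p : ℕ) [Fact p.Prime] (hp : p ≠ 2) (P : Sylow p ↥(Cfsg.qd p)) :
    Cfsg.IsExtraspecial p ↥P ∧ Nat.card P = p ^ 3 ∧ Monoid.exponent ↥P = p := by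
  obtain ⟨V, hV⟩ := exists_qdLike hp (MulEquiv.refl (qd p))
  have h1 := hV.card_sylIn (sylIn_top P)
  have h2 := hV.not_comm (sylIn_top P)
  have hp' : p.Prime := Fact.out
  refine ⟨isExtraspecial_of_card h1 h2, h1, ?_⟩
  have : Nontrivial P := by
    by_contra h
    have := not_nontrivial_iff_subsingleton.1 h
    exact h2 ⟨⟨fun a b => Subsingleton.elim _ _⟩⟩
  refine (Monoid.exponent_eq_prime_iff hp').2 fun g hg => orderOf_eq_prime ?_ hg
  obtain ⟨k, hk⟩ := P.isPGroup' g
  have h3 : g.1.1.1 ^ p ^ k = 1 := congrArg (fun x : P => x.1.1.1) hk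
  have h4 : IsNilpotent (g.1.1.1 - 1) :=
    ⟨p ^ k, by rw [sub_pow_char_pow_of_commute p k (Commute.one_right _), h3, one_pow, sub_self]⟩
  have h5 := (Matrix.isNilpotent_charpoly_sub_pow_of_isNilpotent h4).eq_zero
  have h6 := Matrix.aeval_self_charpoly (g.1.1.1 - 1)
  rw [sub_eq_zero.1 h5, map_pow, Polynomial.aeval_X, Fintype.card_fin] at h6
  have h7 : (g.1.1.1 - 1) ^ p = 0 := pow_eq_zero_of_le (by have := hp'.two_le; omega) h6
  rw [sub_pow_char_of_commute p (Commute.one_right _), one_pow, sub_eq_zero] at h7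
  exact Subtype.ext (Subtype.ext (Subtype.ext h7))

end Cfsg.Agent.S3074
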