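import Cfsg.Statements.S3075
import Cfsg.Agent.OD.Pre
import Cfsg.Agent.H9.QdFacts
import Cfsg.Agent.H8.Gaschuetz

set_option autoImplicit false
open Cfsg

namespace Cfsg.Agent.S3075
open Subgroup CfH9 CfH7
open scoped commutatorElement


/-- Let p be an odd prime and N a finite group with a normal elementary abelian subgroup A of order p² that is its own centralizer in N, such that N/A is isomorphic to SL₂(p) (over any field F with p elements). Then N splits over A: some subgroup U of N satisfies A ∩ U = 1 and AU = N. -/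
theorem result {N : Type*} [Group N] [Finite N] {p : ℕ} [Fact p.Prime] (hp : p ≠ 2)
    (A : Subgroup N) [A.Normal] (hAcomm : IsMulCommutative A) (hAcard : Nat.card A = p ^ 2) (hAexp : Monoid.exponent ↥A = p)
    (hAself : Subgroup.centralizer (A : Set N) = A)
    {F : Type*} [Field F] [Fintype F] (hF : Fintype.card F = p) (e : N ⧸ A ≃* Matrix.SpecialLinearGroup (Fin 2) F) :
    ∃ U : Subgroup N, A ⊓ U = ⊥ ∧ A ⊔ U = ⊤ := by
  have hp' : p.Prime := Fact.out
  let π : N →* Matrix.SpecialLinearGroup (Fin 2) F := e.toMonoidHom.comp (QuotientGroup.mk' A)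
  have hπ : Function.Surjective π := e.surjective.comp (QuotientGroup.mk'_surjective A)
  have hk : π.ker = A := by
    ext x; simp [π, MonoidHom.mem_ker]
  have hAp : IsPGroup p A := IsPGroup.of_card hAcard
  let Z := zpowers (-1 : Matrix.SpecialLinearGroup (Fin 2) F)
  have hZn : Z.Normal := normal_iff_top_le_Nm.2 ((le_Cx_iff.2 fun g _ => by
    simp).trans ((Cz_zpowers _).ge.trans (Cz_le_Nm _)))
  have hZ : IsPGroup 2 Z := isPGroup_zpowers (k := 1) (by simp)
  have hZ1 : Z ≠ ⊥ := zpowers_ne_bot' fun h => by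
    have h5 : (-1 : F) = 1 := congrFun (congrFun (congrArg Subtype.val h) 0) 0
    have : CharP F p := charP_of_card_eq_prime hF
    have h6 : ((2 : ℕ) : F) = 0 := by push_cast; linear_combination -h5
    exact hp ((Nat.prime_dvd_prime_iff_eq hp' Nat.prime_two).1 ((CharP.cast_eq_zero_iff F p 2).1 h6))
  obtain ⟨T, hT⟩ := exists_sylIn 2 (Z.comap π)
  have hTm := hT.map π
  rw [map_comap_eq_self_of_surjective hπ] at hTm
  have e1 := hTm.eq_of_le hZ le_rfl hTm.le
  have hM : Z.comap π = T ⊔ A := by rw [e1, comap_map_eq, hk]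
  have hcop : (Nat.card T).Coprime (Nat.card A) := by
    obtain ⟨k, hk⟩ := hT.pgrp.exists_card_eq
    rw [hk, hAcard]
    exact Nat.Coprime.pow _ _ ((Nat.coprime_primes Nat.prime_two hp').2 hp.symm)
  have hAT : A ⊓ T = ⊥ := disjoint_iff.1 (disjoint_of_coprime_natCard hcop).symm
  have hTA : T ≤ Nm(A) := le_normalizer_of_normal
  refine ⟨Nm(T), ?_, ?_⟩
  swap
  · have := hT.frattini_sup (H := ⊤) le_normalizer_of_normal le_top
    rw [hM, top_inf_eq] at this
    exact eq_top_iff.2 (this.ge.trans (sup_le (sup_le (le_normalizer.trans le_sup_right) le_sup_left)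
      le_sup_right))
  have h1 : A ⊓ Nm(T) ≤ A ⊓ Cz(T) := fun a ha => mi (mi1 ha) fun t ht =>
    (commute_of_disjoint (mi1 ha) ht (mi2 ha) (hTA ht) hAT).symm
  refine eq_bot_iff.2 (h1.trans (eq_bot_iff.1 ?_))
  by_contra hW
  obtain ⟨P⟩ : Nonempty (Sylow p N) := inferInstance
  have key : ∀ X : Subgroup N, X.Normal → X < A → (P : Subgroup N) ≤ Cz(X) := fun X hX hlt => by
    by_cases h0 : X = ⊥
    · rw [h0]; exact fun _ _ => by simp [mem_centralizer_iff]
    obtain ⟨i, hi, h2⟩ := (Nat.dvd_prime_pow hp').1 (hAcard ▸ card_dvd_of_le hlt.le)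
    have h3 := card_lt_of_lt hlt
    have h4 := card_lt_of_lt (bot_lt_iff_ne_bot.2 h0)
    rw [h2, hAcard, Nat.pow_lt_pow_iff_right hp'.one_lt] at h3
    rw [h2, card_bot, ← pow_zero p, Nat.pow_lt_pow_iff_right hp'.one_lt] at h4
    rw [show i = 1 by omega, pow_one] at h2
    exact le_Cz_comm (inf_eq_left.1 ((eq_bot_or_eq_of_card_prime h2 inf_le_left).resolve_left
      (inf_Cz_ne_bot P.isPGroup' (hAp.to_le hlt.le) le_normalizer_of_normal h0)))
  have hAC := le_Cz_of_comm hAcomm
  have h2 : A ⊓ Cz(T) = A ⊓ Cz(Z.comap π) := by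
    rw [hM, Cz_sup, inf_comm Cz(T), ← inf_assoc, inf_eq_left.2 hAC]
  have h3 : ⁅A, T⁆ = ⁅A, Z.comap π⁆ := le_antisymm (commutator_mono le_rfl hT.le)
    (commutator_le_of_le_sup_Cz hAC hTA (hM.trans (sup_comm _ _)).le)
  have h4 := key _ (by rw [h2]; infer_instance) (lt_of_le_of_ne inf_le_left fun h => hZ1 (by
    have : T ≤ A := hAself ▸ le_Cz_comm (inf_eq_left.1 h)
    rw [inf_eq_right.2 this] at hAT
    rw [e1, hAT, Subgroup.map_bot]))
  have h5 := key _ (by rw [h3]; infer_instance) (lt_of_le_of_ne (comm_le_left hTA) fun h => hW (by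
    have := CfH8.commutator_inf_centralizer_eq_bot hAcomm hTA hcop
    rwa [h] at this))
  have h6 := le_inf h5 h4
  rw [← Cz_sup, CfH8.commutator_sup_centralizer_eq hTA hcop (Or.inr (CfH8.isSolvable_of_comm hAcomm)),
    hAself] at h6
  have h7 := (index_dvd_of_le h6)
  refine P.not_dvd_index (dvd_trans ?_ h7)
  rw [index, Nat.card_congr e.toEquiv, CfH3.card_SL2 hF]
  exact Dvd.intro _ rfl

end Cfsg.Agent.S3075
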