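import Cfsg.Statements.S3076
import Cfsg.Agent.OD.Pre
import Cfsg.Agent.H9.AlpGold

set_option autoImplicit false
open Cfsg

namespace Cfsg.Agent.S3076
open Subgroup CfH9 CfH7
open scoped commutatorElement


/-- Let P be a Sylow p-subgroup of the finite group G and H ≤ P a subgroup with N_P(H) a Sylow p-subgroup of N_G(H). Let N be the preimage in N_G(H) of O_p(N_G(H)/C_G(H)). Then H is a Sylow p-subgroup of N if and only if C_P(H) ≤ H and O_{p',p}(N_G(H)) = H·C_G(H). -/
theorem result {G : Type*} [Group G] [Finite G] {p : ℕ} [Fact p.Prime]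
    (P : Sylow p G) (H : Subgroup G) (hHP : H ≤ (P : Subgroup G))
    (hSyl : ¬ p ∣ ((P : Subgroup G) ⊓ Subgroup.normalizer (H : Set G)).relIndex (Subgroup.normalizer (H : Set G)))
    [hC : ((Subgroup.centralizer (H : Set G)).subgroupOf (Subgroup.normalizer (H : Set G))).Normal] :
    (H ≤ ((Cfsg.pCore p (↥(Subgroup.normalizer (H : Set G)) ⧸
              (Subgroup.centralizer (H : Set G)).subgroupOf (Subgroup.normalizer (H : Set G)))).comap
            (QuotientGroup.mk' _)).map (Subgroup.normalizer (H : Set G)).subtype ∧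
      ¬ p ∣ H.relIndex (((Cfsg.pCore p (↥(Subgroup.normalizer (H : Set G)) ⧸
              (Subgroup.centralizer (H : Set G)).subgroupOf (Subgroup.normalizer (H : Set G)))).comap
            (QuotientGroup.mk' _)).map (Subgroup.normalizer (H : Set G)).subtype)) ↔
    ((P : Subgroup G) ⊓ Subgroup.centralizer (H : Set G) ≤ H ∧
      (Cfsg.pPrimePCore p ↥(Subgroup.normalizer (H : Set G))).map (Subgroup.normalizer (H : Set G)).subtype =
        H ⊔ Subgroup.centralizer (H : Set G)) := by
  have hfn : SylIn p ((P : Subgroup G) ⊓ Nm(H)) Nm(H) := by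
    refine sylIn_of_not_dvd inf_le_right (P.isPGroup'.to_inf_left) hSyl
  rw [map_comap_pCore_eq_opm, ← rad_top_iff hHP hfn,
    rad_iff_sylIn hHP le_top (by rwa [top_inf_eq]), top_inf_eq, sylIn_iff_relIndex]
  exact ⟨fun h => ⟨h.1, P.isPGroup'.to_le hHP, h.2⟩, fun h => ⟨h.1, h.2.2⟩⟩

end Cfsg.Agent.S3076
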