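import Cfsg.Statements.S3078
import Cfsg.Agent.OD.Pre
import Cfsg.Agent.H9.Replacement

set_option autoImplicit false
open Cfsg

namespace Cfsg.Agent.S3078
open Subgroup CfH9 CfH7
open scoped commutatorElement


/-- A replacement Theorem for abelian subgroups of p-groups, p odd. Let G be a finite p-group with p odd, A an abelian subgroup of G, and B a subgroup of nilpotency class at most 2 with [B, B] ≤ A, such that A normalizes B but B does not normalize A. Then there is an abelian subgroup A* of G of the same order as A with A ∩ B strictly contained in A* ∩ B, A* contained in N_G(A) and in the normal closure of A, the exponent of A* dividing the exponent of A, and with the subgroup generated by the elements of order dividing p in A of order at most that of the corresponding subgroup of A* (the rank of A is at most the rank of A*). -/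
theorem result {G : Type*} [Group G] [Finite G] {p : ℕ} [Fact p.Prime] (hp : p ≠ 2) (hG : IsPGroup p G) (A B : Subgroup G) (hA : IsMulCommutative A) (hB2 : ⁅⁅B, B⁆, B⁆ = ⊥) (hBA : ⁅B, B⁆ ≤ A) (hAB : A ≤ Subgroup.normalizer (B : Set G)) (hBnA : ¬ B ≤ Subgroup.normalizer (A : Set G)) : ∃ Astar : Subgroup G, IsMulCommutative Astar ∧ Nat.card Astar = Nat.card A ∧ A ⊓ B < Astar ⊓ B ∧ Astar ≤ Subgroup.normalizer (A : Set G) ∧ Astar ≤ Subgroup.normalClosure (A : Set G) ∧ Monoid.exponent Astar ∣ Monoid.exponent A ∧ Nat.card (Cfsg.omegaOne p A) ≤ Nat.card (Cfsg.omegaOne p Astar) := by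
  obtain ⟨b, hb, hbA, hr⟩ := exists_rplHyp hA (hG.to_subgroup A) (hG.to_subgroup B) hAB hBA hBnA
  have hodd : ∀ d : G, d * d = 1 → d = 1 := fun d =>
    eq_one_of_mul_self hp (hG.to_subgroup ⊤) (mem_top d)
  have hc := hr.comm_rpl fun a ha c hc => hr.commute_u_u hb hAB hB2 hBA (fun d _ => hodd d) ha hc
  refine ⟨hr.rpl, hc, hr.card_rpl, hr.inf_lt hb hbA hAB hBA, hr.rpl_le_Nm, ?_, ?_, ?_⟩
  · rw [← nclo_top]
    exact hr.rpl_le_sup.trans (sup_le (le_nclo A ⊤) (cj_le_nclo (mem_top b)))
  · have hA' : ∀ a ∈ A, a ^ Monoid.exponent A = 1 := fun a ha =>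
      congrArg Subtype.val (Monoid.pow_exponent_eq_one (⟨a, ha⟩ : A))
    have := hr.elemAb_rpl hc hA' fun a ha => hr.u_pow hA' (fun d _ => hodd d) ha
    exact Monoid.exponent_dvd_of_forall_pow_eq_one fun x => Subtype.ext (this.2 x x.2)
  · have h1 := hr.omegaOne (e := p)
    have hle := hr.rpl_mono h1 (omegaOne_le A)
    have hA' : ∀ a ∈ Cfsg.omegaOne p A, a ^ p = 1 := (elemAb_omegaOne hA).2
    have := h1.elemAb_rpl (comm_of_le hle hc) hA' fun a ha => h1.u_pow hA' (fun d _ => hodd d) ha
    rw [← h1.card_rpl]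
    exact card_le_of_le (elemAb_le_omegaOne this hle)

end Cfsg.Agent.S3078
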