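import Cfsg.Statements.S3080
import Cfsg.Agent.OD.Pre
import Cfsg.Agent.H9.ZJ

set_option autoImplicit false
open Cfsg

namespace Cfsg.Agent.S3080
open Subgroup CfH9 CfH7
open scoped commutatorElement


/-- Let p be an odd prime, G a finite group that is p-stable in the normalizer form, P a Sylow p-subgroup such that N_G(U) is p-constrained for every nontrivial subgroup U of P, and D a subgroup of P strongly closed in P with respect to G. Then N_G(Z(J(D))) controls strong G-fusion in P (for every subset A of P and every g ∈ G with gAg⁻¹ ⊆ P, some element of that normalizer acts on A exactly as g does; J(D) is generated by the abelian subgroups of D of largest order), and so does N_G(Ω₁(Z(J_e(D)))) (J_e(D) generated by the elementary abelian subgroups of largest order). -/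
theorem result {G : Type*} [Group G] [Finite G] {p : ℕ} [Fact p.Prime] (hp : p ≠ 2) (P : Sylow p G) (D : Subgroup G) (hD : Cfsg.IsStronglyClosed D (P : Subgroup G)) (hst : Cfsg.IsNormalizerPStable p G) (hc : ∀ U : Subgroup G, U ≤ (P : Subgroup G) → U ≠ ⊥ → Cfsg.IsPConstrained p ↥(Subgroup.normalizer (U : Set G))) : (∀ A : Set G, A ⊆ (P : Subgroup G) → Cfsg.ControlsStrongFusionOf (Subgroup.normalizer ((Cfsg.centerThompsonAOf D) : Set G)) (P : Subgroup G) A) ∧ (∀ A : Set G, A ⊆ (P : Subgroup G) → Cfsg.ControlsStrongFusionOf (Subgroup.normalizer ((Cfsg.omegaOne p (Cfsg.centerThompsonOf p D)) : Set G)) (P : Subgroup G) A) := by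
  rw [centerThompsonAOf_eq, omegaOne_centerThompsonOf_eq]
  have hD' := sc_top_iff.2 hD
  have h : ∀ e, p ∣ e → CtrlFus ⊤ P Nm(ZJ e D) := fun e he => by
    refine (ctrlFus_of_functor (ZJ e) ZJ_le Nm_le_Nm_ZJ (sylIn_top P) hD' (· ≠ ⊥)
      (fun _ _ _ h => h) (fun U hU hU1 hfn hDU h _ _ => cj_ne_bot (ZJ_ne_bot he
        (P.isPGroup'.to_le (inf_le_left.trans hD.1)) ?_)) fun U hU hU1 hfn => ?_).mono inf_le_right
    · have hD1 : D ≠ ⊥ := fun e => hDU (e ▸ bot_le)
      exact ne_bot_of_le (inf_le_inf_left D ((Cz_anti hU).trans (Cz_le_Nm U)))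
        (inf_Cz_ne_bot P.isPGroup' (P.isPGroup'.to_le hD.1) (hD'.le_Nm le_top) hD1)
    · refine (zj_ctrlFus_of_constrained hp hfn hD'.inf (fun H _ => normalizerPStable_iff.1 hst H)
        (pConstrained_iff hfn ?_)).mono (inf_le_inf_right _ inf_le_left)
      rw [top_inf_eq]; exact hc U hU hU1
  exact ⟨(h 0 (dvd_zero p)).set, (h p dvd_rfl).set⟩

end Cfsg.Agent.S3080
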