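import Cfsg.Statements.S3087
import Cfsg.Agent.OD.Pre
import Cfsg.Agent.H8.Thompson

set_option autoImplicit false
open Cfsg

namespace Cfsg.Agent.S3087

/-- Let p be a prime, G a finite group acting linearly on a finite vector space V over the field with p elements, W a G-invariant subspace, and A a subgroup of G with |A|·|C_V(A)| ≥ |B|·|C_V(B)| for every subgroup B of A. Then |A|·|C_W(A)| ≥ |B|·|C_W(B)| for every subgroup B of A that contains C_A(W); that is, the image of A in the group induced on W satisfies the same maximality condition. -/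
theorem result {G V : Type*} [Group G] [Finite G] [AddCommGroup V] [Finite V] (p : ℕ) [Fact p.Prime] [Module (ZMod p) V]
    (ρ : Representation (ZMod p) G V) (W : Submodule (ZMod p) V) (hW : ∀ g : G, ∀ w ∈ W, ρ g w ∈ W)
    (A : Subgroup G)
    (hP : ∀ B : Subgroup G, B ≤ A →
      Nat.card ↥B * Nat.card {v : V // ∀ b ∈ B, ρ b v = v} ≤ Nat.card ↥A * Nat.card {v : V // ∀ a ∈ A, ρ a v = v})
    (B : Subgroup G) (hBA : B ≤ A) (hCB : ∀ a ∈ A, (∀ w ∈ W, ρ a w = w) → a ∈ B) :
    Nat.card ↥B * Nat.card {w : W // ∀ b ∈ B, ρ b w = w} ≤ Nat.card ↥A * Nat.card {w : W // ∀ a ∈ A, ρ a w = w} := by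
  open Subgroup MulAction CfH9 CfH8 commutatorElement in
  let F : Subgroup G → Subgroup (Multiplicative V) := fun X =>
    { carrier := {v | ∀ b ∈ X, ρ b v.toAdd = v.toAdd}
      mul_mem' := fun {x y} hx hy b hb => by
        rw [toAdd_mul, map_add, hx b hb, hy b hb]
      one_mem' := fun b _ => by rw [toAdd_one, map_zero]
      inv_mem' := fun {x} hx b hb => by rw [toAdd_inv, map_neg, hx b hb] }
  let W' : Subgroup (Multiplicative V) := AddSubgroup.toSubgroup W.toAddSubgroup
  have h1 : ∀ X : Subgroup G, Nat.card {v : V // ∀ b ∈ X, ρ b v = v} = Nat.card (F X) :=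
    fun X => rfl
  have h2 : ∀ X : Subgroup G, Nat.card {w : W // ∀ b ∈ X, ρ b w = w}
      = Nat.card (W' ⊓ F X : Subgroup _) := by
    intro X
    exact Nat.card_congr
      { toFun := fun w => ⟨Multiplicative.ofAdd (w.1 : V), w.1.2, w.2⟩
        invFun := fun w => ⟨⟨w.1.toAdd, w.2.1⟩, w.2.2⟩
        left_inv := fun _ => rfl
        right_inv := fun _ => rfl }
  have hAB : F A ≤ F B := fun v hv b hb => hv b (hBA hb)
  have h3 := card_mul_card_le (A := W' ⊓ F B) (B := F A) (H := F B) inf_le_right hAB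
  have e : W' ⊓ F B ⊓ F A = W' ⊓ F A := by rw [inf_assoc, inf_eq_right.2 hAB]
  rw [e] at h3
  have h4 := hP B hBA
  rw [h1, h1] at h4
  rw [h2, h2]
  have hpos : 0 < Nat.card (F A) := Nat.card_pos
  apply Nat.le_of_mul_le_mul_right _ hpos
  calc Nat.card B * Nat.card (W' ⊓ F B : Subgroup _) * Nat.card (F A)
      = Nat.card B * (Nat.card (W' ⊓ F B : Subgroup _) * Nat.card (F A)) := by ring
    _ ≤ Nat.card B * (Nat.card (F B) * Nat.card (W' ⊓ F A : Subgroup _)) := Nat.mul_le_mul_left _ h3
    _ = (Nat.card B * Nat.card (F B)) * Nat.card (W' ⊓ F A : Subgroup _) := by ring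
    _ ≤ (Nat.card A * Nat.card (F A)) * Nat.card (W' ⊓ F A : Subgroup _) := Nat.mul_le_mul_right _ h4
    _ = _ := by ring

end Cfsg.Agent.S3087
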