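import Cfsg.Statements.S3090
import Cfsg.Agent.OD.Pre
import Cfsg.Agent.L.DT


set_option autoImplicit false
open Cfsg

namespace Cfsg.Agent.S3090


/-- Let G be a finite group of characteristic 2 type, H a subgroup, K = O²(H) (the subgroup generated by the elements of H of odd order), M = N_G(K), and T a Sylow 2-subgroup of H. Assume: K/O₂(K) (that is, O²(H/O₂(H))) is cyclic of order 3 or isomorphic to L₂(2ⁿ) = SL(2, 2ⁿ) for some n ≥ 1; O₂(H) is a Sylow 2-subgroup of the centralizer in M of K/O₂(K) (every 2-subgroup of M containing O₂(H) and acting trivially on K/O₂(K) equals O₂(H)); and M is the unique maximal 2-local subgroup of G containing H. Then N_G(T) ≤ M, or G has sectional 2-rank at most 4. -/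
theorem result
    {G : Type*} [Group G] [Finite G] (hG : Cfsg.IsCharacteristicTwoType G)
    (H : Subgroup G) (T : Sylow 2 ↥H)
    (hstar : Nonempty (↥(Cfsg.oddGenerated H) ⧸ Cfsg.pCore 2 ↥(Cfsg.oddGenerated H) ≃* Multiplicative (ZMod 3)) ∨
      ∃ n : ℕ, 1 ≤ n ∧ Nonempty (↥(Cfsg.oddGenerated H) ⧸ Cfsg.pCore 2 ↥(Cfsg.oddGenerated H) ≃* Matrix.SpecialLinearGroup (Fin 2) (GaloisField 2 n)))
    (hsyl : ∀ S : Subgroup G, IsPGroup 2 ↥S → (Cfsg.pCore 2 ↥H).map H.subtype ≤ S →
      S ≤ Subgroup.normalizer (Cfsg.oddGenerated H : Set G) →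
      (∀ s ∈ S, ∀ k ∈ Cfsg.oddGenerated H, s * k * s⁻¹ * k⁻¹ ∈ (Cfsg.pCore 2 ↥(Cfsg.oddGenerated H)).map (Cfsg.oddGenerated H).subtype) →
      S = (Cfsg.pCore 2 ↥H).map H.subtype)
    (huniq : Cfsg.maxTwoLocalsContaining H = {Subgroup.normalizer (Cfsg.oddGenerated H : Set G)}) :
    Subgroup.normalizer (((T : Subgroup ↥H).map H.subtype : Subgroup G) : Set G) ≤ Subgroup.normalizer (Cfsg.oddGenerated H : Set G) ∨
      Cfsg.SectionalPRankLE 2 4 G := by
  exact CfLu.s3090 hG H T hstar hsyl huniq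

end Cfsg.Agent.S3090
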