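import Cfsg.Statements.S3091
import Cfsg.Agent.OD.Pre
import Cfsg.Agent.L.BM


set_option autoImplicit false
open Cfsg

namespace Cfsg.Agent.S3091


/-- Let G be a finite group of characteristic 2 type and q = 2ᵉ > 2, F the field with q elements. Let L₁ ≠ L₂ be subgroups of G such that, for i = 1, 2, V_i = O₂(L_i) is elementary abelian with L_i/V_i ≅ SL(2, q) acting on V_i as on its natural 2-dimensional module F² (an additive isomorphism V_i ≅ F² carrying conjugation by g ∈ L_i to multiplication by the matrix of gV_i), and such that J = V₁V₂ is a Sylow 2-subgroup of both L₁ and L₂. Assume that N_G(L₁) and N_G(L₂) are maximal 2-local subgroups of G and that, for a Sylow 2-subgroup T of N_G(L₁), the subgroup generated by T, L₁ and L₂ has no nontrivial normal 2-subgroup. Then G has sectional 2-rank at most 4, or F*(G) ≅ L₃(q). -/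
theorem result
    {G : Type*} [Group G] [Finite G] (hG : Cfsg.IsCharacteristicTwoType G)
    {F : Type*} [Field F] [Fintype F] (e : ℕ) (he : 2 ≤ e) (hF : Fintype.card F = 2 ^ e)
    (L₁ L₂ : Subgroup G) (hne : L₁ ≠ L₂)
    (φ₁ : ↥L₁ ⧸ Cfsg.pCore 2 ↥L₁ ≃* Matrix.SpecialLinearGroup (Fin 2) F)
    (ψ₁ : Additive ↥(Cfsg.pCore 2 ↥L₁) ≃+ (Fin 2 → F))
    (h₁ : ∀ (g : ↥L₁) (v : ↥(Cfsg.pCore 2 ↥L₁)),
      ψ₁ (Additive.ofMul ⟨g * v * g⁻¹, Subgroup.Normal.conj_mem inferInstance (v : ↥L₁) v.2 g⟩)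
        = Matrix.mulVec ((φ₁ (QuotientGroup.mk g) : Matrix.SpecialLinearGroup (Fin 2) F) : Matrix (Fin 2) (Fin 2) F) (ψ₁ (Additive.ofMul v)))
    (φ₂ : ↥L₂ ⧸ Cfsg.pCore 2 ↥L₂ ≃* Matrix.SpecialLinearGroup (Fin 2) F)
    (ψ₂ : Additive ↥(Cfsg.pCore 2 ↥L₂) ≃+ (Fin 2 → F))
    (h₂ : ∀ (g : ↥L₂) (v : ↥(Cfsg.pCore 2 ↥L₂)),
      ψ₂ (Additive.ofMul ⟨g * v * g⁻¹, Subgroup.Normal.conj_mem inferInstance (v : ↥L₂) v.2 g⟩)
        = Matrix.mulVec ((φ₂ (QuotientGroup.mk g) : Matrix.SpecialLinearGroup (Fin 2) F) : Matrix (Fin 2) (Fin 2) F) (ψ₂ (Additive.ofMul v)))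
    (hJ₁ : ∃ S : Sylow 2 ↥L₁, (S : Subgroup ↥L₁).map L₁.subtype = (Cfsg.pCore 2 ↥L₁).map L₁.subtype ⊔ (Cfsg.pCore 2 ↥L₂).map L₂.subtype)
    (hJ₂ : ∃ S : Sylow 2 ↥L₂, (S : Subgroup ↥L₂).map L₂.subtype = (Cfsg.pCore 2 ↥L₁).map L₁.subtype ⊔ (Cfsg.pCore 2 ↥L₂).map L₂.subtype)
    (hM₁ : Cfsg.IsMaximalTwoLocal (Subgroup.normalizer (L₁ : Set G))) (hM₂ : Cfsg.IsMaximalTwoLocal (Subgroup.normalizer (L₂ : Set G)))
    (T : Sylow 2 ↥(Subgroup.normalizer (L₁ : Set G)))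
    (hO : Cfsg.pCore 2 ↥(((T : Subgroup ↥(Subgroup.normalizer (L₁ : Set G))).map (Subgroup.normalizer (L₁ : Set G)).subtype) ⊔ L₁ ⊔ L₂) = ⊥) :
    Cfsg.SectionalPRankLE 2 4 G ∨
      Nonempty (↥(Cfsg.generalizedFittingSubgroup G) ≃* Matrix.ProjectiveSpecialLinearGroup (Fin 3) F) := by
  have : Fact (Nat.Prime 2) := ⟨Nat.prime_two⟩
  have := charP_of_card_eq_prime_pow hF
  have hq : Nat.card F = 2 ^ e := Nat.card_eq_fintype_card.trans hF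
  have h4 : 4 ≤ Nat.card F := hq ▸ Nat.pow_le_pow_right (n := 2) two_pos he
  have hG' : CfL.Pl.Ch2 G := fun T h1 h2 => CfH7.charP_iff_ambient.1 (hG.2 T h1 h2)
  obtain ⟨c1, B1, e1⟩ := CfL.Pl.blk_of φ₁ ψ₁ h₁
  obtain ⟨c2, B2, e2⟩ := CfL.Pl.blk_of φ₂ ψ₂ h₂
  have s1 : CfH9.SylIn 2 (B1.V ⊔ B2.V) L₁ := by
    rw [e1, e2]; exact CfH9.sylIn_iff_exists_sylow.2 hJ₁
  have s2 : CfH9.SylIn 2 (B1.V ⊔ B2.V) L₂ := by
    rw [e1, e2]; exact CfH9.sylIn_iff_exists_sylow.2 hJ₂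
  obtain ⟨d1, B1', f1, a1, b1⟩ := B1.norm s1
  obtain ⟨d2, B2', f2, a2, b2⟩ := B2.norm s2
  rw [← f1, ← f2] at s1 s2 a1 b1 a2 b2
  obtain ⟨d3, C, f3⟩ := CfL.Pl.cfg_of' B1' B2' s1.le s2.le a1 b1 a2 b2
  obtain ⟨x, hx⟩ : IsCyclic Fˣ := inferInstance
  have ho := orderOf_eq_card_of_forall_mem_zpowers hx
  rw [Nat.card_eq_card_units_add_one F, ← ho] at h4 hq
  have C2 := CfL.Pl.cf2_of hG' C (f1.trans e1) (f3.trans (f2.trans e2)) hM₁ hM₂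
    (CfH9.sylIn_of_sylow T) (CfH7.pCoreOf_eq_bot_iff.2 hO) x.ne_zero fun h => by
      rw [Units.val_eq_one.1 h, orderOf_one] at h4
      omega
  rcases h4.eq_or_lt with h5 | h5
  · exact Or.inl (C2.sect (by rw [Nat.card_eq_card_units_add_one F, ← ho, h5]))
  · refine Or.inr (C2.main (by rwa [Nat.card_eq_card_units_add_one F, ← ho]) hG' x.ne_zero
      fun h => ?_)
    have := orderOf_le_of_pow_eq_one (x := x) (n := 3) (by norm_num) (Units.ext (by simpa using h))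
    omega

end Cfsg.Agent.S3091
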